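import Cfsg.Agent.Lib.OlssonSmall.Groups
import Cfsg.Agent.Lib.BlockSections.TwoPower

/-!
# Height zero characters of blocks with nonabelian defect groups of order at most 32
-/

set_option autoImplicit false
set_option linter.style.haveILetI false
set_option linter.unusedSectionVars false

noncomputable section

namespace CfsgLib.OlssonSmall

open Cfsg CfsgLib.Blocks MonoidAlgebra CfsgLib.BrauerPairs
open CfsgLib.BlockSections (belowBlock)
open scoped commutatorElement

variable {G : Type*} [Group G] [Fintype G] {D : Subgroup G}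

/-- The centraliser in a subgroup. -/
theorem card_inf_centralizer (w : D) :
    Nat.card ↥(D ⊓ Subgroup.centralizer ({(w : G)} : Set G)) =
      Nat.card (Subgroup.centralizer ({w} : Set D)) := by
  have h : (Subgroup.centralizer ({(w : G)} : Set G)).subgroupOf D =
      Subgroup.centralizer ({w} : Set D) := by
    ext x
    rw [Subgroup.mem_subgroupOf, Subgroup.mem_centralizer_singleton_iff,
      Subgroup.mem_centralizer_singleton_iff, Subtype.ext_iff]
    rfl
  rw [← h, ← Subgroup.card_map_of_injective D.subtype_injective (K := Subgroup.subgroupOf _ D),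
    Subgroup.subgroupOf_map_subtype, inf_comm]

/-- Automorphisms without odd order transfer to the image. -/
theorem aut_map {C : Subgroup D} (haut : ∀ φ : MulAut C, Odd (orderOf φ) → φ = 1)
    (φ : MulAut (C.map D.subtype)) (hφ : Odd (orderOf φ)) : φ = 1 := by
  let e := MulAut.congr (C.equivMapOfInjective D.subtype D.subtype_injective).symm
  exact e.map_eq_one_iff.1 (haut (e φ) (by rwa [MulEquiv.orderOf_eq]))

/-- Transfer of a pair of index two into the group. -/
theorem IdxTwo.map {A A0 : Subgroup D} {t : D} (h : IdxTwo (⊤ : Subgroup D) A A0 t) :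
    IdxTwo D (A.map D.subtype) (A0.map D.subtype) (t : G) := by
  have hm : ∀ {H : Subgroup D} {x : D}, (x : G) ∈ H.map D.subtype ↔ x ∈ H := fun {H x} =>
    Subgroup.mem_map_iff_mem D.subtype_injective
  refine
    { le := Subgroup.map_subtype_le _
      idx := ?_
      comm := ?_
      t_mem := t.2
      t_notMem := fun ht => h.t_notMem (hm.1 ht)
      A0_le := Subgroup.map_mono h.A0_le
      A0_idx := ?_
      nonfull := ?_
      commA0 := ?_
      sq := ?_
      ord := ?_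
      gen := ?_
      aut := aut_map h.aut }
  · rw [Subgroup.relIndex, Subgroup.subgroupOf,
      Subgroup.comap_map_eq_self_of_injective D.subtype_injective, ← Subgroup.relIndex_top_right]
    exact h.idx
  · rintro _ ⟨a, ha, rfl⟩ _ ⟨b, hb, rfl⟩
    exact congrArg Subtype.val (h.comm a ha b hb)
  · rintro _ ⟨a, ha, rfl⟩ _ ⟨b, hb, rfl⟩
    rw [← map_mul]
    show ((a * b : D) : G) ∈ _ ↔ ((a : G) ∈ _ ↔ (b : G) ∈ _)
    rw [hm, hm, hm]
    exact h.A0_idx a ha b hb
  · obtain ⟨a, ha, ha0⟩ := h.nonfull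
    exact ⟨a, hm.2 ha, fun h1 => ha0 (hm.1 h1)⟩
  · rintro _ ⟨a, ha, rfl⟩
    exact (hm (x := a⁻¹ * (t * a * t⁻¹))).2 (h.commA0 a ha)
  · rintro _ ⟨v, hv, rfl⟩ hv0 he
    exact h.sq v hv (fun h1 => hv0 (hm.2 h1)) (Subtype.ext he)
  · rintro _ ⟨v, hv, rfl⟩ hv0 _ ⟨w, hw, rfl⟩ ho
    refine congrArg Subtype.val (h.ord v hv (fun h1 => hv0 (hm.2 h1)) w hw ?_)
    simpa [Subgroup.orderOf_coe] using ho
  · rintro _ ⟨v, hv, rfl⟩ hv0
    rw [Subgroup.card_map_of_injective D.subtype_injective, Subgroup.subtype_apply,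
      Subgroup.orderOf_coe]
    exact h.gen v hv fun h1 => hv0 (hm.2 h1)

variable {M : Ideal AlgInt} [M.IsPrime] [Fact (Nat.Prime 2)] [CharP (Res M) 2]
  [IsAlgClosed (Res M)] {B : Set (IrrCharacter G)} {e0 : MonoidAlgebra (Res M) G}
  (hM : IsPModular 2 M) (hB : IsPBlock M B)
  (hmax : IsMaxPair 2 (⊤ : Subgroup G) (redElem M (blockCoeff B)) D e0)
include hM hB hmax

/-- A subsection of small defect and rank bounds the characters of height zero. -/
theorem k0_le_of_rank {u : G} (hu : u ∈ D)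
    (hl : blockRank 2 (belowBlock (M := M) 2 D e0 u) ≤ 3) :
    Nat.card {χ : IrrCharacter G // χ ∈ B ∧ blockHeight 2 B (χ : G → ℂ) = 0} ≤
      2 ^ blockDefect 2 (belowBlock (M := M) 2 D e0 u) := by
  classical
  obtain ⟨h1, h2⟩ := BlockSections.height_zero_bounds u (belowBlock (M := M) 2 D e0 u) hM
    (BlockSections.isPElem_of_mem hM hB hmax hu) (BlockSections.belowBlock_spec hM hB hmax hu).2.2
  set l := blockRank 2 (belowBlock (M := M) 2 D e0 u)
  have hs : Nat.sqrt l ≤ 1 := Nat.lt_succ_iff.1 (Nat.sqrt_lt.2 (by omega))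
  rcases Nat.le_one_iff_eq_zero_or_eq_one.1 hs with h0 | h0
  · have := h2 (by rw [h0]; decide)
    rw [h0, Nat.sqrt_eq_zero.1 h0, zero_add, one_mul, zero_mul] at this
    exact this.trans (Nat.zero_le _)
  · have := h1 (by rw [h0]; decide)
    rwa [h0, one_mul] at this

/-- An element whose subsection has defect at most `N`, with `N` at most four times its order. -/
theorem k0_le_of_defect {u : G} (hu : u ∈ D) {N : ℕ}
    (hd : 2 ^ blockDefect 2 (belowBlock (M := M) 2 D e0 u) ≤ N) (hN : N ≤ 4 * orderOf u) :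
    Nat.card {χ : IrrCharacter G // χ ∈ B ∧ blockHeight 2 B (χ : G → ℂ) = 0} ≤ N :=
  (k0_le_of_rank hM hB hmax hu
    (blockRank_below_le_of_defect hM hB hmax hu (hd.trans hN))).trans hd

/-- The case of a good order. -/
theorem k0_le_of_goodOrder (h : GoodOrder D) :
    Nat.card {χ : IrrCharacter G // χ ∈ B ∧ blockHeight 2 B (χ : G → ℂ) = 0} ≤
      (commutator D).index := by
  obtain ⟨x, hx, hC⟩ := h
  refine k0_le_of_defect hM hB hmax x.2 ?_ (by rwa [Subgroup.orderOf_coe])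
  refine pow_defect_le hM hB hmax x.2 fun w hw => ?_
  have h1 := card_inf_centralizer (⟨w, hw.2.1⟩ : D)
  rw [h1]
  refine hC _ ?_
  rw [Subgroup.orderOf_mk, hw.orderOf_eq, Subgroup.orderOf_coe]

/-- Regular elements of a stabiliser act trivially when there are no odd automorphisms. -/
theorem mem_centralizer_of_aut {W : Subgroup G} {fW : MonoidAlgebra (Res M) G}
    (haut : ∀ φ : MulAut W, Odd (orderOf φ) → φ = 1) {y : G}
    (hy : y ∈ pairStab (⊤ : Subgroup G) W fW) (hodd : ¬ 2 ∣ orderOf y) :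
    y ∈ Subgroup.centralizer (W : Set G) := by
  have hyN : y ∈ Subgroup.normalizer (W : Set G) := (mem_pairStab.1 hy).2.1
  have h1 : Subgroup.normalizerMonoidHom W ⟨y, hyN⟩ = 1 := by
    refine haut _ (Odd.of_dvd_nat (Nat.not_even_iff_odd.1 fun he => hodd (even_iff_two_dvd.1 ?_))
      (orderOf_map_dvd _ _))
    rwa [Subgroup.orderOf_mk] at he
  refine Subgroup.mem_centralizer_iff.2 fun a ha => ?_
  have h2 : y * a * y⁻¹ = a := congrArg (fun φ : MulAut W => ((φ ⟨a, ha⟩ : W) : G)) h1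
  rw [mul_inv_eq_iff_eq_mul] at h2
  exact h2.symm

/-- The case of a rigid centraliser. -/
theorem k0_le_of_rigid (h : RigidCentralizer D) :
    Nat.card {χ : IrrCharacter G // χ ∈ B ∧ blockHeight 2 B (χ : G → ℂ) = 0} ≤
      (commutator D).index := by
  obtain ⟨u, hab, hcomm, hC, hN, haut⟩ := h
  set C := Subgroup.centralizer ({u} : Set D)
  set W : Subgroup G := C.map D.subtype
  have hWn : D ≤ Subgroup.normalizer (W : Set G) := by
    intro d hd
    refine Subgroup.mem_normalizer_iff.2 fun a => ?_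
    have key : ∀ e : D, ∀ x ∈ C, e * x * e⁻¹ ∈ C := fun e x hx => by
      have h1 := mul_mem (hcomm (Subgroup.commutator_mem_commutator (Subgroup.mem_top e)
        (Subgroup.mem_top x))) hx
      rwa [commutatorElement_def, inv_mul_cancel_right] at h1
    constructor
    · rintro ⟨x, hx, rfl⟩
      exact ⟨⟨d, hd⟩ * x * ⟨d, hd⟩⁻¹, key _ x hx, rfl⟩
    · rintro ⟨x, hx, he⟩
      refine ⟨⟨d, hd⟩⁻¹ * x * ⟨d, hd⟩, by simpa using key ⟨d, hd⟩⁻¹ x hx, ?_⟩
      rw [map_mul, map_mul, map_inv, he, Subgroup.subtype_apply]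
      group
  obtain ⟨fW, hfW⟩ := exists_pairLE hmax.1.1 (show W ≤ D from Subgroup.map_subtype_le _)
  have huW : (u : G) ∈ W := ⟨u, mem_cen_self u, rfl⟩
  have hcard : Nat.card W = Nat.card C := Subgroup.card_map_of_injective D.subtype_injective
  refine k0_le_of_defect hM hB hmax u.2 (le_trans ?_ (hcard ▸ hC))
    (by rwa [Subgroup.orderOf_coe])
  refine pow_defect_le_of_normal hM hB hmax hfW hWn huW ?_ fun x hx => ?_
  · rintro _ ⟨a, ha, rfl⟩
    exact Subgroup.mem_centralizer_singleton_iff.2 (congrArg Subtype.val (mem_cen.1 ha))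
  obtain ⟨d, hd, z, hz, rfl⟩ := exists_mul_of_mem_stab hM hB hmax hfW hWn
    (fun y hy hodd => mem_centralizer_of_aut hM hB hmax (aut_map haut) hy hodd) hx
  have h1 : d * z * (u : G) * (d * z)⁻¹ = ((⟨d, hd⟩ * u * ⟨d, hd⟩⁻¹ : D) : G) := by
    rw [show d * z * (u : G) * (d * z)⁻¹ = d * (z * u * z⁻¹) * d⁻¹ by group,
      ← Subgroup.mem_centralizer_iff.1 hz _ huW, mul_inv_cancel_right]
    rfl
  rw [h1, card_inf_centralizer, hcard]
  refine le_of_eq ?_
  refine (Nat.card_congr ((MulAut.conj (⟨d, hd⟩ : D)).toEquiv.subtypeEquiv fun a => ?_)).symm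
  show a ∈ C ↔ _ ∈ Subgroup.centralizer _
  rw [mem_cen, mem_cen]
  simp only [MulEquiv.toEquiv_eq_coe, EquivLike.coe_coe, MulAut.conj_apply]
  constructor
  · intro e
    calc ⟨d, hd⟩ * a * ⟨d, hd⟩⁻¹ * (⟨d, hd⟩ * u * ⟨d, hd⟩⁻¹) =
          ⟨d, hd⟩ * (a * u) * ⟨d, hd⟩⁻¹ := by group
      _ = _ := by rw [e]; group
  · intro e
    calc a * u = ⟨d, hd⟩⁻¹ * (⟨d, hd⟩ * a * ⟨d, hd⟩⁻¹ * (⟨d, hd⟩ * u * ⟨d, hd⟩⁻¹)) * ⟨d, hd⟩ := by
          group
      _ = _ := by rw [e]; group

section Pair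

variable {A : Subgroup G} {fA : MonoidAlgebra (Res M) G}
  (hfA : PairLE 2 (⊤ : Subgroup G) A fA D e0) (hidx : A.relIndex D = 2)
  (hab : ∀ x ∈ A, ∀ y ∈ A, x * y = y * x) {δ : G} (hδ : δ ∈ D) (hδA : δ ∉ A)
include hfA hidx hab hδ hδA

/-- An element of the stabiliser commuting with `δ` on `A`, with square in `D C(A)`, acts like `1`
or `δ`. -/
theorem acts_of_sq_mem {g : G} (hg : g ∈ pairStab (⊤ : Subgroup G) A fA)
    (hg2 : g ^ 2 ∈ D ⊔ Subgroup.centralizer (A : Set G))
    (hgc : ∀ a ∈ A, g * (δ * a * δ⁻¹) * g⁻¹ = δ * (g * a * g⁻¹) * δ⁻¹) :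
    (∀ a ∈ A, g * a * g⁻¹ = a) ∨ ∀ a ∈ A, g * a * g⁻¹ = δ * a * δ⁻¹ := by
  have hWn := le_normalizer_of_index_two hidx hfA.le
  set C := Subgroup.centralizer (A : Set G) with hC
  have hAC : A ≤ C := fun a ha => Subgroup.mem_centralizer_iff.2 fun b hb => hab b hb a ha
  have hgN : g ∈ Subgroup.normalizer (A : Set G) := (mem_pairStab.1 hg).2.1
  have hgA : ∀ a ∈ A, g * a * g⁻¹ ∈ A := fun a ha =>
    (Subgroup.mem_normalizer_iff.1 hgN a).1 ha
  have hδA' : ∀ a ∈ A, δ * a * δ⁻¹ ∈ A := fun a ha =>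
    (Subgroup.mem_normalizer_iff.1 (hWn hδ) a).1 ha
  have hCn := stab_le_normalizer_centralizer hM hB hmax hfA hWn
  have hCT := centralizer_le_stab hM hB hmax hfA hWn
  have hDgen : D ≤ Subgroup.zpowers δ ⊔ C := fun d hd => by
    by_cases hdA : d ∈ A
    · exact Subgroup.mem_sup_right (hAC hdA)
    · have h1 : δ⁻¹ * d ∈ A :=
        (mul_mem_of_index_two hidx (inv_mem hδ) hd).2 (by rw [A.inv_mem_iff]; tauto)
      have h2 := mul_mem (Subgroup.mem_sup_left (T := C) (Subgroup.mem_zpowers δ))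
        (Subgroup.mem_sup_right (S := Subgroup.zpowers δ) (hAC h1))
      rwa [mul_inv_cancel_left] at h2
  have hL : D ⊔ C = Subgroup.zpowers δ ⊔ C :=
    le_antisymm (sup_le hDgen le_sup_right)
      (sup_le ((Subgroup.zpowers_le.2 hδ).trans le_sup_left) le_sup_right)
  have hgδ : g * δ * g⁻¹ * δ⁻¹ ∈ C := by
    refine Subgroup.mem_centralizer_iff.2 fun a ha => ?_
    have h1 : δ⁻¹ * a * δ ∈ A := by
      have := (Subgroup.mem_normalizer_iff.1 (hWn (inv_mem hδ)) a).1 ha
      rwa [inv_inv] at this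
    have h2 : g⁻¹ * (δ⁻¹ * a * δ) * g ∈ A := by
      have := (Subgroup.mem_normalizer_iff.1 (inv_mem hgN) _).1 h1
      rwa [inv_inv] at this
    have h3 := hgc _ h2
    rw [show δ * (g * (g⁻¹ * (δ⁻¹ * a * δ) * g) * g⁻¹) * δ⁻¹ = a by group] at h3
    symm
    calc g * δ * g⁻¹ * δ⁻¹ * a =
          g * (δ * (g⁻¹ * (δ⁻¹ * a * δ) * g) * δ⁻¹) * g⁻¹ * (g * δ * g⁻¹ * δ⁻¹) := by group
      _ = _ := by rw [h3]
  have hgL : g ∈ Subgroup.normalizer ((D ⊔ C : Subgroup G) : Set G) := by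
    refine Subgroup.mem_normalizer_iff_map_conj_eq.2 ?_
    refine Subgroup.eq_of_le_of_card_ge ?_
      (Subgroup.card_map_of_injective (MulAut.conj g).injective).ge
    rw [hL, Subgroup.map_sup, MonoidHom.map_zpowers]
    refine sup_le (Subgroup.zpowers_le.2 ?_) (fun x hx => ?_)
    · show g * δ * g⁻¹ ∈ _
      have h2 := mul_mem (Subgroup.mem_sup_right (S := Subgroup.zpowers δ) hgδ)
        (Subgroup.mem_sup_left (T := C) (Subgroup.mem_zpowers δ))
      rwa [inv_mul_cancel_right] at h2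
    · obtain ⟨y, hy, rfl⟩ := Subgroup.mem_map.1 hx
      exact Subgroup.mem_sup_right ((Subgroup.mem_normalizer_iff.1 (hCn hg) y).1 hy)
  have hmem := mem_of_normalizes hM hB hmax hfA hWn hg hgL hg2
  rw [← SetLike.mem_coe, Subgroup.coe_mul_of_left_le_normalizer_right _ _
    ((defect_le_stab hM hB hmax hfA hWn).trans hCn)] at hmem
  obtain ⟨d, hd, z, hz, rfl⟩ := Set.mem_mul.1 hmem
  have hact : ∀ a ∈ A, d * z * a * (d * z)⁻¹ = d * a * d⁻¹ := fun a ha => by
    rw [show d * z * a * (d * z)⁻¹ = d * (z * a * z⁻¹) * d⁻¹ by group,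
      ← Subgroup.mem_centralizer_iff.1 hz _ ha, mul_inv_cancel_right]
  by_cases hdA : d ∈ A
  · exact Or.inl fun a ha => by rw [hact a ha, hab d hdA a ha, mul_inv_cancel_right]
  · exact Or.inr fun a ha => by
      rw [hact a ha, conj_eq_of_notMem hidx hab hfA.le hδ hδA hd hdA ha]

/-- An element of the stabiliser commuting with `δ` on `A`, of order two there, acts like `1` or
`δ`. -/
theorem acts_trivially_or_like {g : G} (hg : g ∈ pairStab (⊤ : Subgroup G) A fA)
    (hgg : ∀ a ∈ A, g * (g * a * g⁻¹) * g⁻¹ = a)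
    (hgc : ∀ a ∈ A, g * (δ * a * δ⁻¹) * g⁻¹ = δ * (g * a * g⁻¹) * δ⁻¹) :
    (∀ a ∈ A, g * a * g⁻¹ = a) ∨ ∀ a ∈ A, g * a * g⁻¹ = δ * a * δ⁻¹ := by
  set C := Subgroup.centralizer (A : Set G) with hC
  have hg2 : g ^ 2 ∈ D ⊔ C := Subgroup.mem_sup_right (Subgroup.mem_centralizer_iff.2 fun a ha => by
    have h1 := hgg a ha
    rw [show g * (g * a * g⁻¹) * g⁻¹ = g ^ 2 * a * (g ^ 2)⁻¹ by rw [pow_two]; group] at h1
    exact (mul_inv_eq_iff_eq_mul.1 h1).symm)
  exact acts_of_sq_mem hM hB hmax hfA hidx hab hδ hδA hg hg2 hgc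

end Pair

/-- The case of a derived subgroup of order two. -/
theorem k0_le_of_derivedTwo (h : DerivedTwo D) :
    Nat.card {χ : IrrCharacter G // χ ∈ B ∧ blockHeight 2 B (χ : G → ℂ) = 0} ≤
      (commutator D).index := by
  obtain ⟨u, z, hz1, hzc, hzz, hcomm, hab, hcard, hle, hN, hor⟩ := h
  set C := Subgroup.centralizer ({u} : Set D)
  set A : Subgroup G := C.map D.subtype
  have hAD : A ≤ D := Subgroup.map_subtype_le _
  have hcardA : Nat.card A = Nat.card C := Subgroup.card_map_of_injective D.subtype_injective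
  have hCi : C.index = 2 := by
    have h1 := C.card_mul_index
    rw [← hcard, mul_comm 2] at h1
    exact Nat.eq_of_mul_eq_mul_left Nat.card_pos h1
  have hidx : A.relIndex D = 2 := by
    rw [Subgroup.relIndex, Subgroup.subgroupOf,
      Subgroup.comap_map_eq_self_of_injective D.subtype_injective, hCi]
  have hAab : ∀ x ∈ A, ∀ y ∈ A, x * y = y * x := by
    rintro _ ⟨a, ha, rfl⟩ _ ⟨b, hb, rfl⟩
    exact congrArg Subtype.val (hab a ha b hb)
  have huA : (u : G) ∈ A := ⟨u, mem_cen_self u, rfl⟩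
  have hzA : (z : G) ∈ A := ⟨z, mem_cen.2 (Subgroup.mem_center_iff.1 hzc u).symm, rfl⟩
  have hzG : ∀ d ∈ D, d * (z : G) * d⁻¹ = z := fun d hd =>
    mul_inv_eq_iff_eq_mul.2 (congrArg Subtype.val (Subgroup.mem_center_iff.1 hzc ⟨d, hd⟩))
  have hzzG : (z : G) * z = 1 := congrArg Subtype.val hzz
  have hconj : ∀ d ∈ D, ∀ a ∈ A, d * a * d⁻¹ = a ∨ d * a * d⁻¹ = a * z := by
    rintro d hd _ ⟨a, ha, rfl⟩
    rcases hcomm ⟨d, hd⟩ a with h1 | h1
    · exact Or.inl (congrArg Subtype.val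
        (mul_inv_eq_iff_eq_mul.2 (commutatorElement_eq_one_iff_mul_comm.1 h1)))
    · refine Or.inr (congrArg Subtype.val (show ⟨d, hd⟩ * a * ⟨d, hd⟩⁻¹ = a * z from ?_))
      rw [Subgroup.mem_center_iff.1 hzc a, ← h1, commutatorElement_def, inv_mul_cancel_right]
  obtain ⟨fA, hfA⟩ := exists_pairLE hmax.1.1 hAD
  have hWn := le_normalizer_of_index_two hidx hAD
  refine k0_le_of_defect hM hB hmax u.2 (le_trans ?_ (hcardA ▸ hle))
    (by rwa [Subgroup.orderOf_coe])
  refine pow_defect_le_of_normal hM hB hmax hfA hWn huA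
    (fun a ha => Subgroup.mem_centralizer_singleton_iff.2 (hAab a ha _ huA)) fun x hx => ?_
  -- the images of `u` are not central in `D`
  have hxN : x ∈ Subgroup.normalizer (A : Set G) := (mem_pairStab.1 hx).2.1
  have hcA : x * (u : G) * x⁻¹ ∈ A := (Subgroup.mem_normalizer_iff.1 hxN _).1 huA
  rw [show Nat.card ↥(D ⊓ Subgroup.centralizer ({x * (u : G) * x⁻¹} : Set G)) =
    Nat.card (Subgroup.centralizer ({(⟨x * (u : G) * x⁻¹, hAD hcA⟩ : D)} : Set D)) from
    card_inf_centralizer (⟨x * (u : G) * x⁻¹, hAD hcA⟩ : D)]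
  by_cases hcen : (⟨x * (u : G) * x⁻¹, hAD hcA⟩ : D) ∈ Subgroup.center D
  swap
  · have h1 := two_mul_card_le_of_notMem_center hcen
    rw [hcardA]
    omega
  exfalso
  set c := x * (u : G) * x⁻¹ with hcdef
  have hcfix : ∀ d ∈ D, d * c * d⁻¹ = c := fun d hd =>
    mul_inv_eq_iff_eq_mul.2 (congrArg Subtype.val (Subgroup.mem_center_iff.1 hcen ⟨d, hd⟩))
  obtain ⟨δ₀, hδ₀⟩ : ∃ δ : D, δ ∉ C := by
    by_contra! hall
    rw [(Subgroup.eq_top_iff' C).2 hall, Subgroup.index_top] at hCi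
    omega
  set δ : G := (δ₀ : G)
  have hδ : δ ∈ D := δ₀.2
  have hδA : δ ∉ A := fun h => hδ₀ ((Subgroup.mem_map_iff_mem D.subtype_injective).1 h)
  have hδu : δ * u * δ⁻¹ ≠ u := fun h =>
    hδ₀ (mem_cen.2 (Subtype.ext (mul_inv_eq_iff_eq_mul.1 h)))
  set γ := x⁻¹ * δ * x with hγ
  have hδN := hWn hδ
  have hδT := defect_le_stab hM hB hmax hfA hWn hδ
  have hγT : γ ∈ pairStab (⊤ : Subgroup G) A fA := mul_mem (mul_mem (inv_mem hx) hδT) hx
  have hγN : γ ∈ Subgroup.normalizer (A : Set G) := (mem_pairStab.1 hγT).2.1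
  have inA : ∀ {g : G}, g ∈ Subgroup.normalizer (A : Set G) → ∀ a ∈ A, g * a * g⁻¹ ∈ A :=
    fun {g} hg a ha => (Subgroup.mem_normalizer_iff.1 hg a).1 ha
  -- the two involutions of `A`
  set fδ : G → G := fun a => δ * a * δ⁻¹ with hfδ
  set fγ : G → G := fun a => γ * a * γ⁻¹ with hfγ
  have hδmul : ∀ a b, fδ (a * b) = fδ a * fδ b := fun a b => by simp only [hfδ]; group
  have hγmul : ∀ a b, fγ (a * b) = fγ a * fγ b := fun a b => by simp only [hfγ]; group
  have hγconj : ∀ a, fγ a = x⁻¹ * fδ (x * a * x⁻¹) * x := fun a => by simp only [hfγ, hfδ, hγ]; group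
  set z' := x⁻¹ * (z : G) * x with hz'
  have hz'A : z' ∈ A := by
    have := inA (inv_mem hxN) _ hzA
    rwa [inv_inv] at this
  have hz'z' : z' * z' = 1 := by
    rw [hz', show x⁻¹ * (z : G) * x * (x⁻¹ * z * x) = x⁻¹ * ((z : G) * z) * x by group, hzzG]
    group
  have hγz' : fγ z' = z' := by
    rw [hγconj, hz', show x * (x⁻¹ * (z : G) * x) * x⁻¹ = z by group]
    simp only [hfδ, hzG δ hδ]
  have hγu : fγ u = u := by
    rw [hγconj]
    simp only [hfδ]
    rw [← hcdef, hcfix δ hδ, hcdef]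
    group
  have hγa : ∀ a ∈ A, fγ a = a ∨ fγ a = a * z' := by
    intro a ha
    rcases hconj δ hδ _ (inA hxN a ha) with e | e
    · left; rw [hγconj]; simp only [hfδ]; rw [e]; group
    · right; rw [hγconj]; simp only [hfδ]; rw [e, hz']; group
  have hδa : ∀ a ∈ A, fδ a = a ∨ fδ a = a * z := fun a ha => hconj δ hδ a ha
  have hδz : fδ z = z := hzG δ hδ
  have hδA' : ∀ a ∈ A, fδ a ∈ A := fun a ha => inA hδN a ha
  have hγA' : ∀ a ∈ A, fγ a ∈ A := fun a ha => inA hγN a ha
  have hδδ : ∀ a ∈ A, fδ (fδ a) = a := fun a ha => by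
    rcases hδa a ha with e | e
    · rw [e, e]
    · rw [e, hδmul, e, hδz, mul_assoc, hzzG, mul_one]
  have hγγ : ∀ a ∈ A, fγ (fγ a) = a := fun a ha => by
    rcases hγa a ha with e | e
    · rw [e, e]
    · rw [e, hγmul, e, hγz', mul_assoc, hz'z', mul_one]
  have hcc : fγ z = z ∨ fδ z' = z' := by
    rcases hor with h1 | h1
    · left
      have h2 : (u : G) * u = z := congrArg Subtype.val h1
      rw [← h2, hγmul, hγu]
    · right
      have hz'C : (⟨z', hAD hz'A⟩ : D) ∈ C :=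
        (Subgroup.mem_map_iff_mem D.subtype_injective).1 hz'A
      exact mul_inv_eq_iff_eq_mul.2 (congrArg Subtype.val
        (Subgroup.mem_center_iff.1 (h1 _ hz'C (Subtype.ext hz'z')) δ₀))
  set s : G → G := fun a => fδ (fγ a) with hs
  have hsmul : ∀ a b, s (a * b) = s a * s b := fun a b => by simp only [hs, hγmul, hδmul]
  -- a four-step trick
  obtain ⟨w, hwA, hwfix, hww, hstep⟩ : ∃ w ∈ A, s w = w ∧ w * w = 1 ∧
      ∀ a ∈ A, ∃ k ∈ A, k * k = 1 ∧ s a = a * k ∧ (s k = k ∨ s k = k * w) := by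
    have hzz' := hAab _ hzA _ hz'A
    have hsa : ∀ a ∈ A, s a = a ∨ s a = a * z ∨ s a = a * fδ z' ∨ s a = a * (z * fδ z') := by
      intro a ha
      rcases hγa a ha with e | e <;> rcases hδa a ha with e' | e'
      · left; simp only [hs, e, e']
      · right; left; simp only [hs, e, e']
      · right; right; left; simp only [hs, e, hδmul, e']
      · right; right; right; simp only [hs, e, hδmul, e', mul_assoc]
    have hδz'A := hδA' _ hz'A
    have hdd : fδ z' * fδ z' = 1 := by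
      rw [← hδmul, hz'z']
      simp only [hfδ]
      group
    rcases hcc with hc | hc
    · refine ⟨z, hzA, by simp only [hs, hc, hδz], hzzG, fun a ha => ?_⟩
      have hsz : s z = z := by simp only [hs, hc, hδz]
      have hsd : s (fδ z') = fδ z' ∨ s (fδ z') = fδ z' * z := by
        rcases hδa _ hz'A with e | e
        · left; simp only [hs, e, hγz']
        · right; simp only [hs, e, hγmul, hγz', hc, hδmul, hδz]
      rcases hsa a ha with e | e | e | e
      · exact ⟨1, one_mem A, mul_one 1, by rw [e, mul_one], Or.inl (by simp only [hs, hfγ, hfδ]; group)⟩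
      · exact ⟨z, hzA, hzzG, e, Or.inl hsz⟩
      · exact ⟨fδ z', hδz'A, hdd, e, hsd⟩
      · refine ⟨z * fδ z', mul_mem hzA hδz'A, ?_, e, ?_⟩
        · rw [← mul_assoc, mul_assoc (z : G), hAab _ hδz'A _ hzA, ← mul_assoc (z : G), hzzG,
            one_mul, hdd]
        · rcases hsd with e1 | e1
          · left; rw [hsmul, hsz, e1]
          · right; rw [hsmul, hsz, e1, ← mul_assoc]
    · refine ⟨z', hz'A, by simp only [hs, hγz', hc], hz'z', fun a ha => ?_⟩
      have hsd : s z' = z' := by simp only [hs, hγz', hc]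
      have hsz : s z = z ∨ s z = z * z' := by
        rcases hγa _ hzA with e | e
        · left; simp only [hs, e, hδz]
        · right; simp only [hs, e, hδmul, hδz, hc]
      rcases hsa a ha with e | e | e | e
      · exact ⟨1, one_mem A, mul_one 1, by rw [e, mul_one], Or.inl (by simp only [hs, hfγ, hfδ]; group)⟩
      · exact ⟨z, hzA, hzzG, e, hsz⟩
      · rw [hc] at e
        exact ⟨z', hz'A, hz'z', e, Or.inl hsd⟩
      · rw [hc] at e
        refine ⟨z * z', mul_mem hzA hz'A, ?_, e, ?_⟩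
        · rw [← mul_assoc, mul_assoc (z : G), ← hzz', ← mul_assoc (z : G), hzzG, one_mul, hz'z']
        · rcases hsz with e1 | e1
          · left; rw [hsmul, e1, hsd]
          · right; rw [hsmul, e1, hsd, mul_assoc, mul_assoc]
  have hs2 : ∀ a ∈ A, s (s a) = a ∨ s (s a) = a * w := by
    intro a ha
    obtain ⟨k, -, hkk, e, e1 | e1⟩ := hstep a ha
    · left; rw [e, hsmul, e, e1, mul_assoc, hkk, mul_one]
    · right; rw [e, hsmul, e, e1, mul_assoc, ← mul_assoc k k w, hkk, one_mul]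
  have hs4 : ∀ a ∈ A, s (s (s (s a))) = a := by
    intro a ha
    rcases hs2 a ha with e | e
    · rw [e, e]
    · rw [e, hsmul a w, hwfix, hsmul (s a) w, hwfix, e, mul_assoc, hww, mul_one]
  set g := δ * γ * (δ * γ) with hg
  have hgf : ∀ a, g * a * g⁻¹ = s (s a) := fun a => by simp only [hg, hs, hfδ, hfγ]; group
  have hgT : g ∈ pairStab (⊤ : Subgroup G) A fA := mul_mem (mul_mem hδT hγT) (mul_mem hδT hγT)
  have hδg : ∀ a ∈ A, s (s (fδ a)) = fδ (s (s a)) := by
    intro a ha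
    have hsA : ∀ a ∈ A, s a ∈ A := fun a ha => hδA' _ (hγA' _ ha)
    -- both sides agree after applying the fourth power
    have h1 : fδ (s (s a)) = fγ (fδ (fγ a)) := hδδ _ (hγA' _ (hδA' _ (hγA' _ ha)))
    rw [h1]
    have hb : fγ (fδ (fγ a)) ∈ A := hγA' _ (hδA' _ (hγA' _ ha))
    calc s (s (fδ a)) = fδ (fγ (fδ (fγ (fδ a)))) := rfl
      _ = fδ (fγ (fδ (fγ (fδ (s (s (s (s a)))))))) := by rw [hs4 a ha]
      _ = fδ (fγ (fδ (fγ (fγ (fδ (fγ (s (s a)))))))) := by
          show fδ (fγ (fδ (fγ (fδ (fδ (fγ (fδ (fγ (s (s a)))))))))) = _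
          rw [hδδ _ (hγA' _ (hδA' _ (hγA' _ (hsA _ (hsA _ ha)))))]
      _ = fγ (fδ (fγ a)) := by
          rw [hγγ _ (hδA' _ (hγA' _ (hsA _ (hsA _ ha)))), hδδ _ (hγA' _ (hsA _ (hsA _ ha))),
            hγγ _ (hsA _ (hsA _ ha))]
          show fδ (fδ (fγ (fδ (fγ a)))) = _
          rw [hδδ _ hb]
  have h1 : ∀ a ∈ A, s (s a) = a := by
    have h2 := acts_trivially_or_like hM hB hmax hfA hidx hAab hδ hδA hgT
      (fun a ha => by rw [hgf, hgf]; exact hs4 a ha)
      (fun a ha => by rw [hgf, hgf]; exact hδg a ha)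
    rcases h2 with e | e
    · exact fun a ha => (hgf a).symm.trans (e a ha)
    · exfalso
      refine hδu ?_
      have h3 : ∀ a ∈ A, fγ (fδ (fγ a)) = a := fun a ha => by
        have h4 := congrArg fδ ((hgf a).symm.trans (e a ha))
        rw [show fδ (δ * a * δ⁻¹) = a from hδδ a ha] at h4
        rwa [show fδ (s (s a)) = fγ (fδ (fγ a)) from
          hδδ _ (hγA' _ (hδA' _ (hγA' _ ha)))] at h4
      have h5 := h3 _ (hγA' _ huA)
      rw [hγγ _ huA, hγu] at h5
      have h6 := congrArg fγ h5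
      rwa [hγγ _ (hδA' _ huA), hγu] at h6
  rcases acts_trivially_or_like hM hB hmax hfA hidx hAab hδ hδA hγT hγγ (fun a ha => by
    show fγ (fδ a) = fδ (fγ a)
    have h2 := h1 a ha
    have h3 := congrArg (fun b => fγ (fδ b)) h2
    simp only [hs] at h3
    rw [hδδ _ (hγA' _ (hδA' _ (hγA' _ ha))), hγγ _ (hδA' _ (hγA' _ ha))] at h3
    exact h3.symm) with e | e
  · refine hδu ?_
    have h2 := e _ (by simpa using inA (inv_mem hxN) _ huA : x⁻¹ * (u : G) * x ∈ A)
    rw [show γ * (x⁻¹ * (u : G) * x) * γ⁻¹ = x⁻¹ * (δ * u * δ⁻¹) * x by simp only [hγ]; group] at h2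
    exact mul_left_cancel (mul_right_cancel h2)
  · exact hδu ((e _ huA).symm.trans hγu)

open scoped Classical in
/-- The case of congruences from squares. -/
theorem k0_le_of_squarePair (h : SquarePair D) :
    Nat.card {χ : IrrCharacter G // χ ∈ B ∧ blockHeight 2 B (χ : G → ℂ) = 0} ≤
      (commutator D).index := by
  obtain ⟨A', A0', t', h0, hor⟩ := h
  have h := h0.map
  set A := A'.map D.subtype
  set A0 := A0'.map D.subtype
  have hcard : Nat.card A = Nat.card A' := Subgroup.card_map_of_injective D.subtype_injective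
  obtain ⟨hb1, hb2⟩ := h.bound hM hB hmax
  have hfix := h.two_mul_card_fixChars_le
  rcases hor with hA | ⟨h4, h16⟩
  · rcases hb1 with h1 | h1
    · exact h1.trans hfix
    · omega
  refine (hb2 ?_ (hcard ▸ h16)).trans h4.ge
  haveI : Finite (A →* ℂˣ) := by
    letI : CommGroup A :=
      { (inferInstance : Group A) with mul_comm := fun a b => Subtype.ext (h.comm a a.2 b b.2) }
    exact Nat.finite_of_card_ne_zero (by
      rw [CommGroup.card_monoidHom_of_hasEnoughRootsOfUnity A ℂ]; exact Nat.card_pos.ne')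
  have h2 : 2 ≤ Nat.card (fixChars A (t' : G)) := by
    have hν : signHom h ∈ fixChars A (t' : G) := by
      intro a b hb
      rw [h.signHom_apply, h.signHom_apply]
      have : (b : G) ∈ A0 ↔ (a : G) ∈ A0 := by
        rw [hb]
        exact ⟨fun h1 => by_contra fun h2 => h.conj_notMem a.2 h2 h1, fun h1 => by
          have h3 := mul_mem h1 (h.commA0 _ a.2)
          rwa [mul_inv_cancel_left] at h3⟩
      simp only [this]
    obtain ⟨a1, ha1, ha10⟩ := h.nonfull
    have hne : (⟨1, fun _ _ _ => rfl⟩ : fixChars A (t' : G)) ≠ ⟨signHom h, hν⟩ := fun e => by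
      have e2 := DFunLike.congr_fun (congrArg Subtype.val e) ⟨a1, ha1⟩
      rw [h.signHom_apply, if_neg ha10] at e2
      have e3 := congrArg (fun v : ℂˣ => (v : ℂ)) e2
      simp at e3
      norm_num at e3
    haveI : Nontrivial (fixChars A (t' : G)) := ⟨⟨_, _, hne⟩⟩
    exact Finite.one_lt_card
  omega

end CfsgLib.OlssonSmall
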