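import Cfsg.Agent.Lib.BrauerPairs.Domination
import Cfsg.Agent.Lib.BrauerPairs.BrauerFeit
import Cfsg.Agent.Lib.BlockStar.Watanabe

/-!
# Bounds for the rank of a block by central quotients

A block is of rank at most that of the block it dominates; with an element of the defect group
fixed by the inertial group, abelian defect groups reduce to their quotient by the fixed subgroup.
-/

set_option autoImplicit false
set_option linter.style.haveILetI false
set_option linter.unusedSectionVars false

noncomputable section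

namespace CfsgLib.OlssonSmall

open Cfsg CfsgLib.BrauerCharacters CfsgLib.CharTheory Finset CfsgLib.BrauerPairs
open CfsgLib.CharDegreesTheory
open CfsgLib.BlockSections (belowBlock)

/-- A block has rank at most that of the block it dominates. -/
theorem exists_dominated_rank {G : Type*} [Group G] [Finite G] {H : Type*} [Group H] {p : ℕ}
    [hp : Fact p.Prime] {φ : G →* H} (hker : φ.ker ≤ Subgroup.center G) (hkp : IsPGroup p φ.ker)
    {M : Ideal AlgInt} [M.IsPrime] (hM : IsPModular p M) (hφ : Function.Surjective φ)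
    {B : Set (IrrCharacter G)} (hB : IsPBlock M B) :
    ∃ B' : Set (IrrCharacter H), IsPBlock M B' ∧ blockRank p B ≤ blockRank p B' ∧
      blockDefect p B' + (Nat.card φ.ker).factorization p ≤ blockDefect p B := by
  classical
  haveI : Finite H := Finite.of_surjective φ hφ
  obtain ⟨B', hB', -, hdef, hiff⟩ := exists_dominated_block hM hφ hker hkp hB
  refine ⟨B', hB', ?_, hdef⟩
  haveI := Fintype.ofFinite G
  haveI := Fintype.ofFinite H
  haveI := Fintype.ofFinite (IrrCharacter G)
  haveI := Fintype.ofFinite (IrrCharacter H)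
  have hw := weakOrth (p := p) hM hB
  set T := univ.filter fun θ : IrrCharacter H => inflIrr hφ θ ∈ B
  -- regular parts come from the quotient
  have hspan : ∀ η ∈ B, pRegularPart p (η : G → ℂ) ∈ Submodule.span ℂ
      ((T.image fun θ => pRegularPart p (inflIrr hφ θ : G → ℂ) : Finset (G → ℂ)) :
        Set (G → ℂ)) := by
    intro η hη
    let F : H → ℂ := fun x => ∑ g : G, if φ g = x then pRegularPart p (η : G → ℂ) g else 0
    have hsupp : ∀ g : G, p ∣ orderOf g → pRegularPart p (η : G → ℂ) g = 0 := fun g hg => by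
      simp [pRegularPart, IsPRegular, hg]
    have hF : IsClassFunction H F := by
      intro x y
      obtain ⟨a, rfl⟩ := hφ y
      refine Fintype.sum_equiv (MulAut.conj a⁻¹).toEquiv _ _ fun g => ?_
      have h1 : orderOf (a⁻¹ * g * a) = orderOf g := by
        have h := MulEquiv.orderOf_eq (MulAut.conj a⁻¹) g
        rwa [MulAut.conj_apply, inv_inv] at h
      have h3 := CharTheory.IsIrrCharacter.isClassFunction η.2 g a⁻¹
      rw [inv_inv] at h3
      simp only [MulEquiv.toEquiv_eq_coe, EquivLike.coe_coe, MulAut.conj_apply, inv_inv]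
      simp only [pRegularPart, IsPRegular, h1, h3, map_mul, map_inv]
      refine ite_congr (propext ⟨fun h => ?_, fun h => ?_⟩) (fun _ => by by_cases hg : p ∣ orderOf g <;> simp [hg]) (fun _ => rfl)
      · rw [h]; group
      · rw [← mul_left_cancel_iff (a := (φ a)⁻¹), ← mul_right_cancel_iff (a := φ a), h]
        group
    have hFreg : pRegularPart p (η : G → ℂ) =
        pRegularPart p (fun g => F (φ g)) := by
      funext g
      by_cases hg : p ∣ orderOf g
      · simp [pRegularPart, IsPRegular, hg]
      · have h := sum_fibre_regular hker hkp (pRegularPart p (η : G → ℂ)) hsupp hg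
        simp only [pRegularPart, IsPRegular, hg, not_false_iff, if_true] at h ⊢
        exact h.symm
    have hexp : pRegularPart p (η : G → ℂ) =
        ∑ θ : IrrCharacter H, classInner F (θ : H → ℂ) •
          pRegularPart p (inflIrr hφ θ : G → ℂ) := by
      rw [hFreg]
      funext g
      by_cases hg : p ∣ orderOf g
      · simp [pRegularPart, IsPRegular, hg, Finset.sum_apply]
      · simp only [pRegularPart, IsPRegular, hg, not_false_iff, if_true, Finset.sum_apply,
          Pi.smul_apply, smul_eq_mul]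
        conv_lhs => rw [CharTheory.eq_sum_classInner hF]
        simp [inflIrr, Finset.sum_apply]
    have hcoef : ∀ ξ : IrrCharacter G, regInner p (η : G → ℂ) (ξ : G → ℂ) =
        ∑ θ : IrrCharacter H, classInner F (θ : H → ℂ) *
          regInner p (inflIrr hφ θ : G → ℂ) (ξ : G → ℂ) := by
      intro ξ
      simp only [regInner, hexp, classInner, Finset.sum_apply, Pi.smul_apply, smul_eq_mul, sum_mul,
        mul_sum]
      rw [sum_comm]
      refine sum_congr rfl fun θ _ => sum_congr rfl fun g _ => ?_
      exact sum_congr rfl fun x _ => by ring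
    have key : pRegularPart p (η : G → ℂ) =
        ∑ θ ∈ T, classInner F (θ : H → ℂ) • pRegularPart p (inflIrr hφ θ : G → ℂ) := by
      rw [pRegularPart_eq_sum_block hw hη]
      simp only [hcoef, sum_smul]
      rw [sum_comm]
      refine (sum_subset (subset_univ T) fun θ _ hθ => ?_).symm.trans
        (sum_congr rfl fun θ hθ => ?_)
      · refine sum_eq_zero fun ξ hξ => ?_
        rw [regInner_comm, regInner_eq_zero_of_notMem hw (mem_blockFinset.1 hξ)
          (fun h => hθ (mem_filter.2 ⟨mem_univ _, h⟩)), mul_zero, zero_smul]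
      · rw [pRegularPart_eq_sum_block hw (mem_filter.1 hθ).2, smul_sum]
        exact sum_congr rfl fun ξ _ => (smul_smul _ _ _).symm
    rw [key]
    refine Submodule.sum_mem _ fun θ hθ => Submodule.smul_mem _ _ (Submodule.subset_span ?_)
    exact mem_coe.2 (mem_image.2 ⟨θ, hθ, rfl⟩)
  -- the pullback of functions on the regular elements
  let L : (H → ℂ) →ₗ[ℂ] (G → ℂ) :=
    { toFun := fun f g => if p ∣ orderOf g then 0 else f (φ g)
      map_add' := fun f f' => by funext g; simp only [Pi.add_apply]; split_ifs <;> simp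
      map_smul' := fun c f => by
        funext g; simp only [Pi.smul_apply, RingHom.id_apply, smul_eq_mul]; split_ifs <;> simp }
  rw [blockRank]
  refine le_trans (Submodule.finrank_mono (t := (Submodule.span ℂ
    ((fun θ : IrrCharacter H => pRegularPart p (θ : H → ℂ)) '' B')).map L) ?_)
    (Submodule.finrank_map_le L _)
  rw [Submodule.span_le]
  rintro _ ⟨η, hη, rfl⟩
  refine Submodule.span_le.2 ?_ (hspan η hη)
  intro f hf
  obtain ⟨θ, hθ, rfl⟩ := mem_image.1 (mem_coe.1 hf)
  refine ⟨pRegularPart p (θ : H → ℂ), Submodule.subset_span ⟨θ, (hiff θ).2 (mem_filter.1 hθ).2, rfl⟩, ?_⟩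
  funext g
  show (if p ∣ orderOf g then (0 : ℂ) else pRegularPart p (θ : H → ℂ) (φ g)) =
    pRegularPart p (inflIrr hφ θ : G → ℂ) g
  simp only [pRegularPart_apply]
  split_ifs with h1 h2
  · rfl
  · exact absurd (h2.trans (orderOf_map_dvd φ g)) h1
  · rfl

/-- Blocks of defect at most two have small rank. -/
theorem blockRank_small {G : Type*} [Group G] [Finite G] {p : ℕ} [hp : Fact p.Prime]
    {M : Ideal AlgInt} [M.IsPrime] (hM : IsPModular p M) {B : Set (IrrCharacter G)}
    (hB : IsPBlock M B) (hd : blockDefect p B ≤ 2) :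
    blockRank p B + 1 ≤ max 2 (p ^ blockDefect p B) := by
  classical
  haveI := Fintype.ofFinite G
  have hw := weakOrth (p := p) hM hB
  rcases Nat.eq_zero_or_pos (blockDefect p B) with h0 | h0
  · rw [h0, pow_zero]
    have := blockRank_le_card (p := p) (B := B)
    rw [eq_singleton_of_defect_zero hw hM hB h0] at this
    omega
  · have h1 := blockRank_le_card (p := p) (B := B)
    have h2 : Nat.card B ≠ blockRank p B := fun h => by
      have := defect_zero_of_card_eq_rank hw hM hB h; omega
    have h3 := card_block_le_pow_of_defect_le_two hM hB hd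
    omega

/-- A block with a central subgroup of small index in the defect. -/
theorem blockRank_le_of_central {G : Type*} [Group G] [Finite G] {M : Ideal AlgInt} [M.IsPrime]
    (hM : IsPModular 2 M) {B : Set (IrrCharacter G)} (hB : IsPBlock M B) (Z : Subgroup G)
    (hZ : Z ≤ Subgroup.center G) {a : ℕ} (ha : Nat.card Z = 2 ^ a) :
    (blockDefect 2 B ≤ a + 2 → blockRank 2 B ≤ 3) ∧ (blockDefect 2 B ≤ a + 1 → blockRank 2 B ≤ 1) := by
  haveI : Fact (Nat.Prime 2) := ⟨Nat.prime_two⟩
  haveI : Z.Normal := ⟨fun x hx g => by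
    rw [Subgroup.mem_center_iff.1 (hZ hx) g, mul_inv_cancel_right]; exact hx⟩
  obtain ⟨B', hB', hle, hd⟩ := exists_dominated_rank (H := G ⧸ Z) (φ := QuotientGroup.mk' Z)
    (by rw [QuotientGroup.ker_mk']; exact hZ)
    (by rw [QuotientGroup.ker_mk']; exact IsPGroup.of_card ha) hM (QuotientGroup.mk'_surjective _) hB
  rw [QuotientGroup.ker_mk', ha, Nat.factorization_pow, Finsupp.smul_apply,
    Nat.prime_two.factorization_self, smul_eq_mul, mul_one] at hd
  constructor <;> intro h
  · have h1 := blockRank_small hM hB' (by omega)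
    have h2 : 2 ^ blockDefect 2 B' ≤ 2 ^ 2 := Nat.pow_le_pow_right (by norm_num) (by omega)
    omega
  · have h1 := blockRank_small hM hB' (by omega)
    have h2 : 2 ^ blockDefect 2 B' ≤ 2 ^ 1 := Nat.pow_le_pow_right (by norm_num) (by omega)
    omega

open CfsgLib.BlockStar

universe w

/-- An abelian defect group with a large subgroup fixed by the inertial group. -/
theorem blockRank_le_of_fixed {M : Ideal AlgInt} [M.IsPrime] (hM : IsPModular 2 M) :
    ∀ (G : Type w) [Group G] [Finite G] (B : Set (IrrCharacter G)) (P : Subgroup G)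
      (e : MonoidAlgebra (Blocks.Res M) G), IsPBlock M B →
      IsMaxPair 2 (⊤ : Subgroup G) (redElem M (blockCoeff B)) P e →
      (∀ x ∈ P, ∀ y ∈ P, x * y = y * x) →
      ∀ V : Subgroup G, V ≤ P →
        (∀ t ∈ pairStab (⊤ : Subgroup G) P e, ∀ v ∈ V, t * v * t⁻¹ = v) →
        (Nat.card P ≤ 4 * Nat.card V → blockRank 2 B ≤ 3) ∧
          (Nat.card P ≤ 2 * Nat.card V → blockRank 2 B ≤ 1) := by
  haveI : Fact (Nat.Prime 2) := ⟨Nat.prime_two⟩
  haveI : M.IsMaximal := hM.2.1
  haveI := Blocks.charP_res hM
  haveI : IsAlgClosed (Blocks.Res M) := Blocks.isAlgClosed_res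
  suffices h : ∀ n : ℕ, ∀ (G : Type w) [Group G] [Finite G], Nat.card G = n →
      ∀ (B : Set (IrrCharacter G)) (P : Subgroup G) (e : MonoidAlgebra (Blocks.Res M) G),
      IsPBlock M B → IsMaxPair 2 (⊤ : Subgroup G) (redElem M (blockCoeff B)) P e →
      (∀ x ∈ P, ∀ y ∈ P, x * y = y * x) →
      ∀ V : Subgroup G, V ≤ P →
        (∀ t ∈ pairStab (⊤ : Subgroup G) P e, ∀ v ∈ V, t * v * t⁻¹ = v) →
        (Nat.card P ≤ 4 * Nat.card V → blockRank 2 B ≤ 3) ∧
          (Nat.card P ≤ 2 * Nat.card V → blockRank 2 B ≤ 1) from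
    fun G _ _ => h _ G rfl
  intro n
  induction n using Nat.strong_induction_on with
  | _ n ih =>
  intro G _ _ hn B P e hB hmax hab V hVP hfix
  classical
  by_cases hV : V ≤ Subgroup.center G
  · have hb := isBlockIdem_redElem_blockCoeff (M := M) hB
    have hd : Nat.card P = 2 ^ blockDefect 2 B :=
      Blocks.card_isDefectGroup hM hB ((isDefectGroup_iff hM hB).2 (hmax.isDefectIn hb))
    obtain ⟨a, ha⟩ := IsPGroup.iff_card.1 (hmax.1.1.1.to_le hVP)
    obtain ⟨h3, h1⟩ := blockRank_le_of_central hM hB V hV ha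
    constructor <;> intro hle <;> rw [hd, ha] at hle
    · refine h3 ((Nat.pow_le_pow_iff_right (le_refl 2)).1 ?_)
      calc _ ≤ _ := hle
        _ = _ := by ring
    · refine h1 ((Nat.pow_le_pow_iff_right (le_refl 2)).1 ?_)
      calc _ ≤ _ := hle
        _ = _ := by ring
  obtain ⟨v, hvV, hvc⟩ := SetLike.not_le_iff_exists.1 hV
  have hv := hVP hvV
  set C := Subgroup.centralizer ({v} : Set G) with hC
  obtain ⟨e', he', hmax'⟩ := exists_local hM hB hmax hab hv
  have hPC : P ≤ C := le_centralizer_of_mem hab hv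
  rw [fixedRank hM G B P e hB hmax hab v hv (fun t ht => hfix t ht v hvV)]
  have hlt : Nat.card C < n := by
    rw [← hn]
    refine lt_of_le_of_ne (Nat.card_le_card_of_injective _ Subtype.val_injective) fun h => hvc ?_
    have htop := Subgroup.eq_top_of_card_eq C h
    exact Subgroup.mem_center_iff.2 fun g =>
      Subgroup.mem_centralizer_singleton_iff.1 (show g ∈ C by rw [htop]; exact Subgroup.mem_top g)
  have h := ih _ hlt C rfl (belowBlock (M := M) 2 P e v) (P.subgroupOf C) e'
    (BlockSections.belowBlock_spec hM hB hmax hv).1 hmax' (abelian_local hab C) (V.subgroupOf C)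
    (fun x hx => hVP hx)
    (fun t ht x hx => Subtype.ext (hfix t ((mem_pairStab_local hab hv he' t).1 ht) x hx))
  rwa [Nat.card_congr (Subgroup.subgroupOfEquivOfLe hPC).toEquiv,
    Nat.card_congr (Subgroup.subgroupOfEquivOfLe (hVP.trans hPC)).toEquiv] at h

/-- The rank at an element of an abelian defect group. -/
theorem blockRank_below_le_of_fixed {M : Ideal AlgInt} [M.IsPrime] [CharP (Blocks.Res M) 2]
    [IsAlgClosed (Blocks.Res M)] [Fact (Nat.Prime 2)] (hM : IsPModular 2 M) {G : Type w} [Group G]
    [Finite G] {B : Set (IrrCharacter G)} {P : Subgroup G} {e : MonoidAlgebra (Blocks.Res M) G}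
    (hB : IsPBlock M B) (hmax : IsMaxPair 2 (⊤ : Subgroup G) (redElem M (blockCoeff B)) P e)
    (hab : ∀ x ∈ P, ∀ y ∈ P, x * y = y * x) {u : G} (hu : u ∈ P) (V : Subgroup G) (hVP : V ≤ P)
    (hfix : ∀ t ∈ pairStab (⊤ : Subgroup G) P e, t * u * t⁻¹ = u → ∀ v ∈ V, t * v * t⁻¹ = v) :
    (Nat.card P ≤ 4 * Nat.card V → blockRank 2 (belowBlock (M := M) 2 P e u) ≤ 3) ∧
      (Nat.card P ≤ 2 * Nat.card V → blockRank 2 (belowBlock (M := M) 2 P e u) ≤ 1) := by
  set C := Subgroup.centralizer ({u} : Set G)
  obtain ⟨e', he', hmax'⟩ := exists_local hM hB hmax hab hu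
  have hPC : P ≤ C := le_centralizer_of_mem hab hu
  have h := blockRank_le_of_fixed hM C (belowBlock (M := M) 2 P e u) (P.subgroupOf C) e'
    (BlockSections.belowBlock_spec hM hB hmax hu).1 hmax' (abelian_local hab C) (V.subgroupOf C)
    (fun x hx => hVP hx)
    (fun t ht x hx => Subtype.ext (hfix t ((mem_pairStab_local hab hu he' t).1 ht)
      (mul_inv_eq_iff_eq_mul.2 (Subgroup.mem_centralizer_singleton_iff.1 t.2)) x hx))
  rwa [Nat.card_congr (Subgroup.subgroupOfEquivOfLe hPC).toEquiv,
    Nat.card_congr (Subgroup.subgroupOfEquivOfLe (hVP.trans hPC)).toEquiv] at h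

/-- The rank at an element of small index in the defect. -/
theorem blockRank_below_le_of_defect {M : Ideal AlgInt} [M.IsPrime] [CharP (Blocks.Res M) 2]
    [IsAlgClosed (Blocks.Res M)] [Fact (Nat.Prime 2)] (hM : IsPModular 2 M) {G : Type w} [Group G]
    [Finite G] {B : Set (IrrCharacter G)} {P : Subgroup G} {e : MonoidAlgebra (Blocks.Res M) G}
    (hB : IsPBlock M B) (hmax : IsMaxPair 2 (⊤ : Subgroup G) (redElem M (blockCoeff B)) P e)
    {u : G} (hu : u ∈ P)
    (hd : 2 ^ blockDefect 2 (belowBlock (M := M) 2 P e u) ≤ 4 * orderOf u) :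
    blockRank 2 (belowBlock (M := M) 2 P e u) ≤ 3 := by
  obtain ⟨a, ha⟩ := BlockSections.isPElem_of_mem hM hB hmax hu
  set z : Subgroup.centralizer ({u} : Set G) := cenElem u
  have hz : Subgroup.zpowers z ≤ Subgroup.center _ :=
    Subgroup.zpowers_le.2 (Subgroup.mem_center_iff.2 fun g => (commute_cenElem u g).eq.symm)
  refine (blockRank_le_of_central hM (BlockSections.belowBlock_spec hM hB hmax hu).1 _ hz (a := a)
    ?_).1 ?_
  · rw [Nat.card_zpowers, ← Subgroup.orderOf_coe, ← ha]
    rfl
  · rw [ha] at hd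
    refine (Nat.pow_le_pow_iff_right (le_refl 2)).1 ?_
    calc _ ≤ _ := hd
      _ = _ := by ring

end CfsgLib.OlssonSmall
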