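import Cfsg.Agent.Lib.OlssonSmall.StarSum
import Cfsg.Agent.Lib.Brauer.CharRing
import Cfsg.Agent.Lib.Frobenius.Induce

/-!
# Functions on a defect group induced from a subgroup of index two
-/

set_option autoImplicit false
set_option linter.style.haveILetI false
set_option linter.unusedSectionVars false

noncomputable section

namespace CfsgLib.OlssonSmall

open Cfsg CfsgLib.Blocks MonoidAlgebra CfsgLib.BrauerPairs
open scoped ComplexConjugate

variable {G : Type*} [Group G] [Fintype G]

/-- A function of a subgroup as a function of the group, zero outside. -/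
def onSub (A : Subgroup G) (f : A → ℂ) (x : G) : ℂ := by
  classical exact if h : x ∈ A then f ⟨x, h⟩ else 0

theorem onSub_of_mem {A : Subgroup G} (f : A → ℂ) {x : G} (h : x ∈ A) :
    onSub A f x = f ⟨x, h⟩ := by classical rw [onSub, dif_pos h]

theorem onSub_of_notMem {A : Subgroup G} (f : A → ℂ) {x : G} (h : x ∉ A) : onSub A f x = 0 := by
  classical rw [onSub, dif_neg h]

section IndexTwo

variable {A D : Subgroup G} {t : G}

/-- The products outside a subgroup of index two. -/
theorem mul_mem_of_index_two (hidx : A.relIndex D = 2) {a b : G}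
    (ha : a ∈ D) (hb : b ∈ D) : a * b ∈ A ↔ (a ∈ A ↔ b ∈ A) := by
  have h := Subgroup.mul_mem_iff_of_index_two (H := A.subgroupOf D) hidx (a := ⟨a, ha⟩) (b := ⟨b, hb⟩)
  simpa only [Subgroup.mem_subgroupOf, Subgroup.coe_mul] using h

/-- A subgroup of index two is normalised. -/
theorem le_normalizer_of_index_two (hidx : A.relIndex D = 2) (hAD : A ≤ D) :
    D ≤ Subgroup.normalizer (A : Set G) := by
  intro d hd
  have key : ∀ e ∈ D, ∀ a ∈ A, e * a * e⁻¹ ∈ A := fun e he a ha => by
    rw [mul_mem_of_index_two hidx (mul_mem he (hAD ha)) (inv_mem he),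
      mul_mem_of_index_two hidx he (hAD ha), A.inv_mem_iff]
    tauto
  refine Subgroup.mem_normalizer_iff.2 fun a => ⟨fun ha => key d hd a ha, fun ha => ?_⟩
  have h := key d⁻¹ (inv_mem hd) _ ha
  simpa [mul_assoc] using h

/-- An element of `D` outside `A` acts like `t` on an abelian `A`. -/
theorem conj_eq_of_notMem (hidx : A.relIndex D = 2) (hab : ∀ x ∈ A, ∀ y ∈ A, x * y = y * x)
    (hAD : A ≤ D) (ht : t ∈ D) (htA : t ∉ A) {d a : G} (hd : d ∈ D) (hdA : d ∉ A) (ha : a ∈ A) :
    d * a * d⁻¹ = t * a * t⁻¹ := by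
  have hc : t⁻¹ * d ∈ A :=
    (mul_mem_of_index_two hidx (inv_mem ht) hd).2 (by rw [A.inv_mem_iff]; tauto)
  calc d * a * d⁻¹ = t * ((t⁻¹ * d) * a * (t⁻¹ * d)⁻¹) * t⁻¹ := by group
    _ = _ := by rw [hab _ hc a ha, mul_inv_cancel_right]

/-- The sum of a function on `A` and its conjugate is a generalized character of `D`. -/
theorem isGen_indexTwo (hidx : A.relIndex D = 2) (hab : ∀ x ∈ A, ∀ y ∈ A, x * y = y * x)
    (hAD : A ≤ D) (ht : t ∈ D) (htA : t ∉ A) {f : A → ℂ} (hf : IsGeneralizedCharacter A f)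
    {F : G → ℂ} (hFA : ∀ a : A, F a = f a + onSub A f (t * (a : G) * t⁻¹))
    (hF0 : ∀ x ∈ D, x ∉ A → F x = 0) :
    IsGeneralizedCharacter D (fun v : D => F (v : G)) := by
  classical
  haveI := Fintype.ofFinite D
  set A' := A.subgroupOf D
  let e : A' ≃* A := Subgroup.subgroupOfEquivOfLe hAD
  have hf' : IsGeneralizedCharacter A' (fun a => f (e a)) :=
    Coherence.isGeneralizedCharacter_comp hf e.toMonoidHom
  convert Frobenius.isGeneralizedCharacter_indFun A' _ hf' using 1
  funext g
  rw [indFun]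
  have hext : ∀ x : D, extendByZero A' (fun a => f (e a)) (x⁻¹ * g * x) =
      if (g : G) ∈ A then
        (if (x : G) ∈ A then onSub A f (g : G) else onSub A f (t * (g : G) * t⁻¹)) else 0 := by
    intro x
    by_cases hg : (g : G) ∈ A
    · have hm : (x : G)⁻¹ * (g : G) * x ∈ A := by
        have h := (Subgroup.mem_normalizer_iff.1
          (le_normalizer_of_index_two hidx hAD (inv_mem x.2)) (g : G)).1 hg
        rwa [inv_inv] at h
      have hmem : x⁻¹ * g * x ∈ A' := Subgroup.mem_subgroupOf.2 (by simpa using hm)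
      rw [if_pos hg, show extendByZero A' (fun a => f (e a)) (x⁻¹ * g * x) = f (e ⟨_, hmem⟩) from
        Subtype.val_injective.extend_apply (fun a : A' => f (e a)) 0 ⟨_, hmem⟩]
      rw [show e ⟨_, hmem⟩ = (⟨(x : G)⁻¹ * (g : G) * x, hm⟩ : A) from Subtype.ext (by simp [e, A']),
        ← onSub_of_mem f hm]
      split_ifs with hx
      · congr 1
        rw [mul_assoc, hab _ hg _ hx, inv_mul_cancel_left]
      · congr 1
        have := conj_eq_of_notMem hidx hab hAD ht htA (inv_mem x.2)
          (fun h => hx (by simpa using A.inv_mem h)) hg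
        rwa [inv_inv] at this
    · rw [if_neg hg]
      refine Function.extend_apply' _ _ _ ?_
      rintro ⟨⟨a, ha⟩, rfl⟩
      apply hg
      have hn := Subgroup.mem_normalizer_iff.1 (le_normalizer_of_index_two hidx hAD x.2)
      have := (hn _).1 (Subgroup.mem_subgroupOf.1 ha)
      simpa [mul_assoc] using this
  rw [Finset.sum_congr rfl fun x _ => hext x]
  have hcard : (Finset.univ.filter fun x : D => (x : G) ∈ A).card = Nat.card A' := by
    rw [Nat.card_eq_fintype_card, Fintype.card_subtype]
    rfl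
  by_cases hg : (g : G) ∈ A
  · rw [Finset.sum_congr rfl fun x _ => if_pos hg, Finset.sum_ite, Finset.sum_const,
      Finset.sum_const, hcard]
    have hcard2 : (Finset.univ.filter fun x : D => ¬ (x : G) ∈ A).card = Nat.card A' := by
      have h1 := Finset.card_filter_add_card_filter_not (s := (Finset.univ : Finset D))
        (fun x : D => (x : G) ∈ A)
      have h2 := Subgroup.card_mul_index A'
      rw [show A'.index = 2 from hidx] at h2
      rw [hcard, Finset.card_univ, ← Nat.card_eq_fintype_card] at h1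
      omega
    rw [hcard2, hFA ⟨g, hg⟩, onSub_of_mem f hg, nsmul_eq_mul, nsmul_eq_mul, ← mul_add,
      ← mul_assoc, inv_mul_cancel₀ (Nat.cast_ne_zero.2 Nat.card_pos.ne'), one_mul]
  · rw [hF0 _ g.2 hg, Finset.sum_congr rfl fun x _ => if_neg hg, Finset.sum_const_zero, mul_zero]

end IndexTwo

/-- An integral combination of linear characters. -/
theorem isGen_sum_linear {A : Type*} [Group A] {ι : Type*} (s : Finset ι) (c : ι → ℤ)
    (μ : ι → A →* ℂˣ) :
    IsGeneralizedCharacter A (fun a => ∑ i ∈ s, (c i : ℂ) * (μ i a : ℂ)) := by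
  classical
  refine ⟨fun a => ∑ i ∈ s, ((c i).toNat : ℂ) * (μ i a : ℂ),
    fun a => ∑ i ∈ s, ((-c i).toNat : ℂ) * (μ i a : ℂ), ?_, ?_, ?_⟩
  case refine_3 =>
    funext a
    rw [Pi.sub_apply, ← Finset.sum_sub_distrib]
    refine Finset.sum_congr rfl fun i _ => ?_
    rw [← sub_mul]
    congr 1
    have h := Int.toNat_sub_toNat_neg (c i)
    conv_lhs => rw [← h]
    push_cast
    ring
  all_goals
    have hn : ∀ (n : ι → ℕ), IsCharacter A (fun a => ∑ i ∈ s, (n i : ℂ) * (μ i a : ℂ)) := by
      intro n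
      have : (fun a => ∑ i ∈ s, (n i : ℂ) * (μ i a : ℂ)) =
          ∑ i ∈ s, ∑ _j ∈ Finset.range (n i), (fun a => (μ i a : ℂ)) := by
        funext a
        simp [Finset.sum_apply]
      rw [this]
      exact Brauer.isCharacter_sum _ _ fun i _ =>
        Brauer.isCharacter_sum _ _ fun _ _ => Brauer.isCharacter_monoidHom (μ i)
    exact hn _

end CfsgLib.OlssonSmall
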