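import Cfsg.Agent.Lib.OlssonSmall.OrbitFiveAux
import Cfsg.Agent.Lib.OlssonSmall.Virtual
import Cfsg.Agent.Lib.OlssonSmall.Rank
import Cfsg.Agent.Lib.BrauerPairs.AbelianPIndex

/-!
# Blocks of defect five with elementary abelian defect group and inertial group of order five

A central involution is fixed and three orbits of five elements fill the rest of a complement: the
block has rank at most five, and its form on the regular elements is five modulo eight at odd
values.
-/

set_option autoImplicit false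
set_option linter.style.haveILetI false
set_option linter.unusedSectionVars false

noncomputable section

namespace CfsgLib.OlssonSmall

open Cfsg CfsgLib.Blocks MonoidAlgebra CfsgLib.BrauerPairs CfsgLib.BlockStar
open CfsgLib.BrauerCharacters (cenElem blockFinset mem_blockFinset regEntry)
open CfsgLib.BlockSections (belowBlock)
open scoped ComplexConjugate

variable {G : Type*} [Group G] [Fintype G]

/-- Conjugation by powers. -/
theorem conj_pow_succ (s v : G) (k : ℕ) :
    s ^ (k + 1) * v * (s ^ (k + 1))⁻¹ = s * (s ^ k * v * (s ^ k)⁻¹) * s⁻¹ := by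
  rw [pow_succ']; group

open scoped Classical in
/-- Integral functions on an elementary abelian group of order 32 with divisible transforms. -/
theorem isGen_of_transform {D : Subgroup G} [Fintype D] (hcard : Nat.card D = 32)
    (hexp : ∀ x ∈ D, x * x = 1) (F : G → ℂ) (f : D → ℤ) (hF : ∀ v : D, F (v : G) = f v)
    (hdiv : ∀ μ : D →* ℂˣ, (32 : ℤ) ∣ ∑ v : D, f v * (if μ v = 1 then 1 else -1)) :
    IsGeneralizedCharacter D (fun v : D => F (v : G)) := by
  haveI : Finite (D →* ℂˣ) := by
    letI : CommGroup D :=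
      { (inferInstance : Group D) with
        mul_comm := fun a b => Subtype.ext (by
          have h := hexp _ (mul_mem a.2 b.2)
          show (a : G) * b = b * a
          rw [← inv_eq_of_mul_eq_one_right h, mul_inv_rev, inv_eq_of_mul_eq_one_right (hexp _ a.2),
            inv_eq_of_mul_eq_one_right (hexp _ b.2)]) }
    exact Nat.finite_of_card_ne_zero (by
      rw [CommGroup.card_monoidHom_of_hasEnoughRootsOfUnity D ℂ]; exact Nat.card_pos.ne')
  haveI : Fintype (D →* ℂˣ) := Fintype.ofFinite _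
  choose c hc using hdiv
  have hcomm : ∀ a b : D, a * b = b * a := fun a b => Subtype.ext (by
    have h := hexp _ (mul_mem a.2 b.2)
    show (a : G) * b = b * a
    rw [← inv_eq_of_mul_eq_one_right h, mul_inv_rev, inv_eq_of_mul_eq_one_right (hexp _ a.2),
      inv_eq_of_mul_eq_one_right (hexp _ b.2)])
  have hsign : ∀ (μ : D →* ℂˣ) (v : D), (μ v : ℂ) = ((if μ v = 1 then 1 else -1 : ℤ) : ℂ) := by
    intro μ v
    have h1 : (μ v : ℂ) * (μ v : ℂ) = 1 := by
      rw [← Units.val_mul, ← map_mul, show v * v = 1 from Subtype.ext (hexp _ v.2), map_one,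
        Units.val_one]
    rcases mul_self_eq_one_iff.1 h1 with h | h
    · rw [if_pos (Units.ext h), h, Int.cast_one]
    · rw [if_neg fun e => by rw [e, Units.val_one] at h; norm_num at h, h]
      norm_num
  have hkey : ∀ w : D, (f w : ℂ) = ∑ μ : D →* ℂˣ, (c μ : ℂ) * (μ w : ℂ) := by
    intro w
    refine mul_left_cancel₀ (show (32 : ℂ) ≠ 0 by norm_num) ?_
    rw [Finset.mul_sum]
    symm
    calc ∑ μ : D →* ℂˣ, 32 * ((c μ : ℂ) * (μ w : ℂ))
        = ∑ μ : D →* ℂˣ, ∑ v : D, (f v : ℂ) * (μ (v * w) : ℂ) := by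
          refine Finset.sum_congr rfl fun μ _ => ?_
          have h1 := congrArg (fun z : ℤ => (z : ℂ)) (hc μ)
          simp only [Int.cast_sum, Int.cast_mul, ← hsign μ, Int.cast_ofNat] at h1
          rw [← mul_assoc, ← h1, Finset.sum_mul]
          exact Finset.sum_congr rfl fun v _ => by rw [map_mul, Units.val_mul]; ring
      _ = 32 * (f w : ℂ) := by
          rw [Finset.sum_comm, Finset.sum_eq_single_of_mem w (Finset.mem_univ w)]
          · rw [← Finset.mul_sum, sum_monoidHom_apply hcomm, if_pos (Subtype.ext (hexp _ w.2)),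
              hcard]
            push_cast
            ring
          · intro v _ hv
            rw [← Finset.mul_sum, sum_monoidHom_apply hcomm, if_neg, mul_zero]
            intro h
            apply hv
            rw [← inv_eq_of_mul_eq_one_left h]
            exact Subtype.ext (inv_eq_of_mul_eq_one_right (hexp _ w.2))
  convert isGen_sum_linear (Finset.univ : Finset (D →* ℂˣ)) c (fun μ => μ) using 1
  funext v
  rw [hF, hkey]

universe w

variable {G : Type w} [Group G] [Fintype G] {D : Subgroup G} {M : Ideal AlgInt} [M.IsPrime]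
  [Fact (Nat.Prime 2)] [CharP (Res M) 2] [IsAlgClosed (Res M)] [M.IsMaximal]
  {B : Set (IrrCharacter G)} {e0 : MonoidAlgebra (Res M) G}
  (hM : IsPModular 2 M) (hB : IsPBlock M B)
  (hmax : IsMaxPair 2 (⊤ : Subgroup G) (redElem M (blockCoeff B)) D e0)
include hM hB hmax

open scoped Classical in
/-- The rank and the regular form of a block with three orbits of size five. -/
theorem orbitFive (hcard : Nat.card D = 32) (hexp : ∀ x ∈ D, x * x = 1)
    {u : G} (hu : u ∈ D) (huc : u ∈ Subgroup.center G) (R : Subgroup G) (hRD : R ≤ D)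
    (hR : Nat.card R = 16) (huR : u ∉ R) (s : G) (hs : s ∈ pairStab (⊤ : Subgroup G) D e0)
    (hs5 : ∀ d ∈ D, s ^ 5 * d * (s ^ 5)⁻¹ = d) (hsR : ∀ r ∈ R, s * r * s⁻¹ ∈ R)
    (hfpf : ∀ r ∈ R, s * r * s⁻¹ = r → r = 1)
    (hT : ∀ t ∈ pairStab (⊤ : Subgroup G) D e0, ∃ k : ℕ, ∀ d ∈ D,
      t * d * t⁻¹ = s ^ k * d * (s ^ k)⁻¹) :
    blockRank 2 B ≤ 5 ∧ ∀ y : IrrCharacter G → ℤ,
      ¬ (2 : ℤ) ∣ ∑ ξ ∈ blockFinset B, ∑ η ∈ blockFinset B, y ξ * y η * regEntry 2 B ξ η →
      (8 : ℤ) ∣ (∑ ξ ∈ blockFinset B, ∑ η ∈ blockFinset B, y ξ * y η * regEntry 2 B ξ η) - 5 := by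
  set T := pairStab (⊤ : Subgroup G) D e0 with hTdef
  have hb := isBlockIdem_redElem_blockCoeff (M := M) hB
  have hab : ∀ x ∈ D, ∀ y ∈ D, x * y = y * x := fun x hx y hy => by
    rw [← inv_eq_of_mul_eq_one_right (hexp _ (mul_mem hx hy)), mul_inv_rev,
      inv_eq_of_mul_eq_one_right (hexp _ hx), inv_eq_of_mul_eq_one_right (hexp _ hy)]
  have hdefB : 2 ^ blockDefect 2 B = 32 := by
    rw [← Blocks.card_isDefectGroup hM hB ((isDefectGroup_iff hM hB).2 (hmax.isDefectIn hb)), hcard]
  have hdefv : ∀ v ∈ D, 2 ^ blockDefect 2 (belowBlock (M := M) 2 D e0 v) = 32 := by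
    intro v hv
    refine le_antisymm (pow_defect_le hM hB hmax hv fun w _ => ?_) ?_
    · exact (Subgroup.card_le_of_le inf_le_left).trans hcard.le
    · refine le_trans ?_ (card_le_pow_defect hM hB hmax hv)
      rw [inf_eq_left.2 (le_centralizer_of_mem hab hv), hcard]
  -- the powers of `s` on `R`
  let pw : ℕ → G → G := fun k v => s ^ k * v * (s ^ k)⁻¹
  have hpw0 : ∀ v, pw 0 v = v := fun v => by simp [pw]
  have hpwadd : ∀ i j v, pw (i + j) v = pw i (pw j v) := fun i j v => by
    simp only [pw, pow_add]; group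
  have hpwR : ∀ k, ∀ r ∈ R, pw k r ∈ R := by
    intro k
    induction k with
    | zero => intro r hr; rw [hpw0]; exact hr
    | succ k ih =>
      intro r hr
      simp only [pw]
      rw [conj_pow_succ]
      exact hsR _ (ih r hr)
  have hpwT : ∀ k, s ^ k ∈ T := fun k => pow_mem hs k
  have hpwD : ∀ k, ∀ v ∈ D, pw k v ∈ D := fun k v hv =>
    (Subgroup.mem_normalizer_iff.1 (mem_pairStab.1 (hpwT k)).2.1 v).1 hv
  have hpw5 : ∀ k, ∀ v ∈ D, pw k v = pw (k % 5) v := by
    intro k v hv
    conv_lhs => rw [← Nat.mod_add_div k 5]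
    rw [hpwadd]
    congr 1
    induction k / 5 with
    | zero => rw [mul_zero, hpw0]
    | succ m ih => rw [Nat.mul_succ, hpwadd, show pw 5 v = v from hs5 v hv, ih]
  have hfree : ∀ k, ∀ r ∈ R, k % 5 ≠ 0 → pw k r = r → r = 1 := by
    intro k r hr hk he
    refine hfpf r hr ?_
    have hit : ∀ m, pw (k * m) r = r := fun m => by
      induction m with
      | zero => rw [mul_zero, hpw0]
      | succ m ih => rw [Nat.mul_succ, hpwadd, he, ih]
    obtain ⟨m, hm⟩ : ∃ m, k * m % 5 = 1 := by
      have h1 : k % 5 < 5 := Nat.mod_lt _ (by norm_num)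
      interval_cases h : k % 5
      · exact absurd rfl hk
      · exact ⟨1, by omega⟩
      · exact ⟨3, by omega⟩
      · exact ⟨2, by omega⟩
      · exact ⟨4, by omega⟩
    have h1 := hit m
    rw [hpw5 _ r (hRD hr), hm] at h1
    simpa [pw] using h1
  -- fusion
  have hfuse : ∀ v w, PairConj (M := M) 2 D e0 v w → ∃ k, w = pw k v := by
    rintro v w ⟨hv, hw, g, hg, hβ⟩
    obtain ⟨t, ht, he⟩ := BlockSections.exists_stab_of_conj hM hB hmax hab hv hw hg hβ
    obtain ⟨k, hk⟩ := hT t ht
    exact ⟨k, by rw [← he, hk v hv]⟩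
  have hconj : ∀ k, ∀ v ∈ D, PairConj (M := M) 2 D e0 v (pw k v) := fun k v hv =>
    pairConj_of_mem_stab hM hB hmax hv (hpwT k)
  have hinR : ∀ v w, PairConj (M := M) 2 D e0 v w → v ∈ R → w ∈ R := fun v w h hv => by
    obtain ⟨k, rfl⟩ := hfuse v w h
    exact hpwR k v hv
  -- the orbits
  let orb : G → Finset G := fun v => (Finset.range 5).image fun k => pw k v
  have horb : ∀ v ∈ D, ∀ w, w ∈ orb v ↔ PairConj (M := M) 2 D e0 v w := by
    intro v hv w
    constructor
    · intro h
      obtain ⟨k, -, rfl⟩ := Finset.mem_image.1 h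
      exact hconj k v hv
    · intro h
      obtain ⟨k, rfl⟩ := hfuse v w h
      exact Finset.mem_image.2 ⟨k % 5, Finset.mem_range.2 (Nat.mod_lt _ (by norm_num)),
        (hpw5 k v hv).symm⟩
  have horbinj : ∀ v ∈ R, v ≠ 1 → Set.InjOn (fun k => pw k v) (Finset.range 5 : Set ℕ) := by
    intro v hv hv1 i hi j hj hij
    simp only [Finset.coe_range, Set.mem_Iio] at hi hj
    by_contra hne
    refine hv1 (hfree (5 - i + j) v hv (by omega) ?_)
    calc pw (5 - i + j) v = pw (5 - i) (pw j v) := hpwadd _ _ _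
      _ = pw (5 - i) (pw i v) := by rw [show pw i v = pw j v from hij]
      _ = pw 5 v := by rw [← hpwadd, Nat.sub_add_cancel hi.le]
      _ = v := hs5 v (hRD hv)
  have horbcard : ∀ v ∈ R, v ≠ 1 → (orb v).card = 5 := fun v hv hv1 => by
    rw [Finset.card_image_of_injOn (horbinj v hv hv1), Finset.card_range]
  haveI : Fintype R := Fintype.ofFinite _
  let RS : Finset G := Finset.univ.filter fun x => x ∈ R ∧ x ≠ 1
  have hRS : RS.card = 15 := by
    have h1 : (Finset.univ.filter fun x : G => x ∈ R) = insert 1 RS := by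
      ext x
      simp only [RS, Finset.mem_insert, Finset.mem_filter, Finset.mem_univ, true_and]
      by_cases hx : x = 1
      · simp [hx, R.one_mem]
      · simp [hx]
    have h2 : (Finset.univ.filter fun x : G => x ∈ R).card = 16 := by
      rw [← hR, Nat.card_eq_fintype_card]
      exact (Fintype.card_subtype _).symm
    rw [h1, Finset.card_insert_of_notMem (by simp [RS])] at h2
    omega
  have hRSorb : ∀ v ∈ RS, orb v ⊆ RS := by
    intro v hv w hw
    obtain ⟨hvR, hv1⟩ := (Finset.mem_filter.1 hv).2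
    obtain ⟨k, -, rfl⟩ := Finset.mem_image.1 hw
    refine Finset.mem_filter.2 ⟨Finset.mem_univ _, hpwR k v hvR, fun e => hv1 ?_⟩
    calc v = (s ^ k)⁻¹ * (pw k v) * s ^ k := by simp only [pw]; group
      _ = 1 := by rw [e]; group
  obtain ⟨a, ha⟩ : RS.Nonempty := Finset.card_pos.1 (by omega)
  obtain ⟨b, hbm⟩ : (RS \ orb a).Nonempty := Finset.card_pos.1 (by
    have h1 := Finset.le_card_sdiff (orb a) RS
    have h2 := (Finset.mem_filter.1 ha).2
    rw [horbcard a h2.1 h2.2, hRS] at h1
    omega)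
  obtain ⟨c, hcm⟩ : (RS \ (orb a ∪ orb b)).Nonempty := Finset.card_pos.1 (by
    have h1 := Finset.le_card_sdiff (orb a ∪ orb b) RS
    have h2 := (Finset.mem_filter.1 ha).2
    have h3 := (Finset.mem_filter.1 (Finset.mem_sdiff.1 hbm).1).2
    have h4 := Finset.card_union_le (orb a) (orb b)
    rw [horbcard a h2.1 h2.2, horbcard b h3.1 h3.2] at h4
    rw [hRS] at h1
    omega)
  obtain ⟨hbRS, hba⟩ := Finset.mem_sdiff.1 hbm
  obtain ⟨hcRS, hcab⟩ := Finset.mem_sdiff.1 hcm
  obtain ⟨haR, ha1⟩ := (Finset.mem_filter.1 ha).2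
  obtain ⟨hbR, hb1⟩ := (Finset.mem_filter.1 hbRS).2
  obtain ⟨hcR, hc1⟩ := (Finset.mem_filter.1 hcRS).2
  have haD := hRD haR
  have hbD := hRD hbR
  have hcD := hRD hcR
  have nab : ¬ PairConj (M := M) 2 D e0 a b := fun h => hba ((horb a haD b).2 h)
  have nac : ¬ PairConj (M := M) 2 D e0 a c := fun h =>
    hcab (Finset.mem_union_left _ ((horb a haD c).2 h))
  have nbc : ¬ PairConj (M := M) 2 D e0 b c := fun h =>
    hcab (Finset.mem_union_right _ ((horb b hbD c).2 h))
  have none : ∀ v, v ≠ 1 → ¬ PairConj (M := M) 2 D e0 1 v := fun v hv h => by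
    have := h.orderOf_eq
    rw [orderOf_one, orderOf_eq_one_iff] at this
    exact hv this
  have hdisj : ∀ v ∈ D, ∀ w ∈ D, ¬ PairConj (M := M) 2 D e0 v w → Disjoint (orb v) (orb w) :=
    fun v hv w hw hn => Finset.disjoint_left.2 fun x h1 h2 =>
      hn (((horb v hv x).1 h1).trans ((horb w hw x).1 h2).symm)
  have hcover : ∀ x ∈ R, x ≠ 1 → x ∈ orb a ∪ orb b ∪ orb c := by
    have hcard15 : (orb a ∪ orb b ∪ orb c).card = 15 := by
      rw [Finset.card_union_of_disjoint, Finset.card_union_of_disjoint (hdisj a haD b hbD nab),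
        horbcard a haR ha1, horbcard b hbR hb1, horbcard c hcR hc1]
      exact Finset.disjoint_union_left.2 ⟨hdisj a haD c hcD nac, hdisj b hbD c hcD nbc⟩
    have heq : orb a ∪ orb b ∪ orb c = RS := Finset.eq_of_subset_of_card_le
      (Finset.union_subset (Finset.union_subset (hRSorb a ha) (hRSorb b hbRS)) (hRSorb c hcRS))
      (by rw [hcard15, hRS])
    intro x hx hx1
    rw [heq]
    exact Finset.mem_filter.2 ⟨Finset.mem_univ _, hx, hx1⟩
  -- the rank at the orbits
  have hfixv : ∀ v ∈ D, v ≠ 1 → v ≠ u → ∀ t ∈ T, t * v * t⁻¹ = v →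
      ∀ w ∈ D, t * w * t⁻¹ = w := by
    intro v hv hv1 hvu t ht he w hw
    obtain ⟨k, hk⟩ := hT t ht
    rw [hk w hw]
    suffices k % 5 = 0 by rw [show s ^ k * w * (s ^ k)⁻¹ = pw k w from rfl, hpw5 k w hw, this, hpw0]
    by_contra hk5
    have hsu : pw k u = u := by
      simp only [pw]
      rw [Subgroup.mem_center_iff.1 huc, mul_inv_cancel_right]
    have hkv : pw k v = v := (hk v hv).symm.trans he
    haveI : Fintype D := Fintype.ofFinite _
    -- `v` is `r` or `r u`
    obtain ⟨r, hr, hvr⟩ : ∃ r ∈ R, v = r ∨ v = r * u := by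
      by_cases hvR : v ∈ R
      · exact ⟨v, hvR, Or.inl rfl⟩
      have h2 : R.relIndex D = 2 := by
        have h1 := (R.subgroupOf D).card_mul_index
        rw [Nat.card_congr (Subgroup.subgroupOfEquivOfLe hRD).toEquiv, hR, hcard] at h1
        rw [Subgroup.relIndex]
        omega
      exact ⟨v * u, (mul_mem_of_index_two h2 hv hu).2 (iff_of_false hvR huR), Or.inr (by
        rw [mul_assoc, hexp u hu, mul_one])⟩
    rcases hvr with rfl | rfl
    · exact hv1 (hfree k v hr hk5 hkv)
    · have hr1 : pw k r = r := by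
        have h1 : pw k (r * u) = pw k r * pw k u := by simp only [pw]; group
        rw [h1, hsu] at hkv
        exact mul_right_cancel hkv
      refine hvu ?_
      rw [hfree k r hr hk5 hr1, one_mul]
  have hle1 : ∀ v ∈ D, v ≠ 1 → v ≠ u → blockRank 2 (belowBlock (M := M) 2 D e0 v) ≤ 1 :=
    fun v hv hv1 hvu => (blockRank_below_le_of_fixed hM hB hmax hab hv D le_rfl
      (hfixv v hv hv1 hvu)).2 (Nat.le_mul_of_pos_left _ two_pos)
  have hpos : ∀ v ∈ D, 1 ≤ blockRank 2 (belowBlock (M := M) 2 D e0 v) := fun v hv =>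
    BrauerCharacters.blockRank_pos
      (isPBlock_nonempty (BlockSections.belowBlock_spec hM hB hmax hv).1)
  have hau : ∀ v ∈ R, v ≠ u := fun v hv e => huR (e ▸ hv)
  -- functions
  let ind : G → G → ℂ := fun v w => if PairConj (M := M) 2 D e0 v w then 1 else 0
  have hind : ∀ v, ∀ x y, PairConj (M := M) 2 D e0 x y → ind v y = ind v x := fun v x y hxy =>
    if_congr ⟨fun h1 => h1.trans hxy.symm, fun h1 => h1.trans hxy⟩ rfl rfl
  haveI : Fintype D := Fintype.ofFinite _
  -- signs on orbits
  have hlam : ∀ v ∈ R, v ≠ 1 → ∀ μ : D →* ℂˣ,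
      (4 : ℤ) ∣ (∑ x : D, (if PairConj (M := M) 2 D e0 v (x : G) then (1 : ℤ) else 0) *
        (if μ x = 1 then 1 else -1)) - 1 := by
    intro v hv hv1 μ
    let e : ℕ → D := fun k => ⟨pw k v, hpwD k v (hRD hv)⟩
    have hsum : ∑ x : D, (if PairConj (M := M) 2 D e0 v (x : G) then (1 : ℤ) else 0) *
        (if μ x = 1 then 1 else -1) = ∑ k ∈ Finset.range 5, (if μ (e k) = 1 then 1 else -1 : ℤ) := by
      simp only [ite_mul, one_mul, zero_mul]
      rw [← Finset.sum_filter]
      symm
      refine Finset.sum_bij (fun k _ => e k) (fun k _ => ?_) (fun i hi j hj h => ?_) (fun x hx => ?_)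
        fun k _ => rfl
      · exact Finset.mem_filter.2 ⟨Finset.mem_univ _, hconj k v (hRD hv)⟩
      · exact horbinj v hv hv1 (Finset.mem_coe.2 hi) (Finset.mem_coe.2 hj) (congrArg Subtype.val h)
      · obtain ⟨k, hk, he⟩ := Finset.mem_image.1
          ((horb v (hRD hv) x).2 (Finset.mem_filter.1 hx).2)
        exact ⟨k, hk, Subtype.ext he⟩
    have hP : e 0 * e 1 * e 2 * e 3 * e 4 = 1 := by
      refine Subtype.ext (hfpf _ ?_ ?_)
      · simp only [e, Subgroup.coe_mul]
        exact mul_mem (mul_mem (mul_mem (mul_mem (hpwR 0 v hv) (hpwR 1 v hv)) (hpwR 2 v hv))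
          (hpwR 3 v hv)) (hpwR 4 v hv)
      · simp only [e, Subgroup.coe_mul]
        have h5 : pw 5 v = v := hs5 v (hRD hv)
        calc s * (pw 0 v * pw 1 v * pw 2 v * pw 3 v * pw 4 v) * s⁻¹ =
            pw 1 v * pw 2 v * pw 3 v * pw 4 v * pw 5 v := by simp only [pw]; group
          _ = _ := by
              rw [h5, hpw0 v, hab _ (mul_mem (mul_mem (mul_mem (hpwD 1 v (hRD hv))
                (hpwD 2 v (hRD hv))) (hpwD 3 v (hRD hv))) (hpwD 4 v (hRD hv))) v (hRD hv)]
              group
    have hunit : ∀ k, μ (e k) = 1 ∨ μ (e k) = -1 := fun k => by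
      have h1 : μ (e k) * μ (e k) = 1 := by
        rw [← map_mul, show e k * e k = 1 from Subtype.ext (hexp _ (hpwD k v (hRD hv))), map_one]
      rcases mul_self_eq_one_iff.1 (by
        simpa using congrArg (fun z : ℂˣ => (z : ℂ)) h1 : (μ (e k) : ℂ) * (μ (e k) : ℂ) = 1)
        with h | h
      · exact Or.inl (Units.ext h)
      · exact Or.inr (Units.ext (by simpa using h))
    have hm := congrArg μ hP
    simp only [map_mul, map_one] at hm
    have hne : (-1 : ℂˣ) ≠ 1 := fun h => by
      have := congrArg (fun z : ℂˣ => (z : ℂ)) h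
      norm_num at this
    rw [hsum]
    simp only [Finset.sum_range_succ, Finset.sum_range_zero, zero_add]
    rcases hunit 0 with e0' | e0' <;> rcases hunit 1 with e1 | e1 <;> rcases hunit 2 with e2 | e2 <;>
      rcases hunit 3 with e3 | e3 <;> rcases hunit 4 with e4 | e4 <;>
      rw [e0', e1, e2, e3, e4] at hm ⊢ <;>
      simp only [hne, if_true, if_false] <;>
      first
        | (norm_num; done)
        | (simp only [one_mul, mul_one, mul_neg, neg_mul, neg_neg] at hm; exact absurd hm hne)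
  let Fv : G → G → ℂ := fun v w => 32 * ind v w
  let F0 : G → ℂ := fun w => if w ∈ R then 2 else 0
  let Fd : G → G → ℂ := fun v w => 8 * (ind a w - ind v w)
  have hFv : ∀ v x y, PairConj (M := M) 2 D e0 x y → Fv v y = Fv v x := fun v x y hxy => by
    simp only [Fv, hind v x y hxy]
  have hF0 : ∀ x y, PairConj (M := M) 2 D e0 x y → F0 y = F0 x := fun x y hxy =>
    if_congr ⟨fun h => hinR y x hxy.symm h, fun h => hinR x y hxy h⟩ rfl rfl
  have hFd : ∀ v x y, PairConj (M := M) 2 D e0 x y → Fd v y = Fd v x := fun v x y hxy => by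
    simp only [Fd, hind a x y hxy, hind v x y hxy]
  have hgenv : ∀ v, IsGeneralizedCharacter D (fun x : D => Fv v (x : G)) := fun v =>
    isGen_of_transform hcard hexp (Fv v)
      (fun x => 32 * if PairConj (M := M) 2 D e0 v (x : G) then 1 else 0)
      (fun x => by simp only [Fv, ind]; split_ifs <;> norm_num) fun μ => by
        simp only [mul_assoc, ← Finset.mul_sum]
        exact dvd_mul_right _ _
  have hgend : ∀ v ∈ R, v ≠ 1 → IsGeneralizedCharacter D (fun x : D => Fd v (x : G)) :=
    fun v hv hv1 => isGen_of_transform hcard hexp (Fd v)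
      (fun x => 8 * ((if PairConj (M := M) 2 D e0 a (x : G) then 1 else 0) -
        if PairConj (M := M) 2 D e0 v (x : G) then 1 else 0))
      (fun x => by simp only [Fd, ind]; split_ifs <;> norm_num) fun μ => by
        simp only [mul_assoc, ← Finset.mul_sum, sub_mul, Finset.sum_sub_distrib]
        obtain ⟨i, hi⟩ := hlam a haR ha1 μ
        obtain ⟨j, hj⟩ := hlam v hv hv1 μ
        exact ⟨i - j, by linear_combination (8 : ℤ) * hi - (8 : ℤ) * hj⟩
  have hgen0 : IsGeneralizedCharacter D (fun x : D => F0 (x : G)) := by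
    have h2 : R.relIndex D = 2 := by
      have h1 := (R.subgroupOf D).card_mul_index
      rw [Nat.card_congr (Subgroup.subgroupOfEquivOfLe hRD).toEquiv, hR, hcard] at h1
      rw [Subgroup.relIndex]
      omega
    let ν : D →* ℂˣ :=
      { toFun := fun x => if (x : G) ∈ R then 1 else -1
        map_one' := by simp [R.one_mem]
        map_mul' := fun x y => by
          simp only [Subgroup.coe_mul, mul_mem_of_index_two h2 x.2 y.2]
          by_cases hx : (x : G) ∈ R <;> by_cases hy : (y : G) ∈ R <;> simp [hx, hy] }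
    convert isGen_sum_linear (Finset.univ : Finset Bool) (fun _ => 1)
      (fun i => if i then (1 : D →* ℂˣ) else ν) using 1
    funext x
    by_cases hx : (x : G) ∈ R <;> simp [F0, ν, hx] <;> norm_num
  -- the integers
  let ct : G → IrrCharacter G → IrrCharacter G → ℂ := fun v χ φ => cntr (M := M) 2 D e0 v χ φ
  choose S hS using fun v χ φ => exists_int_starF hM hB hmax (hFv v) (hgenv v) χ φ
  have hsingle : ∀ v ∈ D, ∀ F : G → ℂ, (∀ x y, PairConj (M := M) 2 D e0 x y → F y = F x) →
      (∀ w, ¬ PairConj (M := M) 2 D e0 v w → F w = 0) → ∀ χ φ : IrrCharacter G,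
      classInner (starF 2 χ D e0 F) (φ : G → ℂ) = F v * ct v χ φ := by
    intro v hv F hF hzero χ φ
    rw [classInner_starF hM hB hmax ({v} : Finset G) id (fun i hi => by
      rw [Finset.mem_singleton.1 hi]; exact hv) hF (fun x _ hne =>
        ⟨v, Finset.mem_singleton_self v, by_contra fun h => hne (hzero x h)⟩)
      (fun i hi j hj _ => (Finset.mem_singleton.1 hi).trans (Finset.mem_singleton.1 hj).symm),
      Finset.sum_singleton]
    rfl
  have hSe : ∀ v ∈ D, ∀ χ φ, (S v χ φ : ℂ) = 32 * ct v χ φ := by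
    intro v hv χ φ
    rw [← hS v χ φ, hsingle v hv (Fv v) (hFv v) (fun w hw => by simp [Fv, ind, if_neg hw]) χ φ]
    simp [Fv, ind, if_pos (PairConj.refl hv)]
  -- general cover
  let S4 : Finset G := {1, a, b, c}
  have hS4D : ∀ i ∈ S4, i ∈ D := fun i hi => by
    simp only [S4, Finset.mem_insert, Finset.mem_singleton] at hi
    rcases hi with rfl | rfl | rfl | rfl
    exacts [D.one_mem, haD, hbD, hcD]
  have hsep : ∀ i ∈ S4, ∀ j ∈ S4, PairConj (M := M) 2 D e0 (id i) (id j) → i = j := by
    intro i hi j hj h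
    simp only [S4, Finset.mem_insert, Finset.mem_singleton] at hi hj
    simp only [id] at h
    rcases hi with rfl | rfl | rfl | rfl <;> rcases hj with rfl | rfl | rfl | rfl
    all_goals first
      | rfl
      | exact absurd h (none _ (by assumption))
      | exact absurd h.symm (none _ (by assumption))
      | exact absurd h nab
      | exact absurd h.symm nab
      | exact absurd h nac
      | exact absurd h.symm nac
      | exact absurd h nbc
      | exact absurd h.symm nbc
  have hcov0 : ∀ x ∈ D, F0 x ≠ 0 → ∃ i ∈ S4, PairConj (M := M) 2 D e0 (id i) x := by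
    intro x hx hne
    have hxR : x ∈ R := by
      by_contra h
      exact hne (if_neg h)
    by_cases hx1 : x = 1
    · exact ⟨1, by simp [S4], by rw [hx1]; exact PairConj.refl D.one_mem⟩
    have h := hcover x hxR hx1
    simp only [Finset.mem_union] at h
    rcases h with (h | h) | h
    · exact ⟨a, by simp [S4], (horb a haD x).1 h⟩
    · exact ⟨b, by simp [S4], (horb b hbD x).1 h⟩
    · exact ⟨c, by simp [S4], (horb c hcD x).1 h⟩
  have hdB : ((2 : ℕ) : ℂ) ^ blockDefect 2 B = 32 := by rw [← Nat.cast_pow, hdefB]; norm_num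
  have hM1 : ∀ ξ ∈ blockFinset B, ∀ η ∈ blockFinset B,
      (regEntry 2 B ξ η : ℂ) = 32 * ct 1 ξ η := by
    intro ξ hξ η hη
    rw [BrauerCharacters.coe_regEntry (mem_blockFinset.1 hξ), hdB,
      ← cntr_one hM hB hmax (mem_blockFinset.1 hξ) (mem_blockFinset.1 hη)]
  have hfour : ∀ g : G → ℂ, ∑ i ∈ S4, g i = g 1 + g a + g b + g c := by
    intro g
    have h1 : a ≠ b := fun e => nab (e ▸ PairConj.refl haD)
    have h2 : a ≠ c := fun e => nac (e ▸ PairConj.refl haD)
    have h3 : b ≠ c := fun e => nbc (e ▸ PairConj.refl hbD)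
    rw [Finset.sum_insert (by simp [Ne.symm ha1, Ne.symm hb1, Ne.symm hc1]),
      Finset.sum_insert (by simp [h1, h2]), Finset.sum_insert (by simp [h3]), Finset.sum_singleton]
    ring
  have hmod16 : ∀ ξ ∈ blockFinset B, ∀ η ∈ blockFinset B,
      (16 : ℤ) ∣ regEntry 2 B ξ η + S a ξ η + S b ξ η + S c ξ η := by
    intro ξ hξ η hη
    obtain ⟨n, hn⟩ := exists_int_starF hM hB hmax hF0 hgen0 ξ η
    refine ⟨n, Int.cast_injective (α := ℂ) ?_⟩
    push_cast
    rw [← hn, classInner_starF hM hB hmax S4 id hS4D hF0 hcov0 hsep, hM1 ξ hξ η hη, hSe a haD,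
      hSe b hbD, hSe c hcD, hfour]
    simp only [id, F0, if_pos R.one_mem, if_pos haR, if_pos hbR, if_pos hcR, ct]
    ring
  have hmod4 : ∀ v ∈ R, v ≠ 1 → ¬ PairConj (M := M) 2 D e0 a v → ∀ ξ η,
      (4 : ℤ) ∣ S a ξ η - S v ξ η := by
    intro v hv hv1 hnav ξ η
    obtain ⟨n, hn⟩ := exists_int_starF hM hB hmax (hFd v) (hgend v hv hv1) ξ η
    refine ⟨n, Int.cast_injective (α := ℂ) ?_⟩
    have hne : a ≠ v := fun e => hnav (e ▸ PairConj.refl haD)
    push_cast
    rw [← hn, classInner_starF hM hB hmax ({a, v} : Finset G) id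
      (fun i hi => by
        rcases Finset.mem_insert.1 hi with rfl | hi
        · exact haD
        · rw [Finset.mem_singleton.1 hi]; exact hRD hv)
      (hFd v) (fun x _ hne' => by
        by_contra hcon
        push Not at hcon
        refine hne' ?_
        have h1 : ¬ PairConj (M := M) 2 D e0 a x := hcon a (by simp)
        have h2 : ¬ PairConj (M := M) 2 D e0 v x := hcon v (by simp)
        simp [Fd, ind, h1, h2])
      (fun i hi j hj h => by
        simp only [Finset.mem_insert, Finset.mem_singleton] at hi hj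
        simp only [id] at h
        rcases hi with rfl | rfl <;> rcases hj with rfl | rfl
        · rfl
        · exact absurd h hnav
        · exact absurd h.symm hnav
        · rfl),
      Finset.sum_pair hne, hSe a haD, hSe v (hRD hv)]
    simp only [id, Fd, ind, if_pos (PairConj.refl haD), if_pos (PairConj.refl (hRD hv)),
      if_neg hnav, if_neg (fun h : PairConj (M := M) 2 D e0 v a => hnav h.symm), ct]
    ring
  haveI : Fintype (IrrCharacter G) := Fintype.ofFinite _
  obtain ⟨χ0, hχ0, hh0⟩ := BrauerCharacters.exists_height_eq_zero (p := 2) (isPBlock_nonempty hB)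
  have hrow : ∀ v ∈ D, ∀ χ, ∑ φ : IrrCharacter G, S v χ φ * S v χ φ = 32 * S v χ χ := by
    intro v hv χ
    have h1 := sum_starF_sq_eq hM hB hmax ({v} : Finset G) id
      (fun i hi => by rw [Finset.mem_singleton.1 hi]; exact hv) (hFv v) (hgenv v)
      (fun x _ hne => ⟨v, Finset.mem_singleton_self v, by_contra fun h => hne (by
        simp [Fv, ind, if_neg (show ¬ PairConj (M := M) 2 D e0 v x from h)])⟩)
      (fun i hi j hj _ => (Finset.mem_singleton.1 hi).trans (Finset.mem_singleton.1 hj).symm)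
      (hS v χ)
    have h2 : ((∑ φ : IrrCharacter G, S v χ φ * S v χ φ : ℤ) : ℂ) =
        ((32 * S v χ χ : ℤ) : ℂ) := by
      rw [h1, Finset.sum_singleton, Int.cast_mul, hSe v hv]
      simp [Fv, ind, if_pos (PairConj.refl hv), ct, map_ofNat]
      ring
    exact_mod_cast h2
  have hzero : ∀ v ∈ D, ∀ χ φ, φ ∉ B → S v χ φ = 0 := by
    intro v hv χ φ hφ
    haveI := Fintype.ofFinite (Subgroup.centralizer ({v} : Set G))
    have h0 := BlockSections.secX_eq_zero_of_notMem_right (p := 2) v
      (belowBlock (M := M) 2 D e0 v) hM (BlockSections.isPElem_of_mem hM hB hmax hv)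
      (BlockSections.belowBlock_spec hM hB hmax hv).2.2 χ hφ
    refine Int.cast_injective (α := ℂ) ?_
    rw [hSe v hv, Int.cast_zero, show ct v χ φ = _ from cntr_eq_contrib hM hB hmax hv χ φ]
    have h1 : ((BlockSections.secX v (belowBlock (M := M) 2 D e0 v) 2 χ φ :
        BlockSections.secField v) : ℂ) = 0 := by rw [h0]; rfl
    rw [BlockSections.coe_secX, ← Nat.cast_pow, hdefv v hv] at h1
    exact_mod_cast h1
  have hvec : ∀ v ∈ R, v ≠ 1 → ∃ w : IrrCharacter G → ℤ,
      (∀ ξ ∈ blockFinset B, ∀ η ∈ blockFinset B, S v ξ η = w ξ * w η) ∧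
      ∑ ξ ∈ blockFinset B, w ξ * w ξ = 32 ∧ ¬ 2 ∣ w χ0 ∧
      ∀ ξ ∈ blockFinset B, w ξ ≠ 0 := by
    intro v hv hv1
    have hvD := hRD hv
    have hl : blockRank 2 (belowBlock (M := M) 2 D e0 v) = 1 :=
      le_antisymm (hle1 v hvD hv1 (hau v hv)) (hpos v hvD)
    have hodd : ¬ 2 ∣ S v χ0 χ0 := fun h => by
      refine not_memLocalIdeal_cntr hM hB hmax hvD hχ0 hh0 hχ0 hh0 ?_
      have h1 : ((2 : ℕ) : ℂ) ^ blockDefect 2 (belowBlock (M := M) 2 D e0 v) *
          cntr (M := M) 2 D e0 v χ0 χ0 = ((S v χ0 χ0 : ℤ) : ℂ) := by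
        rw [← Nat.cast_pow, hdefv v hvD, hSe v hvD]; norm_num [ct]
      rw [h1]
      exact (memLocalIdeal_intCast_iff hM _).2 (by exact_mod_cast h)
    have hdiag : ∀ ξ, 0 ≤ S v ξ ξ := fun ξ => by
      obtain ⟨r, hr, e⟩ := cntr_self_nonneg hM hB hmax hvD ξ
      have h1 : ((S v ξ ξ : ℝ) : ℂ) = ((32 * r : ℝ) : ℂ) := by
        push_cast; rw [hSe v hvD]; simp only [ct, e]
      have h2 := Complex.ofReal_injective h1
      have : (0 : ℝ) ≤ (S v ξ ξ : ℝ) := by rw [h2]; positivity
      exact_mod_cast this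
    have hsym : ∀ ξ η, S v ξ η = S v η ξ := fun ξ η => by
      have h1 : conj (ct v ξ η) = ct v η ξ := by
        haveI := Fintype.ofFinite (Subgroup.centralizer ({v} : Set G))
        simp only [ct, cntr_eq_contrib hM hB hmax hvD, BrauerCharacters.contrib, map_mul, map_sum,
          map_inv₀, map_natCast]
        congr 1
        refine Finset.sum_congr rfl fun s _ => ?_
        split_ifs <;> simp [mul_comm]
      refine Int.cast_injective (α := ℂ) ?_
      rw [← Complex.conj_ofReal (S v ξ η : ℝ) |> fun h => (show conj ((S v ξ η : ℤ) : ℂ) =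
        ((S v ξ η : ℤ) : ℂ) by exact_mod_cast h), hSe v hvD, hSe v hvD, map_mul, h1, map_ofNat]
    have htr : ∑ ξ ∈ blockFinset B, S v ξ ξ = 32 := by
      refine Int.cast_injective (α := ℂ) ?_
      push_cast
      rw [Finset.sum_congr rfl fun ξ _ => hSe v hvD ξ ξ, ← Finset.mul_sum,
        show ∑ ξ ∈ blockFinset B, ct v ξ ξ = _ from sum_cntr_self hM hB hmax hvD, hl]
      norm_num
    obtain ⟨w, hw⟩ := exists_vec_of_rank_one (blockFinset B) (S v)
      (fun x _ y _ => hsym x y) (fun x _ y _ z _ => Int.cast_injective (α := ℂ) (by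
        push_cast
        simp only [hSe v hvD, ct]
        linear_combination (1024 : ℂ) * cntr_rank_one hM hB hmax hvD hl x y z))
      htr (mem_blockFinset.2 hχ0) hodd (hdiag χ0)
    refine ⟨w, hw, ?_, fun h => hodd ?_, fun ξ hξ h => ?_⟩
    · rw [← htr]; exact Finset.sum_congr rfl fun ξ hξ => (hw ξ hξ ξ hξ).symm
    · rw [hw χ0 (mem_blockFinset.2 hχ0) χ0 (mem_blockFinset.2 hχ0)]; exact h.mul_right _
    · haveI := Fintype.ofFinite (Subgroup.centralizer ({v} : Set G))
      refine BlockSections.secX_self_ne_zero_of_major (p := 2) v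
        (belowBlock (M := M) 2 D e0 v) hM (BlockSections.isPElem_of_mem hM hB hmax hvD)
        (BlockSections.belowBlock_spec hM hB hmax hvD).2.2
        (Nat.pow_right_injective (le_refl 2) ((hdefv v hvD).trans hdefB.symm))
        (mem_blockFinset.1 hξ) (Subtype.ext ?_)
      rw [BlockSections.coe_secX, ← cntr_eq_contrib hM hB hmax hvD, ← Nat.cast_pow, hdefv v hvD]
      have h1 := hSe v hvD ξ ξ
      rw [hw ξ hξ ξ hξ, h] at h1
      simpa [ct] using h1.symm
  obtain ⟨va, hva, hna, hoa, hnza⟩ := hvec a haR ha1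
  -- align signs
  have halign : ∀ v ∈ R, v ≠ 1 → ¬ PairConj (M := M) 2 D e0 a v → ∃ w : IrrCharacter G → ℤ,
      (∀ ξ ∈ blockFinset B, ∀ η ∈ blockFinset B, S v ξ η = w ξ * w η) ∧
      ∑ ξ ∈ blockFinset B, w ξ * w ξ = 32 ∧
      ∀ ξ ∈ blockFinset B, (4 : ℤ) ∣ va ξ - w ξ := by
    intro v hv hv1 hnav
    obtain ⟨w, hw, hnw, how, -⟩ := hvec v hv hv1
    have hχm := mem_blockFinset.2 hχ0
    obtain ⟨l, hl, hl0⟩ : ∃ l : ℤ, l * l = 1 ∧ (4 : ℤ) ∣ va χ0 - l * w χ0 := by
      by_cases h : (4 : ℤ) ∣ va χ0 - w χ0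
      · exact ⟨1, one_mul 1, by rwa [one_mul]⟩
      · exact ⟨-1, by norm_num, by omega⟩
    refine ⟨fun ξ => l * w ξ, fun ξ hξ η hη => ?_, ?_, fun ξ hξ => ?_⟩
    · rw [hw ξ hξ η hη]; linear_combination (-(w ξ * w η)) * hl
    · rw [← hnw]; exact Finset.sum_congr rfl fun ξ _ => by linear_combination (w ξ * w ξ) * hl
    · have h1 := hmod4 v hv hv1 hnav ξ χ0
      rw [hva ξ hξ χ0 hχm, hw ξ hξ χ0 hχm] at h1
      have h2 : (4 : ℤ) ∣ (va ξ - l * w ξ) * va χ0 := by
        obtain ⟨i, hi⟩ := h1
        obtain ⟨j, hj⟩ := hl0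
        exact ⟨i - l * w ξ * j, by linear_combination hi - (l * w ξ) * hj + (-(w ξ * w χ0)) * hl⟩
      refine (IsCoprime.dvd_of_dvd_mul_right ?_ h2)
      rw [Int.isCoprime_iff_gcd_eq_one, Int.gcd_def]
      exact Nat.Coprime.pow_left 2 (Nat.coprime_two_left.2
        (Int.natAbs_odd.2 (Int.not_even_iff_odd.1 fun he => hoa (even_iff_two_dvd.1 he))))
  obtain ⟨vb, hvb, hnb, hcb⟩ := halign b hbR hb1 nab
  obtain ⟨vc, hvc, hnc, hcc⟩ := halign c hcR hc1 nac
  have horth : ∀ v w, ∀ (x y : IrrCharacter G → ℤ), v ∈ R → w ∈ R →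
      ¬ PairConj (M := M) 2 D e0 v w →
      (∀ ξ ∈ blockFinset B, ∀ η ∈ blockFinset B, S v ξ η = x ξ * x η) →
      (∀ ξ ∈ blockFinset B, ∀ η ∈ blockFinset B, S w ξ η = y ξ * y η) →
      x χ0 ≠ 0 → y χ0 ≠ 0 → ∑ ξ ∈ blockFinset B, x ξ * y ξ = 0 := by
    intro v w x y hv hw hnvw hx hy hx0 hy0
    have hsum := sum_starF_sq_eq hM hB hmax ({v, w} : Finset G) id
      (fun i hi => by
        rcases Finset.mem_insert.1 hi with rfl | hi
        · exact hRD hv
        · rw [Finset.mem_singleton.1 hi]; exact hRD hw)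
      (F := fun z => Fv v z + Fv w z)
      (fun p q h => by simp only [hFv v p q h, hFv w p q h])
      (isGen_of_transform hcard hexp (fun z => Fv v z + Fv w z)
        (fun z => 32 * ((if PairConj (M := M) 2 D e0 v (z : G) then 1 else 0) +
          if PairConj (M := M) 2 D e0 w (z : G) then 1 else 0))
        (fun z => by simp only [Fv, ind]; split_ifs <;> norm_num) fun μ => by
          simp only [mul_assoc, ← Finset.mul_sum]
          exact dvd_mul_right _ _)
      (fun z _ hne => by
        by_contra hcon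
        push Not at hcon
        have h1 : ¬ PairConj (M := M) 2 D e0 v z := hcon v (by simp)
        have h2 : ¬ PairConj (M := M) 2 D e0 w z := hcon w (by simp)
        exact hne (by simp [Fv, ind, h1, h2]))
      (fun i hi j hj h => by
        simp only [Finset.mem_insert, Finset.mem_singleton] at hi hj
        simp only [id] at h
        rcases hi with rfl | rfl <;> rcases hj with rfl | rfl
        · rfl
        · exact absurd h hnvw
        · exact absurd h.symm hnvw
        · rfl)
      (χ := χ0) (n := fun φ => S v χ0 φ + S w χ0 φ) (fun φ => by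
        push_cast
        rw [hSe v (hRD hv), hSe w (hRD hw)]
        rw [classInner_starF hM hB hmax ({v, w} : Finset G) id ?_ ?_ ?_ ?_,
          Finset.sum_pair (fun e => hnvw (by subst e; exact PairConj.refl (hRD hv)))]
        · simp [Fv, ind, if_pos (PairConj.refl (hRD hv)), if_pos (PairConj.refl (hRD hw)),
            if_neg hnvw, if_neg (fun h : PairConj (M := M) 2 D e0 w v => hnvw h.symm), ct]
        · intro i hi
          rcases Finset.mem_insert.1 hi with rfl | hi
          · exact hRD hv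
          · rw [Finset.mem_singleton.1 hi]; exact hRD hw
        · exact fun p q h => by simp only [hFv v p q h, hFv w p q h]
        · intro z _ hne
          by_contra hcon
          push Not at hcon
          have h1 : ¬ PairConj (M := M) 2 D e0 v z := hcon v (by simp)
          have h2 : ¬ PairConj (M := M) 2 D e0 w z := hcon w (by simp)
          exact hne (by simp [Fv, ind, h1, h2])
        · intro i hi j hj h
          simp only [Finset.mem_insert, Finset.mem_singleton] at hi hj
          simp only [id] at h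
          rcases hi with rfl | rfl <;> rcases hj with rfl | rfl
          · rfl
          · exact absurd h hnvw
          · exact absurd h.symm hnvw
          · rfl)
    have hcast : ((∑ φ : IrrCharacter G, (S v χ0 φ + S w χ0 φ) * (S v χ0 φ + S w χ0 φ) : ℤ) : ℂ) =
        ((32 * S v χ0 χ0 + 32 * S w χ0 χ0 : ℤ) : ℂ) := by
      rw [hsum, Finset.sum_pair (fun e => hnvw (by subst e; exact PairConj.refl (hRD hv))), Int.cast_add,
        Int.cast_mul, Int.cast_mul, hSe v (hRD hv), hSe w (hRD hw)]
      simp [Fv, ind, if_pos (PairConj.refl (hRD hv)), if_pos (PairConj.refl (hRD hw)),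
        if_neg hnvw, if_neg (fun h : PairConj (M := M) 2 D e0 w v => hnvw h.symm), ct, map_ofNat]
      ring
    have hint := Int.cast_injective (α := ℂ) hcast
    rw [Finset.sum_congr rfl (g := fun φ => S v χ0 φ * S v χ0 φ + S w χ0 φ * S w χ0 φ +
      2 * (S v χ0 φ * S w χ0 φ)) fun φ _ => by ring] at hint
    simp only [Finset.sum_add_distrib, ← Finset.mul_sum, hrow v (hRD hv), hrow w (hRD hw)] at hint
    have h3 : ∑ φ : IrrCharacter G, S v χ0 φ * S w χ0 φ = 0 := by linarith
    rw [← Finset.sum_subset (Finset.subset_univ (blockFinset B)) fun φ _ hφ => by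
      rw [hzero v (hRD hv) χ0 φ (fun h => hφ (mem_blockFinset.2 h)), zero_mul]] at h3
    rw [Finset.sum_congr rfl (g := fun φ => x χ0 * y χ0 * (x φ * y φ)) fun φ hφ => by
      rw [hx χ0 (mem_blockFinset.2 hχ0) φ hφ, hy χ0 (mem_blockFinset.2 hχ0) φ hφ]; ring,
      ← Finset.mul_sum] at h3
    exact (mul_eq_zero.1 h3).resolve_left (mul_ne_zero hx0 hy0)
  have ha0 : va χ0 ≠ 0 := fun h => hoa (by rw [h]; exact dvd_zero 2)
  have hb0 : vb χ0 ≠ 0 := fun h => hoa (by
    have := hcb χ0 (mem_blockFinset.2 hχ0); rw [h] at this; omega)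
  have hc0 : vc χ0 ≠ 0 := fun h => hoa (by
    have := hcc χ0 (mem_blockFinset.2 hχ0); rw [h] at this; omega)
  constructor
  · have hk16 := card_le_of_three_vectors (blockFinset B) va vb vc hna hnb hnc
      (horth a b va vb haR hbR nab hva hvb ha0 hb0) (horth a c va vc haR hcR nac hva hvc ha0 hc0)
      (horth b c vb vc hbR hcR nbc hvb hvc hb0 hc0) hnza hcb hcc
    rw [BrauerCharacters.card_blockFinset] at hk16
    have hcount := BlockSections.card_block_mul_card_stab hM hB hmax hab
    set U := Finset.univ.filter (fun v : G => v ∈ D ∧ v ≠ 1) with hU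
    have hlu : blockRank 2 (belowBlock (M := M) 2 D e0 u) = blockRank 2 B :=
      (fixedRank hM G B D e0 hB hmax hab u hu fun t _ => by
        rw [Subgroup.mem_center_iff.1 huc, mul_inv_cancel_right]).symm
    have hu1 : u ≠ 1 := fun e => huR (e ▸ R.one_mem)
    have huU : u ∈ U := Finset.mem_filter.2 ⟨Finset.mem_univ _, hu, hu1⟩
    have hTu : T ⊓ Subgroup.centralizer ({u} : Set G) = T :=
      inf_eq_left.2 fun t _ => Subgroup.mem_centralizer_singleton_iff.2
        (Subgroup.mem_center_iff.1 huc t)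
    have hfive : ∀ v ∈ D, Nat.card T ≤
        5 * Nat.card ↥(T ⊓ Subgroup.centralizer ({v} : Set G)) := by
      intro v hv
      have hrep : ∀ t : T, ∃ i : Fin 5, (s ^ (i : ℕ))⁻¹ * (t : G) ∈
          T ⊓ Subgroup.centralizer ({v} : Set G) := by
        intro t
        obtain ⟨k, hk⟩ := hT t t.2
        refine ⟨⟨k % 5, Nat.mod_lt _ (by norm_num)⟩, Subgroup.mem_inf.2
          ⟨mul_mem (inv_mem (hpwT _)) t.2, Subgroup.mem_centralizer_singleton_iff.2 ?_⟩⟩
        refine mul_inv_eq_iff_eq_mul.1 ?_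
        have h1 : (t : G) * v * (t : G)⁻¹ = pw (k % 5) v := (hk v hv).trans (hpw5 k v hv)
        calc (s ^ (k % 5))⁻¹ * (t : G) * v * ((s ^ (k % 5))⁻¹ * (t : G))⁻¹
            = (s ^ (k % 5))⁻¹ * ((t : G) * v * (t : G)⁻¹) * s ^ (k % 5) := by group
          _ = v := by rw [h1]; simp only [pw]; group
      choose i hi using hrep
      refine (Nat.card_le_card_of_injective (fun t : T =>
        (i t, (⟨_, hi t⟩ : ↥(T ⊓ Subgroup.centralizer ({v} : Set G))))) fun t t' h => ?_).trans_eq
        (by rw [Nat.card_prod, Nat.card_fin])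
      simp only [Prod.mk.injEq, Subtype.mk.injEq] at h
      rw [h.1] at h
      exact Subtype.ext (mul_left_cancel h.2)
    have hlow : (U.erase u).card * Nat.card T ≤ 5 * ∑ v ∈ U.erase u,
        Nat.card ↥(T ⊓ Subgroup.centralizer ({v} : Set G)) *
          blockRank 2 (belowBlock (M := M) 2 D e0 v) := by
      rw [← smul_eq_mul, ← Finset.sum_const, Finset.mul_sum]
      refine Finset.sum_le_sum fun v hv => ?_
      have hvD := (Finset.mem_filter.1 (Finset.mem_of_mem_erase hv)).2.1
      refine (hfive v hvD).trans (Nat.mul_le_mul_left 5 ?_)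
      exact Nat.le_mul_of_pos_right _ (hpos v hvD)
    have hUcard : (U.erase u).card = 30 := by
      have h1 : (Finset.univ.filter fun x : G => x ∈ D) = insert 1 U := by
        ext x
        simp only [U, Finset.mem_insert, Finset.mem_filter, Finset.mem_univ, true_and]
        by_cases hx : x = 1
        · simp [hx, D.one_mem]
        · simp [hx]
      have h2 : (Finset.univ.filter fun x : G => x ∈ D).card = 32 := by
        rw [← hcard, Nat.card_eq_fintype_card]
        exact (Fintype.card_subtype _).symm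
      rw [h1, Finset.card_insert_of_notMem (by simp [U])] at h2
      rw [Finset.card_erase_of_mem huU]
      omega
    rw [← Finset.add_sum_erase _ _ huU, hTu, hlu] at hcount
    rw [hUcard] at hlow
    have hTpos : 0 < Nat.card T := Nat.card_pos
    by_contra hgt
    have h6 : (6 + 2 * blockRank 2 B) * Nat.card T ≤ Nat.card B * Nat.card T := by
      rw [hcount, add_mul]
      nlinarith
    have := Nat.le_of_mul_le_mul_right h6 hTpos
    omega
  · intro y hodd
    set Q := ∑ ξ ∈ blockFinset B, ∑ η ∈ blockFinset B, y ξ * y η * regEntry 2 B ξ η with hQ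
    let X : (IrrCharacter G → ℤ) → ℤ := fun w => ∑ ξ ∈ blockFinset B, y ξ * w ξ
    have hX : ∀ v (w : IrrCharacter G → ℤ),
        (∀ ξ ∈ blockFinset B, ∀ η ∈ blockFinset B, S v ξ η = w ξ * w η) →
        ∑ ξ ∈ blockFinset B, ∑ η ∈ blockFinset B, y ξ * y η * S v ξ η = X w * X w := by
      intro v w hw
      simp only [X, Finset.sum_mul_sum]
      exact Finset.sum_congr rfl fun ξ hξ => Finset.sum_congr rfl fun η hη => by
        rw [hw ξ hξ η hη]; ring
    have h16 : (16 : ℤ) ∣ Q + X va * X va + X vb * X vb + X vc * X vc := by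
      rw [← hX a va hva, ← hX b vb hvb, ← hX c vc hvc, hQ, ← Finset.sum_add_distrib,
        ← Finset.sum_add_distrib, ← Finset.sum_add_distrib]
      refine Finset.dvd_sum fun ξ hξ => ?_
      rw [← Finset.sum_add_distrib, ← Finset.sum_add_distrib, ← Finset.sum_add_distrib]
      refine Finset.dvd_sum fun η hη => ?_
      rw [← mul_add, ← mul_add, ← mul_add]
      exact (hmod16 ξ hξ η hη).mul_left _
    have hcong : ∀ w : IrrCharacter G → ℤ, (∀ ξ ∈ blockFinset B, (4 : ℤ) ∣ va ξ - w ξ) →
        (2 : ℤ) ∣ X va - X w := fun w hw => by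
      simp only [X, ← Finset.sum_sub_distrib]
      refine Finset.dvd_sum fun ξ hξ => ?_
      rw [← mul_sub]
      exact ((show (2 : ℤ) ∣ 4 by norm_num).trans (hw ξ hξ)).mul_left _
    obtain ⟨i, hi⟩ := hcong vb hcb
    obtain ⟨j, hj⟩ := hcong vc hcc
    obtain ⟨q, hq⟩ := h16
    have hXodd : ¬ (2 : ℤ) ∣ X va := by
      rintro ⟨z, hz⟩
      refine hodd ⟨8 * q - 2 * z * z - 2 * (z - i) * (z - i) - 2 * (z - j) * (z - j), ?_⟩
      have e1 : X vb = 2 * (z - i) := by linear_combination hz - hi
      have e2 : X vc = 2 * (z - j) := by linear_combination hz - hj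
      rw [hz, e1, e2] at hq
      linear_combination hq
    have hsq : ∀ x : ℤ, ¬ (2 : ℤ) ∣ x → (8 : ℤ) ∣ x * x - 1 := fun x hx => by
      obtain ⟨z, rfl⟩ : ∃ z, x = 2 * z + 1 := ⟨x / 2, by omega⟩
      obtain ⟨w, hw⟩ := Int.even_mul_succ_self z
      exact ⟨w, by linear_combination (4 : ℤ) * hw⟩
    have h1 := hsq _ hXodd
    have h2 := hsq (X vb) (by omega)
    have h3 := hsq (X vc) (by omega)
    omega

end CfsgLib.OlssonSmall
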