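import Cfsg.Agent.Lib.OlssonSmall.AbelianAut
import Cfsg.Agent.Lib.OlssonSmall.OrbitFive
import Cfsg.Agent.Lib.OlssonSmall.Nonabelian
import Cfsg.Agent.Lib.BlockStar.Multiplicity

/-!
# Height zero characters of blocks with abelian defect groups of order at most 32
-/

set_option autoImplicit false
set_option linter.style.haveILetI false
set_option linter.unusedSectionVars false

noncomputable section

namespace CfsgLib.OlssonSmall

open Cfsg CfsgLib.Blocks MonoidAlgebra CfsgLib.BrauerPairs CfsgLib.BlockStar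
open CfsgLib.BrauerCharacters (cenElem commute_cenElem blockFinset mem_blockFinset regEntry
  centralVal centralVal_spec)
open CfsgLib.BlockSections (belowBlock)
open scoped ComplexConjugate

universe w

variable {G : Type w} [Group G] [Fintype G] {D : Subgroup G} {M : Ideal AlgInt} [M.IsPrime]
  [Fact (Nat.Prime 2)] [CharP (Res M) 2] [IsAlgClosed (Res M)] [M.IsMaximal]
  {B : Set (IrrCharacter G)} {e0 : MonoidAlgebra (Res M) G}
  (hM : IsPModular 2 M) (hB : IsPBlock M B)
  (hmax : IsMaxPair 2 (⊤ : Subgroup G) (redElem M (blockCoeff B)) D e0)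
  (hab : ∀ x ∈ D, ∀ y ∈ D, x * y = y * x)
include hM hB hmax hab

/-- The automorphisms of the defect group from the stabiliser form a group of odd order. -/
theorem odd_card_stabAut : Odd (Nat.card (stabAut (⊤ : Subgroup G) D e0).range) := by
  have hb := isBlockIdem_redElem_blockCoeff (M := M) hB
  have h3 := hmax.not_dvd_relIndex hb
  rw [sup_eq_right.2 (le_inf le_top fun u hu =>
    Subgroup.mem_centralizer_iff.2 fun v hv => hab v hv u hu)] at h3
  rw [← Subgroup.index_ker, ker_stabAut, ← Nat.not_even_iff_odd, even_iff_two_dvd]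
  exact h3

/-- A central-valued scalar of an involution is a sign. -/
theorem exists_sign {C : Type*} [Group C] [Finite C] {z : C} (hz : ∀ c : C, Commute z c)
    (h2 : orderOf z = 2) (ξ : IrrCharacter C) : ∃ ε : ℤ, (ε : ℂ) = centralVal (ξ : C → ℂ) z := by
  have h := (centralVal_spec ξ hz).1
  rw [h2, sq] at h
  rcases mul_self_eq_one_iff.1 h with h | h
  · exact ⟨1, by rw [h, Int.cast_one]⟩
  · exact ⟨-1, by rw [h, Int.cast_neg, Int.cast_one]⟩

/-- The case of an involution with a stabiliser of order five. -/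
theorem k0_le_of_orbit_five (hcard : Nat.card D = 32) (hexp : ∀ x ∈ D, x * x = 1)
    {u : G} (hu : u ∈ D) (R : Subgroup G) (hRD : R ≤ D) (hR : Nat.card R = 16) (huR : u ∉ R)
    (s : G) (hs : s ∈ pairStab (⊤ : Subgroup G) D e0) (hsu : s * u * s⁻¹ = u)
    (hs5 : ∀ d ∈ D, s ^ 5 * d * (s ^ 5)⁻¹ = d) (hsR : ∀ r ∈ R, s * r * s⁻¹ ∈ R)
    (hfpf : ∀ r ∈ R, s * r * s⁻¹ = r → r = 1)
    (hT : ∀ t ∈ pairStab (⊤ : Subgroup G) D e0, t * u * t⁻¹ = u → ∃ k : ℕ, ∀ d ∈ D,
      t * d * t⁻¹ = s ^ k * d * (s ^ k)⁻¹) :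
    Nat.card {χ : IrrCharacter G // χ ∈ B ∧ blockHeight 2 B (χ : G → ℂ) = 0} ≤ 32 := by
  classical
  have hb := isBlockIdem_redElem_blockCoeff (M := M) hB
  set K := Subgroup.centralizer ({u} : Set G) with hK
  haveI := Fintype.ofFinite K
  set b := belowBlock (M := M) 2 D e0 u with hbdef
  obtain ⟨hbl, -, hind⟩ := BlockSections.belowBlock_spec hM hB hmax hu
  obtain ⟨e', he', hmax'⟩ := exists_local hM hB hmax hab hu
  have hDK : D ≤ K := le_centralizer_of_mem hab hu
  have hu2 : orderOf u = 2 := orderOf_eq_prime (by rw [pow_two]; exact hexp u hu)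
    (fun h => huR (h ▸ R.one_mem))
  have hcen : ∀ c : K, Commute (cenElem u) c := commute_cenElem u
  obtain ⟨hl5, hQ⟩ := orbitFive (G := K) (D := D.subgroupOf K) hM hbl hmax'
    (by rw [Nat.card_congr (Subgroup.subgroupOfEquivOfLe hDK).toEquiv, hcard])
    (fun x hx => Subtype.ext (hexp x hx)) (u := cenElem u) hu
    (Subgroup.mem_center_iff.2 fun g => (hcen g).eq.symm) (R.subgroupOf K)
    (fun x hx => hRD hx)
    (by rw [Nat.card_congr (Subgroup.subgroupOfEquivOfLe (hRD.trans hDK)).toEquiv, hR]) huR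
    ⟨s, Subgroup.mem_centralizer_singleton_iff.2 (mul_inv_eq_iff_eq_mul.1 hsu)⟩
    ((mem_pairStab_local hab hu he' _).2 hs) (fun d hd => Subtype.ext (hs5 d hd))
    (fun r hr => hsR r hr) (fun r hr h => Subtype.ext (hfpf r hr (congrArg Subtype.val h)))
    (fun t ht => by
      obtain ⟨k, hk⟩ := hT t ((mem_pairStab_local hab hu he' t).1 ht)
        (mul_inv_eq_iff_eq_mul.2 (Subgroup.mem_centralizer_singleton_iff.1 t.2))
      exact ⟨k, fun d hd => Subtype.ext (hk d hd)⟩)
  have hd : 2 ^ blockDefect 2 b = 32 := by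
    refine le_antisymm (pow_defect_le hM hB hmax hu fun w _ => ?_) ?_
    · exact (Subgroup.card_le_of_le inf_le_left).trans hcard.le
    · refine le_trans ?_ (card_le_pow_defect hM hB hmax hu)
      rw [inf_eq_left.2 hDK, hcard]
  choose ε hε using exists_sign (G := G) hM hB hmax hab hcen
    (by rw [← Subgroup.orderOf_coe]; exact hu2)
  set Q : IrrCharacter G → ℤ := fun χ => ∑ ξ ∈ blockFinset b, ∑ η ∈ blockFinset b,
    (BrauerCharacters.resMult u χ ξ * ε ξ) * (BrauerCharacters.resMult u χ η * ε η) *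
      regEntry 2 b ξ η with hQdef
  have hQc : ∀ χ, (32 : ℂ) * cntr (M := M) 2 D e0 u χ χ = (Q χ : ℂ) := by
    intro χ
    rw [cntr_eq_contrib hM hB hmax hu, ← hbdef, show (32 : ℂ) = ((2 : ℕ) : ℂ) ^ blockDefect 2 b by
      rw [← Nat.cast_pow, hd]; norm_num, BrauerCharacters.pow_mul_contrib]
    simp only [hQdef, Int.cast_sum, Int.cast_mul, BrauerCharacters.secCoeff, ← hε, map_intCast]
    exact Finset.sum_congr rfl fun ξ _ => Finset.sum_congr rfl fun η _ => by ring
  have hQ0 : ∀ χ, 0 ≤ Q χ := by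
    intro χ
    obtain ⟨r, hr, e⟩ := cntr_self_nonneg hM hB hmax hu χ
    have h1 := hQc χ
    rw [e] at h1
    have h2 : (32 * r : ℝ) = (Q χ : ℝ) := by exact_mod_cast h1
    have : (0 : ℝ) ≤ (Q χ : ℝ) := by rw [← h2]; positivity
    exact_mod_cast this
  set S := (blockFinset B).filter fun χ : IrrCharacter G => blockHeight 2 B (χ : G → ℂ) = 0 with hS
  have hS5 : ∀ χ ∈ S, 5 ≤ Q χ := by
    intro χ hχ
    obtain ⟨hχB, hχ0⟩ := Finset.mem_filter.1 hχ
    have hodd : ¬ (2 : ℤ) ∣ Q χ := fun h => by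
      refine not_memLocalIdeal_cntr hM hB hmax hu (mem_blockFinset.1 hχB) hχ0
        (mem_blockFinset.1 hχB) hχ0 ?_
      rw [← Nat.cast_pow, ← hbdef, hd, show ((32 : ℕ) : ℂ) = 32 by norm_num, hQc]
      exact (memLocalIdeal_intCast_iff hM _).2 (by exact_mod_cast h)
    have := hQ (fun ξ => BrauerCharacters.resMult u χ ξ * ε ξ) hodd
    have h0 := hQ0 χ
    change (8 : ℤ) ∣ Q χ - 5 at this
    omega
  have hsum : ∑ χ ∈ blockFinset B, Q χ = 32 * (blockRank 2 b : ℤ) := by
    refine Int.cast_injective (α := ℂ) ?_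
    push_cast
    rw [Finset.sum_congr rfl fun χ _ => (hQc χ).symm, ← Finset.mul_sum,
      sum_cntr_self hM hB hmax hu, ← hbdef]
  have hk : Nat.card {χ : IrrCharacter G // χ ∈ B ∧ blockHeight 2 B (χ : G → ℂ) = 0} = S.card := by
    haveI := Fintype.ofFinite (IrrCharacter G)
    exact Nat.subtype_card S fun χ => by simp [S]
  rw [hk]
  have h1 : (5 : ℤ) * S.card ≤ ∑ χ ∈ blockFinset B, Q χ := by
    rw [mul_comm, ← nsmul_eq_mul, ← Finset.sum_const]
    exact (Finset.sum_le_sum hS5).trans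
      (Finset.sum_le_sum_of_subset_of_nonneg (Finset.filter_subset _ _) fun χ _ _ => hQ0 χ)
  rw [hsum] at h1
  have h5 : blockRank 2 b ≤ 5 := hl5
  omega

/-- Olsson's bound for abelian defect groups of order at most 32. -/
theorem k0_le_card_of_abelian (h32 : Nat.card D ≤ 32) :
    Nat.card {χ : IrrCharacter G // χ ∈ B ∧ blockHeight 2 B (χ : G → ℂ) = 0} ≤ Nat.card D := by
  classical
  have hdle : ∀ v ∈ D, 2 ^ blockDefect 2 (belowBlock (M := M) 2 D e0 v) ≤ Nat.card D := fun v hv =>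
    pow_defect_le hM hB hmax hv fun w _ => Subgroup.card_le_of_le inf_le_left
  by_cases hbig : ∃ v ∈ D, Nat.card D ≤ 4 * orderOf v
  · obtain ⟨v, hv, hle⟩ := hbig
    exact k0_le_of_defect hM hB hmax hv (hdle v hv) hle
  push Not at hbig
  obtain ⟨n, hn⟩ := IsPGroup.iff_card.1 hmax.1.1.1
  have hc : Nat.card D = 16 ∨ Nat.card D = 32 := by
    have h1 := hbig 1 D.one_mem
    rw [orderOf_one, hn] at h1
    rw [hn] at h32 ⊢
    have h5 : n ≤ 5 := (Nat.pow_le_pow_iff_right (le_refl 2)).1 (by simpa using h32)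
    interval_cases n
    all_goals first
      | omega
      | skip
    -- order eight: any involution has order two
    exfalso
    obtain ⟨v, hv⟩ := exists_prime_orderOf_dvd_card' (G := D) 2 (by rw [hn]; norm_num)
    have h2 := hbig v v.2
    rw [hn, Subgroup.orderOf_coe, hv] at h2
    omega
  letI : CommGroup D := { (inferInstance : Group D) with
    mul_comm := fun x y => Subtype.ext (hab x x.2 y y.2) }
  set E := (stabAut (⊤ : Subgroup G) D e0).range with hE
  obtain ⟨u, h | h⟩ := exists_good_element_abelian E (odd_card_stabAut hM hB hmax hab) hc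
    (fun x => by have := hbig x x.2; rwa [Subgroup.orderOf_coe] at this)
  · obtain ⟨W, hW, hfix⟩ := h
    refine le_trans ?_ (hdle u u.2)
    refine k0_le_of_rank hM hB hmax u.2 ?_
    refine (blockRank_below_le_of_fixed hM hB hmax hab u.2 (W.map D.subtype)
      (Subgroup.map_subtype_le W) ?_).1
      (by rwa [Subgroup.card_map_of_injective D.subtype_injective])
    rintro t ht htu _ ⟨v, hv, rfl⟩
    exact congrArg Subtype.val (hfix (stabAut (⊤ : Subgroup G) D e0 ⟨t, ht⟩) ⟨_, rfl⟩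
      (Subtype.ext htu) v hv)
  · obtain ⟨hc32, hV, R, s, hsE, hR, huR, hs5, hsR, hfpf, hsu, hcyc⟩ := h
    obtain ⟨s0, hs0⟩ := hsE
    rw [hc32]
    have hact : ∀ (k : ℕ) (d : D), (((s ^ k) d : D) : G) = (s0 : G) ^ k * d * ((s0 : G) ^ k)⁻¹ := by
      intro k d
      rw [← hs0, ← map_pow, coe_stabAut, SubgroupClass.coe_pow]
    refine k0_le_of_orbit_five hM hB hmax hab hc32 (fun x hx => congrArg Subtype.val (hV ⟨x, hx⟩))
      u.2 (R.map D.subtype) (Subgroup.map_subtype_le R)
      (by rw [Subgroup.card_map_of_injective D.subtype_injective, hR]) ?_ s0 s0.2 ?_ ?_ ?_ ?_ ?_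
    · exact fun h => huR ((Subgroup.mem_map_iff_mem D.subtype_injective).1 h)
    · have := congrArg Subtype.val hsu
      rwa [← hs0, coe_stabAut] at this
    · intro d hd
      have h1 := hact 5 ⟨d, hd⟩
      rw [show s ^ 5 = 1 by rw [← hs5, pow_orderOf_eq_one], MulAut.one_apply] at h1
      exact h1.symm
    · rintro _ ⟨r, hr, rfl⟩
      refine ⟨s r, hsR r hr, ?_⟩
      rw [← hs0]
      rfl
    · rintro _ ⟨r, hr, rfl⟩ h
      have h1 : s r = r := Subtype.ext (by rw [← hs0, coe_stabAut]; exact h)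
      exact congrArg Subtype.val (hfpf r hr h1)
    · intro t ht htu
      obtain ⟨k, hk⟩ := mem_powers_iff_mem_zpowers.2 (hcyc (stabAut (⊤ : Subgroup G) D e0 ⟨t, ht⟩)
        ⟨_, rfl⟩ (Subtype.ext htu))
      refine ⟨k, fun d hd => ?_⟩
      rw [← hact k ⟨d, hd⟩]
      change s ^ k = _ at hk
      rw [hk, coe_stabAut]

end CfsgLib.OlssonSmall
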