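import Cfsg.Agent.Lib.OlssonSmall.ElementaryOdd

/-!
# Odd groups of automorphisms of abelian groups of order 16 or 32 and exponent four

Some element has a stabiliser fixing a subgroup of index at most four, or the group is elementary
of order 32 with a stabiliser of order five.
-/

set_option autoImplicit false

noncomputable section

namespace CfsgLib.OlssonSmall

open Subgroup

variable {V : Type*} [CommGroup V] [Finite V]

/-- An automorphism of odd order fixes whatever its square fixes. -/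
theorem apply_eq_of_sq_apply {e : MulAut V} (he : Odd (orderOf e)) {a : V} (h : e (e a) = a) :
    e a = a := by
  have h2 : ∀ k : ℕ, (e ^ (2 * k)) a = a := by
    intro k
    induction k with
    | zero => simp
    | succ k ih =>
      rw [show 2 * (k + 1) = 1 + (1 + 2 * k) by ring, pow_add, pow_add, pow_one, MulAut.mul_apply,
        MulAut.mul_apply, ih, h]
  obtain ⟨k, hk⟩ := he
  have h1 : (e ^ (2 * k + 1)) a = a := by rw [← hk, pow_orderOf_eq_one, MulAut.one_apply]
  rw [pow_succ', MulAut.mul_apply, h2] at h1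
  exact h1

/-- The order of an element of a group of odd order is odd. -/
theorem odd_orderOf_of_mem {E : Subgroup (MulAut V)} (hodd : Odd (Nat.card E)) {e : MulAut V}
    (he : e ∈ E) : Odd (orderOf e) := by
  refine odd_of_dvd hodd ?_
  rw [← Nat.card_zpowers]
  exact card_dvd_of_le (zpowers_le.2 he)

/-- Twice a proper subgroup, in a group whose order is a power of two. -/
theorem two_mul_card_le {n : ℕ} (hn : Nat.card V = 2 ^ n) {H K : Subgroup V} (h : H < K) :
    2 * Nat.card H ≤ Nat.card K := by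
  obtain ⟨i, -, hi⟩ := (Nat.dvd_prime_pow Nat.prime_two).1 (hn ▸ card_subgroup_dvd_card H)
  obtain ⟨j, -, hj⟩ := (Nat.dvd_prime_pow Nat.prime_two).1 (hn ▸ card_subgroup_dvd_card K)
  have hlt : Nat.card H < Nat.card K := by
    refine lt_of_le_of_ne (card_le_of_le h.le) fun he => h.ne ?_
    exact eq_of_le_of_card_ge h.le he.ge
  rw [hi, hj] at hlt ⊢
  rw [← pow_succ']
  exact Nat.pow_le_pow_right two_pos ((Nat.pow_lt_pow_iff_right (le_refl 2)).1 hlt)

/-- Exponent four: an element whose stabiliser fixes a subgroup of index at most four. -/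
theorem exists_good_element_four (E : Subgroup (MulAut V)) (hodd : Odd (Nat.card E))
    (hc : Nat.card V = 32) (h4 : ∀ x : V, x ^ 4 = 1) {u0 : V} (hu0 : u0 * u0 ≠ 1) :
    ∃ u : V, ∃ W : Subgroup V, Nat.card V ≤ 4 * Nat.card W ∧
      ∀ e ∈ E, e u = u → ∀ w ∈ W, e w = w := by
  let sq : V →* V := powMonoidHom 2
  have hsq : ∀ x : V, sq x = x * x := fun x => pow_two x
  set O := sq.ker with hOdef
  set Φ := sq.range with hΦdef
  have hΦO : Φ ≤ O := by
    rintro _ ⟨x, rfl⟩
    rw [MonoidHom.mem_ker, hsq, hsq, ← h4 x, show (4 : ℕ) = 2 + 2 from rfl, pow_add, pow_two]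
  have hmul : Nat.card O * Nat.card Φ = 32 := by
    rw [← hc, ← card_mul_index O, hOdef, index_ker, hΦdef]
  have hmemO : ∀ {x : V}, x ∈ O ↔ x * x = 1 := fun {x} => by rw [MonoidHom.mem_ker, hsq]
  have hu0O : u0 ∉ O := fun h => hu0 (hmemO.1 h)
  have hinvΦ : ∀ e ∈ E, ∀ x ∈ Φ, e x ∈ Φ := by
    rintro e - _ ⟨x, rfl⟩
    exact ⟨e x, by rw [hsq, hsq, map_mul]⟩
  obtain ⟨i, -, hi⟩ := (Nat.dvd_prime_pow Nat.prime_two).1
    (show Nat.card Φ ∣ 2 ^ 5 from Dvd.intro_left _ hmul)
  have hle : Nat.card Φ ≤ Nat.card O := card_le_of_le hΦO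
  have hzΦ : u0 * u0 ∈ Φ := ⟨u0, hsq u0⟩
  have hΦ2 : Nat.card Φ ≠ 1 := fun h => hu0 (by
    have := (Nat.card_eq_one_iff_unique.1 h).1
    exact congrArg Subtype.val (Subsingleton.elim (⟨_, hzΦ⟩ : Φ) 1))
  obtain h2 | h4' : Nat.card Φ = 2 ∧ Nat.card O = 16 ∨ Nat.card Φ = 4 ∧ Nat.card O = 8 := by
    rw [hi] at hmul hle hΦ2 ⊢
    rcases i with _ | _ | _ | i
    · simp at hΦ2
    · left; omega
    · right; omega
    · have : 8 ≤ 2 ^ (i + 1 + 1 + 1) := Nat.pow_le_pow_right two_pos (by omega : 3 ≤ _)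
      nlinarith
  · -- one square: a fixed element of order four and a good element of the involutions
    have hone : ∀ x ∈ Φ, x ≠ 1 → x = u0 * u0 := by
      intro x hx hx1
      have hΦ' : (zpowers (u0 * u0)) = Φ := eq_of_le_of_card_ge (zpowers_le.2 hzΦ) (by
        rw [h2.1, Nat.card_zpowers]
        have : Nontrivial (zpowers (u0 * u0)) := ⟨⟨⟨_, mem_zpowers _⟩, 1,
          fun h => hu0 (congrArg Subtype.val h)⟩⟩
        have := Finite.one_lt_card (α := zpowers (u0 * u0))
        rw [Nat.card_zpowers] at this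
        omega)
      rw [← hΦ'] at hx
      obtain ⟨k, rfl⟩ := mem_zpowers_iff.1 hx
      have hzz : (u0 * u0) * (u0 * u0) = 1 := hmemO.1 (hΦO hzΦ)
      rcases Int.even_or_odd k with ⟨j, rfl⟩ | ⟨j, rfl⟩
      · exfalso
        exact hx1 (by rw [← two_mul, zpow_mul, zpow_two, hzz, one_zpow])
      · rw [zpow_add_one, zpow_mul, zpow_two, hzz, one_zpow, one_mul]
    have hzfix : u0 * u0 ∈ fixedIn E := fun e he =>
      hone _ (hinvΦ e he _ hzΦ) fun h => hu0 (e.injective (h.trans (map_one e).symm))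
    have hw0 : norm E u0 * norm E u0 = u0 * u0 := by
      rw [← map_mul]
      let : Fintype E := Fintype.ofFinite E
      simp only [norm, MonoidHom.coe_mk, OneHom.coe_mk]
      rw [Finset.prod_congr rfl fun (e : E) _ => hzfix (e : MulAut V) e.2, Finset.prod_const,
        Finset.card_univ, ← Nat.card_eq_fintype_card]
      obtain ⟨k, hk⟩ := hodd
      rw [hk, pow_succ, pow_mul, pow_two (u0 * u0), hmemO.1 (hΦO hzΦ), one_pow, one_mul]
    have hinvO : ∀ e ∈ E, ∀ x ∈ O, e x ∈ O := fun e _ x hx =>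
      hmemO.2 (by rw [← map_mul, hmemO.1 hx, map_one])
    obtain ⟨u, -, h | h⟩ := exists_good_element (V := O) (fun x => Subtype.ext (hmemO.1 x.2))
      (restr O hinvO).range (odd_of_dvd hodd (card_range_dvd _)) (Or.inl h2.2)
    · obtain ⟨W, -, hW, hWfix⟩ := h
      refine ⟨u, zpowers (norm E u0) ⊔ W.map O.subtype, ?_, fun e he heu => ?_⟩
      · have hlt : W.map O.subtype < zpowers (norm E u0) ⊔ W.map O.subtype := by
          refine lt_of_le_of_ne le_sup_right fun h => hu0 ?_
          have : norm E u0 ∈ O := map_subtype_le W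
            (h.symm ▸ mem_sup_left (mem_zpowers _) : norm E u0 ∈ W.map O.subtype)
          rw [← hw0]
          exact hmemO.1 this
        have h' := two_mul_card_le (n := 5) hc hlt
        rw [card_map_of_injective O.subtype_injective] at h'
        omega
      · intro w hw
        refine (fixedIn_zpowers e).1 ((?_ : _ ≤ fixedIn (zpowers e)) hw)
        refine sup_le (zpowers_le.2 ((fixedIn_zpowers e).2 (norm_mem_fixedIn E u0 e he))) ?_
        rintro _ ⟨x, hx, rfl⟩
        refine (fixedIn_zpowers e).2 ?_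
        have := hWfix (restr O hinvO ⟨e, he⟩) ⟨⟨e, he⟩, rfl⟩ (Subtype.ext heu) x hx
        exact congrArg Subtype.val this
    · omega
  · -- four squares: the squares and an element of order four
    refine ⟨u0, Φ ⊔ zpowers u0, ?_, fun e he heu => ?_⟩
    · have hlt : Φ < Φ ⊔ zpowers u0 := lt_of_le_of_ne le_sup_left fun h => hu0O (hΦO
        (h.symm ▸ mem_sup_right (mem_zpowers u0) : u0 ∈ Φ))
      have := two_mul_card_le (n := 5) hc hlt
      omega
    · intro w hw
      refine (fixedIn_zpowers e).1 ((?_ : _ ≤ fixedIn (zpowers e)) hw)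
      refine sup_le (fun a ha => (fixedIn_zpowers e).2 ?_)
        (zpowers_le.2 ((fixedIn_zpowers e).2 heu))
      have hez : e (u0 * u0) = u0 * u0 := by rw [map_mul, heu]
      by_cases ha1 : a = 1
      · rw [ha1, map_one]
      by_cases haz : a = u0 * u0
      · rw [haz, hez]
      classical
      let : Fintype Φ := Fintype.ofFinite Φ
      let z : Φ := ⟨_, hzΦ⟩
      let a' : Φ := ⟨a, ha⟩
      have hΦ4 : ∀ x : Φ, x ∈ ({1, z, a', z * a'} : Finset Φ) := by
        have hcard : ({1, z, a', z * a'} : Finset Φ).card = 4 := by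
          have e1 : (1 : Φ) ≠ z := fun h => hu0 (congrArg Subtype.val h).symm
          have e2 : (1 : Φ) ≠ a' := fun h => ha1 (congrArg Subtype.val h).symm
          have e3 : z ≠ a' := fun h => haz (congrArg Subtype.val h).symm
          have ezz : z * z = 1 := Subtype.ext (hmemO.1 (hΦO hzΦ))
          have e4 : (1 : Φ) ≠ z * a' := fun h => e3 (mul_left_cancel (ezz.trans h))
          have e5 : z ≠ z * a' := fun h => e2 (mul_left_cancel ((mul_one z).trans h))
          have e6 : a' ≠ z * a' := fun h => e1 (mul_right_cancel ((one_mul a').trans h))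
          rw [Finset.card_insert_of_notMem (by simp [e1, e2, e4]),
            Finset.card_insert_of_notMem (by simp [e3, e5]), Finset.card_pair e6]
        intro x
        rw [Finset.eq_univ_of_card _ (hcard.trans (by rw [← Nat.card_eq_fintype_card, h4'.1]))]
        exact Finset.mem_univ x
      have h := hΦ4 ⟨e a, hinvΦ e he a ha⟩
      simp only [Finset.mem_insert, Finset.mem_singleton] at h
      rcases h with h | h | h | h
      · exact absurd (e.injective ((congrArg Subtype.val h).trans (map_one e).symm)) ha1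
      · exact absurd (e.injective ((congrArg Subtype.val h).trans hez.symm)) haz
      · exact congrArg Subtype.val h
      · have h1 : e a = (u0 * u0) * a := congrArg Subtype.val h
        refine apply_eq_of_sq_apply (odd_orderOf_of_mem hodd he) ?_
        rw [h1, map_mul, hez, h1, ← mul_assoc, hmemO.1 (hΦO hzΦ), one_mul]

/-- The choice of an element in an abelian group of order 16 or 32 with small orders. -/
theorem exists_good_element_abelian (E : Subgroup (MulAut V)) (hodd : Odd (Nat.card E))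
    (hc : Nat.card V = 16 ∨ Nat.card V = 32) (hbig : ∀ x : V, 4 * orderOf x < Nat.card V) :
    ∃ u : V,
      (∃ W : Subgroup V, Nat.card V ≤ 4 * Nat.card W ∧
          ∀ e ∈ E, e u = u → ∀ w ∈ W, e w = w) ∨
       (Nat.card V = 32 ∧ (∀ x : V, x * x = 1) ∧ ∃ R : Subgroup V, ∃ s ∈ E, Nat.card R = 16 ∧
          u ∉ R ∧ orderOf s = 5 ∧ (∀ r ∈ R, s r ∈ R) ∧ (∀ r ∈ R, s r = r → r = 1) ∧ s u = u ∧
          ∀ e ∈ E, e u = u → e ∈ zpowers s) := by
  have hpow : ∀ x : V, ∃ i, orderOf x = 2 ^ i := fun x => by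
    obtain ⟨i, -, hi⟩ := (Nat.dvd_prime_pow Nat.prime_two).1
      (show orderOf x ∣ 2 ^ 5 from (orderOf_dvd_natCard x).trans (by rcases hc with h | h <;> rw [h] <;> norm_num))
    exact ⟨i, hi⟩
  by_cases hV : ∀ x : V, x * x = 1
  · obtain ⟨u, -, ⟨W, -, hW, hfix⟩ | ⟨h32, hR⟩⟩ := exists_good_element hV E hodd hc
    · exact ⟨u, Or.inl ⟨W, hW, hfix⟩⟩
    · exact ⟨u, Or.inr ⟨h32, hV, hR⟩⟩
  obtain ⟨u0, hu0⟩ := not_forall.1 hV
  have hsmall : ∀ x : V, orderOf x ∣ 4 ∧ (Nat.card V = 16 → orderOf x ∣ 2) := fun x => by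
    obtain ⟨i, hi⟩ := hpow x
    have h1 := hbig x
    rw [hi] at h1 ⊢
    rcases i with _ | _ | _ | i
    · simp
    · norm_num
    · norm_num at h1 ⊢
      omega
    · have : 8 ≤ 2 ^ (i + 1 + 1 + 1) := Nat.pow_le_pow_right two_pos (by omega : 3 ≤ _)
      omega
  rcases hc with h16 | h32
  · exact absurd (by rw [← pow_two, orderOf_dvd_iff_pow_eq_one.1 ((hsmall u0).2 h16)]) hu0
  obtain ⟨u, W, hW⟩ := exists_good_element_four E hodd h32
    (fun x => orderOf_dvd_iff_pow_eq_one.1 (hsmall x).1) hu0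
  exact ⟨u, Or.inl ⟨W, hW⟩⟩

end CfsgLib.OlssonSmall
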