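import Mathlib
import Cfsg.Agent.Lib.InvChar.AutElementary

/-! odd-order automorphism groups of elementary abelian groups of order 16 / 32 -/

set_option autoImplicit false

namespace CfsgLib.OlssonSmall

open Subgroup

variable {V : Type*} [CommGroup V]

/-! ### Fixed points and the norm map -/

/-- The elements of `V` fixed by every element of `N`. -/
def fixedIn (N : Subgroup (MulAut V)) : Subgroup V where
  carrier := {x | ∀ e ∈ N, e x = x}
  one_mem' e _ := map_one e
  mul_mem' ha hb e he := by rw [map_mul, ha e he, hb e he]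
  inv_mem' ha e he := by rw [map_inv, ha e he]

theorem mem_fixedIn {N : Subgroup (MulAut V)} {x : V} : x ∈ fixedIn N ↔ ∀ e ∈ N, e x = x := Iff.rfl

theorem fixedIn_zpowers (s : MulAut V) {x : V} : x ∈ fixedIn (zpowers s) ↔ s x = x := by
  refine ⟨fun h => h s (mem_zpowers s), fun h e he => ?_⟩
  have hs : zpowers s ≤ MulAction.stabilizer (MulAut V) x :=
    zpowers_le.mpr (MulAction.mem_stabilizer_iff.mpr h)
  exact MulAction.mem_stabilizer_iff.mp (hs he)

theorem mem_fixedIn_of_normal {E N : Subgroup (MulAut V)}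
    (hnorm : ∀ e ∈ E, ∀ n ∈ N, e⁻¹ * n * e ∈ N) {e : MulAut V} (he : e ∈ E) {x : V}
    (hx : x ∈ fixedIn N) : e x ∈ fixedIn N := fun n hn => by
  have h := hx _ (hnorm e he n hn)
  rw [MulAut.mul_apply, MulAut.mul_apply, MulAut.inv_apply, MulEquiv.symm_apply_eq] at h
  exact h

variable [Finite V]

/-- The product of the translates under `N`. -/
noncomputable def norm (N : Subgroup (MulAut V)) : V →* V :=
  haveI : Fintype N := Fintype.ofFinite N
  { toFun := fun x => ∏ e : N, (e : MulAut V) x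
    map_one' := by simp
    map_mul' := fun x y => by simp [Finset.prod_mul_distrib] }

theorem norm_mem_fixedIn (N : Subgroup (MulAut V)) (x : V) : norm N x ∈ fixedIn N := by
  intro e he
  let : Fintype N := Fintype.ofFinite N
  simp only [norm, MonoidHom.coe_mk, OneHom.coe_mk]
  rw [map_prod]
  exact Fintype.prod_equiv (Equiv.mulLeft (⟨e, he⟩ : N)) _ _ fun f => by simp [MulAut.mul_apply]

theorem norm_of_fixed (hV : ∀ x : V, x * x = 1) {N : Subgroup (MulAut V)} (hN : Odd (Nat.card N))
    {x : V} (hx : x ∈ fixedIn N) : norm N x = x := by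
  let : Fintype N := Fintype.ofFinite N
  simp only [norm, MonoidHom.coe_mk, OneHom.coe_mk]
  rw [show ∏ e : N, (e : MulAut V) x = ∏ _e : N, x from Finset.prod_congr rfl fun e _ => hx _ e.2,
    Finset.prod_const, Finset.card_univ,
    ← Nat.card_eq_fintype_card]
  obtain ⟨k, hk⟩ := hN
  rw [hk, pow_succ, pow_mul, pow_two, hV, one_pow, one_mul]

theorem disjoint_fixedIn_ker (hV : ∀ x : V, x * x = 1) {N : Subgroup (MulAut V)}
    (hN : Odd (Nat.card N)) {x : V} (h1 : x ∈ fixedIn N) (h2 : x ∈ (norm N).ker) : x = 1 :=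
  (norm_of_fixed hV hN h1).symm.trans h2

theorem card_fixedIn_mul_ker (hV : ∀ x : V, x * x = 1) {N : Subgroup (MulAut V)}
    (hN : Odd (Nat.card N)) : Nat.card (fixedIn N) * Nat.card (norm N).ker = Nat.card V := by
  have hr : (norm N).range = fixedIn N := le_antisymm
    (by rintro _ ⟨x, rfl⟩; exact norm_mem_fixedIn N x) fun x hx => ⟨x, norm_of_fixed hV hN hx⟩
  rw [← hr, ← index_ker, mul_comm, card_mul_index]

theorem ker_invariant {E N : Subgroup (MulAut V)} (hnorm : ∀ e ∈ E, ∀ n ∈ N, e * n * e⁻¹ ∈ N)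
    {e : MulAut V} (he : e ∈ E) {x : V} (hx : x ∈ (norm N).ker) : e x ∈ (norm N).ker := by
  let : Fintype N := Fintype.ofFinite N
  simp only [MonoidHom.mem_ker, norm, MonoidHom.coe_mk, OneHom.coe_mk] at hx ⊢
  have h := congrArg e hx
  rw [map_prod, map_one] at h
  refine Eq.trans ?_ h
  have hm : ∀ f : N, e⁻¹ * (f : MulAut V) * e ∈ N := fun f => by
    simpa using hnorm e⁻¹ (inv_mem he) (f : MulAut V) f.2
  let g : N ≃ N :=
    { toFun := fun f => ⟨e⁻¹ * (f : MulAut V) * e, hm f⟩
      invFun := fun f => ⟨e * (f : MulAut V) * e⁻¹, hnorm e he (f : MulAut V) f.2⟩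
      left_inv := fun f => Subtype.ext (by simp [mul_assoc])
      right_inv := fun f => Subtype.ext (by simp [mul_assoc]) }
  refine Fintype.prod_equiv g _ _ fun f => ?_
  simp only [g, Equiv.coe_fn_mk]
  simp [MulAut.mul_apply]

/-- Fixed points of a `q`-group are congruent to `|V|` modulo `q`. -/
theorem card_fixedIn_modEq {q : ℕ} [Fact q.Prime] {N : Subgroup (MulAut V)} (hN : IsPGroup q N) :
    Nat.card V ≡ Nat.card (fixedIn N) [MOD q] := by
  have h := hN.card_modEq_card_fixedPoints V
  have e : Nat.card (MulAction.fixedPoints N V) = Nat.card (fixedIn N) :=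
    Nat.card_congr (Equiv.subtypeEquivRight fun x => by
      rw [MulAction.mem_fixedPoints, Subtype.forall]
      exact Iff.rfl)
  rwa [e] at h

omit [Finite V] in
theorem card_pow_two (hV : ∀ x : V, x * x = 1) [Finite V] (H : Subgroup V) : ∃ k, Nat.card H = 2 ^ k :=
  have : Fact (Nat.Prime 2) := ⟨Nat.prime_two⟩
  (IsPGroup.iff_card (p := 2)).mp fun x => ⟨1, Subtype.ext (by
    rw [pow_one, pow_two, Subgroup.coe_mul, hV, OneMemClass.coe_one])⟩

theorem card_fixedIn_lt {N : Subgroup (MulAut V)} {e : MulAut V} (he : e ∈ N) (hne : e ≠ 1) :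
    Nat.card (fixedIn N) < Nat.card V := by
  by_contra h
  refine hne (MulEquiv.ext fun x => ?_)
  have ht := Subgroup.eq_top_of_le_card (fixedIn N) (not_lt.mp h)
  exact (ht.symm ▸ mem_top x : x ∈ fixedIn N) e he

/-- A cyclic group of automorphisms of prime order `q` fixes exactly `f` points. -/
theorem card_fixed_of_orderOf (hV : ∀ x : V, x * x = 1) {n : ℕ} (hn : Nat.card V = 2 ^ n) {q f : ℕ}
    (hq : q.Prime) {s : MulAut V} (hs : orderOf s = q)
    (hf : ∀ k < n, 2 ^ k % q = 2 ^ n % q → 2 ^ k = f) : Nat.card (fixedIn (zpowers s)) = f := by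
  have : Fact q.Prime := ⟨hq⟩
  obtain ⟨k, hk⟩ := card_pow_two hV (fixedIn (zpowers s))
  have hlt := card_fixedIn_lt (mem_zpowers s)
    (fun h => hq.ne_one (hs ▸ h ▸ orderOf_one))
  rw [hk, hn] at hlt
  have hmod := card_fixedIn_modEq (q := q) (N := zpowers s)
    (IsPGroup.of_card (n := 1) (by rw [Nat.card_zpowers, hs, pow_one]))
  rw [hk, hn] at hmod
  rw [hk]
  exact hf k ((Nat.pow_lt_pow_iff_right (by omega)).mp hlt) hmod.symm

/-- A group acting on an invariant subgroup. -/
def restr {E : Subgroup (MulAut V)} (B : Subgroup V) (hB : ∀ e ∈ E, ∀ x ∈ B, e x ∈ B) :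
    E →* MulAut B where
  toFun e :=
    { toFun := fun x => ⟨(e : MulAut V) x, hB e e.2 x x.2⟩
      invFun := fun x => ⟨((e⁻¹ : E) : MulAut V) x, hB _ (e⁻¹ : E).2 x x.2⟩
      left_inv := fun x => Subtype.ext (by simp)
      right_inv := fun x => Subtype.ext (by simp)
      map_mul' := fun x y => Subtype.ext (by simp) }
  map_one' := MulEquiv.ext fun x => Subtype.ext (by simp)
  map_mul' e f := MulEquiv.ext fun x => Subtype.ext (by simp [MulAut.mul_apply])

omit [Finite V] in
theorem restr_apply {E : Subgroup (MulAut V)} (B : Subgroup V) (hB : ∀ e ∈ E, ∀ x ∈ B, e x ∈ B)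
    (e : E) (x : B) : ((restr B hB e) x : V) = (e : MulAut V) x := rfl

/-! ### Orders -/

theorem odd_of_dvd {a b : ℕ} (hb : Odd b) (h : a ∣ b) : Odd a := hb.of_dvd_nat h

theorem card_dvd_odd_part (hV : ∀ x : V, x * x = 1) {d : ℕ} (hc : Nat.card V ≤ 2 ^ d)
    {E : Subgroup (MulAut V)} (hodd : Odd (Nat.card E)) {a b : ℕ}
    (hab : ∏ i : Fin d, (2 ^ d - 2 ^ (i : ℕ)) = 2 ^ a * b) : Nat.card E ∣ b := by
  have : Fact (Nat.Prime 2) := ⟨Nat.prime_two⟩
  obtain ⟨f, hf⟩ := CfsgLib.InvChar.exists_injective_mulAut_GL (p := 2) (d := d)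
    (fun v => by rw [pow_two, hV]) hc
  have h := (card_subgroup_dvd_card E).trans (card_dvd_of_injective f hf)
  rw [Matrix.card_GL_field (𝔽 := ZMod 2), ZMod.card, hab] at h
  exact (hodd.coprime_two_right.pow_right a).dvd_of_dvd_mul_left h

/-- In a group of odd order with a `5`-element and a `7`-element and order dividing `315`, some such
elements commute. -/
theorem exists_commute_five_seven {G : Type*} [Group G] [Finite G] (hd : Nat.card G ∣ 315)
    (h5 : 5 ∣ Nat.card G) (h7 : 7 ∣ Nat.card G) :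
    ∃ s t : G, orderOf s = 5 ∧ orderOf t = 7 ∧ Commute s t := by
  have : Fact (Nat.Prime 5) := ⟨by norm_num⟩
  have : Fact (Nat.Prime 7) := ⟨by norm_num⟩
  have hcop : ∀ (x g : G) (i : ℕ), g * x * g⁻¹ = x ^ i → ∀ q : ℕ, q.Prime → orderOf x = q →
      (∀ d ∈ Nat.divisors 315, ∀ j < q, j ^ d % q = 1 → d ∣ orderOf g → j = 1) → Commute g x := by
    intro x g i hi q hq hx hkey
    have : NeZero q := ⟨hq.ne_zero⟩
    have hiter : ∀ k : ℕ, g ^ k * x * (g ^ k)⁻¹ = x ^ (i ^ k) := by
      intro k
      induction k with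
      | zero => simp
      | succ k ih =>
        calc g ^ (k + 1) * x * (g ^ (k + 1))⁻¹ = g * (g ^ k * x * (g ^ k)⁻¹) * g⁻¹ := by
              rw [pow_succ']; group
          _ = (g * x * g⁻¹) ^ (i ^ k) := by rw [ih, conj_pow]
          _ = x ^ (i ^ (k + 1)) := by rw [hi, ← pow_mul, ← pow_succ']
    have h1 := hiter (orderOf g)
    rw [pow_orderOf_eq_one, one_mul, inv_one, mul_one] at h1
    have h2 : i ^ orderOf g % q = 1 := by
      have h3 := pow_inj_mod.mp ((pow_one x).trans h1)
      rw [hx, Nat.one_mod_eq_one.mpr hq.ne_one] at h3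
      exact h3.symm
    have hmem : orderOf g ∈ Nat.divisors 315 :=
      Nat.mem_divisors.mpr ⟨(orderOf_dvd_natCard g).trans hd, by norm_num⟩
    have hj := hkey _ hmem (i % q) (Nat.mod_lt _ hq.pos) (by rw [← Nat.pow_mod]; exact h2) dvd_rfl
    have : x ^ i = x := by rw [← pow_mod_orderOf, hx, hj, pow_one]
    rw [this, mul_inv_eq_iff_eq_mul] at hi
    exact hi
  obtain ⟨s, hs⟩ := exists_prime_orderOf_dvd_card' 5 h5
  let P : Sylow 5 G := Sylow.ofCard (zpowers s) (by
    rw [Nat.card_zpowers, hs]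
    have hle : (Nat.card G).factorization 5 ≤ (315 : ℕ).factorization 5 :=
      (Nat.factorization_le_iff_dvd Nat.card_pos.ne' (by norm_num)).mpr hd 5
    have h315 : (315 : ℕ).factorization 5 = 1 := by
      rw [show (315 : ℕ) = 5 ^ 1 * 63 by norm_num, Nat.factorization_mul (by norm_num) (by norm_num),
        Finsupp.add_apply, (Fact.out : Nat.Prime 5).factorization_pow, Finsupp.single_eq_same,
        Nat.factorization_eq_zero_of_not_dvd (by norm_num)]
    have hpos : 0 < (Nat.card G).factorization 5 :=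
      (Fact.out : Nat.Prime 5).factorization_pos_of_dvd Nat.card_pos.ne' h5
    rw [show (Nat.card G).factorization 5 = 1 by omega, pow_one])
  have hNC : normalizer ((P : Subgroup G) : Set G) ≤ centralizer ((P : Subgroup G) : Set G) := by
    intro g hg
    have hgs : g * s * g⁻¹ ∈ zpowers s := (mem_normalizer_iff.mp hg s).mp (mem_zpowers s)
    obtain ⟨i, hi⟩ := mem_powers_iff_mem_zpowers.mpr hgs
    have hc := hcop s g i hi.symm 5 (Fact.out) hs (fun d hd j hj h _ =>
      (by decide +kernel : ∀ d ∈ Nat.divisors 315, ∀ j < 5, j ^ d % 5 = 1 → j = 1) d hd j hj h)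
    refine mem_centralizer_iff.mpr fun x hx => ?_
    obtain ⟨k, rfl⟩ := mem_zpowers_iff.mp (hx : x ∈ zpowers s)
    exact (hc.zpow_right k).eq.symm
  set K := (MonoidHom.transferSylow P hNC).ker with hK
  have hKc := MonoidHom.ker_transferSylow_isComplement' P hNC
  have hKcard : Nat.card K * 5 = Nat.card G := by
    rw [← hKc.card_mul_card]
    congr 1
    show 5 = Nat.card (zpowers s)
    rw [Nat.card_zpowers, hs]
  have hK63 : Nat.card K ∣ 63 :=
    Nat.dvd_of_mul_dvd_mul_right (by norm_num : 0 < 5) (hKcard.symm ▸ hd : Nat.card K * 5 ∣ 63 * 5)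
  have hK7 : 7 ∣ Nat.card K :=
    (Nat.Coprime.dvd_of_dvd_mul_right (by norm_num : Nat.Coprime 7 5) (hKcard.symm ▸ h7))
  obtain ⟨t, ht⟩ := exists_prime_orderOf_dvd_card' (G := K) 7 hK7
  have hT : ∀ y : K, orderOf y = 7 → y ∈ zpowers t := by
    obtain ⟨T⟩ : Nonempty (Sylow 7 K) := inferInstance
    have hsub : Subsingleton (Sylow 7 K) := by
      rw [← Finite.card_le_one_iff_subsingleton]
      have h1 : Nat.card (Sylow 7 K) ∣ 63 := (T.card_dvd_index.trans (index_dvd_card _)).trans hK63
      have h2 : Nat.card (Sylow 7 K) % 7 = 1 := card_sylow_modEq_one 7 K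
      have h3 : ∀ d ∈ Nat.divisors 63, d % 7 = 1 → d ≤ 1 := by decide
      exact h3 _ (Nat.mem_divisors.mpr ⟨h1, by norm_num⟩) h2
    intro y hy
    obtain ⟨Q, hQ⟩ := (IsPGroup.of_card (p := 7) (n := 1) (G := zpowers t)
      (by rw [Nat.card_zpowers, ht, pow_one])).exists_le_sylow
    obtain ⟨R, hR⟩ := (IsPGroup.of_card (p := 7) (n := 1) (G := zpowers y)
      (by rw [Nat.card_zpowers, hy, pow_one])).exists_le_sylow
    obtain rfl : Q = R := Subsingleton.elim _ _
    have hQc : Nat.card (Q : Subgroup K) ≤ 7 := by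
      obtain ⟨k, hk⟩ := IsPGroup.iff_card.mp Q.isPGroup'
      rw [hk]
      have hd' : 7 ^ k ∣ 63 := hk ▸ (card_subgroup_dvd_card _).trans hK63
      rcases k with _ | _ | k
      · norm_num
      · norm_num
      · exact absurd ((pow_dvd_pow 7 (by omega : 2 ≤ k + 2)).trans hd') (by norm_num)
    rw [eq_of_le_of_card_ge hQ (by rw [Nat.card_zpowers, ht]; exact hQc)]
    exact hR (mem_zpowers y)
  let t' : K := ⟨s * t * s⁻¹, (inferInstance : K.Normal).conj_mem t t.2 s⟩
  have ht' : orderOf t' = 7 := by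
    rw [← orderOf_coe, show ((t' : G)) = MulAut.conj s (t : G) from rfl, MulEquiv.orderOf_eq,
      orderOf_coe, ht]
  obtain ⟨i, hi⟩ := mem_powers_iff_mem_zpowers.mpr (hT t' ht')
  have htc : orderOf (t : G) = 7 := by rw [orderOf_coe, ht]
  exact ⟨s, t, hs, htc, hcop t s i (congrArg Subtype.val hi).symm 7 Fact.out htc (by
    intro d hd1 j hj h1 h2
    rw [hs] at h2
    rcases (Nat.dvd_prime (Fact.out : Nat.Prime 5)).mp h2 with rfl | rfl
    · simpa [Nat.mod_eq_of_lt hj] using h1
    · revert h1; revert hj; revert j; decide)⟩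

/-- The fixed points of commuting elements of orders `5` and `7` are incompatible in `16` or `32`
elements. -/
theorem not_five_seven (hV : ∀ x : V, x * x = 1) (hc : Nat.card V = 16 ∨ Nat.card V = 32)
    {E : Subgroup (MulAut V)} (hd : Nat.card E ∣ 315) (h5 : 5 ∣ Nat.card E) : ¬ 7 ∣ Nat.card E := by
  intro h7
  have : Fact (Nat.Prime 5) := ⟨by norm_num⟩
  obtain ⟨s, t, hs, ht, hst⟩ := exists_commute_five_seven hd h5 h7
  rw [← orderOf_coe] at hs ht
  have hst' : Commute (s : MulAut V) t := congrArg Subtype.val hst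
  have hinv : ∀ e ∈ zpowers (s : MulAut V), ∀ x ∈ fixedIn (zpowers (t : MulAut V)),
      e x ∈ fixedIn (zpowers (t : MulAut V)) := by
    intro e he x hx
    obtain ⟨i, rfl⟩ := mem_zpowers_iff.mp he
    rw [fixedIn_zpowers] at hx ⊢
    rw [← MulAut.mul_apply, ← (hst'.zpow_left i).eq, MulAut.mul_apply, hx]
  have hmod := card_fixedIn_modEq (V := fixedIn (zpowers (t : MulAut V))) (q := 5)
    (N := (restr _ hinv).range) ((IsPGroup.of_card (n := 1) (G := zpowers (s : MulAut V))
      (by rw [Nat.card_zpowers, hs, pow_one])).of_surjective (restr _ hinv).rangeRestrict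
        (MonoidHom.rangeRestrict_surjective _))
  have hle : Nat.card (fixedIn (restr _ hinv).range) ≤ Nat.card (fixedIn (zpowers (s : MulAut V))) := by
    refine Nat.card_le_card_of_injective (fun x => ⟨(x : fixedIn (zpowers (t : MulAut V))), ?_⟩)
      fun a b h => Subtype.ext (Subtype.ext ((Subtype.mk.injEq _ _ _ _).mp h :))
    intro e he
    exact congrArg Subtype.val (x.2 (restr _ hinv ⟨e, he⟩) ⟨⟨e, he⟩, rfl⟩)
  obtain ⟨k, hk⟩ := card_pow_two (V := fixedIn (zpowers (t : MulAut V)))
    (fun x => Subtype.ext (hV x)) (fixedIn (restr _ hinv).range)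
  rw [hk] at hle hmod
  rcases hc with h | h
  · rw [card_fixed_of_orderOf hV (n := 4) (f := 2) h (by norm_num) ht (by decide)] at hmod
    rw [card_fixed_of_orderOf hV (n := 4) (f := 1) h (by norm_num) hs (by decide)] at hle
    rcases k with _ | k
    · exact absurd hmod (by decide)
    · have : 2 ≤ 2 ^ (k + 1) := Nat.le_self_pow (by omega) 2
      omega
  · rw [card_fixed_of_orderOf hV (n := 5) (f := 4) h (by norm_num) ht (by decide)] at hmod
    rw [card_fixed_of_orderOf hV (n := 5) (f := 2) h (by norm_num) hs (by decide)] at hle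
    rcases k with _ | _ | k
    · exact absurd hmod (by decide)
    · exact absurd hmod (by decide)
    · have := Nat.pow_le_pow_right two_pos (show 2 ≤ k + 1 + 1 by omega)
      omega

/-! ### Order sixteen -/

/-- In `16` elements some stabiliser fixes at least four points. -/
theorem exists_four (hV : ∀ x : V, x * x = 1) (hc : Nat.card V = 16) (E : Subgroup (MulAut V))
    (hodd : Odd (Nat.card E)) :
    ∃ b : V, b ≠ 1 ∧ ∃ W : Subgroup V, b ∈ W ∧ 4 ≤ Nat.card W ∧
      ∀ e ∈ E, e b = b → ∀ w ∈ W, e w = w := by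
  have h315 : Nat.card E ∣ 315 :=
    card_dvd_odd_part hV (d := 4) hc.le hodd (a := 6) (by decide)
  have : Fact (Nat.Prime 3) := ⟨Nat.prime_three⟩
  have : Fact (Nat.Prime 5) := ⟨by norm_num⟩
  have : Fact (Nat.Prime 7) := ⟨by norm_num⟩
  obtain ⟨b, hb, hb7⟩ : ∃ b : V, b ≠ 1 ∧ ¬ 7 ∣ Nat.card (E ⊓ MulAction.stabilizer (MulAut V) b : Subgroup _) := by
    by_contra hno
    push Not at hno
    obtain ⟨b, hb⟩ : ∃ b : V, b ≠ 1 := by
      have : Nontrivial V := Finite.one_lt_card_iff_nontrivial.mp (by omega)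
      exact exists_ne 1
    have h7 : 7 ∣ Nat.card E := (hno b hb).trans (card_dvd_of_le inf_le_left)
    have h63 : Nat.card E ∣ 63 := by
      have hcop : Nat.Coprime (Nat.card E) 5 := ((Fact.out : Nat.Prime 5).coprime_iff_not_dvd.mpr
        fun h5 => not_five_seven hV (Or.inl hc) h315 h5 h7).symm
      exact hcop.dvd_of_dvd_mul_left (show Nat.card E ∣ 5 * 63 from h315)
    obtain ⟨t, ht⟩ := exists_prime_orderOf_dvd_card' 7 h7
    obtain ⟨T⟩ : Nonempty (Sylow 7 E) := inferInstance
    have : Subsingleton (Sylow 7 E) := by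
      rw [← Finite.card_le_one_iff_subsingleton]
      have h1 : Nat.card (Sylow 7 E) ∣ 63 := (T.card_dvd_index.trans (index_dvd_card _)).trans h63
      have h2 : Nat.card (Sylow 7 E) % 7 = 1 := card_sylow_modEq_one 7 E
      have h3 : ∀ d ∈ Nat.divisors 63, d % 7 = 1 → d ≤ 1 := by decide
      exact h3 _ (Nat.mem_divisors.mpr ⟨h1, by norm_num⟩) h2
    have hall : ∀ x : V, (t : MulAut V) x = x := by
      intro x
      by_cases hx : x = 1
      · rw [hx, map_one]
      obtain ⟨u, hu⟩ := exists_prime_orderOf_dvd_card' 7 (hno x hx)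
      let u' : E := ⟨(u : MulAut V), u.2.1⟩
      have hu' : orderOf u' = 7 := by
        rw [← orderOf_coe, show (u' : MulAut V) = (u : MulAut V) from rfl, orderOf_coe, hu]
      have hz7 : ∀ g : E, orderOf g = 7 → ∀ Q : Sylow 7 E, (Q : Subgroup E) = zpowers g := by
        intro g hg Q
        obtain ⟨R, hR⟩ := (IsPGroup.of_card (p := 7) (n := 1) (G := zpowers g)
          (by rw [Nat.card_zpowers, hg, pow_one])).exists_le_sylow
        obtain rfl : Q = R := Subsingleton.elim _ _
        refine (eq_of_le_of_card_ge hR ?_).symm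
        obtain ⟨k, hk⟩ := IsPGroup.iff_card.mp Q.isPGroup'
        rw [Nat.card_zpowers, hg, hk]
        have hd' : 7 ^ k ∣ 63 := hk ▸ (card_subgroup_dvd_card _).trans h63
        rcases k with _ | _ | k
        · norm_num
        · norm_num
        · exact absurd ((pow_dvd_pow 7 (by omega : 2 ≤ k + 2)).trans hd') (by norm_num)
      have hmem : t ∈ zpowers u' := by
        rw [← hz7 u' hu' T, hz7 t ht T]
        exact mem_zpowers t
      have : zpowers u' ≤ (MulAction.stabilizer (MulAut V) x).subgroupOf E := zpowers_le.mpr u.2.2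
      exact this hmem
    have : (t : MulAut V) = 1 := MulEquiv.ext hall
    rw [← orderOf_coe, this, orderOf_one] at ht
    norm_num at ht
  set S : Subgroup (MulAut V) := E ⊓ MulAction.stabilizer (MulAut V) b
  have hS315 : Nat.card S ∣ 315 := (card_dvd_of_le inf_le_left).trans h315
  have hbS : b ∈ fixedIn S := fun e he => he.2
  refine ⟨b, hb, fixedIn S, hbS, ?_, fun e he heb w hw => hw e ⟨he, heb⟩⟩
  have h2 : 2 ≤ Nat.card (fixedIn S) := by
    have : Nontrivial (fixedIn S) := ⟨⟨b, hbS⟩, 1, fun h => hb (congrArg Subtype.val h)⟩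
    exact Finite.one_lt_card
  have h5 : ¬ 5 ∣ Nat.card S := by
    intro h5
    obtain ⟨s, hs⟩ := exists_prime_orderOf_dvd_card' 5 h5
    rw [← orderOf_coe] at hs
    have h1 := card_fixed_of_orderOf hV (n := 4) (f := 1) hc (by norm_num) hs (by decide)
    have h3 : b ∈ fixedIn (zpowers (s : MulAut V)) := (fixedIn_zpowers _).mpr s.2.2
    have : Nontrivial (fixedIn (zpowers (s : MulAut V))) :=
      ⟨⟨b, h3⟩, 1, fun h => hb (congrArg Subtype.val h)⟩
    have := Finite.one_lt_card (α := fixedIn (zpowers (s : MulAut V)))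
    omega
  have h9 : Nat.card S ∣ 3 ^ 2 := by
    have hcop : Nat.Coprime (Nat.card S) 35 := by
      rw [show 35 = 5 * 7 by norm_num]
      exact Nat.Coprime.mul_right ((Fact.out : Nat.Prime 5).coprime_iff_not_dvd.mpr h5).symm
        ((Fact.out : Nat.Prime 7).coprime_iff_not_dvd.mpr hb7).symm
    exact hcop.dvd_of_dvd_mul_left (show Nat.card S ∣ 35 * 3 ^ 2 by norm_num; exact hS315)
  obtain ⟨i, -, hi⟩ := (Nat.dvd_prime_pow Nat.prime_three).mp h9
  have hmod := card_fixedIn_modEq (q := 3) (N := S) (IsPGroup.of_card hi)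
  obtain ⟨k, hk⟩ := card_pow_two hV (fixedIn S)
  rw [hk, hc] at hmod
  rw [hk] at h2 ⊢
  rcases k with _ | _ | k
  · norm_num at h2
  · exact absurd hmod (by decide)
  · exact Nat.pow_le_pow_right two_pos (by omega : 2 ≤ k + 2)

/-! ### Order thirty-two -/

/-- The conclusion in `32` elements. -/
def Good32 (E : Subgroup (MulAut V)) : Prop :=
  ∃ u : V, u ≠ 1 ∧
    ((∃ W : Subgroup V, u ∈ W ∧ Nat.card V ≤ 4 * Nat.card W ∧ ∀ e ∈ E, e u = u → ∀ w ∈ W, e w = w) ∨
     (Nat.card V = 32 ∧ ∃ R : Subgroup V, ∃ s ∈ E, Nat.card R = 16 ∧ u ∉ R ∧ orderOf s = 5 ∧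
        (∀ r ∈ R, s r ∈ R) ∧ (∀ r ∈ R, s r = r → r = 1) ∧ s u = u ∧
        ∀ e ∈ E, e u = u → e ∈ Subgroup.zpowers s))

/-- A fixed-point subgroup of order two. -/
theorem good_of_two (hV : ∀ x : V, x * x = 1) (hc : Nat.card V = 32) {E N : Subgroup (MulAut V)}
    (hodd : Odd (Nat.card E)) (hNodd : Odd (Nat.card N))
    (hnorm : ∀ e ∈ E, ∀ n ∈ N, e * n * e⁻¹ ∈ N) (hA : Nat.card (fixedIn N) = 2) : Good32 E := by
  have hnorm' : ∀ e ∈ E, ∀ n ∈ N, e⁻¹ * n * e ∈ N := fun e he n hn => by
    simpa using hnorm e⁻¹ (inv_mem he) n hn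
  obtain ⟨a, ha, hauniq⟩ : ∃ a : fixedIn N, a ≠ 1 ∧ ∀ x, x ≠ 1 → x = a := by
    have : Nontrivial (fixedIn N) := Finite.one_lt_card_iff_nontrivial.mp (by omega)
    obtain ⟨a, ha⟩ := exists_ne (1 : (fixedIn N))
    refine ⟨a, ha, fun x hx => ?_⟩
    by_contra hxa
    classical
    have : Fintype (fixedIn N) := Fintype.ofFinite _
    have h3 : 2 < Nat.card (fixedIn N) := by
      rw [Nat.card_eq_fintype_card]
      exact Fintype.two_lt_card_iff.mpr ⟨1, x, a, hx.symm, ha.symm, hxa⟩
    omega
  have hafix : ∀ e ∈ E, e (a : V) = a := fun e he =>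
    congrArg Subtype.val (hauniq ⟨e a, mem_fixedIn_of_normal hnorm' he a.2⟩
      fun h => ha (Subtype.ext (e.injective ((congrArg Subtype.val h).trans (map_one e).symm))))
  set B := (norm N).ker with hB
  have hBc : Nat.card B = 16 := by
    have := card_fixedIn_mul_ker hV hNodd
    rw [hA, hc, ← hB] at this
    omega
  have hBinv : ∀ e ∈ E, ∀ x ∈ B, e x ∈ B := fun e he x hx => ker_invariant hnorm he hx
  obtain ⟨b, hb, W, hbW, hWc, hW⟩ := exists_four (V := B) (fun x => Subtype.ext (hV x)) hBc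
    (restr B hBinv).range (odd_of_dvd hodd (card_range_dvd _))
  refine ⟨a * b, fun h => hb (Subtype.ext (disjoint_fixedIn_ker hV hNodd ?_ b.2)), Or.inl
    ⟨fixedIn N ⊔ W.map B.subtype, ?_, ?_, ?_⟩⟩
  · rw [show (b : V) = ((a : V))⁻¹ from eq_inv_of_mul_eq_one_right h]
    exact inv_mem a.2
  · exact mul_mem (mem_sup_left a.2) (mem_sup_right ⟨b, hbW, rfl⟩)
  · have hlt : fixedIn N ⊓ W.map B.subtype = ⊥ := by
      rw [eq_bot_iff]
      rintro x ⟨hx, w, -, rfl⟩
      exact disjoint_fixedIn_ker hV hNodd hx w.2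
    have hcard := card_mul_index (W.map B.subtype)
    have : Nat.card (fixedIn N) * Nat.card W ≤ Nat.card (fixedIn N ⊔ W.map B.subtype : Subgroup V) := by
      rw [← Nat.card_prod]
      refine Nat.card_le_card_of_injective (fun p => ⟨(p.1 : V) * ((p.2 : B) : V),
        mul_mem (mem_sup_left p.1.2) (mem_sup_right ⟨p.2, p.2.2, rfl⟩)⟩) fun p q h => ?_
      have h' : (p.1 : V) * ((p.2 : B) : V) = q.1 * ((q.2 : B) : V) := congrArg Subtype.val h
      have h1 : (q.1 : V)⁻¹ * p.1 = ((q.2 : B) : V) * ((p.2 : B) : V)⁻¹ := by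
        rw [eq_mul_inv_iff_mul_eq, mul_assoc, h', inv_mul_cancel_left]
      have h2 : (q.1 : V)⁻¹ * p.1 = 1 := disjoint_fixedIn_ker hV hNodd
        (mul_mem (inv_mem q.1.2) p.1.2) (h1 ▸ mul_mem (q.2 : B).2 (inv_mem (p.2 : B).2))
      rw [inv_mul_eq_one] at h2
      have h3 : q.1 = p.1 := Subtype.ext h2
      rw [h3] at h'
      exact Prod.ext h3.symm (Subtype.ext (Subtype.ext (mul_left_cancel h')))
    rw [hA] at this
    rw [hc]
    omega
  · intro e he heu
    have heb : e (b : V) = b := by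
      rw [map_mul, hafix e he] at heu
      exact mul_left_cancel heu
    have hWe : W.map B.subtype ≤ fixedIn (zpowers e) := by
      rintro _ ⟨w, hw, rfl⟩
      rw [fixedIn_zpowers]
      exact congrArg Subtype.val (hW (restr B hBinv ⟨e, he⟩) ⟨⟨e, he⟩, rfl⟩ (Subtype.ext heb) w hw)
    have hA' : fixedIn N ≤ fixedIn (zpowers e) := fun x hx => by
      rw [fixedIn_zpowers]
      by_cases hx1 : (⟨x, hx⟩ : fixedIn N) = 1
      · rw [show x = 1 from congrArg Subtype.val hx1, map_one]
      · rw [show x = a from congrArg Subtype.val (hauniq _ hx1)]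
        exact hafix e he
    exact fun w hw => (fixedIn_zpowers e).mp (sup_le hA' hWe hw)

/-- A fixed-point subgroup of order four. -/
theorem good_of_four (hV : ∀ x : V, x * x = 1) (hc : Nat.card V = 32) {E N : Subgroup (MulAut V)}
    (hodd : Odd (Nat.card E)) (hNodd : Odd (Nat.card N))
    (hnorm : ∀ e ∈ E, ∀ n ∈ N, e * n * e⁻¹ ∈ N) (hA : Nat.card (fixedIn N) = 4) : Good32 E := by
  have hnorm' : ∀ e ∈ E, ∀ n ∈ N, e⁻¹ * n * e ∈ N := fun e he n hn => by
    simpa using hnorm e⁻¹ (inv_mem he) n hn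
  set B := (norm N).ker with hB
  have hBc : Nat.card B = 8 := by
    have := card_fixedIn_mul_ker hV hNodd
    rw [hA, hc, ← hB] at this
    omega
  have : Nontrivial (fixedIn N) := Finite.one_lt_card_iff_nontrivial.mp (by omega)
  obtain ⟨a, ha⟩ := exists_ne (1 : (fixedIn N))
  have : Nontrivial B := Finite.one_lt_card_iff_nontrivial.mp (by omega)
  obtain ⟨b, hb⟩ := exists_ne (1 : B)
  have ha' : (a : V) ≠ 1 := fun h => ha (Subtype.ext h)
  have hb' : (b : V) ∉ fixedIn N := fun h => hb (Subtype.ext (disjoint_fixedIn_ker hV hNodd h b.2))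
  have hu : (a : V) * b ≠ 1 := fun h => hb' (by
    rw [show (b : V) = ((a : V))⁻¹ from eq_inv_of_mul_eq_one_right h]
    exact inv_mem a.2)
  refine ⟨a * b, hu, Or.inl ⟨fixedIn N ⊔ zpowers (b : V),
    mul_mem (mem_sup_left a.2) (mem_sup_right (mem_zpowers _)), ?_, ?_⟩⟩
  · have hlt : Nat.card (fixedIn N) < Nat.card (fixedIn N ⊔ zpowers (b : V) : Subgroup V) := by
      by_contra hle
      refine hb' ?_
      rw [eq_of_le_of_card_ge (le_sup_left : fixedIn N ≤ fixedIn N ⊔ zpowers (b : V)) (not_lt.mp hle)]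
      exact mem_sup_right (mem_zpowers _)
    obtain ⟨k, hk⟩ := card_pow_two hV (fixedIn N ⊔ zpowers (b : V))
    rw [hk, hA] at hlt
    have : 3 ≤ k := by
      by_contra h3
      have := Nat.pow_le_pow_right two_pos (show k ≤ 2 by omega)
      omega
    have := Nat.pow_le_pow_right two_pos this
    rw [hk, hc]
    omega
  · intro e he heu
    have hA' : e (a : V) ∈ fixedIn N := mem_fixedIn_of_normal hnorm' he a.2
    have hB' : e (b : V) ∈ B := ker_invariant hnorm he b.2
    rw [map_mul] at heu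
    have h1 : (a : V)⁻¹ * e a = b * (e b)⁻¹ := by
      rw [eq_mul_inv_iff_mul_eq, mul_assoc, heu, inv_mul_cancel_left]
    have h2 : (a : V)⁻¹ * e a = 1 := disjoint_fixedIn_ker hV hNodd (mul_mem (inv_mem a.2) hA')
      (h1 ▸ mul_mem b.2 (inv_mem hB'))
    rw [inv_mul_eq_one] at h2
    have heb : e (b : V) = b := by
      rw [← h2] at heu
      exact mul_left_cancel heu
    have hse : ∀ x : V, x ∈ fixedIn N → e x = x := by
      have hinv : ∀ f ∈ zpowers e, ∀ x ∈ fixedIn N, f x ∈ fixedIn N := fun f hf x hx =>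
        mem_fixedIn_of_normal hnorm' (zpowers_le.mpr he hf) hx
      set φ := restr _ hinv
      have hodd' : Odd (Nat.card φ.range) :=
        odd_of_dvd hodd ((card_range_dvd φ).trans (card_dvd_of_le (zpowers_le.mpr he)))
      have hle : φ.range ≤ MulAction.stabilizer _ a := by
        rintro _ ⟨⟨f, hf⟩, rfl⟩
        refine MulAction.mem_stabilizer_iff.mpr (Subtype.ext ?_)
        exact (fixedIn_zpowers e).mpr h2.symm f hf
      intro x hx
      have hd := card_dvd_odd_part (V := fixedIn N) (fun y => Subtype.ext (hV y)) (d := 2) hA.le hodd'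
        (a := 1) (b := 3) (by decide)
      rcases (Nat.dvd_prime Nat.prime_three).mp hd with h | h
      · have hone : φ ⟨e, mem_zpowers e⟩ = 1 := by
          have hbot := eq_bot_of_card_eq _ h
          exact (mem_bot.mp (hbot ▸ (⟨_, rfl⟩ : φ ⟨e, mem_zpowers e⟩ ∈ φ.range)))
        exact congrArg Subtype.val (DFunLike.congr_fun hone ⟨x, hx⟩)
      · exfalso
        have : Fact (Nat.Prime 3) := ⟨Nat.prime_three⟩
        have hm := card_fixedIn_modEq (V := fixedIn N) (q := 3) (N := φ.range)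
          (IsPGroup.of_card (n := 1) (by rw [h, pow_one]))
        obtain ⟨k, hk⟩ := card_pow_two (V := fixedIn N) (fun y => Subtype.ext (hV y)) (fixedIn φ.range)
        have : Nontrivial φ.range := Finite.one_lt_card_iff_nontrivial.mp (by omega)
        obtain ⟨f, hf⟩ := exists_ne (1 : φ.range)
        have hlt := card_fixedIn_lt f.2 (fun h => hf (Subtype.ext h))
        rw [hA, hk] at hm hlt
        have hk2 : k < 2 := (Nat.pow_lt_pow_iff_right (by omega)).mp (show 2 ^ k < 2 ^ 2 by omega)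
        have hk0 : k ≠ 0 := by
          rintro rfl
          have : Nontrivial (fixedIn φ.range) := ⟨⟨a, fun g hg => hle hg⟩, 1, fun h => ha (congrArg Subtype.val h)⟩
          have := Finite.one_lt_card (α := fixedIn φ.range)
          rw [hk] at this
          norm_num at this
        obtain rfl : k = 1 := by omega
        exact absurd hm (by decide)
    exact fun w hw => (fixedIn_zpowers e).mp (sup_le (fun x hx => (fixedIn_zpowers e).mpr (hse x hx))
      (zpowers_le.mpr ((fixedIn_zpowers e).mpr heb)) hw)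

/-! ### The element of order thirty-one -/

/-- The element with exponent bits `v`. -/
noncomputable def bitsProd (b : Fin 5 → V) (v : ℕ) : V :=
  ∏ i : Fin 5, if v.testBit i then b i else 1

omit [Finite V] in
theorem bitsProd_xor (hV : ∀ x : V, x * x = 1) (b : Fin 5 → V) (v w : ℕ) :
    bitsProd b (v ^^^ w) = bitsProd b v * bitsProd b w := by
  rw [bitsProd, bitsProd, bitsProd, ← Finset.prod_mul_distrib]
  refine Finset.prod_congr rfl fun i _ => ?_
  rw [Nat.testBit_xor]
  by_cases h1 : v.testBit i <;> by_cases h2 : w.testBit i <;> simp [h1, h2, hV]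

omit [Finite V] in
theorem bitsProd_two_pow (b : Fin 5 → V) (i : Fin 5) : bitsProd b (2 ^ (i : ℕ)) = b i := by
  rw [bitsProd, Finset.prod_eq_single i]
  · rw [Nat.testBit_two_pow_self]; simp
  · intro j _ hj
    rw [Nat.testBit_two_pow_of_ne (fun h => hj (Fin.ext h.symm))]
    simp
  · exact fun h => absurd (Finset.mem_univ i) h

/-- Multiplication by the generator modulo the quintic with coefficient bits `c`. -/
def step (c v : ℕ) : ℕ := if v < 16 then 2 * v else (2 * (v - 16)) ^^^ c

/-- The `k`-th power of the generator. -/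
def iter (c : ℕ) : ℕ → ℕ
  | 0 => 1
  | k + 1 => step c (iter c k)

/-- The image of the relation under `k ↦ a * k`. -/
def twist (c a : ℕ) : ℕ :=
  (List.range 5).foldl (fun acc i => if c.testBit i then acc ^^^ iter c (a * i % 31) else acc) 0

theorem no_twist : ∀ (c : Fin 32) (a : Fin 31), (a : ℕ) ^ 3 % 31 = 1 → (a : ℕ) ≠ 1 →
    iter c 31 = 1 → twist c a ≠ iter c ((a : ℕ) * 5 % 31) := by
  decide +kernel

set_option maxHeartbeats 800000 in
/-- An element of order `31` and a fixed point `u` leave no room for an element of order `3`. -/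
theorem not_three (hV : ∀ x : V, x * x = 1) (hc : Nat.card V = 32) {p g : MulAut V} {u : V}
    (hp : orderOf p = 31) (hu : u ≠ 1) (hg : g u = u) (hg3 : g ^ 3 = 1)
    (hnorm : g * p * g⁻¹ ∈ zpowers p) : g = 1 := by
  have : Fact (Nat.Prime 31) := ⟨by norm_num⟩
  -- `p` moves every nontrivial point
  have hfix : ∀ x : V, p x = x → x = 1 := by
    intro x hx
    have h1 := card_fixed_of_orderOf hV (n := 5) (f := 1) hc (by norm_num) hp (by decide)
    have := (Nat.card_eq_one_iff_unique.mp h1).1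
    exact congrArg Subtype.val (Subsingleton.elim
      (⟨x, (fixedIn_zpowers p).mpr hx⟩ : fixedIn (zpowers p)) 1)
  let b : Fin 5 → V := fun i => (p ^ (i : ℕ)) u
  -- the spans of the first `k` translates
  let A : ℕ → Subgroup V := fun k => closure ((fun i => (p ^ i) u) '' Set.Iio k)
  have hinvtop : ∀ H : Subgroup V, u ∈ H → (∀ x ∈ H, p x ∈ H) → H = ⊤ := by
    intro H huH hH
    have hinv : ∀ e ∈ zpowers p, ∀ x ∈ H, e x ∈ H := by
      intro e he
      obtain ⟨i, rfl⟩ := (mem_powers_iff_mem_zpowers (x := p)).mpr he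
      induction i with
      | zero => simp
      | succ i ih =>
        intro x hx
        show (p ^ (i + 1) : MulAut V) x ∈ H
        rw [show (p ^ (i + 1) : MulAut V) = p * p ^ i from pow_succ' p i]
        exact hH _ (ih (mem_powers_iff_mem_zpowers.mp ⟨i, rfl⟩) x hx)
    have hmod := card_fixedIn_modEq (V := H) (q := 31) (N := (restr H hinv).range)
      ((IsPGroup.of_card (n := 1) (G := zpowers p) (by rw [Nat.card_zpowers, hp, pow_one])).of_surjective
        (restr H hinv).rangeRestrict (MonoidHom.rangeRestrict_surjective _))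
    have hone : Nat.card (fixedIn (restr H hinv).range) = 1 := by
      rw [Nat.card_eq_one_iff_unique]
      refine ⟨⟨fun x y => ?_⟩, ⟨1⟩⟩
      have key : ∀ z : fixedIn (restr H hinv).range, z = 1 := fun z => Subtype.ext (Subtype.ext
        (hfix _ (congrArg Subtype.val (z.2 (restr H hinv ⟨p, mem_zpowers p⟩) ⟨⟨p, mem_zpowers p⟩, rfl⟩))))
      rw [key x, key y]
    obtain ⟨k, hk⟩ := card_pow_two hV H
    rw [hone, hk] at hmod
    have hle : 2 ^ k ≤ 2 ^ 5 := by
      have := card_le_card_group H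
      rw [hk, hc] at this
      exact this
    have hk5 : k ≤ 5 := (Nat.pow_le_pow_iff_right (by omega)).mp hle
    have h0 : k ≠ 0 := by
      rintro rfl
      have : Nontrivial H := ⟨⟨u, huH⟩, 1, fun h => hu (congrArg Subtype.val h)⟩
      have := Finite.one_lt_card (α := H)
      rw [hk] at this
      norm_num at this
    refine eq_top_of_card_eq H ?_
    rw [hk, hc]
    interval_cases k <;> first | rfl | exact absurd hmod (by decide) | exact absurd rfl h0
  have hA5 : ∀ k ≤ 5, Nat.card (A k) ≤ 2 ^ k ∧ (k < 5 → (p ^ k) u ∉ A k) := by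
    intro k
    induction k with
    | zero =>
      intro _
      have h0 : A 0 = ⊥ := by simp [A]
      rw [h0, card_bot]
      exact ⟨le_rfl, fun _ h => hu (by simpa using h)⟩
    | succ k ih =>
      intro hk
      obtain ⟨hcard, -⟩ := ih (by omega)
      have hsucc : A (k + 1) = A k ⊔ zpowers ((p ^ k) u) := by
        simp only [A, Set.Iio_add_one_eq_Iic, ← Set.Iio_union_right, Set.image_union, Set.image_singleton,
          Subgroup.closure_union, zpowers_eq_closure]
      have hcard' : Nat.card (A (k + 1)) ≤ 2 ^ (k + 1) := by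
        have hz : Nat.card (zpowers ((p ^ k) u)) ≤ 2 := by
          rw [Nat.card_zpowers]
          exact orderOf_le_of_pow_eq_one two_pos (by rw [pow_two, hV])
        have hmul : Nat.card (A (k + 1)) ≤ Nat.card (A k) * Nat.card (zpowers ((p ^ k) u)) := by
          rw [← Nat.card_prod]
          refine Nat.card_le_card_of_surjective (fun x => ⟨(x.1 : V) * x.2, hsucc ▸
            mul_mem (mem_sup_left x.1.2) (mem_sup_right x.2.2)⟩) fun y => ?_
          obtain ⟨x, hx, z, hz, hxz⟩ := mem_sup.mp (hsucc ▸ y.2 : (y : V) ∈ A k ⊔ zpowers ((p ^ k) u))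
          exact ⟨(⟨x, hx⟩, ⟨z, hz⟩), Subtype.ext hxz⟩
        exact hmul.trans ((Nat.mul_le_mul hcard hz).trans (le_of_eq (pow_succ 2 k).symm))
      refine ⟨hcard', fun hk5 hmem => ?_⟩
      have htop : A (k + 1) = ⊤ := by
        refine hinvtop _ (subset_closure ⟨0, Nat.succ_pos k, by simp⟩) fun x hx => ?_
        have hle : A (k + 1) ≤ (A (k + 1)).comap p.toMonoidHom := by
          refine (closure_le _).mpr ?_
          rintro _ ⟨i, hi, rfl⟩
          show p ((p ^ i) u) ∈ A (k + 1)
          rw [← MulAut.mul_apply, ← pow_succ']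
          rcases Nat.lt_or_eq_of_le (show i + 1 ≤ k + 1 from hi) with h | h
          · exact subset_closure ⟨i + 1, h, rfl⟩
          · rw [h]; exact hmem
        exact hle hx
      rw [htop, card_top, hc] at hcard'
      have := Nat.pow_le_pow_right two_pos (show k + 1 ≤ 4 by omega)
      omega
  have hAtop : A 5 = ⊤ := by
    refine eq_top_of_le_card _ ?_
    rw [hc]
    have hgrow : ∀ k ≤ 5, 2 ^ k ≤ Nat.card (A k) := by
      intro k
      induction k with
      | zero => exact fun _ => Nat.card_pos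
      | succ k ih =>
        intro hk
        have hlt : Nat.card (A k) < Nat.card (A (k + 1)) := by
          have hle : A k ≤ A (k + 1) := closure_mono (Set.image_mono (Set.Iio_subset_Iio k.le_succ))
          by_contra hge
          refine (hA5 k (by omega)).2 (by omega) ?_
          rw [eq_of_le_of_card_ge hle (not_lt.mp hge)]
          exact subset_closure ⟨k, Nat.lt_succ_self k, rfl⟩
        obtain ⟨i, hi⟩ := card_pow_two hV (A k)
        obtain ⟨j, hj⟩ := card_pow_two hV (A (k + 1))
        have h' := ih (by omega)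
        rw [hi] at hlt h'
        rw [hj] at hlt ⊢
        exact Nat.pow_le_pow_right two_pos (by
          have h1 := (Nat.pow_lt_pow_iff_right (by omega)).mp hlt
          have h2 := (Nat.pow_le_pow_iff_right (by omega)).mp h'
          omega)
    exact hgrow 5 le_rfl
  have hsurj : ∀ x : V, ∃ v : Fin 32, bitsProd b v = x := by
    intro x
    let H : Subgroup V :=
      { carrier := Set.range fun v : Fin 32 => bitsProd b v
        one_mem' := ⟨0, by simp [bitsProd]⟩
        mul_mem' := by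
          rintro _ _ ⟨v, rfl⟩ ⟨w, rfl⟩
          exact ⟨⟨(v : ℕ) ^^^ w, Nat.xor_lt_two_pow (n := 5) v.2 w.2⟩, bitsProd_xor hV b v w⟩
        inv_mem' := by
          rintro _ ⟨v, rfl⟩
          exact ⟨v, (inv_eq_of_mul_eq_one_right (hV _)).symm⟩ }
    have hle : A 5 ≤ H := by
      refine (closure_le _).mpr ?_
      rintro _ ⟨i, hi, rfl⟩
      exact ⟨⟨2 ^ i, Nat.pow_lt_pow_right one_lt_two hi⟩, bitsProd_two_pow b ⟨i, hi⟩⟩
    exact hle (hAtop ▸ mem_top x)
  have : Fintype V := Fintype.ofFinite V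
  have hinj : Function.Injective fun v : Fin 32 => bitsProd b v :=
    ((Fintype.bijective_iff_surjective_and_card _).mpr ⟨hsurj, by
      rw [Fintype.card_fin, ← Nat.card_eq_fintype_card, hc]⟩).1
  obtain ⟨c, hc5⟩ := hsurj ((p ^ 5) u)
  have hp31 : p ^ 31 = 1 := hp ▸ pow_orderOf_eq_one p
  have hpmod : ∀ k : ℕ, (p ^ k) u = (p ^ (k % 31)) u := fun k => by
    rw [← hp, pow_mod_orderOf]
  have hpbits : ∀ v < 32, p (bitsProd b v) = bitsProd b (step c v) := by
    have hlow : ∀ v < 16, p (bitsProd b v) = bitsProd b (2 * v) := by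
      intro v hv
      have hpb : ∀ i : ℕ, p ((p ^ i) u) = (p ^ (i + 1)) u := fun i => by
        rw [← MulAut.mul_apply, ← pow_succ']
      have h4 : v.testBit 4 = false := Nat.testBit_lt_two_pow hv
      have hb : ∀ i : ℕ, (2 * v).testBit (i + 1) = v.testBit i := fun i => by
        rw [Nat.testBit_succ, Nat.mul_div_cancel_left _ two_pos]
      have h0 : (2 * v).testBit 0 = false := by simp
      rw [bitsProd, bitsProd, Fin.prod_univ_five, Fin.prod_univ_five]
      simp only [b, map_mul, apply_ite p, map_one, hpb, show ((0 : Fin 5) : ℕ) = 0 from rfl,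
        show ((1 : Fin 5) : ℕ) = 0 + 1 from rfl, show ((2 : Fin 5) : ℕ) = 1 + 1 from rfl,
        show ((3 : Fin 5) : ℕ) = 2 + 1 from rfl, show ((4 : Fin 5) : ℕ) = 3 + 1 from rfl, hb, h0, h4,
        Bool.false_eq_true, if_false, one_mul, mul_one]
    intro v hv
    rw [step]
    split_ifs with h
    · exact hlow v h
    · have hvx : v = (v - 16) ^^^ 2 ^ 4 := by
        have : ∀ w < 32, ¬ w < 16 → w = (w - 16) ^^^ 2 ^ 4 := by decide +kernel
        exact this v hv h
      conv_lhs => rw [hvx, bitsProd_xor hV, map_mul, hlow _ (by omega),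
        show (2 : ℕ) ^ 4 = 2 ^ ((4 : Fin 5) : ℕ) from rfl, bitsProd_two_pow]
      rw [bitsProd_xor hV]
      congr 1
      rw [show b 4 = (p ^ 4) u from rfl, ← MulAut.mul_apply, ← pow_succ']
      exact hc5.symm
  have hstep : ∀ k : ℕ, iter c k < 32 ∧ bitsProd b (iter c k) = (p ^ k) u := by
    intro k
    induction k with
    | zero => exact ⟨by norm_num [iter], bitsProd_two_pow b 0⟩
    | succ k ih =>
      have hlt : ∀ c < 32, ∀ v < 32, step c v < 32 := by decide +kernel
      refine ⟨hlt c c.2 _ ih.1, ?_⟩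
      show bitsProd b (step c (iter c k)) = _
      rw [← hpbits _ ih.1, ih.2, ← MulAut.mul_apply, ← pow_succ']
  have heq : ∀ v w : ℕ, v < 32 → w < 32 → bitsProd b v = bitsProd b w → v = w := fun v w hv hw h =>
    congrArg Fin.val (hinj (a₁ := ⟨v, hv⟩) (a₂ := ⟨w, hw⟩) h)
  have hi31 : iter c 31 = 1 := heq _ _ (hstep 31).1 (by norm_num) (by
    rw [(hstep 31).2, hp31]
    exact (bitsProd_two_pow b 0).symm)
  obtain ⟨i, hi⟩ := mem_powers_iff_mem_zpowers.mpr hnorm
  have hconj : ∀ k : ℕ, g ((p ^ k) u) = (p ^ (i * k % 31)) u := by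
    intro k
    have h1 : g * p ^ k * g⁻¹ = p ^ (i * k) := by rw [← conj_pow, ← hi, ← pow_mul]
    rw [← hpmod, ← h1, MulAut.mul_apply, MulAut.mul_apply,
      show g⁻¹ u = u from (MulEquiv.symm_apply_eq g).mpr hg.symm]
  have hgall : i % 31 = 1 → g = 1 := by
    intro h1
    refine MulEquiv.ext fun x => ?_
    have hle : A 5 ≤ fixedIn (zpowers g) := by
      refine (closure_le _).mpr ?_
      rintro _ ⟨k, -, rfl⟩
      refine (fixedIn_zpowers g).mpr ?_
      show g ((p ^ k) u) = (p ^ k) u
      rw [hconj, Nat.mul_mod, h1, one_mul, Nat.mod_mod, ← hpmod]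
    exact (fixedIn_zpowers g).mp (hle (hAtop ▸ mem_top x))
  by_contra hne
  have hcube : i % 31 ≠ 1 ∧ (i % 31) ^ 3 % 31 = 1 := by
    refine ⟨fun h => hne (hgall h), ?_⟩
    have hit : ∀ j : ℕ, g ^ j * p * (g ^ j)⁻¹ = p ^ (i ^ j) := by
      intro j
      induction j with
      | zero => simp
      | succ j ih =>
        calc g ^ (j + 1) * p * (g ^ (j + 1))⁻¹ = g * (g ^ j * p * (g ^ j)⁻¹) * g⁻¹ := by
              rw [pow_succ']; group
          _ = (g * p * g⁻¹) ^ (i ^ j) := by rw [ih, conj_pow]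
          _ = p ^ (i ^ (j + 1)) := by rw [← hi, ← pow_mul, ← pow_succ']
    have h3 := hit 3
    rw [hg3, one_mul, inv_one, mul_one] at h3
    have h4 := pow_inj_mod.mp ((pow_one p).trans h3)
    rw [hp] at h4
    rw [← Nat.pow_mod]
    exact h4.symm
  have htw : ∀ n ≤ 5, ((List.range n).foldl
        (fun acc j => if (c : ℕ).testBit j then acc ^^^ iter c (i % 31 * j % 31) else acc) 0) < 32 ∧
      bitsProd b ((List.range n).foldl
        (fun acc j => if (c : ℕ).testBit j then acc ^^^ iter c (i % 31 * j % 31) else acc) 0) =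
      g (∏ j ∈ Finset.range n, if (c : ℕ).testBit j then (p ^ j) u else 1) := by
    intro n
    induction n with
    | zero => exact fun _ => ⟨by simp, by simp [bitsProd]⟩
    | succ n ih =>
      intro hn
      obtain ⟨hlt, hval⟩ := ih (by omega)
      rw [List.range_succ, List.foldl_append, Finset.prod_range_succ, map_mul, ← hval]
      simp only [List.foldl_cons, List.foldl_nil]
      by_cases hb : (c : ℕ).testBit n
      · rw [if_pos hb, if_pos hb, bitsProd_xor hV, (hstep _).2, hconj]
        refine ⟨Nat.xor_lt_two_pow (n := 5) hlt (hstep _).1, ?_⟩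
        rw [Nat.mod_mul_mod]
      · rw [if_neg hb, if_neg hb, map_one, mul_one]
        exact ⟨hlt, rfl⟩
  refine no_twist c ⟨i % 31, Nat.mod_lt _ (by norm_num)⟩ hcube.2 hcube.1 hi31 ?_
  obtain ⟨hlt, hval⟩ := htw 5 le_rfl
  refine heq _ _ hlt (hstep _).1 ?_
  rw [show (∏ j ∈ Finset.range 5, if (c : ℕ).testBit j then (p ^ j) u else 1) = bitsProd b c by
    rw [bitsProd, ← Fin.prod_univ_eq_prod_range (fun j => if (c : ℕ).testBit j then (p ^ j) u else 1) 5],
    hc5, hconj] at hval
  rw [twist, hval, (hstep _).2, Nat.mod_mul_mod]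

theorem good_thirty_two (hV : ∀ x : V, x * x = 1) (hc : Nat.card V = 32) (E : Subgroup (MulAut V))
    (hodd : Odd (Nat.card E)) : Good32 E := by
  have hbound : Nat.card E ∣ 9765 :=
    card_dvd_odd_part hV (d := 5) hc.le hodd (a := 10) (by decide)
  have : Fact (Nat.Prime 3) := ⟨Nat.prime_three⟩
  have : Fact (Nat.Prime 5) := ⟨by norm_num⟩
  have : Fact (Nat.Prime 7) := ⟨by norm_num⟩
  have : Fact (Nat.Prime 31) := ⟨by norm_num⟩
  -- a cyclic normal subgroup of prime order from a unique Sylow subgroup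
  have hnormal : ∀ (q : ℕ) [Fact q.Prime], q ∣ Nat.card E → ¬ q ^ 2 ∣ 9765 →
      (∀ d : ℕ, d ∣ Nat.card E → ¬ q ∣ d → d % q = 1 → d = 1) →
      ∃ s : MulAut V, s ∈ E ∧ orderOf s = q ∧ ∀ e ∈ E, ∀ n ∈ zpowers s, e * n * e⁻¹ ∈ zpowers s := by
    intro q _ hq hq2 hd
    obtain ⟨T⟩ : Nonempty (Sylow q E) := inferInstance
    have hcard : Nat.card (T : Subgroup E) = q := by
      obtain ⟨k, hk⟩ := IsPGroup.iff_card.mp T.isPGroup'
      have hk' : q ^ k ∣ 9765 := hk ▸ (card_subgroup_dvd_card _).trans hbound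
      rw [hk]
      rcases k with _ | _ | k
      · exfalso
        exact T.not_dvd_index (by
          have := card_mul_index (T : Subgroup E)
          rw [hk, pow_zero, one_mul] at this
          exact this ▸ hq)
      · exact pow_one q
      · exact absurd ((pow_dvd_pow q (by omega : 2 ≤ k + 2)).trans hk') hq2
    have : Subsingleton (Sylow q E) := by
      rw [← Finite.card_le_one_iff_subsingleton]
      refine (hd _ (T.card_dvd_index.trans (index_dvd_card _)) (not_dvd_card_sylow q E) ?_).le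
      have h1 : Nat.card (Sylow q E) % q = 1 % q := card_sylow_modEq_one q E
      rw [h1, Nat.one_mod_eq_one.mpr (Fact.out : q.Prime).ne_one]
    have hTn : (T : Subgroup E).Normal := T.normal_of_subsingleton
    obtain ⟨s, hs⟩ := exists_prime_orderOf_dvd_card' (G := (T : Subgroup E)) q (dvd_of_eq hcard.symm)
    have hTs : zpowers (s : E) = (T : Subgroup E) := eq_of_le_of_card_ge (zpowers_le.mpr s.2)
      (by rw [Nat.card_zpowers, orderOf_coe, hs, hcard])
    refine ⟨((s : E) : MulAut V), (s : E).2, by rw [orderOf_coe, orderOf_coe, hs], ?_⟩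
    intro e he n hn
    obtain ⟨k, rfl⟩ := mem_zpowers_iff.mp hn
    have h1 : (⟨e, he⟩ : E) * (s : E) ^ k * (⟨e, he⟩ : E)⁻¹ ∈ zpowers (s : E) := by
      rw [hTs]
      exact hTn.conj_mem _ (zpow_mem s.2 k) _
    obtain ⟨l, hl⟩ := mem_zpowers_iff.mp h1
    exact mem_zpowers_iff.mpr ⟨l, congrArg Subtype.val hl⟩
  have hzodd : ∀ s : MulAut V, s ∈ E → Odd (Nat.card (zpowers s)) := fun s hs =>
    odd_of_dvd hodd (card_dvd_of_le (zpowers_le.mpr hs))
  by_cases h31 : 31 ∣ Nat.card E
  · -- the irreducible case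
    obtain ⟨p₀, hp₀⟩ := exists_prime_orderOf_dvd_card' 31 h31
    obtain ⟨u, hu⟩ : ∃ u : V, u ≠ 1 := by
      have : Nontrivial V := Finite.one_lt_card_iff_nontrivial.mp (by omega)
      exact exists_ne 1
    set S : Subgroup (MulAut V) := E ⊓ MulAction.stabilizer (MulAut V) u with hS
    have hSE : Nat.card S ∣ Nat.card E := card_dvd_of_le inf_le_left
    -- no stabiliser contains elements of orders `5` and `7`, or `31`
    have hS31 : ¬ 31 ∣ Nat.card S := by
      intro h
      obtain ⟨t, ht⟩ := exists_prime_orderOf_dvd_card' 31 h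
      rw [← orderOf_coe] at ht
      have h1 := card_fixed_of_orderOf hV (n := 5) (f := 1) hc (by norm_num) ht (by decide)
      have := (Nat.card_eq_one_iff_unique.mp h1).1
      exact hu (congrArg Subtype.val (Subsingleton.elim
        (⟨u, (fixedIn_zpowers _).mpr t.2.2⟩ : fixedIn (zpowers (t : MulAut V))) 1))
    have hS315 : Nat.card S ∣ 315 := ((Fact.out : Nat.Prime 31).coprime_iff_not_dvd.mpr hS31).symm
      |>.dvd_of_dvd_mul_left (show Nat.card S ∣ 31 * 315 from hSE.trans hbound)
    -- transitivity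
    have htrans : Nat.card E = 31 * Nat.card S := by
      have horb : Nat.card (MulAction.orbit E u) * Nat.card S = Nat.card E := by
        rw [← card_mul_index (MulAction.stabilizer E u), MulAction.index_stabilizer,
          ← Nat.card_coe_set_eq, mul_comm]
        congr 1
        refine Nat.card_congr
          { toFun := fun e => ⟨⟨e, e.2.1⟩, e.2.2⟩
            invFun := fun e => ⟨e.1, e.1.2, e.2⟩ }
      have hlt : Nat.card (MulAction.orbit E u) < 32 := by
        have hsub : MulAction.orbit E u ⊆ {x : V | x ≠ 1} := by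
          rintro _ ⟨e, rfl⟩ h
          exact hu ((e : MulAut V).injective (h.trans (map_one _).symm))
        have hle := Set.ncard_le_ncard hsub
        have h2 : ({x : V | x ≠ 1} : Set V).ncard < Nat.card V := by
          rw [← Set.ncard_univ]
          exact Set.ncard_lt_ncard (Set.ssubset_univ_iff.mpr fun h => by
            simpa using (h.symm ▸ Set.mem_univ (1 : V) : (1 : V) ∈ {x : V | x ≠ 1}))
        rw [Nat.card_coe_set_eq]
        omega
      have hdiv : 31 ∣ Nat.card (MulAction.orbit E u) :=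
        ((Fact.out : Nat.Prime 31).dvd_mul.mp (horb.symm ▸ h31)).resolve_right hS31
      obtain ⟨k, hk⟩ := hdiv
      have := (MulAction.nonempty_orbit (M := E) u).to_subtype
      have hpos : 0 < Nat.card (MulAction.orbit E u) := Nat.card_pos
      rw [← horb, hk, show k = 1 by rcases k with _ | _ | k <;> omega]
    have h57 : ¬ (5 ∣ Nat.card S ∧ 7 ∣ Nat.card S) := fun h =>
      not_five_seven hV (Or.inr hc) hS315 h.1 h.2
    have h7 : ¬ 7 ∣ Nat.card E := by
      intro h7E
      have h7S : 7 ∣ Nat.card S := ((Fact.out : Nat.Prime 7).dvd_mul.mp (htrans ▸ h7E)).resolve_left (by norm_num)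
      have hS63 : Nat.card S ∣ 63 := ((Fact.out : Nat.Prime 5).coprime_iff_not_dvd.mpr
        fun h5 => h57 ⟨h5, h7S⟩).symm.dvd_of_dvd_mul_left (show Nat.card S ∣ 5 * 63 from hS315)
      obtain ⟨t, htE, ht, htn⟩ := hnormal 7 h7E (by norm_num) fun d hd hd7 hd1 => by
        have hd' : d ∣ 7 * 279 := hd.trans (htrans ▸ (mul_dvd_mul_left 31 hS63))
        have hd'' : d ∣ 279 :=
          ((Fact.out : Nat.Prime 7).coprime_iff_not_dvd.mpr hd7).symm.dvd_of_dvd_mul_left hd'
        exact (by decide +kernel : ∀ d ∈ Nat.divisors 279, d % 7 = 1 → d = 1) d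
          (Nat.mem_divisors.mpr ⟨hd'', by norm_num⟩) hd1
      have hp : orderOf (p₀ : MulAut V) = 31 := by rw [orderOf_coe, hp₀]
      have hinv : ∀ e ∈ zpowers (p₀ : MulAut V), ∀ x ∈ fixedIn (zpowers t), e x ∈ fixedIn (zpowers t) :=
        fun e he x hx => mem_fixedIn_of_normal (E := E) (fun a ha n hn => by
          simpa using htn a⁻¹ (inv_mem ha) n hn) (zpowers_le.mpr p₀.2 he) hx
      have h4 := card_fixed_of_orderOf hV (n := 5) (f := 4) hc (by norm_num) ht (by decide)
      have hmod := card_fixedIn_modEq (V := fixedIn (zpowers t)) (q := 31) (N := (restr _ hinv).range)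
        ((IsPGroup.of_card (n := 1) (G := zpowers (p₀ : MulAut V))
          (by rw [Nat.card_zpowers, hp, pow_one])).of_surjective (restr _ hinv).rangeRestrict
            (MonoidHom.rangeRestrict_surjective _))
      have h1 : Nat.card (fixedIn (restr _ hinv).range) ≤
          Nat.card (fixedIn (zpowers (p₀ : MulAut V))) := by
        refine Nat.card_le_card_of_injective (fun x => ⟨(x : fixedIn (zpowers t)), ?_⟩)
          fun a b h => Subtype.ext (Subtype.ext ((Subtype.mk.injEq _ _ _ _).mp h :))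
        intro e he
        exact congrArg Subtype.val (x.2 (restr _ hinv ⟨e, he⟩) ⟨⟨e, he⟩, rfl⟩)
      rw [card_fixed_of_orderOf hV (n := 5) (f := 1) hc (by norm_num) hp (by decide)] at h1
      have hpos : 0 < Nat.card (fixedIn (restr _ hinv).range) := Nat.card_pos
      rw [h4, show Nat.card (fixedIn (restr _ hinv).range) = 1 by omega] at hmod
      exact absurd hmod (by decide)
    have hS45 : Nat.card S ∣ 45 := ((Fact.out : Nat.Prime 7).coprime_iff_not_dvd.mpr
      fun h => h7 (h.trans hSE)).symm.dvd_of_dvd_mul_left (show Nat.card S ∣ 7 * 45 from hS315)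
    obtain ⟨p, hpE, hp, hpn⟩ := hnormal 31 h31 (by norm_num) fun d hd hd31 hd1 => by
      have hd' : d ∣ 45 := ((Fact.out : Nat.Prime 31).coprime_iff_not_dvd.mpr hd31).symm
        |>.dvd_of_dvd_mul_left (hd.trans (htrans ▸ mul_dvd_mul_left 31 hS45))
      exact (by decide +kernel : ∀ d ∈ Nat.divisors 45, d % 31 = 1 → d = 1) d
        (Nat.mem_divisors.mpr ⟨hd', by norm_num⟩) hd1
    have hS5 : Nat.card S ∣ 5 := by
      refine ((Nat.Coprime.pow_right 2 ?_ : (Nat.card S).Coprime (3 ^ 2))).dvd_of_dvd_mul_left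
        (show Nat.card S ∣ 3 ^ 2 * 5 from hS45)
      refine ((Fact.out : Nat.Prime 3).coprime_iff_not_dvd.mpr fun h3 => ?_).symm
      obtain ⟨g, hg⟩ := exists_prime_orderOf_dvd_card' 3 h3
      have hg' : (g : MulAut V) = 1 := not_three hV hc hp hu g.2.2
        (by rw [← hg, ← orderOf_coe]; exact pow_orderOf_eq_one _) (hpn _ g.2.1 p (mem_zpowers p))
      rw [← orderOf_coe, hg', orderOf_one] at hg
      norm_num at hg
    refine ⟨u, hu, ?_⟩
    rcases (Nat.dvd_prime (Fact.out : Nat.Prime 5)).mp hS5 with h1 | h5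
    · refine Or.inl ⟨⊤, mem_top u, by rw [card_top]; omega, fun e he heu w _ => ?_⟩
      have : e ∈ (⊥ : Subgroup (MulAut V)) := eq_bot_of_card_eq S h1 ▸ (⟨he, heu⟩ : e ∈ S)
      rw [mem_bot.mp this, MulAut.one_apply]
    · obtain ⟨s, hs⟩ := exists_prime_orderOf_dvd_card' (G := S) 5 (dvd_of_eq h5.symm)
      rw [← orderOf_coe] at hs
      have hSs : zpowers (s : MulAut V) = S := eq_of_le_of_card_ge (zpowers_le.mpr s.2)
        (by rw [Nat.card_zpowers, hs, h5])
      have hodd5 : Odd (Nat.card (zpowers (s : MulAut V))) := hzodd _ s.2.1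
      have hfix := card_fixed_of_orderOf hV (n := 5) (f := 2) hc (by norm_num) hs (by decide)
      have hR := card_fixedIn_mul_ker hV hodd5
      rw [hfix, hc] at hR
      refine Or.inr ⟨hc, (norm (zpowers (s : MulAut V))).ker, s, s.2.1, by omega, fun h => ?_, hs,
        fun r hr => ?_, fun r hr h => ?_, s.2.2, fun e he heu => hSs.symm ▸ (⟨he, heu⟩ : e ∈ S)⟩
      · exact hu (disjoint_fixedIn_ker hV hodd5 ((fixedIn_zpowers _).mpr s.2.2) h)
      · exact ker_invariant (E := zpowers (s : MulAut V))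
          (fun a ha n hn => mul_mem (mul_mem ha hn) (inv_mem ha)) (mem_zpowers _) hr
      · exact disjoint_fixedIn_ker hV hodd5 ((fixedIn_zpowers _).mpr h) hr
  · have h315 : Nat.card E ∣ 315 := ((Fact.out : Nat.Prime 31).coprime_iff_not_dvd.mpr h31).symm
      |>.dvd_of_dvd_mul_left (show Nat.card E ∣ 31 * 315 from hbound)
    by_cases h7 : 7 ∣ Nat.card E
    · have h63 : Nat.card E ∣ 63 := ((Fact.out : Nat.Prime 5).coprime_iff_not_dvd.mpr
        fun h5 => not_five_seven hV (Or.inr hc) h315 h5 h7).symm.dvd_of_dvd_mul_left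
          (show Nat.card E ∣ 5 * 63 from h315)
      obtain ⟨t, htE, ht, htn⟩ := hnormal 7 h7 (by norm_num) fun d hd _ hd1 =>
        (by decide +kernel : ∀ d ∈ Nat.divisors 63, d % 7 = 1 → d = 1) d
          (Nat.mem_divisors.mpr ⟨hd.trans h63, by norm_num⟩) hd1
      exact good_of_four hV hc hodd (hzodd t htE) htn
        (card_fixed_of_orderOf hV (n := 5) (f := 4) hc (by norm_num) ht (by decide))
    have h45 : Nat.card E ∣ 45 := ((Fact.out : Nat.Prime 7).coprime_iff_not_dvd.mpr h7).symm
      |>.dvd_of_dvd_mul_left (show Nat.card E ∣ 7 * 45 from h315)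
    by_cases h5 : 5 ∣ Nat.card E
    · obtain ⟨s, hsE, hs, hsn⟩ := hnormal 5 h5 (by norm_num) fun d hd _ hd1 =>
        (by decide +kernel : ∀ d ∈ Nat.divisors 45, d % 5 = 1 → d = 1) d
          (Nat.mem_divisors.mpr ⟨hd.trans h45, by norm_num⟩) hd1
      exact good_of_two hV hc hodd (hzodd s hsE) hsn
        (card_fixed_of_orderOf hV (n := 5) (f := 2) hc (by norm_num) hs (by decide))
    have h9 : Nat.card E ∣ 3 ^ 2 := ((Fact.out : Nat.Prime 5).coprime_iff_not_dvd.mpr h5).symm
      |>.dvd_of_dvd_mul_left (show Nat.card E ∣ 5 * 3 ^ 2 from h45)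
    obtain ⟨i, -, hi⟩ := (Nat.dvd_prime_pow Nat.prime_three).mp h9
    have hmod := card_fixedIn_modEq (q := 3) (N := E) (IsPGroup.of_card hi)
    obtain ⟨k, hk⟩ := card_pow_two hV (fixedIn E)
    rw [hk, hc] at hmod
    by_cases hk3 : 3 ≤ k
    · have h8 := Nat.pow_le_pow_right two_pos hk3
      obtain ⟨u, hu⟩ : ∃ u : fixedIn E, u ≠ 1 := by
        have : Nontrivial (fixedIn E) := Finite.one_lt_card_iff_nontrivial.mp (by omega)
        exact exists_ne 1
      exact ⟨u, fun h => hu (Subtype.ext h), Or.inl ⟨fixedIn E, u.2, by omega,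
        fun e he _ w hw => hw e he⟩⟩
    · refine good_of_two hV hc hodd hodd (fun e he n hn => mul_mem (mul_mem he hn) (inv_mem he)) ?_
      rw [hk]
      rcases k with _ | _ | _ | k
      · exact absurd hmod (by decide)
      · rfl
      · exact absurd hmod (by decide)
      · omega

theorem exists_good_element {V : Type*} [CommGroup V] [Finite V] (hV : ∀ x : V, x * x = 1)
    (E : Subgroup (MulAut V)) (hodd : Odd (Nat.card E)) (hc : Nat.card V = 16 ∨ Nat.card V = 32) :
    ∃ u : V, u ≠ 1 ∧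
      ((∃ W : Subgroup V, u ∈ W ∧ Nat.card V ≤ 4 * Nat.card W ∧
          ∀ e ∈ E, e u = u → ∀ w ∈ W, e w = w) ∨
       (Nat.card V = 32 ∧ ∃ R : Subgroup V, ∃ s ∈ E, Nat.card R = 16 ∧ u ∉ R ∧ orderOf s = 5 ∧
          (∀ r ∈ R, s r ∈ R) ∧ (∀ r ∈ R, s r = r → r = 1) ∧ s u = u ∧
          ∀ e ∈ E, e u = u → e ∈ Subgroup.zpowers s)) := by
  rcases hc with hc | hc
  · obtain ⟨b, hb, W, hbW, hWc, hW⟩ := exists_four hV hc E hodd
    exact ⟨b, hb, Or.inl ⟨W, hbW, by omega, hW⟩⟩
  · exact good_thirty_two hV hc E hodd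

end CfsgLib.OlssonSmall
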