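import Cfsg.Agent.Lib.BlockStar.Nonvanishing
import Cfsg.Agent.Lib.BlockSections.AbelianCount
import Cfsg.Agent.Lib.BlockStar.GenLocal

/-!
# Fusion of the subsections below a maximal pair

The defect of the block below a maximal pair at an element is the largest order of a centraliser in
the defect group over the fused elements; normal subgroups and their stabilisers bound it.
-/

set_option autoImplicit false
set_option linter.style.haveILetI false
set_option linter.unusedSectionVars false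

noncomputable section

namespace CfsgLib.OlssonSmall

open Cfsg CfsgLib.Blocks MonoidAlgebra CfsgLib.BrauerPairs
open CfsgLib.BrauerCharacters (centralizer_zpowers_eq)
open CfsgLib.BlockSections (belowBlock)

variable {G : Type*} [Group G] [Finite G] {p : ℕ} [Fact p.Prime] {M : Ideal AlgInt} [M.IsPrime]

/-- The idempotent of the block below the pair at `v`. -/
def beta (p : ℕ) (D : Subgroup G) (e0 : MonoidAlgebra (Res M) G) (v : G) : MonoidAlgebra (Res M) G :=
  subIdem M _ (belowBlock (M := M) p D e0 v)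

/-- Two elements of `D` whose pairs below `(D, e0)` are conjugate. -/
def PairConj (p : ℕ) (D : Subgroup G) (e0 : MonoidAlgebra (Res M) G) (v w : G) : Prop :=
  v ∈ D ∧ w ∈ D ∧ ∃ g : G, g * v * g⁻¹ = w ∧ conjA g (beta (M := M) p D e0 v) = beta (M := M) p D e0 w

variable {B : Set (IrrCharacter G)} {D : Subgroup G} {e0 : MonoidAlgebra (Res M) G}

theorem PairConj.refl {v : G} (hv : v ∈ D) : PairConj (M := M) p D e0 v v :=
  ⟨hv, hv, 1, by group, conjA_one _⟩

theorem PairConj.symm {v w : G} (h : PairConj (M := M) p D e0 v w) :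
    PairConj (M := M) p D e0 w v := by
  obtain ⟨hv, hw, g, hg, hβ⟩ := h
  exact ⟨hw, hv, g⁻¹, by rw [← hg]; group, by rw [← hβ, conjA_inv_conjA]⟩

theorem PairConj.trans {u v w : G} (h : PairConj (M := M) p D e0 u v)
    (h' : PairConj (M := M) p D e0 v w) : PairConj (M := M) p D e0 u w := by
  obtain ⟨hu, -, g, hg, hβ⟩ := h
  obtain ⟨-, hw, g', hg', hβ'⟩ := h'
  exact ⟨hu, hw, g' * g, by rw [← hg', ← hg]; group, by rw [conjA_mul, hβ, hβ']⟩

theorem PairConj.orderOf_eq {v w : G} (h : PairConj (M := M) p D e0 v w) :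
    orderOf w = orderOf v := by
  obtain ⟨-, -, g, hg, -⟩ := h
  rw [← hg, ← MulAut.conj_apply, MulEquiv.orderOf_eq]

variable [CharP (Res M) p] [IsAlgClosed (Res M)]
  (hM : IsPModular p M) (hB : IsPBlock M B)
  (hmax : IsMaxPair p (⊤ : Subgroup G) (redElem M (blockCoeff B)) D e0)
include hM hB hmax

theorem beta_pairLE {v : G} (hv : v ∈ D) :
    PairLE p (⊤ : Subgroup G) (Subgroup.zpowers v) (beta (M := M) p D e0 v) D e0 :=
  (BlockSections.belowBlock_spec hM hB hmax hv).2.1

theorem isBlockIdem_beta {v : G} (hv : v ∈ D) :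
    IsBlockIdem (Subgroup.centralizer ({v} : Set G)) (beta (M := M) p D e0 v) :=
  isBlockIdem_subIdem (BlockSections.belowBlock_spec hM hB hmax hv).1

theorem eq_beta {v : G} {c : MonoidAlgebra (Res M) G}
    (hc : PairLE p (⊤ : Subgroup G) (Subgroup.zpowers v) c D e0) :
    c = beta (M := M) p D e0 v :=
  (existsUnique_pairLE hmax.1.1 hc.le).unique hc
    (beta_pairLE hM hB hmax (hc.le (Subgroup.mem_zpowers v)))

/-- Invariance under fusion is stability. -/
theorem stableFun_of_pairConj {F : G → ℂ}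
    (h : ∀ v w : G, PairConj (M := M) p D e0 v w → F w = F v) :
    BlockStar.StableFun p D e0 F := by
  intro u g c hu hgu
  refine h u _ ⟨hu.le (Subgroup.mem_zpowers u), hgu.le (Subgroup.mem_zpowers _), g, rfl, ?_⟩
  rw [← eq_beta hM hB hmax hu, ← eq_beta hM hB hmax hgu]

/-- Elements of the stabiliser give fused elements. -/
theorem pairConj_of_mem_stab {v t : G} (hv : v ∈ D) (ht : t ∈ pairStab (⊤ : Subgroup G) D e0) :
    PairConj (M := M) p D e0 v (t * v * t⁻¹) :=
  ⟨hv, (BlockSections.conjA_belowBlock hM hB hmax hv ht).1, t, rfl,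
    (BlockSections.conjA_belowBlock hM hB hmax hv ht).2⟩

theorem pairConj_of_mem {v d : G} (hv : v ∈ D) (hd : d ∈ D) :
    PairConj (M := M) p D e0 v (d * v * d⁻¹) :=
  pairConj_of_mem_stab hM hB hmax hv (le_pairStab hmax.1.1 hd)

/-- Powers of fused elements are fused. -/
theorem PairConj.pow {v w : G} (h : PairConj (M := M) p D e0 v w) (k : ℕ) :
    PairConj (M := M) p D e0 (v ^ k) (w ^ k) := by
  obtain ⟨hv, hw, g, hg, hβ⟩ := h
  have hgk : g * v ^ k * g⁻¹ = w ^ k := by rw [← hg, conj_pow]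
  refine ⟨pow_mem hv k, pow_mem hw k, g, hgk, ?_⟩
  have hlev := beta_pairLE hM hB hmax hv
  obtain ⟨f, hf⟩ := exists_pairLE (hlev.isPair_left hmax.1.1)
    (Subgroup.zpowers_le.2 (pow_mem (Subgroup.mem_zpowers v) k))
  have h1 := eq_beta hM hB hmax (hf.trans hlev)
  have h2 := hf.conj (c := g) (Subgroup.mem_top g)
  rw [BlockSections.cj_zpowers, BlockSections.cj_zpowers, hgk, hg, hβ, h1] at h2
  exact eq_beta hM hB hmax (h2.trans (beta_pairLE hM hB hmax hw))

/-- The defect of the block at `v` from any of its defect groups. -/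
theorem pow_defect_eq {v : G} (hv : v ∈ D) {R : Subgroup G}
    (hR : IsDefectIn p (Subgroup.centralizer ({v} : Set G)) (Subgroup.centralizer ({v} : Set G))
      (beta (M := M) p D e0 v) R) :
    p ^ blockDefect p (belowBlock (M := M) p D e0 v) = Nat.card R := by
  have hbl := (BlockSections.belowBlock_spec hM hB hmax hv).1
  have h : IsDefectGroup p M (belowBlock (M := M) p D e0 v)
      (R.subgroupOf (Subgroup.centralizer ({v} : Set G))) := by
    rw [isDefectGroup_sub_iff hM hbl, Subgroup.map_subgroupOf_eq_of_le hR.1]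
    exact hR
  rw [← Blocks.card_isDefectGroup hM hbl h]
  exact Nat.card_congr (Subgroup.subgroupOfEquivOfLe hR.1).toEquiv

theorem card_le_pow_defect {v : G} (hv : v ∈ D) :
    Nat.card ↥(D ⊓ Subgroup.centralizer ({v} : Set G)) ≤
      p ^ blockDefect p (belowBlock (M := M) p D e0 v) := by
  obtain ⟨R, hR, hle⟩ := (beta_pairLE hM hB hmax hv).exists_defect_ge hmax.1.1
  rw [cenIn_top, centralizer_zpowers_eq] at hR
  rw [centralizer_zpowers_eq] at hle
  rw [pow_defect_eq hM hB hmax hv hR]
  exact Subgroup.card_le_of_le hle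

/-- Fused elements have blocks of the same defect. -/
theorem PairConj.pow_defect_eq {v w : G} (h : PairConj (M := M) p D e0 v w) :
    p ^ blockDefect p (belowBlock (M := M) p D e0 w) =
      p ^ blockDefect p (belowBlock (M := M) p D e0 v) := by
  obtain ⟨hv, hw, g, hg, hβ⟩ := h
  obtain ⟨R, hR, -⟩ := (beta_pairLE hM hB hmax hv).exists_defect_ge hmax.1.1
  rw [cenIn_top, centralizer_zpowers_eq] at hR
  have h2 := hR.conj_cj g
  rw [← BlockSections.centralizer_cj_singleton, hg, hβ] at h2
  rw [OlssonSmall.pow_defect_eq hM hB hmax hw h2, OlssonSmall.pow_defect_eq hM hB hmax hv hR,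
    Subgroup.card_map_of_injective (MulAut.conj g).injective]

/-- Some fused element has its centraliser in `D` as a defect group. -/
theorem exists_pow_defect_eq {v : G} (hv : v ∈ D) :
    ∃ w, PairConj (M := M) p D e0 v w ∧
      p ^ blockDefect p (belowBlock (M := M) p D e0 v) =
        Nat.card ↥(D ⊓ Subgroup.centralizer ({w} : Set G)) := by
  have hb := isBlockIdem_redElem_blockCoeff (M := M) hB
  obtain ⟨c, -, hle, hd⟩ := hmax.exists_conj_defect hb
    (((beta_pairLE hM hB hmax hv).pairOf_iff hb).2 hmax.1)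
  rw [BlockSections.cj_zpowers] at hle hd
  have hc := eq_beta hM hB hmax hle
  have hvw : PairConj (M := M) p D e0 v (c * v * c⁻¹) :=
    ⟨hv, hle.le (Subgroup.mem_zpowers _), c, rfl, hc⟩
  rw [cenIn_top, centralizer_zpowers_eq, hc] at hd
  exact ⟨_, hvw, by rw [← hvw.pow_defect_eq hM hB hmax, pow_defect_eq hM hB hmax hvw.2.1 hd]⟩

theorem pow_defect_le {v : G} (hv : v ∈ D) {N : ℕ}
    (h : ∀ w, PairConj (M := M) p D e0 v w →
      Nat.card ↥(D ⊓ Subgroup.centralizer ({w} : Set G)) ≤ N) :
    p ^ blockDefect p (belowBlock (M := M) p D e0 v) ≤ N := by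
  obtain ⟨w, hw, he⟩ := exists_pow_defect_eq hM hB hmax hv
  exact he ▸ h w hw

section Normal

variable {W : Subgroup G} {fW : MonoidAlgebra (Res M) G}
  (hfW : PairLE p (⊤ : Subgroup G) W fW D e0) (hWn : D ≤ Subgroup.normalizer (W : Set G))
include hfW hWn

/-- The whole defect group is a defect group in the stabiliser of a normal pair. -/
theorem isDefectIn_stab :
    IsDefectIn p (pairStab (⊤ : Subgroup G) W fW) (pairStab (⊤ : Subgroup G) W fW) fW D := by
  have hb := isBlockIdem_redElem_blockCoeff (M := M) hB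
  have hf := hfW.isPair_left hmax.1.1
  obtain ⟨R, hR, hle⟩ := hfW.exists_defect_stab_ge hmax.1.1
  rw [inf_eq_left.2 hWn] at hle
  suffices D = R by rwa [← this] at hR
  refine Subgroup.eq_of_le_of_card_ge hle ?_
  have hblock : IsBlockIdem (pairStab (⊤ : Subgroup G) W fW) fW :=
    hf.isBlockIdem_of_between (le_pairStab hf) (cenIn_le_pairStab hf) le_rfl
  obtain ⟨h, hh⟩ := exists_isMaxPair_of_isDefectIn hblock hR
  obtain ⟨-, hn⟩ := (pairOf_local_iff hf (cenIn_le_pairStab hf) le_rfl (hfW.le.trans hle)).1 hh.1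
  exact hmax.card_le hb ((hn.pairOf_iff hb).1 ((hfW.pairOf_iff hb).2 hmax.1))

theorem defect_le_stab : D ≤ pairStab (⊤ : Subgroup G) W fW :=
  (isDefectIn_stab hM hB hmax hfW hWn).1

theorem centralizer_le_stab :
    Subgroup.centralizer (W : Set G) ≤ pairStab (⊤ : Subgroup G) W fW := by
  have := cenIn_le_pairStab (hfW.isPair_left hmax.1.1)
  rwa [cenIn_top] at this

theorem stab_le_normalizer_centralizer :
    pairStab (⊤ : Subgroup G) W fW ≤ Subgroup.normalizer (Subgroup.centralizer (W : Set G) : Set G) := by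
  intro x hx
  have := pairStab_le_normalizer_cenIn hx
  rwa [cenIn_top] at this

/-- The index of `D C(W)` in the stabiliser is prime to `p`. -/
theorem not_dvd_relIndex :
    ¬ p ∣ (D ⊔ Subgroup.centralizer (W : Set G)).relIndex (pairStab (⊤ : Subgroup G) W fW) := by
  have hf := hfW.isPair_left hmax.1.1
  have h := (isDefectIn_stab hM hB hmax hfW hWn).relIndex_ne_zero hf.2.2
    (fun x hx => (mem_pairStab.1 hx).2.2) (cenIn_le_pairStab hf) pairStab_le_normalizer_cenIn
  rwa [Ne, CharP.cast_eq_zero_iff (Res M) p, cenIn_top] at h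

/-- If the regular elements of the stabiliser centralise `W`, it is `D C(W)`. -/
theorem exists_mul_of_mem_stab
    (hodd : ∀ x ∈ pairStab (⊤ : Subgroup G) W fW, ¬ p ∣ orderOf x →
      x ∈ Subgroup.centralizer (W : Set G))
    {t : G} (ht : t ∈ pairStab (⊤ : Subgroup G) W fW) :
    ∃ d ∈ D, ∃ z ∈ Subgroup.centralizer (W : Set G), t = d * z := by
  have h := le_of_regular_and_index (p := p) le_sup_right
    (sup_le (defect_le_stab hM hB hmax hfW hWn) (centralizer_le_stab hM hB hmax hfW hWn))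
    (stab_le_normalizer_centralizer hM hB hmax hfW hWn) (not_dvd_relIndex hM hB hmax hfW hWn)
    hodd ht
  rw [← SetLike.mem_coe, Subgroup.coe_mul_of_left_le_normalizer_right _ _
    ((defect_le_stab hM hB hmax hfW hWn).trans
      (stab_le_normalizer_centralizer hM hB hmax hfW hWn))] at h
  obtain ⟨d, hd, z, hz, rfl⟩ := Set.mem_mul.1 h
  exact ⟨d, hd, z, hz, rfl⟩

/-- No element outside `D C(W)` of the stabiliser commutes with it modulo `C(W)` and has its
`p`-th power inside. -/
theorem mem_of_normalizes {g : G} (hg : g ∈ pairStab (⊤ : Subgroup G) W fW)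
    (hgL : g ∈ Subgroup.normalizer ((D ⊔ Subgroup.centralizer (W : Set G) : Subgroup G) : Set G))
    (hgp : g ^ p ∈ D ⊔ Subgroup.centralizer (W : Set G)) :
    g ∈ D ⊔ Subgroup.centralizer (W : Set G) := by
  by_contra hne
  set L := D ⊔ Subgroup.centralizer (W : Set G) with hL
  set S := L ⊔ Subgroup.zpowers g
  have hLT : L ≤ pairStab (⊤ : Subgroup G) W fW :=
    sup_le (defect_le_stab hM hB hmax hfW hWn) (centralizer_le_stab hM hB hmax hfW hWn)
  have hST : S ≤ pairStab (⊤ : Subgroup G) W fW := sup_le hLT (Subgroup.zpowers_le.2 hg)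
  have hgS : g ∈ S := Subgroup.mem_sup_right (Subgroup.mem_zpowers g)
  have hSn : S ≤ Subgroup.normalizer (L : Set G) :=
    sup_le Subgroup.le_normalizer (Subgroup.zpowers_le.2 hgL)
  haveI : (L.subgroupOf S).Normal := Subgroup.normal_subgroupOf_of_le_normalizer hSn
  have hx1 : (QuotientGroup.mk ⟨g, hgS⟩ : S ⧸ L.subgroupOf S) ≠ 1 := fun h =>
    hne (by simpa [QuotientGroup.eq_one_iff, Subgroup.mem_subgroupOf] using h)
  have hxp : (QuotientGroup.mk ⟨g, hgS⟩ : S ⧸ L.subgroupOf S) ^ p = 1 := by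
    rw [← QuotientGroup.mk_pow, QuotientGroup.eq_one_iff, Subgroup.mem_subgroupOf]
    simpa using hgp
  have ho := orderOf_eq_prime hxp hx1
  have h1 : p ∣ L.relIndex S := by
    rw [Subgroup.relIndex, Subgroup.index_eq_card]
    exact ho ▸ orderOf_dvd_natCard _
  exact not_dvd_relIndex hM hB hmax hfW hWn
    (h1.trans ⟨S.relIndex (pairStab (⊤ : Subgroup G) W fW),
      (Subgroup.relIndex_mul_relIndex L S _ le_sup_left hST).symm⟩)

/-- The defect at `v` is at most `|W|` if that holds for the centralisers of its images. -/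
theorem pow_defect_le_of_normal {v : G} (hvW : v ∈ W)
    (hWv : W ≤ Subgroup.centralizer ({v} : Set G))
    (hsmall : ∀ t ∈ pairStab (⊤ : Subgroup G) W fW,
      Nat.card ↥(D ⊓ Subgroup.centralizer ({t * v * t⁻¹} : Set G)) ≤ Nat.card W) :
    p ^ blockDefect p (belowBlock (M := M) p D e0 v) ≤ Nat.card W := by
  have hvD : v ∈ D := hfW.le hvW
  have hlev := beta_pairLE hM hB hmax hvD
  have hf := hlev.isPair_left hmax.1.1
  have hfWp := hfW.isPair_left hmax.1.1
  have hC : cenIn (⊤ : Subgroup G) (Subgroup.zpowers v) = Subgroup.centralizer ({v} : Set G) := by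
    rw [cenIn_top, centralizer_zpowers_eq]
  have hzW : Subgroup.zpowers v ≤ W := Subgroup.zpowers_le.2 hvW
  have hWN : W ≤ Subgroup.normalizer (Subgroup.zpowers v : Set G) := by
    refine hWv.trans ?_
    rw [← centralizer_zpowers_eq]; exact Subgroup.centralizer_le_normalizer _
  obtain ⟨g, hn, hge⟩ := hlev.normalLE_of_le_normalizer hmax.1.1 hzW hfW.le hWN
  obtain rfl : g = fW := (existsUnique_pairLE hmax.1.1 hfW.le).unique hge hfW
  have hpo := (pairOf_local_iff hf le_rfl (cenIn_le_pairStab hf) hzW).2 ⟨hC ▸ hWv, hn⟩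
  obtain ⟨R, h, hR, hle⟩ := exists_isMaxPair_above hpo
  have hRC : R ≤ Subgroup.centralizer ({v} : Set G) := hC ▸ hR.1.1.2.1
  have hdef := hR.isDefectIn hf.2.2
  rw [hC] at hdef
  rw [pow_defect_eq hM hB hmax hvD hdef]
  have hWR : W ≤ R := hle.le
  obtain ⟨-, hnR⟩ := (pairOf_local_iff hf le_rfl (cenIn_le_pairStab hf) (hzW.trans hWR)).1 hR.1
  have hleG : PairLE p (⊤ : Subgroup G) W g R h :=
    pairLE_of_local hf le_rfl (cenIn_le_pairStab hf) hzW hle
  set N := R ⊓ Subgroup.normalizer (W : Set G) with hN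
  have hWN' : W ≤ N := le_inf hWR Subgroup.le_normalizer
  have hNp : IsPGroup p N := hR.1.1.1.to_le inf_le_left
  obtain ⟨g', hn', -⟩ := hleG.normalLE_of_le_normalizer hnR.2.1 hWN' inf_le_left inf_le_right
  obtain ⟨c, hc, hcN⟩ := (isDefectIn_stab hM hB hmax hfW hWn).exists_conj_le hNp
    (hleG.normalizer_le_stab hnR.2.1)
    (fun h0 => hn'.2.1.2.2.ne_zero (by rw [← hn'.2.2.2.2.2, h0, zero_mul]))
  have hle' : cj c⁻¹ N ≤ D ⊓ Subgroup.centralizer ({c⁻¹ * v * c} : Set G) := by
    intro x hx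
    rw [mem_cj, inv_inv] at hx
    refine Subgroup.mem_inf.2 ⟨?_, Subgroup.mem_centralizer_singleton_iff.2 ?_⟩
    · simpa [mul_assoc] using hcN _ hx
    · have hcomm := Subgroup.mem_centralizer_singleton_iff.1 (hRC (Subgroup.mem_inf.1 hx).1)
      calc x * (c⁻¹ * v * c) = c⁻¹ * (c * x * c⁻¹ * v) * c := by group
        _ = c⁻¹ * (v * (c * x * c⁻¹)) * c := by rw [hcomm]
        _ = c⁻¹ * v * c * x := by group
  have hNW : N = W := by
    refine (Subgroup.eq_of_le_of_card_ge hWN' ?_).symm
    have h2 := hsmall c⁻¹ (inv_mem hc)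
    rw [inv_inv] at h2
    refine le_trans ?_ ((Subgroup.card_le_of_le hle').trans h2)
    exact le_of_eq (Subgroup.card_map_of_injective (MulAut.conj c⁻¹).injective).symm
  refine Subgroup.card_le_of_le ?_
  by_contra hne
  exact (lt_inf_normalizer hR.1.1.1
    (lt_of_le_of_ne hWR fun e => hne (le_of_eq e.symm))).ne' hNW

/-- Fused elements of a small normal centraliser are conjugate in the stabiliser. -/
theorem exists_stab_of_pairConj {v w : G} (hvW : v ∈ W) (hwW : w ∈ W)
    (hWv : W ≤ Subgroup.centralizer ({v} : Set G)) (hWw : W ≤ Subgroup.centralizer ({w} : Set G))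
    (hdef : p ^ blockDefect p (belowBlock (M := M) p D e0 w) ≤ Nat.card W)
    (h : PairConj (M := M) p D e0 v w) :
    ∃ t ∈ pairStab (⊤ : Subgroup G) W fW, t * v * t⁻¹ = w := by
  obtain ⟨hvD, hwD, g, hg, hβ⟩ := h
  have hlev := beta_pairLE hM hB hmax hvD
  have hlew := beta_pairLE hM hB hmax hwD
  have hfw := hlew.isPair_left hmax.1.1
  have hC : cenIn (⊤ : Subgroup G) (Subgroup.zpowers w) = Subgroup.centralizer ({w} : Set G) := by
    rw [cenIn_top, centralizer_zpowers_eq]
  have step : ∀ {u : G}, u ∈ W → W ≤ Subgroup.centralizer ({u} : Set G) →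
      NormalLE p (⊤ : Subgroup G) (Subgroup.zpowers u) (beta (M := M) p D e0 u) W fW := by
    intro u hu hWu
    have hzW : Subgroup.zpowers u ≤ W := Subgroup.zpowers_le.2 hu
    obtain ⟨f, hn, hge⟩ := (beta_pairLE hM hB hmax (hfW.le hu)).normalLE_of_le_normalizer hmax.1.1
      hzW hfW.le (hWu.trans (by rw [← centralizer_zpowers_eq]; exact Subgroup.centralizer_le_normalizer _))
    rwa [(existsUnique_pairLE hmax.1.1 hfW.le).unique hge hfW] at hn
  have hn1 := step hwW hWw
  have hn2 := (step hvW hWv).conj (c := g) (Subgroup.mem_top g)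
  rw [BlockSections.cj_zpowers, hg, hβ] at hn2
  have hW2 : cj g W ≤ Subgroup.centralizer ({w} : Set G) := by
    rw [← hg, BlockSections.centralizer_cj_singleton]
    exact cj_le_cj hWv
  have mk : ∀ {W' : Subgroup G} {f' : MonoidAlgebra (Res M) G},
      NormalLE p (⊤ : Subgroup G) (Subgroup.zpowers w) (beta (M := M) p D e0 w) W' f' →
      W' ≤ Subgroup.centralizer ({w} : Set G) → Nat.card W' = Nat.card W →
      IsMaxPair p (cenIn (⊤ : Subgroup G) (Subgroup.zpowers w)) (beta (M := M) p D e0 w) W' f' := by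
    intro W' f' hn hle hcard
    have hpo := (pairOf_local_iff hfw le_rfl (cenIn_le_pairStab hfw) hn.2.2.1).2 ⟨hC ▸ hle, hn⟩
    refine PairOf.isMaxPair_of_card hpo fun R h hR => ?_
    obtain ⟨R₂, h₂, hR₂, hle₂⟩ := exists_isMaxPair_above hR
    have hd := hR₂.isDefectIn hfw.2.2
    rw [hC] at hd
    rw [hcard]
    refine (Subgroup.card_le_of_le hle₂.le).trans ?_
    rw [← pow_defect_eq hM hB hmax hwD hd]
    exact hdef
  have m1 := mk hn1 hWw rfl
  have m2 := mk hn2 hW2 (Subgroup.card_map_of_injective (MulAut.conj g).injective)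
  obtain ⟨c, hc, hcP, hce⟩ := m2.exists_conj hfw.2.2 m1
  refine ⟨c * g, mem_pairStab_of_cj (Subgroup.mem_top _) ?_ ?_, ?_⟩
  · rw [cj_mul, ← hcP]
  · rw [conjA_mul, ← hce]
  · have hcw : c * w = w * c :=
      Subgroup.mem_centralizer_singleton_iff.1 (hC ▸ hc)
    calc c * g * v * (c * g)⁻¹ = c * (g * v * g⁻¹) * c⁻¹ := by group
      _ = w := by rw [hg, hcw, mul_inv_cancel_right]

end Normal

end CfsgLib.OlssonSmall
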