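import Cfsg.Agent.Lib.OlssonSmall.IndexTwo
import Cfsg.Agent.Lib.TwoGroups.Taussky
import Cfsg.Agent.Lib.Alperin.OrderFour
import Cfsg.Agent.Lib.VaughanLee.Main
import Cfsg.Agent.Lib.Spectrum.FixityTwoSylow

/-!
# Nonabelian 2-groups of order at most 32

Each of them has an element whose order, or whose centraliser, controls the fusion of its
subsection, or an abelian subgroup of index two acted on in one of two special ways.
-/

set_option autoImplicit false
set_option linter.style.haveILetI false
set_option linter.unusedSectionVars false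

noncomputable section

namespace CfsgLib.OlssonSmall

open scoped commutatorElement

variable {P : Type*} [Group P]

/-- All elements of some order have small centralisers. -/
def GoodOrder (P : Type*) [Group P] : Prop :=
  ∃ x : P, (commutator P).index ≤ 4 * orderOf x ∧
    ∀ y : P, orderOf y = orderOf x →
      Nat.card (Subgroup.centralizer ({y} : Set P)) ≤ (commutator P).index

/-- A derived subgroup of order two with an element controlling its fusion. -/
def DerivedTwo (P : Type*) [Group P] : Prop :=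
  ∃ u z : P, z ≠ 1 ∧ z ∈ Subgroup.center P ∧ z * z = 1 ∧ (∀ a b : P, ⁅a, b⁆ = 1 ∨ ⁅a, b⁆ = z) ∧
    (∀ a ∈ Subgroup.centralizer ({u} : Set P), ∀ b ∈ Subgroup.centralizer ({u} : Set P),
      a * b = b * a) ∧
    2 * Nat.card (Subgroup.centralizer ({u} : Set P)) = Nat.card P ∧
    Nat.card (Subgroup.centralizer ({u} : Set P)) ≤ (commutator P).index ∧
    (commutator P).index ≤ 4 * orderOf u ∧
    (u * u = z ∨ ∀ a ∈ Subgroup.centralizer ({u} : Set P), a * a = 1 → a ∈ Subgroup.center P)

/-- An element with a normal abelian centraliser without automorphisms of odd order. -/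
def RigidCentralizer (P : Type*) [Group P] : Prop :=
  ∃ u : P, (∀ a ∈ Subgroup.centralizer ({u} : Set P), ∀ b ∈ Subgroup.centralizer ({u} : Set P),
      a * b = b * a) ∧
    commutator P ≤ Subgroup.centralizer ({u} : Set P) ∧
    Nat.card (Subgroup.centralizer ({u} : Set P)) ≤ (commutator P).index ∧
    (commutator P).index ≤ 4 * orderOf u ∧
    ∀ φ : MulAut (Subgroup.centralizer ({u} : Set P)), Odd (orderOf φ) → φ = 1

/-- An abelian subgroup of index two with congruences from its squares. -/
def SquarePair (P : Type*) [Group P] : Prop :=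
  ∃ A A0 : Subgroup P, ∃ t : P, IdxTwo ⊤ A A0 t ∧
    (Nat.card A ≤ 2 * (commutator P).index ∨
      (commutator P).index = 4 ∧ Nat.card A ≤ 16)

/-- A generalised dihedral group on a product of two cyclic groups of order four. -/
def InvertedFour (P : Type*) [Group P] : Prop :=
  ∃ A : Subgroup P, A.index = 2 ∧ Nat.card A = 16 ∧ (commutator P).index = 8 ∧
    (∀ a ∈ A, ∀ b ∈ A, a * b = b * a) ∧ (∀ a ∈ A, a ^ 4 = 1) ∧
    Nat.card {a : P // a ∈ A ∧ a * a = 1} = 4 ∧ ∀ r, r ∉ A → r * r = 1

/-- Membership in a centraliser of an element. -/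
theorem mem_cen {a b : P} : a ∈ Subgroup.centralizer ({b} : Set P) ↔ a * b = b * a :=
  Subgroup.mem_centralizer_singleton_iff

theorem conj_eq_self_iff {a b : P} : a * b * a⁻¹ = b ↔ a * b = b * a :=
  mul_inv_eq_iff_eq_mul

theorem mem_cen_self (x : P) : x ∈ Subgroup.centralizer ({x} : Set P) := mem_cen.2 rfl

/-- The products outside a subgroup of relative index two. -/
theorem relIndexTwo_mul_mem {H K : Subgroup P} (hidx : H.relIndex K = 2) {a b : P}
    (ha : a ∈ K) (hb : b ∈ K) : a * b ∈ H ↔ (a ∈ H ↔ b ∈ H) := by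
  have h := Subgroup.mul_mem_iff_of_index_two (H := H.subgroupOf K) hidx (a := ⟨a, ha⟩) (b := ⟨b, hb⟩)
  simpa only [Subgroup.mem_subgroupOf, Subgroup.coe_mul] using h

variable [Finite P]

theorem relIndex_ne_zero_fin (H K : Subgroup P) : H.relIndex K ≠ 0 :=
  (H.subgroupOf K).index_ne_zero_of_finite

theorem relIndex_le_index (H K : Subgroup P) : H.relIndex K ≤ H.index :=
  (Subgroup.relIndex_le_of_le_right le_top (relIndex_ne_zero_fin H ⊤)).trans_eq
    (Subgroup.relIndex_top_right H)

/-- The index of a centraliser is at most the order of the derived subgroup. -/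
theorem index_centralizer_le (x : P) :
    (Subgroup.centralizer ({x} : Set P)).index ≤ Nat.card (commutator P) := by
  have hmem : ∀ g : P, ⁅g, x⁆ ∈ commutator P := fun g =>
    Subgroup.commutator_mem_commutator (Subgroup.mem_top _) (Subgroup.mem_top _)
  refine Nat.card_le_card_of_injective (fun q => (⟨⁅q.out, x⁆, hmem _⟩ : commutator P))
    fun q q' h => ?_
  have h1 : ⁅q.out, x⁆ = ⁅q'.out, x⁆ := congrArg Subtype.val h
  rw [commutatorElement_def, commutatorElement_def, mul_left_inj] at h1
  rw [← QuotientGroup.out_eq' q, ← QuotientGroup.out_eq' q', QuotientGroup.eq, mem_cen]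
  calc q.out⁻¹ * q'.out * x = q.out⁻¹ * (q'.out * x * q'.out⁻¹) * q'.out := by group
    _ = x * (q.out⁻¹ * q'.out) := by rw [← h1]; group

theorem two_mul_card_le_of_notMem_center {x : P} (hx : x ∉ Subgroup.center P) :
    2 * Nat.card (Subgroup.centralizer ({x} : Set P)) ≤ Nat.card P := by
  rw [← Subgroup.card_mul_index (Subgroup.centralizer ({x} : Set P)), mul_comm]
  refine Nat.mul_le_mul_left _ ?_
  have h0 := (Subgroup.centralizer ({x} : Set P)).index_ne_zero_of_finite
  have h1 : (Subgroup.centralizer ({x} : Set P)).index ≠ 1 := fun h => hx <| by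
    rw [Subgroup.index_eq_one] at h
    exact Subgroup.mem_center_iff.2 fun g => mem_cen.1 (h ▸ Subgroup.mem_top g)
  omega

section TwoGroup

variable (hP : IsPGroup 2 P)
include hP

theorem card_subgroup_pow (H : Subgroup P) : ∃ k, Nat.card H = 2 ^ k :=
  haveI : Fact (Nat.Prime 2) := ⟨Nat.prime_two⟩
  IsPGroup.iff_card.1 (hP.to_subgroup H)

theorem exists_orderOf_eq (x : P) : ∃ k, orderOf x = 2 ^ k :=
  haveI : Fact (Nat.Prime 2) := ⟨Nat.prime_two⟩
  IsPGroup.iff_orderOf.1 hP x

/-- An element whose square is nontrivial has order at least four. -/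
theorem four_le_orderOf {x : P} (hx : x * x ≠ 1) : 4 ≤ orderOf x := by
  obtain ⟨k, hk⟩ := exists_orderOf_eq hP x
  rw [hk]
  refine le_trans (le_refl (2 ^ 2)) (Nat.pow_le_pow_right two_pos ?_)
  by_contra hlt
  apply hx
  rw [← pow_two, ← orderOf_dvd_iff_pow_eq_one, hk]
  exact pow_dvd_pow 2 (show k ≤ 1 by omega)

/-- An element whose fourth power is nontrivial has order at least eight. -/
theorem eight_le_orderOf {x : P} (hx : x ^ 4 ≠ 1) : 8 ≤ orderOf x := by
  obtain ⟨k, hk⟩ := exists_orderOf_eq hP x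
  rw [hk]
  refine le_trans (le_refl (2 ^ 3)) (Nat.pow_le_pow_right two_pos ?_)
  by_contra hlt
  apply hx
  rw [← orderOf_dvd_iff_pow_eq_one, hk, show 4 = 2 ^ 2 from rfl]
  exact pow_dvd_pow 2 (show k ≤ 2 by omega)

/-- Classes of size at most two bound the derived subgroup by two. -/
theorem card_commutator_le_two
    (h : ∀ x : P, (Subgroup.centralizer ({x} : Set P)).index ≤ 2) :
    Nat.card (commutator P) ≤ 2 := by
  haveI : Fact (Nat.Prime 2) := ⟨Nat.prime_two⟩
  by_cases hc : ∀ a c : P, a * c = c * a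
  · have h1 : commutator P = ⊥ := by
      rw [commutator_def, eq_bot_iff, Subgroup.commutator_le]
      intro a _ c _
      rw [Subgroup.mem_bot, commutatorElement_eq_one_iff_mul_comm]
      exact hc a c
    rw [h1, Subgroup.card_bot]
    norm_num
  · have hne : Subgroup.center P ≠ ⊤ := fun h1 =>
      hc fun a c => Subgroup.mem_center_iff.1 (h1 ▸ Subgroup.mem_top c) a
    obtain ⟨M, -, hMn, hM, -⟩ := CfsgLib.PGroups.exists_le_index_prime hP hne
    exact CfsgLib.VaughanLee.breadthBound 2 1 P hP M hMn hM fun y _ => by simpa using h y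

end TwoGroup

/-- Odd automorphisms of an abelian 2-group with a large cyclic subgroup are trivial. -/
theorem mulAut_eq_one_of_odd {A : Type*} [CommGroup A] [Finite A] (hA : IsPGroup 2 A) {g0 : A}
    (hg0 : Nat.card A ≤ 2 * orderOf g0) (h4 : 4 ≤ orderOf g0) (φ : MulAut A)
    (hφ : Odd (orderOf φ)) : φ = 1 := by
  haveI : Fact (Nat.Prime 2) := ⟨Nat.prime_two⟩
  obtain ⟨g, hg⟩ := Monoid.exists_orderOf_eq_exponent (G := A)
    Monoid.ExponentExists.of_finite
  have hexp : ∀ a : A, a ^ orderOf g = 1 := fun a => by rw [hg]; exact Monoid.pow_exponent_eq_one a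
  have hgg : orderOf g0 ≤ orderOf g :=
    Nat.le_of_dvd (orderOf_pos g) (by rw [hg]; exact Monoid.order_dvd_exponent g0)
  obtain ⟨n, hn⟩ := IsPGroup.iff_orderOf.1 hA g
  obtain ⟨j, rfl⟩ : ∃ j, n = j + 2 := ⟨n - 2, by
    rcases n with _ | _ | n <;> simp_all <;> omega⟩
  set H := Subgroup.zpowers g with hH
  have hHi : H.index ≤ 2 := by
    have h1 := H.card_mul_index
    rw [hH, Nat.card_zpowers] at h1
    have := orderOf_pos g
    nlinarith
  have hmul : ∀ a b : A, a ∉ H → b ∉ H → a * b ∈ H := fun a b ha hb => by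
    have h2 : H.index = 2 := by
      have := H.index_ne_zero_of_finite
      have : H.index ≠ 1 := fun h => ha (by rw [Subgroup.index_eq_one.1 h]; exact Subgroup.mem_top a)
      omega
    exact (Subgroup.mul_mem_iff_of_index_two h2).2 (by tauto)
  have hsq : ∀ a : A, a * a ∈ H := fun a => by
    by_cases ha : a ∈ H
    · exact mul_mem ha ha
    · exact hmul a a ha ha
  -- squares are powers of `g ^ 2`
  have hsq2 : ∀ a : A, ∃ i : ℕ, (g ^ 2) ^ i = a * a := fun a => by
    obtain ⟨i, hi : g ^ i = a * a⟩ := mem_powers_iff_mem_zpowers.2 (hsq a)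
    have h1 : (a * a) ^ 2 ^ (j + 1) = 1 := by
      rw [← pow_two, ← pow_mul, ← pow_succ', ← hn]; exact hexp a
    rw [← hi, ← pow_mul, ← orderOf_dvd_iff_pow_eq_one, hn, pow_succ' 2 (j + 1)] at h1
    obtain ⟨i', rfl⟩ := Nat.dvd_of_mul_dvd_mul_right (pow_pos two_pos _) h1
    exact ⟨i', by rw [← pow_mul, hi]⟩
  -- the automorphism fixes `g ^ 2`
  obtain ⟨k, hk⟩ := hsq2 (φ g)
  have hkφ : φ (g ^ 2) = (g ^ 2) ^ k := by rw [hk, pow_two, map_mul]
  have hiter : ∀ m : ℕ, (φ ^ m) (g ^ 2) = (g ^ 2) ^ (k ^ m) := by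
    intro m
    induction m with
    | zero => simp
    | succ m ih =>
      rw [pow_succ' φ m, MulAut.mul_apply, ih, map_pow, hkφ, ← pow_mul, ← pow_succ']
  have ho2 : orderOf (g ^ 2) = 2 ^ (j + 1) := by
    rw [orderOf_pow, hn, Nat.gcd_eq_right (dvd_pow_self 2 (by omega)), pow_succ' 2 (j + 1),
      Nat.mul_div_cancel_left _ two_pos]
  have hfix2 : φ (g ^ 2) = g ^ 2 := by
    rw [hkφ]
    obtain ⟨m, hm⟩ := hφ
    have hkodd : ¬ 2 ∣ k := by
      rintro ⟨k', rfl⟩
      have h1 : φ (g ^ 2) ^ 2 ^ j = 1 := by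
        rw [hkφ, ← pow_mul, mul_assoc, mul_left_comm, pow_mul, mul_comm 2 (2 ^ j), ← pow_succ 2 j,
          ← ho2, ← pow_mul, mul_comm, pow_mul, pow_orderOf_eq_one, one_pow]
      rw [← map_pow, MulEquiv.map_eq_one_iff, ← orderOf_dvd_iff_pow_eq_one, ho2] at h1
      exact absurd ((Nat.pow_dvd_pow_iff_le_right (le_refl 2)).1 h1) (by omega)
    have hcop : Nat.Coprime k (2 ^ (j + 1)) :=
      ((Nat.prime_two.coprime_iff_not_dvd).2 hkodd).symm.pow_right _
    set u := ZMod.unitOfCoprime k hcop with hu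
    have hu1 : u ^ orderOf φ = 1 := by
      refine Units.ext ?_
      rw [Units.val_pow_eq_pow_val, hu, ZMod.coe_unitOfCoprime, Units.val_one, ← Nat.cast_pow]
      refine ((ZMod.natCast_eq_natCast_iff (k ^ orderOf φ) 1 _).2 ?_).trans Nat.cast_one
      have h1 := hiter (orderOf φ)
      rw [pow_orderOf_eq_one, MulAut.one_apply, ← ho2] at *
      exact (pow_eq_pow_iff_modEq.1 (by rw [pow_one]; exact h1.symm))
    have hu2 : u ^ 2 ^ j = 1 := by
      have h1 := ZMod.pow_totient u
      rwa [Nat.totient_prime_pow_succ Nat.prime_two, show (2 : ℕ) - 1 = 1 from rfl, mul_one] at h1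
    have hg1 : u ^ Nat.gcd (orderOf φ) (2 ^ j) = 1 := pow_gcd_eq_one.2 ⟨hu1, hu2⟩
    rw [Nat.Coprime.gcd_eq_one (Nat.Coprime.pow_right _
      (Nat.coprime_two_right.2 ⟨m, hm⟩)), pow_one] at hg1
    have h3 := congrArg (fun v : (ZMod (2 ^ (j + 1)))ˣ => (v : ZMod (2 ^ (j + 1)))) hg1
    simp only [hu, ZMod.coe_unitOfCoprime, Units.val_one] at h3
    replace h3 := (ZMod.natCast_eq_natCast_iff k 1 _).1 (h3.trans Nat.cast_one.symm)
    nth_rw 2 [← pow_one (g ^ 2)]
    rwa [pow_eq_pow_iff_modEq, ho2]
  -- the elements of order two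
  have hK : ∀ w : A, w * w = 1 → φ (φ w) = w := by
    intro w hw
    have hfixH : ∀ v ∈ H, v * v = 1 → φ v = v := by
      intro v hv hv2
      obtain ⟨i, hi : g ^ i = v⟩ := mem_powers_iff_mem_zpowers.2 hv
      rw [← hi, ← pow_add, ← orderOf_dvd_iff_pow_eq_one, hn, ← two_mul, pow_succ' 2 (j + 1)] at hv2
      obtain ⟨i', rfl⟩ : 2 ∣ i :=
        (dvd_pow_self 2 (show j + 1 ≠ 0 by omega)).trans (Nat.dvd_of_mul_dvd_mul_left two_pos hv2)
      rw [← hi, pow_mul, map_pow, hfix2]
    by_cases hwH : w ∈ H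
    · rw [hfixH w hwH hw, hfixH w hwH hw]
    have hw' : φ w * φ w = 1 := by rw [← map_mul, hw, map_one]
    have hφw : φ w ∉ H := fun h => hwH (by
      have h2 := φ.injective (hfixH _ h hw')
      rwa [h2] at h)
    have hv := hmul _ _ hφw hwH
    have hv2 : φ w * w * (φ w * w) = 1 := by rw [mul_mul_mul_comm, hw', hw, one_mul]
    have h2 := hfixH _ hv hv2
    rw [map_mul, mul_comm (φ w) w] at h2
    exact mul_right_cancel h2
  have h4' : φ ^ 4 = 1 := by
    refine MulEquiv.ext fun a => ?_
    obtain ⟨i, hi⟩ := hsq2 a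
    have hsqfix : φ (a * a) = a * a := by rw [← hi, map_pow, hfix2]
    set w := φ a * a⁻¹ with hw
    have hw2 : w * w = 1 := by
      rw [hw, mul_mul_mul_comm, ← map_mul, hsqfix, ← mul_inv, mul_inv_cancel]
    have hφa : φ a = w * a := by rw [hw, inv_mul_cancel_right]
    have hvfix : φ (φ (φ w * w)) = φ w * w := hK _ (by
      rw [mul_mul_mul_comm, ← map_mul, hw2, map_one, one_mul])
    show φ (φ (φ (φ a))) = a
    have h22 : φ (φ a) = φ w * w * a := by
      conv_lhs => rw [hφa, map_mul, hφa, ← mul_assoc]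
    rw [h22, map_mul φ (φ w * w) a, map_mul φ (φ (φ w * w)) (φ a), hvfix, h22, ← mul_assoc,
      mul_mul_mul_comm, ← map_mul, hw2, map_one, one_mul, one_mul]
  obtain ⟨m, hm⟩ := hφ
  have h1 : φ ^ Nat.gcd 4 (orderOf φ) = 1 := pow_gcd_eq_one.2 ⟨h4', pow_orderOf_eq_one φ⟩
  rwa [show (4 : ℕ) = 2 ^ 2 from rfl, Nat.Coprime.gcd_eq_one
    (Nat.Coprime.pow_left _ (Nat.coprime_two_left.2 ⟨m, hm⟩)), pow_one] at h1

/-- The same for an abelian subgroup. -/
theorem mulAut_subgroup_eq_one_of_odd (hP : IsPGroup 2 P) (A : Subgroup P)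
    (hab : ∀ a ∈ A, ∀ b ∈ A, a * b = b * a) {g : P} (hg : g ∈ A)
    (hcard : Nat.card A ≤ 2 * orderOf g) (h4 : 4 ≤ orderOf g) (φ : MulAut A)
    (hφ : Odd (orderOf φ)) : φ = 1 :=
  letI : CommGroup A :=
    { (inferInstance : Group A) with mul_comm := fun a b => Subtype.ext (hab a a.2 b b.2) }
  mulAut_eq_one_of_odd (hP.to_subgroup A) (g0 := ⟨g, hg⟩)
    (by rwa [Subgroup.orderOf_mk]) (by rwa [Subgroup.orderOf_mk]) φ hφ

/-- The derived subgroup when an abelian subgroup has index two. -/
theorem commutator_le_of_abelian_index_two {A : Subgroup P} (hidx : A.index = 2)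
    (hab : ∀ a ∈ A, ∀ b ∈ A, a * b = b * a) {t : P} (ht : t ∉ A) (R : Subgroup P)
    (hR : ∀ a ∈ A, a⁻¹ * (t * a * t⁻¹) ∈ R) : commutator P ≤ R := by
  haveI := Subgroup.normal_of_index_eq_two hidx
  have hmem : ∀ a b : P, a * b ∈ A ↔ (a ∈ A ↔ b ∈ A) := fun a b =>
    Subgroup.mul_mem_iff_of_index_two hidx
  have hout : ∀ {d a : P}, d ∉ A → a ∈ A → d * a * d⁻¹ = t * a * t⁻¹ := by
    intro d a hd ha
    have hc : t⁻¹ * d ∈ A := (hmem _ _).2 (by rw [A.inv_mem_iff]; tauto)
    calc d * a * d⁻¹ = t * ((t⁻¹ * d) * a * (t⁻¹ * d)⁻¹) * t⁻¹ := by group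
      _ = _ := by rw [hab _ hc a ha, mul_inv_cancel_right]
  have key : ∀ {a : P}, a ∈ A → ∀ d : P, ⁅a, d⁆ ∈ R := by
    intro a ha d
    by_cases hd : d ∈ A
    · rw [commutatorElement_eq_one_iff_mul_comm.2 (hab a ha d hd)]
      exact one_mem R
    · have h1 := hR a⁻¹ (inv_mem ha)
      rw [inv_inv, ← hout hd (inv_mem ha)] at h1
      have h2 : ⁅a, d⁆ = a * (d * a⁻¹ * d⁻¹) := by rw [commutatorElement_def]; group
      rwa [h2]
  rw [commutator_def, Subgroup.commutator_le]
  intro x _ y _
  by_cases hx : x ∈ A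
  · exact key hx y
  by_cases hy : y ∈ A
  · have h1 := R.inv_mem (key hy x)
    rwa [commutatorElement_inv] at h1
  · have ha : y * x⁻¹ ∈ A := (hmem _ _).2 (by rw [A.inv_mem_iff]; tauto)
    have h1 := hR _ ha
    rw [← hout hx ha, hab _ (inv_mem ha) _ (Subgroup.Normal.conj_mem inferInstance _ ha x)] at h1
    have h2 : ⁅x, y⁆ = x * (y * x⁻¹) * x⁻¹ * (y * x⁻¹)⁻¹ := by rw [commutatorElement_def]; group
    rwa [h2]

variable (hP : IsPGroup 2 P)
include hP

/-- A derived subgroup of order two. -/
theorem of_card_commutator_two (h32 : Nat.card P ≤ 32) (h2 : Nat.card (commutator P) = 2) :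
    GoodOrder P ∨ DerivedTwo P := by
  have hidx : 2 * (commutator P).index = Nat.card P := by
    rw [← Subgroup.card_mul_index (commutator P), h2]
  have hncomm : ∃ x y : P, x * y ≠ y * x := by
    by_contra! hc
    have : commutator P = ⊥ := by
      rw [commutator_def, eq_bot_iff, Subgroup.commutator_le]
      intro a _ c _
      rw [Subgroup.mem_bot, commutatorElement_eq_one_iff_mul_comm]
      exact hc a c
    rw [this, Subgroup.card_bot] at h2
    omega
  by_cases hZ : ∀ c ∈ Subgroup.center P, c * c = 1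
  · left
    obtain ⟨x, hx⟩ : ∃ x : P, x * x ≠ 1 := by
      by_contra! hall
      obtain ⟨a, b, hab⟩ := hncomm
      have hinv : ∀ g : P, g⁻¹ = g := fun g => inv_eq_of_mul_eq_one_right (hall g)
      exact hab (by rw [← hinv (a * b), mul_inv_rev, hinv, hinv])
    refine ⟨x, by have := four_le_orderOf hP hx; omega, fun y hy => ?_⟩
    have hy2 : y * y ≠ 1 := fun h => by
      have h1 : orderOf y ∣ 2 := orderOf_dvd_of_pow_eq_one (by rwa [pow_two])
      have := Nat.le_of_dvd two_pos h1
      have := four_le_orderOf hP hx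
      omega
    have := two_mul_card_le_of_notMem_center fun h => hy2 (hZ y h)
    omega
  right
  push Not at hZ
  obtain ⟨c, hc, hc2⟩ := hZ
  have hZ4 : 4 ≤ Nat.card (Subgroup.center P) := by
    refine (four_le_orderOf hP hc2).trans ?_
    rw [← Nat.card_zpowers]
    exact Subgroup.card_le_of_le (Subgroup.zpowers_le.2 hc)
  obtain ⟨z, hz1, hz⟩ : ∃ z : P, z ≠ 1 ∧ ∀ a ∈ commutator P, a = 1 ∨ a = z := by
    obtain ⟨⟨z, hzm⟩, hz, huniq⟩ := (Nat.card_eq_two_iff' (1 : commutator P)).1 h2
    refine ⟨z, fun h => hz (Subtype.ext h), fun a ha => or_iff_not_imp_left.2 fun ha1 => ?_⟩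
    exact congrArg Subtype.val (huniq ⟨a, ha⟩ fun h => ha1 (congrArg Subtype.val h))
  have hcomm : ∀ a b : P, ⁅a, b⁆ = 1 ∨ ⁅a, b⁆ = z := fun a b =>
    hz _ (Subgroup.commutator_mem_commutator (Subgroup.mem_top _) (Subgroup.mem_top _))
  obtain ⟨x, y, hxy⟩ := hncomm
  have hzc : z ∈ Subgroup.center P := by
    have hzmem : z ∈ commutator P := by
      rcases hcomm x y with h | h
      · exact absurd (commutatorElement_eq_one_iff_mul_comm.1 h) hxy
      · exact h ▸ Subgroup.commutator_mem_commutator (Subgroup.mem_top _) (Subgroup.mem_top _)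
    refine Subgroup.mem_center_iff.2 fun g => ?_
    have h1 : g * z * g⁻¹ ∈ commutator P := Subgroup.Normal.conj_mem inferInstance z hzmem g
    rcases hz _ h1 with h | h
    · exact absurd (conj_eq_one_iff.1 h) hz1
    · exact conj_eq_self_iff.1 h
  have hzz : z * z = 1 := by
    have hzmem : z ∈ commutator P := by
      rcases hcomm x y with h | h
      · exact absurd (commutatorElement_eq_one_iff_mul_comm.1 h) hxy
      · exact h ▸ Subgroup.commutator_mem_commutator (Subgroup.mem_top _) (Subgroup.mem_top _)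
    rcases hz _ (mul_mem hzmem hzmem) with h | h
    · exact h
    · exact absurd (mul_eq_left.1 h) hz1
  set Cx := Subgroup.centralizer ({x} : Set P) with hCx
  set Cy := Subgroup.centralizer ({y} : Set P) with hCy
  set R := Cx ⊓ Cy with hR
  have hi2 : ∀ {w : P}, w ∉ Subgroup.center P →
      (Subgroup.centralizer ({w} : Set P)).index = 2 := fun {w} hw => by
    have h1 := index_centralizer_le w
    have h0 := (Subgroup.centralizer ({w} : Set P)).index_ne_zero_of_finite
    have h1' : (Subgroup.centralizer ({w} : Set P)).index ≠ 1 := fun h => hw <| by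
      rw [Subgroup.index_eq_one] at h
      exact Subgroup.mem_center_iff.2 fun g => mem_cen.1 (h ▸ Subgroup.mem_top g)
    omega
  have hxc : x ∉ Subgroup.center P := fun h => hxy (Subgroup.mem_center_iff.1 h y).symm
  have hyc : y ∉ Subgroup.center P := fun h => hxy (Subgroup.mem_center_iff.1 h x)
  have hZR : Subgroup.center P ≤ R := fun a ha =>
    Subgroup.mem_inf.2 ⟨mem_cen.2 (Subgroup.mem_center_iff.1 ha x).symm,
      mem_cen.2 (Subgroup.mem_center_iff.1 ha y).symm⟩
  have hxR : x ∉ R := fun h => hxy (mem_cen.1 (Subgroup.mem_inf.1 h).2)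
  have hRx : R.relIndex Cx = 2 := by
    have h1 : R.relIndex Cx ≤ 2 := by
      rw [hR, Subgroup.inf_relIndex_left]
      exact (relIndex_le_index Cy Cx).trans (hi2 hyc).le
    have h0 : R.relIndex Cx ≠ 0 := relIndex_ne_zero_fin R Cx
    have h1' : R.relIndex Cx ≠ 1 := fun h =>
      hxR (Subgroup.relIndex_eq_one.1 h (mem_cen_self x))
    omega
  have hcardR : 4 * Nat.card R = Nat.card P := by
    rw [← Subgroup.card_mul_index Cx, hi2 hxc]
    have h1 := (R.subgroupOf Cx).card_mul_index
    rw [Nat.card_congr (Subgroup.subgroupOfEquivOfLe (show R ≤ Cx from inf_le_left)).toEquiv,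
      show (R.subgroupOf Cx).index = 2 from hRx] at h1
    omega
  have hRab : ∀ a ∈ R, ∀ b ∈ R, a * b = b * a := by
    have h1 : (Subgroup.center P).relIndex R ≤ 2 := by
      have h1 := ((Subgroup.center P).subgroupOf R).card_mul_index
      rw [Nat.card_congr (Subgroup.subgroupOfEquivOfLe hZR).toEquiv] at h1
      by_contra hlt
      have : 3 ≤ ((Subgroup.center P).subgroupOf R).index := by
        rw [Subgroup.relIndex] at hlt; omega
      nlinarith
    intro a ha b hb
    by_cases haZ : a ∈ Subgroup.center P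
    · exact (Subgroup.mem_center_iff.1 haZ b).symm
    by_cases hbZ : b ∈ Subgroup.center P
    · exact Subgroup.mem_center_iff.1 hbZ a
    have h2 : (Subgroup.center P).relIndex R = 2 := by
      have h0 : (Subgroup.center P).relIndex R ≠ 0 := relIndex_ne_zero_fin _ _
      have h1' : (Subgroup.center P).relIndex R ≠ 1 := fun h =>
        haZ (Subgroup.relIndex_eq_one.1 h ha)
      omega
    have h3 : a * b⁻¹ ∈ Subgroup.center P :=
      (relIndexTwo_mul_mem h2 ha (inv_mem hb)).2 (by rw [(Subgroup.center P).inv_mem_iff]; tauto)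
    calc a * b = a * b⁻¹ * b * b := by group
      _ = b * (a * b⁻¹) * b := by rw [Subgroup.mem_center_iff.1 h3 b]
      _ = b * a := by group
  have hRZ : R = Subgroup.center P := by
    refine le_antisymm (fun r hr => Subgroup.mem_center_iff.2 fun g => ?_) hZR
    have hrx : Cx ≤ Subgroup.centralizer ({r} : Set P) := by
      intro a ha
      by_cases haR : a ∈ R
      · exact mem_cen.2 (hRab a haR r hr)
      have h3 : a * x⁻¹ ∈ R :=
        (relIndexTwo_mul_mem hRx ha (inv_mem (mem_cen_self x))).2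
          (by rw [R.inv_mem_iff]; tauto)
      have h4 : x ∈ Subgroup.centralizer ({r} : Set P) :=
        mem_cen.2 (mem_cen.1 (Subgroup.mem_inf.1 hr).1).symm
      have h5 := mul_mem (mem_cen.2 (hRab _ h3 r hr) :
        a * x⁻¹ ∈ Subgroup.centralizer ({r} : Set P)) h4
      rwa [inv_mul_cancel_right] at h5
    have hyr : y ∈ Subgroup.centralizer ({r} : Set P) :=
      mem_cen.2 (mem_cen.1 (Subgroup.mem_inf.1 hr).2).symm
    by_cases hg : g ∈ Cx
    · exact mem_cen.1 (hrx hg)
    · have h3 : g * y⁻¹ ∈ Cx := (Subgroup.mul_mem_iff_of_index_two (hi2 hxc)).2 (by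
        have : y ∉ Cx := fun h => hxy (mem_cen.1 h).symm
        rw [Cx.inv_mem_iff]; tauto)
      have h5 := mul_mem (hrx h3) hyr
      rw [inv_mul_cancel_right] at h5
      exact mem_cen.1 h5
  rw [hRZ] at hcardR
  have hCab : ∀ u : P, u ∉ Subgroup.center P →
      ∀ a ∈ Subgroup.centralizer ({u} : Set P), ∀ b ∈ Subgroup.centralizer ({u} : Set P),
        a * b = b * a := by
    intro u hu a ha b hb
    have hZu : Subgroup.center P ≤ Subgroup.centralizer ({u} : Set P) := fun a ha =>
      mem_cen.2 (Subgroup.mem_center_iff.1 ha u).symm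
    have h2 : (Subgroup.center P).relIndex (Subgroup.centralizer ({u} : Set P)) = 2 := by
      have h1 := ((Subgroup.center P).subgroupOf (Subgroup.centralizer ({u} : Set P))).card_mul_index
      rw [Nat.card_congr (Subgroup.subgroupOfEquivOfLe hZu).toEquiv] at h1
      have h3 := Subgroup.card_mul_index (Subgroup.centralizer ({u} : Set P))
      rw [hi2 hu, ← h1] at h3
      have h4 : 0 < Nat.card (Subgroup.center P) := Nat.card_pos
      rw [Subgroup.relIndex]
      nlinarith
    have hdec : ∀ a ∈ Subgroup.centralizer ({u} : Set P),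
        a ∈ Subgroup.center P ∨ a * u⁻¹ ∈ Subgroup.center P := fun a ha =>
      or_iff_not_imp_left.2 fun haZ => (relIndexTwo_mul_mem h2 ha
        (inv_mem (mem_cen_self u))).2 (by rw [(Subgroup.center P).inv_mem_iff]; tauto)
    rcases hdec b hb with hb' | hb'
    · exact Subgroup.mem_center_iff.1 hb' a
    calc a * b = a * (b * u⁻¹) * u := by group
      _ = (b * u⁻¹) * (a * u) := by rw [Subgroup.mem_center_iff.1 hb' a]; group
      _ = b * a := by rw [mem_cen.1 ha]; group
  have mk : ∀ u : P, u ∉ Subgroup.center P → u * u ≠ 1 →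
      (u * u = z ∨ ∀ a ∈ Subgroup.centralizer ({u} : Set P), a * a = 1 → a ∈ Subgroup.center P) →
      DerivedTwo P := by
    intro u hu hu2 hor
    refine ⟨u, z, hz1, hzc, hzz, hcomm, hCab u hu, ?_, ?_, ?_, hor⟩
    · rw [← Subgroup.card_mul_index (Subgroup.centralizer ({u} : Set P)), hi2 hu, mul_comm]
    · have := two_mul_card_le_of_notMem_center hu
      omega
    · have := four_le_orderOf hP hu2
      omega
  by_cases hinv : ∃ s t : P, s * s = 1 ∧ t * t = 1 ∧ s * t ≠ t * s
  · obtain ⟨s, t, hs, ht, hst⟩ := hinv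
    have hz' : ⁅s, t⁆ = s * t * (s * t) := by
      rw [commutatorElement_def, inv_eq_of_mul_eq_one_right hs, inv_eq_of_mul_eq_one_right ht,
        mul_assoc (s * t)]
    have h1 : s * t * (s * t) = z := hz' ▸ (hcomm s t).resolve_left fun h =>
      hst (commutatorElement_eq_one_iff_mul_comm.1 h)
    refine mk (s * t) (fun h => hst ?_) (h1 ▸ hz1) (Or.inl h1)
    have h2 := Subgroup.mem_center_iff.1 h s
    rw [← mul_assoc, hs, one_mul] at h2
    calc s * t = s * (s * t * s) := by rw [← h2]
      _ = t * s := by rw [← mul_assoc, ← mul_assoc, hs, one_mul]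
  push Not at hinv
  by_cases hs : ∃ s : P, s * s = 1 ∧ s ∉ Subgroup.center P
  · obtain ⟨s, hs, hsZ⟩ := hs
    obtain ⟨u, hu⟩ : ∃ u, u ∉ Subgroup.centralizer ({s} : Set P) := by
      by_contra! h
      exact hsZ (Subgroup.mem_center_iff.2 fun g => mem_cen.1 (h g))
    have huc : u ∉ Subgroup.center P := fun h => hu (mem_cen.2 (Subgroup.mem_center_iff.1 h s).symm)
    refine mk u huc (fun h => hu (mem_cen.2 (hinv u s h hs))) (Or.inr fun a ha ha2 => ?_)
    by_contra haZ
    have hle : Subgroup.centralizer ({u} : Set P) ≤ Subgroup.centralizer ({a} : Set P) :=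
      fun b hb => mem_cen.2 (hCab u huc b hb a ha)
    have heq := Subgroup.eq_of_le_of_card_ge hle (by
      have h1 := Subgroup.card_mul_index (Subgroup.centralizer ({a} : Set P))
      have h2 := Subgroup.card_mul_index (Subgroup.centralizer ({u} : Set P))
      rw [hi2 haZ] at h1
      rw [hi2 huc] at h2
      omega)
    exact hu (mem_cen.2 (mem_cen.1 (heq.symm ▸ mem_cen.2 (hinv s a hs ha2))).symm)
  push Not at hs
  refine mk x hxc (fun h => hxc (hs x h)) (Or.inr fun a _ ha2 => hs a ha2)

/-- Derived factor group of order four. -/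
theorem of_index_four (h16 : 16 ≤ Nat.card P) (h32 : Nat.card P ≤ 32)
    (h4 : (commutator P).index = 4) : SquarePair P := by
  haveI : Fact (Nat.Prime 2) := ⟨Nat.prime_two⟩
  have hder : ¬ Nat.card (commutator P) ≤ 2 := fun h => by
    have h1 := Subgroup.card_mul_index (commutator P)
    rw [h4] at h1
    omega
  obtain ⟨x, hx⟩ : ∃ x : P, 2 * orderOf x = Nat.card P := by
    rcases TwoGroups.taussky hP h4 with hk | hcy | ⟨n, hn, ⟨e⟩⟩ | ⟨n, hn, ⟨e⟩⟩ | hs
    · have := hk.card_four; omega
    · exfalso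
      have : commutator P = ⊥ := by
        rw [commutator_def, Subgroup.commutator_eq_bot_iff_le_centralizer]
        intro a _ b _
        exact mul_comm' b a
      rw [this, Subgroup.card_bot] at hder
      omega
    · exact ⟨e.symm (DihedralGroup.r 1), by
        rw [MulEquiv.orderOf_eq, DihedralGroup.orderOf_r_one, Nat.card_congr e.toEquiv,
          DihedralGroup.nat_card]⟩
    · exact ⟨e.symm (QuaternionGroup.a 1), by
        rw [MulEquiv.orderOf_eq, QuaternionGroup.orderOf_a_one, Nat.card_congr e.toEquiv,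
          Nat.card_eq_fintype_card, QuaternionGroup.card]; ring⟩
    · obtain ⟨k, x', y', h'⟩ := TwoGroups.exists_sdGen hs
      exact ⟨x', by rw [h'.orderOf_x, h'.card_eq]; ring⟩
  set A := Subgroup.zpowers x with hA
  have hAi : A.index = 2 := by
    have h1 := A.card_mul_index
    rw [hA, Nat.card_zpowers, ← hx, mul_comm 2] at h1
    exact Nat.eq_of_mul_eq_mul_left (orderOf_pos x) h1
  haveI := Subgroup.normal_of_index_eq_two hAi
  obtain ⟨t, ht⟩ : ∃ t, t ∉ A := by
    by_contra! h
    rw [(Subgroup.eq_top_iff' A).2 h, Subgroup.index_top] at hAi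
    omega
  have hab : ∀ a ∈ A, ∀ b ∈ A, a * b = b * a := fun a ha b hb =>
    Subgroup.mul_comm_of_mem_isMulCommutative (H := A) ha hb
  set A0 := Subgroup.zpowers (x * x) with hA0
  have hA0le : A0 ≤ A := Subgroup.zpowers_le.2 (mul_mem (Subgroup.mem_zpowers x) (Subgroup.mem_zpowers x))
  obtain ⟨k, hk⟩ := exists_orderOf_eq hP x
  have hk3 : 3 ≤ k := by
    by_contra h
    have : 2 ^ k ≤ 2 ^ 2 := Nat.pow_le_pow_right two_pos (by omega)
    omega
  have hmem0 : ∀ i : ℤ, x ^ i ∈ A0 ↔ Even i := by
    intro i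
    constructor
    · rintro ⟨j, hj⟩
      simp only [← zpow_two, ← zpow_mul] at hj
      rw [zpow_eq_zpow_iff_modEq, hk] at hj
      have h2 : Int.ModEq 2 (((2 : ℕ) : ℤ) * j) i :=
        hj.of_dvd (by exact_mod_cast dvd_pow_self 2 (by omega : k ≠ 0))
      rw [Int.even_iff, ← h2]
      simp
    · rintro ⟨j, rfl⟩
      exact ⟨j, by show (x * x) ^ j = _; rw [← pow_two, ← zpow_natCast, ← zpow_mul]; congr 1; ring⟩
  have hgen : ∀ v ∈ A, v ∉ A0 → orderOf v = orderOf x := by
    rintro v ⟨i, rfl⟩ hv
    rw [hmem0, Int.not_even_iff_odd] at hv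
    refine Nat.dvd_antisymm (orderOf_dvd_of_mem_zpowers ⟨i, rfl⟩) ?_
    have h1 := pow_orderOf_eq_one (x ^ i)
    rw [← zpow_natCast, ← zpow_mul, ← orderOf_dvd_iff_zpow_eq_one] at h1
    refine Int.natCast_dvd_natCast.1 ((Int.isCoprime_iff_gcd_eq_one.2 ?_).dvd_of_dvd_mul_left h1)
    rw [Int.gcd_def, Int.natAbs_natCast, hk]
    exact Nat.Coprime.pow_left _ (Nat.coprime_two_left.2 (Int.natAbs_odd.2 hv))
  have hnfix : t * (x * x) * t⁻¹ ≠ x * x := by
    intro hfix
    refine hder (card_commutator_le_two hP fun g => ?_)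
    have hiA0 : A0.index = 4 := by
      have h1 := A0.card_mul_index
      rw [hA0, Nat.card_zpowers, ← pow_two, orderOf_pow, hk,
        Nat.gcd_eq_right (dvd_pow_self 2 (by omega)), ← hx, hk] at h1
      obtain ⟨j, rfl⟩ : ∃ j, k = j + 1 := ⟨k - 1, by omega⟩
      rw [pow_succ, Nat.mul_div_cancel _ two_pos, mul_comm (2 ^ j) 2, ← mul_assoc,
        mul_comm (2 * 2)] at h1
      rw [hA0, ← pow_two]
      exact Nat.eq_of_mul_eq_mul_left (pow_pos two_pos j) h1
    by_cases hg : g ∈ A
    · exact (Nat.le_of_dvd (by omega) (hAi ▸ Subgroup.index_dvd_of_le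
        (show A ≤ Subgroup.centralizer ({g} : Set P) from fun a ha => mem_cen.2 (hab a ha g hg))))
    · have hle : A0 ≤ Subgroup.centralizer ({g} : Set P) := by
        rw [hA0, Subgroup.zpowers_le, mem_cen]
        have h1 : t⁻¹ * g ∈ A := (Subgroup.mul_mem_iff_of_index_two hAi).2
          (by rw [A.inv_mem_iff]; tauto)
        have hxx : x * x ∈ A := hA0le (Subgroup.mem_zpowers _)
        calc x * x * g = (x * x * t) * (t⁻¹ * g) := by group
          _ = t * (x * x) * (t⁻¹ * g) := by rw [← conj_eq_self_iff.1 hfix]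
          _ = t * ((x * x) * (t⁻¹ * g)) := by group
          _ = g * (x * x) := by rw [hab _ hxx _ h1]; group
      have h0 : g ∉ A0 := fun h => hg (hA0le h)
      have h2 := Subgroup.index_dvd_of_le hle
      rw [hiA0] at h2
      obtain ⟨i, hi, hie⟩ := (Nat.dvd_prime_pow Nat.prime_two).1
        (show _ ∣ 2 ^ 2 from h2)
      rcases Nat.lt_or_ge i 2 with hi2 | hi2
      · calc _ = 2 ^ i := hie
          _ ≤ 2 ^ 1 := Nat.pow_le_pow_right two_pos (by omega)
      · exfalso
        obtain rfl : i = 2 := by omega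
        have h3 := Subgroup.eq_of_le_of_card_ge hle (by
          have e1 := A0.card_mul_index
          have e2 := (Subgroup.centralizer ({g} : Set P)).card_mul_index
          rw [hiA0] at e1
          rw [hie] at e2
          omega)
        exact h0 (h3 ▸ mem_cen_self g)
  refine ⟨A, A0, t, ?_, ?_⟩
  · refine
      { le := le_top
        idx := by rw [Subgroup.relIndex_top_right, hAi]
        comm := hab
        t_mem := Subgroup.mem_top t
        t_notMem := ht
        A0_le := hA0le
        A0_idx := ?_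
        nonfull := ⟨x, Subgroup.mem_zpowers x, fun h => absurd ((hmem0 1).1 (by simpa using h)) (by decide)⟩
        commA0 := ?_
        sq := ?_
        ord := ?_
        gen := ?_
        aut := fun φ hφ => mulAut_subgroup_eq_one_of_odd hP A hab (Subgroup.mem_zpowers x)
          (by rw [hA, Nat.card_zpowers]; omega) (by omega) φ hφ }
    · rintro a ⟨i, rfl⟩ b ⟨j, rfl⟩
      rw [← zpow_add, hmem0, hmem0, hmem0, Int.even_add]
    · intro a ha
      obtain ⟨i, rfl⟩ := ha
      by_cases hi : Even i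
      · refine mul_mem (inv_mem ((hmem0 i).2 hi)) ?_
        obtain ⟨j, rfl⟩ := hi
        obtain ⟨l, hl⟩ := (Subgroup.Normal.conj_mem inferInstance x (Subgroup.mem_zpowers x) t :
          t * x * t⁻¹ ∈ A)
        refine ⟨l * j, ?_⟩
        simp only at hl ⊢
        rw [← conj_zpow, ← hl, ← pow_two, ← zpow_natCast, ← zpow_mul, ← zpow_mul]
        congr 1
        ring
      · have hv : x ^ i ∉ A0 := fun h => hi ((hmem0 i).1 h)
        have hv' : t * x ^ i * t⁻¹ ∈ A :=
          Subgroup.Normal.conj_mem inferInstance (x ^ i) (show x ^ i ∈ A from ⟨i, rfl⟩) t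
        obtain ⟨j, hj⟩ := hv'
        simp only at hj
        have hjodd : ¬ Even j := by
          intro hje
          obtain ⟨l, rfl⟩ := hje
          have h1 : orderOf (t * x ^ i * t⁻¹) = orderOf x := by
            rw [← MulAut.conj_apply, MulEquiv.orderOf_eq, hgen _ ⟨i, rfl⟩ hv]
          have h2 : orderOf (x ^ (l + l)) ∣ orderOf (x * x) :=
            orderOf_dvd_of_mem_zpowers ((hmem0 _).2 ⟨l, rfl⟩)
          rw [hj, h1, ← pow_two, orderOf_pow, hk, Nat.gcd_eq_right (dvd_pow_self 2 (by omega))] at h2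
          have := Nat.le_of_dvd (Nat.div_pos (by omega) two_pos) h2
          omega
        rw [← hj, ← zpow_neg, ← zpow_add, hmem0, Int.even_add, even_neg]
        tauto
    · rintro v ⟨i, rfl⟩ hv hfix
      apply hnfix
      have h1 : x * x ∈ Subgroup.zpowers ((x ^ i) * (x ^ i)) := by
        have h2 : x ∈ Subgroup.zpowers (x ^ i) := by
          have : Subgroup.zpowers (x ^ i) = A := Subgroup.eq_of_le_of_card_ge
            (Subgroup.zpowers_le.2 ⟨i, rfl⟩)
            (by rw [hA, Nat.card_zpowers, Nat.card_zpowers, hgen _ ⟨i, rfl⟩ hv])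
          rw [this]; exact Subgroup.mem_zpowers x
        obtain ⟨l, hl⟩ := h2
        refine ⟨l, ?_⟩
        simp only at hl ⊢
        rw [(Commute.refl (x ^ i)).mul_zpow, hl]
      obtain ⟨l, hl⟩ := h1
      simp only at hl
      rw [← hl, ← conj_zpow, hfix]
    · intro v hv hv0 w hw hwv
      exfalso
      rw [hgen v hv hv0] at hwv
      have h2 : orderOf w ∣ orderOf (x * x) := orderOf_dvd_of_mem_zpowers hw
      rw [hwv, ← pow_two, orderOf_pow, hk, Nat.gcd_eq_right (dvd_pow_self 2 (by omega))] at h2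
      have := Nat.le_of_dvd (Nat.div_pos (by omega) two_pos) h2
      omega
    · intro v hv hv0
      rw [hgen v hv hv0, hA, Nat.card_zpowers]
      omega
  · right
    refine ⟨h4, ?_⟩
    rw [hA, Nat.card_zpowers]
    omega

/-- Derived subgroup central of order four. -/
theorem of_class_two (h32 : Nat.card P = 32) (h4 : Nat.card (commutator P) = 4)
    (hcen : commutator P ≤ Subgroup.center P) : RigidCentralizer P ∨ InvertedFour P := by
  haveI : Fact (Nat.Prime 2) := ⟨Nat.prime_two⟩
  have hidx : (commutator P).index = 8 := by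
    have := Subgroup.card_mul_index (commutator P)
    rw [h4, h32] at this
    omega
  set Z := Subgroup.center P with hZdef
  obtain ⟨u0, hu0⟩ : ∃ u : P, Nat.card (Subgroup.centralizer ({u} : Set P)) ≤ 8 := by
    by_contra! h
    have := card_commutator_le_two hP fun x => by
      have h1 := (Subgroup.centralizer ({x} : Set P)).card_mul_index
      have h2 := h x
      obtain ⟨k, hk⟩ := hP.index (Subgroup.centralizer ({x} : Set P))
      rw [h32, hk] at h1
      rw [hk]
      refine le_of_le_of_eq (Nat.pow_le_pow_right two_pos (show k ≤ 1 from ?_)) (pow_one 2)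
      by_contra hk1
      have : 2 ^ 2 ≤ 2 ^ k := Nat.pow_le_pow_right two_pos (by omega)
      nlinarith
    omega
  have hZle : ∀ u : P, Z ≤ Subgroup.centralizer ({u} : Set P) := fun u a ha =>
    mem_cen.2 (Subgroup.mem_center_iff.1 ha u).symm
  have hlt : ∀ u : P, u ∉ Z → 2 * Nat.card Z ≤ Nat.card (Subgroup.centralizer ({u} : Set P)) := by
    intro u hu
    obtain ⟨a, ha⟩ := card_subgroup_pow hP Z
    obtain ⟨b, hb⟩ := card_subgroup_pow hP (Subgroup.centralizer ({u} : Set P))
    have hne : Nat.card Z ≠ Nat.card (Subgroup.centralizer ({u} : Set P)) := fun h =>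
      hu (Subgroup.eq_of_le_of_card_ge (hZle u) h.ge ▸ mem_cen_self u)
    have hle := Subgroup.card_le_of_le (hZle u)
    rw [ha, hb] at hne hle ⊢
    have hab : a < b := by
      rcases lt_trichotomy a b with h | h | h
      · exact h
      · exact absurd (congrArg (2 ^ ·) h) hne
      · exact absurd (Nat.pow_lt_pow_right one_lt_two h) (by omega)
    rw [← pow_succ']
    exact Nat.pow_le_pow_right two_pos hab
  have hu0Z : u0 ∉ Z := fun h => by
    have : Subgroup.centralizer ({u0} : Set P) = ⊤ := (Subgroup.eq_top_iff' _).2 fun g =>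
      mem_cen.2 (Subgroup.mem_center_iff.1 h g)
    rw [this, Subgroup.card_top] at hu0
    omega
  have hZ4 : Nat.card Z = 4 := by
    have := hlt u0 hu0Z
    have := Subgroup.card_le_of_le hcen
    omega
  have hcomm : ∀ a b : P, ⁅a, b⁆ ∈ Z := fun a b =>
    hcen (Subgroup.commutator_mem_commutator (Subgroup.mem_top _) (Subgroup.mem_top _))
  by_cases hrig : ∃ u : P, Nat.card (Subgroup.centralizer ({u} : Set P)) ≤ 8 ∧
      ∃ g ∈ Subgroup.centralizer ({u} : Set P), g * g ≠ 1
  · left
    obtain ⟨u, hu, g, hg, hg2⟩ := hrig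
    have huZ : u ∉ Z := fun h => by
      have : Subgroup.centralizer ({u} : Set P) = ⊤ := (Subgroup.eq_top_iff' _).2 fun g =>
        mem_cen.2 (Subgroup.mem_center_iff.1 h g)
      rw [this, Subgroup.card_top] at hu
      omega
    have h2 : Z.relIndex (Subgroup.centralizer ({u} : Set P)) = 2 := by
      have h1 := (Z.subgroupOf (Subgroup.centralizer ({u} : Set P))).card_mul_index
      rw [Nat.card_congr (Subgroup.subgroupOfEquivOfLe (hZle u)).toEquiv, hZ4] at h1
      have := hlt u huZ
      rw [Subgroup.relIndex]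
      omega
    have hab : ∀ a ∈ Subgroup.centralizer ({u} : Set P),
        ∀ b ∈ Subgroup.centralizer ({u} : Set P), a * b = b * a := by
      intro a ha b hb
      by_cases hb' : b ∈ Z
      · exact Subgroup.mem_center_iff.1 hb' a
      have hb'' : b * u⁻¹ ∈ Z := (relIndexTwo_mul_mem h2 hb (inv_mem (mem_cen_self u))).2
        (by rw [Z.inv_mem_iff]; tauto)
      calc a * b = a * (b * u⁻¹) * u := by group
        _ = (b * u⁻¹) * (a * u) := by rw [Subgroup.mem_center_iff.1 hb'' a]; group
        _ = b * a := by rw [mem_cen.1 ha]; group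
    refine ⟨u, hab, hcen.trans (hZle u), by omega, ?_, fun φ hφ =>
      mulAut_subgroup_eq_one_of_odd hP _ hab hg (by have := four_le_orderOf hP hg2; omega)
        (four_le_orderOf hP hg2) φ hφ⟩
    have : orderOf u ≠ 1 := fun h => huZ (orderOf_eq_one_iff.1 h ▸ Z.one_mem)
    have := orderOf_pos u
    omega
  right
  push Not at hrig
  have hZ2 : ∀ z ∈ Z, z * z = 1 := fun z hz => hrig u0 hu0 z (hZle u0 hz)
  have hsqZ : ∀ x : P, x * x ∈ Z := fun x => Subgroup.mem_center_iff.2 fun y => by
    have h1 : x * y = ⁅x, y⁆ * (y * x) := by rw [commutatorElement_def]; group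
    have hc := Subgroup.mem_center_iff.1 (hcomm x y)
    calc y * (x * x) = y * x * x := by group
      _ = ⁅x, y⁆ * ⁅x, y⁆ * (y * x * x) := by rw [hZ2 _ (hcomm x y), one_mul]
      _ = ⁅x, y⁆ * (⁅x, y⁆ * (y * x)) * x := by group
      _ = ⁅x, y⁆ * (x * y) * x := by rw [← h1]
      _ = x * (⁅x, y⁆ * (y * x)) := by
          rw [show ⁅x, y⁆ * (x * y) = x * (⁅x, y⁆ * y) by
            rw [← mul_assoc, ← hc x, mul_assoc]]
          group
      _ = x * x * y := by rw [← h1]; group
  obtain ⟨a, haZ, ha⟩ : ∃ a, a ∉ Z ∧ 8 < Nat.card (Subgroup.centralizer ({a} : Set P)) := by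
    by_contra! h
    have hall : ∀ g : P, g * g = 1 := fun g => by
      by_cases hg : g ∈ Z
      · exact hZ2 g hg
      · exact hrig g (h g hg) g (mem_cen_self g)
    have hinv : ∀ g : P, g⁻¹ = g := fun g => inv_eq_of_mul_eq_one_right (hall g)
    refine hu0Z (Subgroup.mem_center_iff.2 fun g => ?_)
    rw [← hinv (g * u0), mul_inv_rev, hinv, hinv]
  set A := Subgroup.centralizer ({a} : Set P) with hA
  have hA16 : Nat.card A = 16 := by
    have h1 := two_mul_card_le_of_notMem_center haZ
    obtain ⟨b, hb⟩ := card_subgroup_pow hP A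
    rw [hb] at h1 ha ⊢
    have : 3 < b := by
      by_contra h
      have := Nat.pow_le_pow_right two_pos (show b ≤ 3 by omega)
      omega
    have : b < 5 := by
      by_contra h
      have := Nat.pow_le_pow_right two_pos (show 5 ≤ b by omega)
      omega
    interval_cases b
    rfl
  have hAi : A.index = 2 := by
    have := A.card_mul_index
    rw [hA16, h32] at this
    omega
  set K := Z ⊔ Subgroup.zpowers a with hK
  have hKA : K ≤ A := sup_le (hZle a) (Subgroup.zpowers_le.2 (mem_cen_self a))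
  have hKc : ∀ k ∈ K, ∀ b ∈ A, k * b = b * k := by
    have : K ≤ Subgroup.centralizer (A : Set P) := sup_le
      (fun z hz => Subgroup.mem_centralizer_iff.2 fun b _ => Subgroup.mem_center_iff.1 hz b)
      (Subgroup.zpowers_le.2 (Subgroup.mem_centralizer_iff.2 fun b hb => mem_cen.1 hb))
    exact fun k hk b hb => (Subgroup.mem_centralizer_iff.1 (this hk) b hb).symm
  have hK2 : K.relIndex A ≤ 2 := by
    have h1 := (K.subgroupOf A).card_mul_index
    rw [Nat.card_congr (Subgroup.subgroupOfEquivOfLe hKA).toEquiv, hA16] at h1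
    have h3 : Nat.card Z < Nat.card K := by
      refine lt_of_le_of_ne (Subgroup.card_le_of_le le_sup_left) fun h => haZ ?_
      exact (Subgroup.eq_of_le_of_card_ge le_sup_left h.ge).symm ▸
        Subgroup.mem_sup_right (Subgroup.mem_zpowers a)
    rw [Subgroup.relIndex]
    by_contra hlt'
    have : 3 ≤ (K.subgroupOf A).index := by omega
    obtain ⟨b, hb⟩ := card_subgroup_pow hP K
    rw [hb, hZ4] at h3
    have : 2 ^ 3 ≤ 2 ^ b := Nat.pow_le_pow_right two_pos (by
      by_contra h
      have := Nat.pow_le_pow_right two_pos (show b ≤ 2 by omega)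
      omega)
    nlinarith
  have hab : ∀ b ∈ A, ∀ c ∈ A, b * c = c * b := by
    intro b hb c hc
    by_cases hbK : b ∈ K
    · exact hKc b hbK c hc
    by_cases hcK : c ∈ K
    · exact (hKc c hcK b hb).symm
    have h2 : K.relIndex A = 2 := by
      have h0 : K.relIndex A ≠ 0 := relIndex_ne_zero_fin _ _
      have h1' : K.relIndex A ≠ 1 := fun h => hbK (Subgroup.relIndex_eq_one.1 h hb)
      omega
    have h3 : b * c⁻¹ ∈ K :=
      (relIndexTwo_mul_mem h2 hb (inv_mem hc)).2 (by rw [K.inv_mem_iff]; tauto)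
    calc b * c = (b * c⁻¹) * c * c := by group
      _ = c * (b * c⁻¹) * c := by rw [hKc _ h3 c hc]
      _ = c * b := by group
  have hout : ∀ r, r ∉ A → r * r = 1 := by
    intro r hr
    refine hrig r ?_ r (mem_cen_self r)
    have hint : Subgroup.centralizer ({r} : Set P) ⊓ A ≤ Z := by
      intro b hb
      obtain ⟨hbr, hbA⟩ := Subgroup.mem_inf.1 hb
      refine Subgroup.mem_center_iff.2 fun g => ?_
      have hr' : r * b = b * r := (mem_cen.1 hbr).symm
      by_cases hg : g ∈ A
      · exact hab g hg b hbA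
      · have h3 : g * r⁻¹ ∈ A :=
          (Subgroup.mul_mem_iff_of_index_two hAi).2 (by rw [A.inv_mem_iff]; tauto)
        calc g * b = g * r⁻¹ * (r * b) := by group
          _ = g * r⁻¹ * b * r := by rw [hr']; group
          _ = b * g := by rw [hab _ h3 b hbA]; group
    have h1 := (A.subgroupOf (Subgroup.centralizer ({r} : Set P))).card_mul_index
    have h2 : Nat.card (A.subgroupOf (Subgroup.centralizer ({r} : Set P))) ≤ 4 := by
      rw [← hZ4]
      refine Nat.card_le_card_of_injective
        (fun v => (⟨(v : Subgroup.centralizer ({r} : Set P)), hint ⟨v.1.2, v.2⟩⟩ : Z)) ?_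
      intro v w h
      exact Subtype.ext (Subtype.ext (congrArg (fun z : Z => (z : P)) h))
    have h3 : (A.subgroupOf (Subgroup.centralizer ({r} : Set P))).index ≤ 2 :=
      (relIndex_le_index A _).trans hAi.le
    rw [← h1]
    calc _ ≤ 4 * 2 := Nat.mul_le_mul h2 h3
      _ = 8 := rfl
  obtain ⟨t, ht⟩ : ∃ t, t ∉ A := by
    by_contra! h
    rw [(Subgroup.eq_top_iff' A).2 h, Subgroup.index_top] at hAi
    omega
  have hAsq : ∀ b ∈ A, b * b = 1 ↔ b ∈ Z := by
    intro b hb
    refine ⟨fun hb2 => Subgroup.mem_center_iff.2 fun g => ?_, fun h => hZ2 b h⟩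
    by_cases hg : g ∈ A
    · exact hab g hg b hb
    · have hgb : g * b ∉ A := fun h => hg (by simpa using mul_mem h (inv_mem hb))
      have h1 := hout _ hgb
      rw [← inv_eq_of_mul_eq_one_right (hout g hg), ← inv_eq_of_mul_eq_one_right hb2] at h1 ⊢
      have h2 : g⁻¹ * b⁻¹ = (g⁻¹ * b⁻¹)⁻¹ := (inv_eq_of_mul_eq_one_right h1).symm
      rw [mul_inv_rev, inv_inv, inv_inv] at h2
      rw [h2, inv_eq_of_mul_eq_one_right hb2, inv_eq_of_mul_eq_one_right (hout g hg)]
  refine ⟨A, hAi, hA16, hidx, hab, fun b _ => ?_, ?_, hout⟩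
  · rw [show 4 = 2 + 2 from rfl, pow_add, pow_two]
    exact hZ2 _ (hsqZ b)
  · rw [← hZ4]
    exact Nat.card_congr ⟨fun v => ⟨v.1, (hAsq v.1 v.2.1).1 v.2.2⟩,
      fun v => ⟨v.1, hZle a v.2, hZ2 _ v.2⟩, fun _ => rfl, fun _ => rfl⟩

/-- Derived subgroup of order four, not central. -/
theorem of_class_three (h32 : Nat.card P = 32) (h4 : Nat.card (commutator P) = 4)
    (hcen : ¬ commutator P ≤ Subgroup.center P) :
    GoodOrder P ∨ RigidCentralizer P ∨ SquarePair P := by
  haveI : Fact (Nat.Prime 2) := ⟨Nat.prime_two⟩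
  have hidx : (commutator P).index = 8 := by
    have := Subgroup.card_mul_index (commutator P)
    rw [h4, h32] at this
    omega
  set D := commutator P with hD
  have hidx' : (commutator P).index = 8 := hidx
  set Z := Subgroup.center P with hZdef
  obtain ⟨c, hc, hcZ⟩ := SetLike.not_le_iff_exists.1 hcen
  have hDne : D ≠ ⊥ := fun h => by rw [h, Subgroup.card_bot] at h4; omega
  obtain ⟨z0, hz0D, hz0ne, hz0Z⟩ := TwoGroups.exists_mem_center_of_normal hP hDne
  have hDZ : (Z ⊓ D).relIndex D = 2 := by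
    have h1 := ((Z ⊓ D).subgroupOf D).card_mul_index
    rw [Nat.card_congr (Subgroup.subgroupOfEquivOfLe (show Z ⊓ D ≤ D from inf_le_right)).toEquiv,
      h4] at h1
    have h2 : 2 ≤ Nat.card ↥(Z ⊓ D) := by
      haveI : Nontrivial ↥(Z ⊓ D) :=
        ⟨⟨⟨z0, hz0Z, hz0D⟩, 1, fun h => hz0ne (congrArg Subtype.val h)⟩⟩
      exact Finite.one_lt_card
    have h0 : (Z ⊓ D).relIndex D ≠ 1 := fun h =>
      hcZ (Subgroup.mem_inf.1 (Subgroup.relIndex_eq_one.1 h hc)).1
    rw [Subgroup.relIndex] at h0 ⊢
    have h5 := Nat.pos_of_ne_zero ((Z ⊓ D).subgroupOf D).index_ne_zero_of_finite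
    have h6 : ((Z ⊓ D).subgroupOf D).index ≤ 2 := by nlinarith
    omega
  have hcard_ZD : Nat.card ↥(Z ⊓ D) = 2 := by
    have h1 := ((Z ⊓ D).subgroupOf D).card_mul_index
    rw [Nat.card_congr (Subgroup.subgroupOfEquivOfLe (show Z ⊓ D ≤ D from inf_le_right)).toEquiv,
      show ((Z ⊓ D).subgroupOf D).index = 2 from hDZ, h4] at h1
    omega
  have hdiff : ∀ d ∈ D, d ∉ Z → ∀ e ∈ D, e ∉ Z → e * d⁻¹ ∈ Z := by
    intro d hd hdZ e he heZ
    have h1 : e * d⁻¹ ∈ Z ⊓ D := (relIndexTwo_mul_mem hDZ he (inv_mem hd)).2 (by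
      rw [(Z ⊓ D).inv_mem_iff, Subgroup.mem_inf, Subgroup.mem_inf]
      tauto)
    exact (Subgroup.mem_inf.1 h1).1
  -- the centraliser of the derived subgroup
  set M := Subgroup.centralizer (D : Set P) with hM
  have hMc : M = Subgroup.centralizer ({c} : Set P) := by
    refine le_antisymm (fun g hg => mem_cen.2 (Subgroup.mem_centralizer_iff.1 hg c hc).symm)
      fun g hg => Subgroup.mem_centralizer_iff.2 fun d hd => ?_
    by_cases hdZ : d ∈ Z
    · exact (Subgroup.mem_center_iff.1 hdZ g).symm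
    · have h1 := Subgroup.mem_center_iff.1 (hdiff c hc hcZ d hd hdZ) g
      calc d * g = d * c⁻¹ * (c * g) := by group
        _ = d * c⁻¹ * g * c := by rw [← mem_cen.1 hg]; group
        _ = g * (d * c⁻¹) * c := by rw [h1]
        _ = g * d := by group
  have hDM : D ≤ M := by
    intro d hd
    rw [hMc, mem_cen]
    by_cases hdZ : d ∈ Z
    · exact (Subgroup.mem_center_iff.1 hdZ c).symm
    · have h1 := Subgroup.mem_center_iff.1 (hdiff c hc hcZ d hd hdZ) c
      calc d * c = d * c⁻¹ * c * c := by group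
        _ = c * (d * c⁻¹) * c := by rw [h1]
        _ = c * d := by group
  haveI hMn : M.Normal := inferInstanceAs (Subgroup.centralizer ((commutator P : Subgroup P) : Set P)).Normal
  have hMi : M.index = 2 := by
    have h1 : M.index ≠ 1 := fun h => hcZ (Subgroup.mem_center_iff.2 fun g => mem_cen.1 (by
      rw [← hMc, Subgroup.index_eq_one.1 h]; exact Subgroup.mem_top g))
    have h2 : M.index ≤ 2 := by
      rw [hMc, ← hcard_ZD]
      have hmem : ∀ g : P, g * c * g⁻¹ * c⁻¹ ∈ Z ⊓ D := fun g => by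
        have hgc : g * c * g⁻¹ ∈ D := Subgroup.Normal.conj_mem inferInstance c hc g
        refine Subgroup.mem_inf.2 ⟨hdiff c hc hcZ _ hgc fun h => hcZ ?_, mul_mem hgc (inv_mem hc)⟩
        have h2 := Subgroup.mem_center_iff.1 h g
        rwa [show c = g * c * g⁻¹ by
          calc c = g⁻¹ * (g * c * g⁻¹) * g := by group
            _ = g⁻¹ * (g * (g * c * g⁻¹)) := by rw [h2]; group
            _ = g * c * g⁻¹ := by group]
      refine Nat.card_le_card_of_injective
        (fun q => (⟨q.out * c * q.out⁻¹ * c⁻¹, hmem _⟩ : ↥(Z ⊓ D))) fun q q' h => ?_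
      have h3 := congrArg Subtype.val h
      simp only [mul_left_inj] at h3
      rw [← QuotientGroup.out_eq' q, ← QuotientGroup.out_eq' q', QuotientGroup.eq, mem_cen]
      calc q.out⁻¹ * q'.out * c = q.out⁻¹ * (q'.out * c * q'.out⁻¹) * q'.out := by group
        _ = c * (q.out⁻¹ * q'.out) := by rw [← h3]; group
    have := M.index_ne_zero_of_finite
    omega
  have hM16 : Nat.card M = 16 := by
    have := M.card_mul_index
    rw [hMi, h32] at this
    omega
  have houtM : ∀ r, r ∉ M → Nat.card (Subgroup.centralizer ({r} : Set P)) ≤ 8 := by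
    intro r hr
    set C := Subgroup.centralizer ({r} : Set P)
    by_contra hlt
    have hrZ : r ∉ Z := fun h => hr (Subgroup.center_le_centralizer _ h)
    have h1 := two_mul_card_le_of_notMem_center hrZ
    obtain ⟨k, hk⟩ := card_subgroup_pow hP C
    have hi := C.card_mul_index
    have hC2 : C.index = 2 := by
      have : Nat.card C = 16 := by
        rw [hk] at h1 hlt ⊢
        have : k < 5 := by
          by_contra h
          have := Nat.pow_le_pow_right two_pos (show 5 ≤ k by omega)
          omega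
        interval_cases k <;> omega
      rw [this, h32] at hi
      omega
    haveI := Subgroup.normal_of_index_eq_two hC2
    have hle : D ≤ C := VaughanLee.commutator_le_of_index hC2
    refine hr ?_
    rw [hMc, mem_cen]
    exact (mem_cen.1 (hle hc)).symm
  have good : ∀ r : P, (∀ y, orderOf y = orderOf r → y ∉ M) → GoodOrder P := fun r h => by
    refine ⟨r, ?_, fun y hy => hidx ▸ houtM y (h y hy)⟩
    have : orderOf r ≠ 1 := fun h1 => h r rfl (by rw [orderOf_eq_one_iff.1 h1]; exact one_mem _)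
    have := orderOf_pos r
    omega
  have good8 : ∀ r : P, r ^ 4 ≠ 1 → (∀ m ∈ M, m ^ 4 = 1) → GoodOrder P := fun r hr hM4 =>
    good r fun y hy hyM => hr (by
      rw [← orderOf_dvd_iff_pow_eq_one, ← hy, orderOf_dvd_iff_pow_eq_one]
      exact hM4 y hyM)
  obtain ⟨t, ht⟩ : ∃ t, t ∉ M := by
    by_contra! h
    rw [(Subgroup.eq_top_iff' M).2 h, Subgroup.index_top] at hMi
    omega
  have htt : t * t ∈ M := (Subgroup.mul_mem_iff_of_index_two hMi).2 Iff.rfl
  have hcomm : ∀ a b : P, ⁅a, b⁆ ∈ D := fun a b =>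
    Subgroup.commutator_mem_commutator (Subgroup.mem_top _) (Subgroup.mem_top _)
  by_cases hab : ∀ a ∈ M, ∀ b ∈ M, a * b = b * a
  · -- the centraliser is abelian
    have htc : ∀ d ∈ D, d ∉ Z → t * d * t⁻¹ ≠ d := fun d hd hdZ h => by
      refine ht (hMc ▸ mem_cen.2 ?_)
      have h1 := Subgroup.mem_center_iff.1 (hdiff d hd hdZ c hc hcZ) t
      calc t * c = t * (c * d⁻¹) * d := by group
        _ = c * d⁻¹ * (t * d * t⁻¹) * t := by rw [h1]; group
        _ = c * t := by rw [h]; group
    let ψ : P → P := fun a => a⁻¹ * (t * a * t⁻¹)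
    have hψD : ∀ a, ψ a ∈ D := fun a => by
      have h1 := hcomm a⁻¹ t
      rwa [show ⁅a⁻¹, t⁆ = ψ a by rw [commutatorElement_def]; simp only [ψ]; group] at h1
    have hconjM : ∀ a ∈ M, t * a * t⁻¹ ∈ M := fun a ha => hMn.conj_mem a ha t
    have hψmul : ∀ a ∈ M, ∀ b ∈ M, ψ (a * b) = ψ a * ψ b := by
      intro a ha b hb
      simp only [ψ]
      have h1 := hab _ (inv_mem hb) _ (mul_mem (inv_mem ha) (hconjM a ha))
      calc (a * b)⁻¹ * (t * (a * b) * t⁻¹) = b⁻¹ * (a⁻¹ * (t * a * t⁻¹)) * (t * b * t⁻¹) := by group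
        _ = _ := by rw [h1]; group
    have hψinv : ∀ a ∈ M, t * ψ a * t⁻¹ = (ψ a)⁻¹ := by
      intro a ha
      have h2 : t * (t * a * t⁻¹) * t⁻¹ = a := by
        calc t * (t * a * t⁻¹) * t⁻¹ = (t * t) * a * (t * t)⁻¹ := by group
          _ = a := by rw [hab _ htt a ha, mul_inv_cancel_right]
      calc t * ψ a * t⁻¹ = (t * a * t⁻¹)⁻¹ * (t * (t * a * t⁻¹) * t⁻¹) := by simp only [ψ]; group
        _ = (ψ a)⁻¹ := by rw [h2]; simp only [ψ]; group
    by_cases hM4 : ∀ m ∈ M, m ^ 4 = 1
    · left
      by_cases hr : ∃ r : P, r ^ 4 ≠ 1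
      · obtain ⟨r, hr⟩ := hr
        exact good8 r hr hM4
      exfalso
      push Not at hr
      -- every `ψ a` would be fixed by `t`
      refine hcZ (?_ : c ∈ Z)
      have hle : D ≤ Z := by
        refine commutator_le_of_abelian_index_two hMi hab ht Z fun a ha => ?_
        have hψM : ψ a ∈ M := hDM (hψD a)
        have h1 : (a * t) ^ 4 = 1 := hr _
        have h2 : ψ a * ψ a = 1 := by
          have hb := hconjM a ha
          have h2' : t * (t * a * t⁻¹) * t⁻¹ = a := by
            calc t * (t * a * t⁻¹) * t⁻¹ = (t * t) * a * (t * t)⁻¹ := by group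
              _ = a := by rw [hab _ htt a ha, mul_inv_cancel_right]
          have hN : a * (t * a * t⁻¹) * (t * t) * (a * (t * a * t⁻¹) * (t * t)) = 1 := by
            rw [← h1, show (4 : ℕ) = 2 + 2 from rfl, pow_add, pow_two]
            group
          set b := t * a * t⁻¹ with hbdef
          have hT : (t * t) * (t * t) = 1 := by
            rw [← hr t, show (4 : ℕ) = 2 + 2 from rfl, pow_add, pow_two]
          have hNN : a * b * (a * b) = 1 := by
            rw [← hN, show a * b * (t * t) * (a * b * (t * t)) =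
              a * b * ((t * t) * (a * b)) * (t * t) by group,
              hab _ htt _ (mul_mem ha hb), show a * b * (a * b * (t * t)) * (t * t) =
              a * b * (a * b) * ((t * t) * (t * t)) by group, hT, mul_one]
          have ha4 := hM4 a ha
          show a⁻¹ * b * (a⁻¹ * b) = 1
          have hia := hab a ha b hb
          calc a⁻¹ * b * (a⁻¹ * b) = (a ^ 4)⁻¹ * (a * b * (a * b)) := by
                have hc1 : Commute a b := hia
                have := hc1.inv_left
                rw [show (a ^ 4)⁻¹ = a⁻¹ * a⁻¹ * a⁻¹ * a⁻¹ by group]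
                calc a⁻¹ * b * (a⁻¹ * b) = a⁻¹ * (b * a⁻¹) * b := by group
                  _ = a⁻¹ * a⁻¹ * (b * b) := by rw [← this.eq]; group
                  _ = a⁻¹ * a⁻¹ * a⁻¹ * (b * b) * a := by
                        rw [mul_assoc (a⁻¹ * a⁻¹ * a⁻¹), ← (hc1.mul_right hc1).eq]; group
                  _ = _ := by
                        rw [mul_assoc _ (b * b) a, ← (hc1.mul_right hc1).eq]
                        rw [show a * b * (a * b) = a * (b * a) * b by group, ← hia]
                        group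
            _ = 1 := by rw [ha4, hNN, inv_one, one_mul]
        refine Subgroup.mem_center_iff.2 fun g => ?_
        by_cases hg : g ∈ M
        · exact hab g hg _ hψM
        · have h3 : g * t⁻¹ ∈ M :=
            (Subgroup.mul_mem_iff_of_index_two hMi).2 (by rw [M.inv_mem_iff]; tauto)
          have h4' := hψinv a ha
          rw [inv_eq_of_mul_eq_one_right h2, conj_eq_self_iff] at h4'
          calc g * (a⁻¹ * (t * a * t⁻¹)) = g * t⁻¹ * (t * ψ a) := by simp only [ψ]; group
            _ = g * t⁻¹ * ψ a * t := by rw [h4']; group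
            _ = ψ a * g := by rw [hab _ h3 _ hψM]; group
      exact hle hc
    -- an element of order at least eight
    right; right
    push Not at hM4
    obtain ⟨g, hgM, hg4⟩ := hM4
    have hg8 := eight_le_orderOf hP hg4
    let A0 : Subgroup P :=
      { carrier := {a | a ∈ M ∧ ψ a * ψ a = 1}
        one_mem' := ⟨one_mem M, by simp [ψ]⟩
        mul_mem' := fun {a b} ha hb => ⟨mul_mem ha.1 hb.1, by
          have h1 := hab _ (hDM (hψD a)) _ (hDM (hψD b))
          rw [hψmul a ha.1 b hb.1, show ψ a * ψ b * (ψ a * ψ b) = ψ a * (ψ b * ψ a) * ψ b by group,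
            ← h1, show ψ a * (ψ a * ψ b) * ψ b = ψ a * ψ a * (ψ b * ψ b) by group, ha.2, hb.2,
            one_mul]⟩
        inv_mem' := fun {a} ha => ⟨inv_mem ha.1, by
          have h1 := hψmul a⁻¹ (inv_mem ha.1) a ha.1
          rw [inv_mul_cancel, show ψ 1 = 1 by simp [ψ]] at h1
          rw [eq_inv_of_mul_eq_one_left h1.symm, ← mul_inv_rev, ha.2, inv_one]⟩ }
    have hA0 : ∀ a, a ∈ A0 ↔ a ∈ M ∧ ψ a * ψ a = 1 := fun a => Iff.rfl
    obtain ⟨a1, ha1, ha1'⟩ : ∃ a ∈ M, a ∉ A0 := by
      by_contra! hall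
      -- all `ψ a` would be involutions fixed by `t`
      refine hcZ (?_ : c ∈ Z)
      refine commutator_le_of_abelian_index_two hMi hab ht Z (fun a ha => ?_) hc
      refine Subgroup.mem_center_iff.2 fun g' => ?_
      by_cases hg : g' ∈ M
      · exact hab g' hg _ (hDM (hψD a))
      · have h4' := hψinv a ha
        rw [inv_eq_of_mul_eq_one_right ((hA0 a).1 (hall a ha)).2, conj_eq_self_iff] at h4'
        have h3 : g' * t⁻¹ ∈ M :=
          (Subgroup.mul_mem_iff_of_index_two hMi).2 (by rw [M.inv_mem_iff]; tauto)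
        calc g' * (a⁻¹ * (t * a * t⁻¹)) = g' * t⁻¹ * (t * ψ a) := by simp only [ψ]; group
          _ = g' * t⁻¹ * ψ a * t := by rw [h4']; group
          _ = ψ a * g' := by rw [hab _ h3 _ (hDM (hψD a))]; group
    set c0 := ψ a1
    have hc02 : c0 * c0 ≠ 1 := fun h => ha1' ⟨ha1, h⟩
    have hDc : D = Subgroup.zpowers c0 := by
      refine (Subgroup.eq_of_le_of_card_ge (Subgroup.zpowers_le.2 (hψD a1)) ?_).symm
      rw [Nat.card_zpowers, h4]
      exact four_le_orderOf hP hc02
    have hsqD : ∀ a, ψ a * ψ a = 1 ∨ ψ a * ψ a = c0 * c0 := by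
      intro a
      obtain ⟨i, hi⟩ := (hDc ▸ hψD a : ψ a ∈ Subgroup.zpowers c0)
      simp only at hi
      have h4c : c0 ^ (4 : ℤ) = 1 := by
        rw [show (4 : ℤ) = ((4 : ℕ) : ℤ) from rfl, zpow_natCast, ← orderOf_dvd_iff_pow_eq_one,
          ← Nat.card_zpowers, ← hDc, h4]
      rw [← hi, ← zpow_add]
      rcases Int.even_or_odd i with ⟨l, rfl⟩ | ⟨l, rfl⟩
      · left
        rw [show l + l + (l + l) = 4 * l by ring, zpow_mul, h4c, one_zpow]
      · right
        rw [show 2 * l + 1 + (2 * l + 1) = 4 * l + 2 by ring, zpow_add, zpow_mul, h4c, one_zpow,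
          one_mul, zpow_two]
    refine ⟨M, A0, t, ?_, Or.inl (by omega)⟩
    have hψsq : ∀ v ∈ M, ψ (v * v) = ψ v * ψ v := fun v hv => hψmul v hv v hv
    exact
      { le := le_top
        idx := by rw [Subgroup.relIndex_top_right, hMi]
        comm := hab
        t_mem := Subgroup.mem_top t
        t_notMem := ht
        A0_le := fun a ha => ha.1
        A0_idx := fun a ha b hb => by
          have h1 := hψmul a ha b hb
          have hcc := hab _ (hDM (hψD a)) _ (hDM (hψD b))
          have h2 : ψ (a * b) * ψ (a * b) = ψ a * ψ a * (ψ b * ψ b) := by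
            rw [h1, show ψ a * ψ b * (ψ a * ψ b) = ψ a * (ψ b * ψ a) * ψ b by group, ← hcc]
            group
          have h22 : c0 * c0 * (c0 * c0) = 1 := by
            rw [show c0 * c0 * (c0 * c0) = c0 ^ 4 by simp only [pow_succ, pow_zero, one_mul, mul_assoc], ← orderOf_dvd_iff_pow_eq_one,
              ← Nat.card_zpowers, ← hDc, h4]
          simp only [hA0, ha, hb, mul_mem ha hb, true_and, h2]
          rcases hsqD a with e1 | e1 <;> rcases hsqD b with e2 | e2 <;>
            simp [e1, e2, hc02, h22]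
        nonfull := ⟨a1, ha1, ha1'⟩
        commA0 := fun a ha => by
          refine ⟨hDM (hψD a), ?_⟩
          have h1 : ψ (ψ a) = (ψ a * ψ a)⁻¹ := by
            show (ψ a)⁻¹ * (t * ψ a * t⁻¹) = _
            rw [hψinv a ha]; exact (mul_inv_rev _ _).symm
          show ψ (ψ a) * ψ (ψ a) = 1
          rw [h1, ← mul_inv_rev, inv_eq_one]
          rcases hsqD a with e | e <;> rw [e]
          · rw [one_mul]
          · rw [show c0 * c0 * (c0 * c0) = c0 ^ 4 by simp only [pow_succ, pow_zero, one_mul, mul_assoc], ← orderOf_dvd_iff_pow_eq_one,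
              ← Nat.card_zpowers, ← hDc, h4]
        sq := fun v hv hv0 h => hv0 ⟨hv, by
          rw [← hψsq v hv]; simp only [ψ]; rw [h, inv_mul_cancel]⟩
        ord := fun v _ _ w hw _ => by
          have h1 := hψsq w hw.1
          rw [hw.2] at h1
          exact (inv_mul_eq_one.1 h1).symm
        gen := fun v hv hv0 => by
          suffices 8 ≤ orderOf v by omega
          refine eight_le_orderOf hP fun hv4 => hv0 ⟨hv, ?_⟩
          rw [← hψsq v hv]
          -- involutions of a cyclic subgroup of index two are unique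
          set H := Subgroup.zpowers g with hH
          have hHsub : ∀ m ∈ M, m * m ∈ H := by
            intro m hm
            have hHM : H ≤ M := Subgroup.zpowers_le.2 hgM
            have hle : H.relIndex M ≤ 2 := by
              have h1 := (H.subgroupOf M).card_mul_index
              rw [Nat.card_congr (Subgroup.subgroupOfEquivOfLe hHM).toEquiv, hH, Nat.card_zpowers,
                hM16] at h1
              rw [Subgroup.relIndex]
              nlinarith
            by_cases hmH : m ∈ H
            · exact mul_mem hmH hmH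
            · have h2 : H.relIndex M = 2 := by
                have h0 : H.relIndex M ≠ 0 := relIndex_ne_zero_fin _ _
                have h1' : H.relIndex M ≠ 1 := fun h => hmH (Subgroup.relIndex_eq_one.1 h hm)
                omega
              exact (relIndexTwo_mul_mem h2 hm hm).2 Iff.rfl
          set w := v * v
          have hw2 : w * w = 1 := by
            show v * v * (v * v) = 1
            rw [← hv4]; simp only [pow_succ, pow_zero, one_mul, mul_assoc]
          have hw' : t * w * t⁻¹ = t * v * t⁻¹ * (t * v * t⁻¹) := by simp only [w]; group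
          show w⁻¹ * (t * w * t⁻¹) = 1
          by_cases hw1 : w = 1
          · rw [hw1]; group
          have e1 : w ∈ H := hHsub v hv
          have e2 : t * w * t⁻¹ ∈ H := hw' ▸ hHsub _ (hconjM v hv)
          rw [inv_mul_eq_one]
          by_contra hne
          classical
          haveI := Fintype.ofFinite H
          have hcount := IsCyclic.card_pow_eq_one_le (α := H) (n := 2) two_pos
          have h3 : ({1, ⟨w, e1⟩, ⟨t * w * t⁻¹, e2⟩} : Finset H) ⊆
              Finset.univ.filter fun x : H => x ^ 2 = 1 := by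
            intro x hx
            simp only [Finset.mem_insert, Finset.mem_singleton] at hx
            refine Finset.mem_filter.2 ⟨Finset.mem_univ _, Subtype.ext ?_⟩
            rcases hx with rfl | rfl | rfl
            · simp
            · simpa [pow_two] using hw2
            · simp only [Subgroup.coe_pow, pow_two, Subgroup.coe_one]
              calc t * w * t⁻¹ * (t * w * t⁻¹) = t * (w * w) * t⁻¹ := by group
                _ = 1 := by rw [hw2]; group
          have h4' := (Finset.card_le_card h3).trans hcount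
          rw [Finset.card_insert_of_notMem, Finset.card_pair] at h4'
          · omega
          · exact fun h => hne (congrArg Subtype.val h)
          · simp only [Finset.mem_insert, Finset.mem_singleton]
            rintro (h | h)
            · exact hw1 (congrArg Subtype.val h).symm
            · exact hw1 (conj_eq_one_iff.1 (congrArg Subtype.val h).symm)
        aut := fun φ hφ => mulAut_subgroup_eq_one_of_odd hP M hab hgM (by omega) (by omega) φ hφ }
  -- the centraliser is not abelian
  push Not at hab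
  obtain ⟨a, ha, b, hb, hab⟩ := hab
  have hDcen : ∀ d ∈ D, ∀ m ∈ M, d * m = m * d := fun d hd m hm =>
    Subgroup.mem_centralizer_iff.1 hm d hd
  have hcM : ∀ m ∈ M, ∀ n ∈ M, ⁅m, n⁆ ∈ Z ⊓ D := by
    set C := Subgroup.center M
    have hDC : D.subgroupOf M ≤ C := fun d hd =>
      Subgroup.mem_center_iff.2 fun m => Subtype.ext (hDcen _ hd _ m.2).symm
    have hbd : ∀ m : M, (Subgroup.centralizer ({m} : Set M)).index ≤ 2 := by
      intro m
      by_cases hm : m ∈ C
      · have : Subgroup.centralizer ({m} : Set M) = ⊤ := (Subgroup.eq_top_iff' _).2 fun n =>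
          mem_cen.2 (Subgroup.mem_center_iff.1 hm n)
        rw [this, Subgroup.index_top]
        omega
      · have hlt : C < Subgroup.centralizer ({m} : Set M) :=
          lt_of_le_of_ne (Subgroup.center_le_centralizer _) fun h => hm (h ▸ mem_cen_self m)
        have h1 := (Subgroup.centralizer ({m} : Set M)).card_mul_index
        have h2 : 4 ≤ Nat.card C := by
          rw [← h4, ← Nat.card_congr (Subgroup.subgroupOfEquivOfLe hDM).toEquiv]
          exact Subgroup.card_le_of_le hDC
        obtain ⟨k, hk⟩ := IsPGroup.iff_card.1 ((hP.to_subgroup M).to_subgroup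
          (Subgroup.centralizer ({m} : Set M)))
        have h3 : 4 < Nat.card (Subgroup.centralizer ({m} : Set M)) :=
          lt_of_le_of_lt h2 (Set.Finite.card_lt_card (Set.toFinite _) hlt)
        rw [hk] at h1 h3
        have : 8 ≤ 2 ^ k := by
          have h5 : 2 ^ 2 < 2 ^ k := h3
          rw [Nat.pow_lt_pow_iff_right one_lt_two] at h5
          exact Nat.pow_le_pow_right two_pos h5
        rw [hM16] at h1
        nlinarith
    have hM2 := card_commutator_le_two (hP.to_subgroup M) hbd
    set E := (commutator M).map M.subtype with hE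
    have hEn : E.Normal := by
      haveI : (commutator M).Characteristic := inferInstance
      exact ConjAct.normal_of_characteristic_of_normal
    have hEc : E ≤ Z := by
      intro w hw
      refine Subgroup.mem_center_iff.2 fun g => ?_
      by_cases hw1 : w = 1
      · rw [hw1, mul_one, one_mul]
      have h2 := hEn.conj_mem w hw g
      have hE2 : Nat.card E ≤ 2 := by
        rw [hE, Subgroup.card_map_of_injective M.subtype_injective]; exact hM2
      by_contra hne
      classical
      haveI := Fintype.ofFinite E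
      have h3 : ({1, ⟨w, hw⟩, ⟨g * w * g⁻¹, h2⟩} : Finset E).card = 3 := by
        rw [Finset.card_insert_of_notMem, Finset.card_pair]
        · exact fun h => hne (conj_eq_self_iff.1 (congrArg Subtype.val h).symm)
        · simp only [Finset.mem_insert, Finset.mem_singleton]
          rintro (h | h)
          · exact hw1 (congrArg Subtype.val h).symm
          · exact hw1 (conj_eq_one_iff.1 (congrArg Subtype.val h).symm)
      have h4' := Finset.card_le_univ ({1, ⟨w, hw⟩, ⟨g * w * g⁻¹, h2⟩} : Finset E)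
      rw [h3, ← Nat.card_eq_fintype_card] at h4'
      omega
    intro m hm n hn
    refine ⟨hEc ⟨⁅(⟨m, hm⟩ : M), ⟨n, hn⟩⁆, Subgroup.commutator_mem_commutator (Subgroup.mem_top _)
      (Subgroup.mem_top _), by simp [commutatorElement_def]⟩, hcomm m n⟩
  -- an element with a commutator outside the centre
  obtain ⟨x, hxM, hxt⟩ : ∃ x ∈ M, ⁅x, t⁆ ∉ Z := by
    by_contra! hall
    refine hcZ (?_ : c ∈ Z)
    let K : Subgroup P := (Subgroup.center (P ⧸ Z)).comap (QuotientGroup.mk' Z)
    have hq : ∀ g h : P, ⁅g, h⁆ ∈ Z →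
        (QuotientGroup.mk' Z h) * QuotientGroup.mk' Z g =
          QuotientGroup.mk' Z g * QuotientGroup.mk' Z h := by
      intro g h hgh
      have h1 : QuotientGroup.mk' Z ⁅g, h⁆ = 1 := (QuotientGroup.eq_one_iff _).2 hgh
      rw [map_commutatorElement, commutatorElement_eq_one_iff_mul_comm] at h1
      exact h1.symm
    have hMK : M ≤ K := by
      intro m hm
      refine Subgroup.mem_comap.2 (Subgroup.mem_center_iff.2 fun q => ?_)
      obtain ⟨h, rfl⟩ := QuotientGroup.mk'_surjective Z q
      by_cases hh : h ∈ M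
      · exact hq m h (Subgroup.mem_inf.1 (hcM m hm h hh)).1
      · have h3 : h * t⁻¹ ∈ M :=
          (Subgroup.mul_mem_iff_of_index_two hMi).2 (by rw [M.inv_mem_iff]; tauto)
        rw [show h = h * t⁻¹ * t by group, map_mul, mul_assoc, hq m t (hall m hm), ← mul_assoc,
          hq m _ (Subgroup.mem_inf.1 (hcM m hm _ h3)).1, mul_assoc]
    have htop : ∀ g h : P, ⁅g, h⁆ ∈ Z := by
      intro g h
      rw [← QuotientGroup.eq_one_iff, ← QuotientGroup.mk'_apply, map_commutatorElement,
        commutatorElement_eq_one_iff_mul_comm]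
      have hcomm' : ∀ g ∈ M, ∀ q, QuotientGroup.mk' Z g * q = q * QuotientGroup.mk' Z g :=
        fun g hg q => (Subgroup.mem_center_iff.1 (Subgroup.mem_comap.1 (hMK hg)) q).symm
      by_cases hg : g ∈ M
      · exact hcomm' g hg _
      by_cases hh : h ∈ M
      · exact (hcomm' h hh _).symm
      have h3 : h * g⁻¹ ∈ M :=
        (Subgroup.mul_mem_iff_of_index_two hMi).2 (by rw [M.inv_mem_iff]; tauto)
      rw [show h = h * g⁻¹ * g by group, map_mul, ← mul_assoc, ← hcomm' _ h3, mul_assoc]
    have : D ≤ Z := by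
      rw [hD, commutator_def, Subgroup.commutator_le]
      exact fun g _ h _ => htop g h
    exact this hc
  obtain ⟨y0, hy0, hxy0⟩ : ∃ y ∈ M, x * y ≠ y * x := by
    by_contra! hall
    -- otherwise `x` would lie in the derived subgroup
    have hxD : x ∈ D := by
      set C := Subgroup.center M
      have hDC : D.subgroupOf M ≤ C := fun d hd =>
        Subgroup.mem_center_iff.2 fun m => Subtype.ext (hDcen _ hd _ m.2).symm
      have hxC : (⟨x, hxM⟩ : M) ∈ C :=
        Subgroup.mem_center_iff.2 fun m => Subtype.ext (hall m m.2).symm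
      have hC : Nat.card C ≤ 4 := by
        have h1 : 4 ≤ C.index := Nat.le_of_dvd (Nat.pos_of_ne_zero C.index_ne_zero_of_finite)
          (Alperin.sq_dvd_index_center (hP.to_subgroup M) fun h => hab
            (congrArg Subtype.val (h.is_comm.comm (⟨a, ha⟩ : M) ⟨b, hb⟩)))
        have h2 := C.card_mul_index
        rw [hM16] at h2
        nlinarith
      have := Subgroup.eq_of_le_of_card_ge hDC (by
        rw [Nat.card_congr (Subgroup.subgroupOfEquivOfLe hDM).toEquiv, h4]; exact hC)
      exact Subgroup.mem_subgroupOf.1 (this.symm ▸ hxC)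
    by_cases hxZ : x ∈ Z
    · refine hxt ?_
      rw [commutatorElement_eq_one_iff_mul_comm.2 (Subgroup.mem_center_iff.1 hxZ t).symm]
      exact one_mem _
    refine hxt ?_
    have h1 : t * x * t⁻¹ ∈ D := Subgroup.Normal.conj_mem inferInstance x hxD t
    have h2 : t * x * t⁻¹ ∉ Z := fun h => hxZ (by
      have h3 := Subgroup.mem_center_iff.1 h t
      rwa [mul_left_cancel (a := t) (h3.trans (inv_mul_cancel_right _ _))] at h)
    rw [show ⁅x, t⁆ = x * (t * x * t⁻¹)⁻¹ by rw [commutatorElement_def]; group]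
    exact hdiff _ h1 h2 x hxD hxZ
  have hw : ⁅x, y0⁆ ≠ 1 := fun h => hxy0 (commutatorElement_eq_one_iff_mul_comm.1 h)
  -- the centraliser of `x`
  set C := Subgroup.centralizer ({x} : Set P) with hC
  have hxD : x ∉ D := fun h => hxy0 (hDcen x h y0 hy0)
  have hDC : D ≤ C := fun d hd => mem_cen.2 (hDcen d hd x hxM)
  have hC8 : Nat.card C = 8 := by
    have h3 : 3 ≤ C.index := by
      classical
      haveI := Fintype.ofFinite (P ⧸ C)
      have hne1 : (QuotientGroup.mk y0 : P ⧸ C) ≠ QuotientGroup.mk 1 := fun h => by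
        rw [QuotientGroup.eq, mul_one] at h
        exact hxy0 (mem_cen.1 (C.inv_mem_iff.1 h)).symm
      have hne2 : (QuotientGroup.mk t : P ⧸ C) ≠ QuotientGroup.mk 1 := fun h => by
        rw [QuotientGroup.eq, mul_one] at h
        refine hxt ?_
        rw [commutatorElement_eq_one_iff_mul_comm.2 (mem_cen.1 (C.inv_mem_iff.1 h)).symm]
        exact one_mem _
      have hne3 : (QuotientGroup.mk t : P ⧸ C) ≠ QuotientGroup.mk y0 := fun h => by
        rw [QuotientGroup.eq] at h
        refine hxt ?_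
        have e := mem_cen.1 h
        have h1 : t * x * t⁻¹ = y0 * x * y0⁻¹ := by
          calc t * x * t⁻¹ = t * (x * (t⁻¹ * y0)) * y0⁻¹ := by group
            _ = _ := by rw [← e]; group
        have h2 : ⁅x, t⁆ = ⁅x, y0⁆ := by
          rw [commutatorElement_def, commutatorElement_def,
            show x * t * x⁻¹ * t⁻¹ = x * (t * x * t⁻¹)⁻¹ by group, h1]
          group
        rw [h2]
        exact (Subgroup.mem_inf.1 (hcM x hxM y0 hy0)).1
      rw [Subgroup.index_eq_card, Nat.card_eq_fintype_card]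
      refine le_trans (le_of_eq ?_) (Finset.card_le_univ
        ({QuotientGroup.mk 1, QuotientGroup.mk y0, QuotientGroup.mk t} : Finset (P ⧸ C)))
      rw [Finset.card_insert_of_notMem, Finset.card_pair hne3.symm]
      simp only [Finset.mem_insert, Finset.mem_singleton]
      exact not_or.2 ⟨hne1.symm, hne2.symm⟩
    have h1 := C.card_mul_index
    rw [h32] at h1
    obtain ⟨k, hk⟩ := card_subgroup_pow hP C
    have h5 : 4 < Nat.card C := by
      rw [← h4]
      exact Set.Finite.card_lt_card (Set.toFinite _)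
        (lt_of_le_of_ne hDC fun h => hxD (by rw [SetLike.coe_injective h]; exact mem_cen_self x))
    rw [hk] at h1 h5 ⊢
    have : k < 4 := by
      by_contra h
      have := Nat.pow_le_pow_right two_pos (show 4 ≤ k by omega)
      nlinarith
    interval_cases k <;> omega
  have hDC2 : D.relIndex C = 2 := by
    have h1 := (D.subgroupOf C).card_mul_index
    rw [Nat.card_congr (Subgroup.subgroupOfEquivOfLe hDC).toEquiv, hC8, h4] at h1
    rw [Subgroup.relIndex]
    omega
  have hCdec : ∀ e ∈ C, e ∉ D → e * x⁻¹ ∈ D := fun e he heD =>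
    (relIndexTwo_mul_mem hDC2 he (inv_mem (mem_cen_self x))).2 (by rw [D.inv_mem_iff]; tauto)
  have hCM : C ≤ M := fun e he => by
    by_cases heD : e ∈ D
    · exact hDM heD
    · have := mul_mem (hDM (hCdec e he heD)) hxM
      rwa [inv_mul_cancel_right] at this
  have hCab : ∀ e ∈ C, ∀ f ∈ C, e * f = f * e := by
    intro e he f hf
    by_cases hfD : f ∈ D
    · exact (hDcen f hfD e (hCM he)).symm
    calc e * f = e * (f * x⁻¹) * x := by group
      _ = (f * x⁻¹) * (e * x) := by rw [← hDcen _ (hCdec f hf hfD) e (hCM he)]; group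
      _ = f * e := by rw [mem_cen.1 he]; group
  by_cases hnon : ∃ g ∈ C, g * g ≠ 1
  · obtain ⟨g, hg, hg2⟩ := hnon
    refine Or.inr (Or.inl ⟨x, hCab, hDC, by rw [← hC, hC8, hidx], ?_, fun φ hφ =>
      mulAut_subgroup_eq_one_of_odd hP C hCab hg (by have := four_le_orderOf hP hg2; omega)
        (four_le_orderOf hP hg2) φ hφ⟩)
    have : orderOf x ≠ 1 := fun h => hxD (orderOf_eq_one_iff.1 h ▸ D.one_mem)
    have := orderOf_pos x
    omega
  push Not at hnon
  have hD2 : ∀ d ∈ D, d * d = 1 := fun d hd => hnon d (hDC hd)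
  have hx2 : x * x = 1 := hnon x (mem_cen_self x)
  -- choose `y` with a central commutator with `t`
  have hLmul : ∀ y ∈ M, ⁅x, t⁆ ∉ Z → ⁅y, t⁆ ∉ Z → ⁅x * y, t⁆ ∈ Z := by
    intro y hy hx' hy'
    have h1 : ⁅x * y, t⁆ = x * ⁅y, t⁆ * x⁻¹ * ⁅x, t⁆ := by
      simp only [commutatorElement_def]; group
    rw [h1, ← hDcen _ (hcomm y t) x hxM, mul_inv_cancel_right]
    have h2 := hdiff _ (inv_mem (hcomm x t)) (fun h => hx' (Z.inv_mem_iff.1 h)) _ (hcomm y t) hy'
    rwa [inv_inv] at h2
  by_cases hy : ∃ y ∈ M, x * y ≠ y * x ∧ ⁅y, t⁆ ∉ Z ∧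
      ∃ g ∈ Subgroup.centralizer ({y} : Set P), g ∈ M ∧ g * g ≠ 1 ∧
        Nat.card (Subgroup.centralizer ({y} : Set P)) ≤ 8
  · -- a second rigid centraliser
    obtain ⟨y, hy, hxy, hyt, g, hg, hgM, hg2, hCy⟩ := hy
    have hDCy : D ≤ Subgroup.centralizer ({y} : Set P) := fun d hd => mem_cen.2 (hDcen d hd y hy)
    have hyD : y ∉ D := fun h => hxy (hDcen y h x hxM).symm
    have h2 : D.relIndex (Subgroup.centralizer ({y} : Set P)) = 2 := by
      have h1 := (D.subgroupOf (Subgroup.centralizer ({y} : Set P))).card_mul_index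
      rw [Nat.card_congr (Subgroup.subgroupOfEquivOfLe hDCy).toEquiv, h4] at h1
      have h0 : D.relIndex (Subgroup.centralizer ({y} : Set P)) ≠ 1 := fun h =>
        hyD (Subgroup.relIndex_eq_one.1 h (mem_cen_self y))
      rw [Subgroup.relIndex] at h0 ⊢
      have := (D.subgroupOf (Subgroup.centralizer ({y} : Set P))).index_ne_zero_of_finite
      omega
    have hdec : ∀ e ∈ Subgroup.centralizer ({y} : Set P), e ∉ D → e * y⁻¹ ∈ D := fun e he heD =>
      (relIndexTwo_mul_mem h2 he (inv_mem (mem_cen_self y))).2 (by rw [D.inv_mem_iff]; tauto)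
    have hCyM : Subgroup.centralizer ({y} : Set P) ≤ M := fun e he => by
      by_cases heD : e ∈ D
      · exact hDM heD
      · have := mul_mem (hDM (hdec e he heD)) hy
        rwa [inv_mul_cancel_right] at this
    have hyab : ∀ e ∈ Subgroup.centralizer ({y} : Set P),
        ∀ f ∈ Subgroup.centralizer ({y} : Set P), e * f = f * e := by
      intro e he f hf
      by_cases hfD : f ∈ D
      · exact (hDcen f hfD e (hCyM he)).symm
      calc e * f = e * (f * y⁻¹) * y := by group
        _ = (f * y⁻¹) * (e * y) := by rw [← hDcen _ (hdec f hf hfD) e (hCyM he)]; group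
        _ = f * e := by rw [mem_cen.1 he]; group
    refine Or.inr (Or.inl ⟨y, hyab, hDCy, hidx ▸ hCy, ?_, fun φ hφ =>
      mulAut_subgroup_eq_one_of_odd hP _ hyab hg (by have := four_le_orderOf hP hg2; omega)
        (four_le_orderOf hP hg2) φ hφ⟩)
    have : orderOf y ≠ 1 := fun h => hyD (orderOf_eq_one_iff.1 h ▸ D.one_mem)
    have := orderOf_pos y
    omega
  push Not at hy
  -- every such `y` is an involution
  have hinv : ∀ y ∈ M, x * y ≠ y * x → ⁅y, t⁆ ∉ Z → y * y = 1 := by
    intro y hyM hxy hyt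
    by_contra hy2
    refine absurd ?_ (not_le.2 (hy y hyM hxy hyt y (mem_cen_self y) hyM hy2))
    set Cy := Subgroup.centralizer ({y} : Set P)
    have h3 : 3 ≤ Cy.index := by
      classical
      haveI := Fintype.ofFinite (P ⧸ Cy)
      have hne1 : (QuotientGroup.mk x : P ⧸ Cy) ≠ QuotientGroup.mk 1 := fun h => by
        rw [QuotientGroup.eq, mul_one] at h
        exact hxy (mem_cen.1 (Cy.inv_mem_iff.1 h))
      have hne2 : (QuotientGroup.mk t : P ⧸ Cy) ≠ QuotientGroup.mk 1 := fun h => by
        rw [QuotientGroup.eq, mul_one] at h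
        refine hyt ?_
        rw [commutatorElement_eq_one_iff_mul_comm.2 (mem_cen.1 (Cy.inv_mem_iff.1 h)).symm]
        exact one_mem _
      have hne3 : (QuotientGroup.mk t : P ⧸ Cy) ≠ QuotientGroup.mk x := fun h => by
        rw [QuotientGroup.eq] at h
        refine hyt ?_
        have e := mem_cen.1 h
        have h1 : t * y * t⁻¹ = x * y * x⁻¹ := by
          calc t * y * t⁻¹ = t * (y * (t⁻¹ * x)) * x⁻¹ := by group
            _ = _ := by rw [← e]; group
        have h2 : ⁅y, t⁆ = ⁅y, x⁆ := by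
          rw [commutatorElement_def, commutatorElement_def,
            show y * t * y⁻¹ * t⁻¹ = y * (t * y * t⁻¹)⁻¹ by group, h1]
          group
        rw [h2]
        exact (Subgroup.mem_inf.1 (hcM y hyM x hxM)).1
      rw [Subgroup.index_eq_card, Nat.card_eq_fintype_card]
      refine le_trans (le_of_eq ?_) (Finset.card_le_univ
        ({QuotientGroup.mk 1, QuotientGroup.mk x, QuotientGroup.mk t} : Finset (P ⧸ Cy)))
      rw [Finset.card_insert_of_notMem, Finset.card_pair hne3.symm]
      simp only [Finset.mem_insert, Finset.mem_singleton]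
      exact not_or.2 ⟨hne1.symm, hne2.symm⟩
    have h1 := Cy.card_mul_index
    rw [h32] at h1
    obtain ⟨k, hk⟩ := card_subgroup_pow hP Cy
    rw [hk] at h1 ⊢
    by_contra hlt
    have : 2 ^ 4 ≤ 2 ^ k := Nat.pow_le_pow_right two_pos (by
      by_contra h
      have := Nat.pow_le_pow_right two_pos (show k ≤ 3 by omega)
      omega)
    nlinarith
  obtain ⟨y, hyM, hxy, hyt⟩ : ∃ y ∈ M, x * y ≠ y * x ∧ ⁅y, t⁆ ∈ Z := by
    by_cases h0 : ⁅y0, t⁆ ∈ Z
    · exact ⟨y0, hy0, hxy0, h0⟩
    · refine ⟨x * y0, mul_mem hxM hy0, fun h => hxy0 ?_, hLmul y0 hy0 hxt h0⟩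
      exact mul_left_cancel (a := x) (by rw [h, mul_assoc])
  have hxy2 : x * y * (x * y) = 1 := by
    refine hinv (x * y) (mul_mem hxM hyM) (fun h => hxy ?_) fun h => hxt ?_
    · exact mul_left_cancel (a := x) (by rw [h, mul_assoc])
    · have h1 : ⁅x * y, t⁆ = x * ⁅y, t⁆ * x⁻¹ * ⁅x, t⁆ := by
        simp only [commutatorElement_def]; group
      rw [h1, Subgroup.mem_center_iff.1 hyt x, mul_inv_cancel_right] at h
      exact (Z.mul_mem_cancel_left hyt).1 h
  have hy2 : y * y = ⁅x, y⁆ := by
    have h1 : x * y * x = y⁻¹ := eq_inv_of_mul_eq_one_left (by rw [mul_assoc]; exact hxy2)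
    rw [commutatorElement_def, inv_eq_of_mul_eq_one_right hx2, h1]
    have h3 : ⁅x, y⁆ ∈ D := hcomm x y
    have h2 := hD2 _ h3
    rw [commutatorElement_def, inv_eq_of_mul_eq_one_right hx2, h1] at h2
    exact (inv_eq_of_mul_eq_one_right (a := y⁻¹ * y⁻¹) h2).symm.trans (by rw [mul_inv_rev, inv_inv]) |>.symm
  have hM4 : ∀ m ∈ M, m ^ 4 = 1 := by
    intro m hm
    have hsq : m * m ∈ D := by
      set CM := Subgroup.center M
      have hDCM : D.subgroupOf M ≤ CM := fun d hd =>
        Subgroup.mem_center_iff.2 fun n => Subtype.ext (hDcen _ hd _ n.2).symm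
      have hmm : (⟨m * m, mul_mem hm hm⟩ : M) ∈ CM := by
        refine Subgroup.mem_center_iff.2 fun n => Subtype.ext ?_
        show (n : P) * (m * m) = m * m * n
        have hk := hcM m hm n n.2
        have hkz := Subgroup.mem_center_iff.1 (Subgroup.mem_inf.1 hk).1
        have h1 : m * n = ⁅m, (n : P)⁆ * (n * m) := by rw [commutatorElement_def]; group
        calc (n : P) * (m * m) = n * m * m := by group
          _ = ⁅m, (n : P)⁆ * ⁅m, (n : P)⁆ * (n * m * m) := by
              rw [hD2 _ (Subgroup.mem_inf.1 hk).2, one_mul]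
          _ = ⁅m, (n : P)⁆ * (⁅m, (n : P)⁆ * (n * m)) * m := by group
          _ = ⁅m, (n : P)⁆ * (m * n) * m := by rw [← h1]
          _ = m * (⁅m, (n : P)⁆ * (n * m)) := by
              rw [show ⁅m, (n : P)⁆ * (m * n) = m * (⁅m, (n : P)⁆ * n) by
                rw [← mul_assoc, ← hkz m, mul_assoc]]
              group
          _ = m * m * n := by rw [← h1]; group
      have hC : Nat.card CM ≤ 4 := by
        have h1 : 4 ≤ CM.index := Nat.le_of_dvd (Nat.pos_of_ne_zero CM.index_ne_zero_of_finite)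
          (Alperin.sq_dvd_index_center (hP.to_subgroup M) fun h => hab
            (congrArg Subtype.val (h.is_comm.comm (⟨a, ha⟩ : M) ⟨b, hb⟩)))
        have h2 := CM.card_mul_index
        rw [hM16] at h2
        nlinarith
      have := Subgroup.eq_of_le_of_card_ge hDCM (by
        rw [Nat.card_congr (Subgroup.subgroupOfEquivOfLe hDM).toEquiv, h4]; exact hC)
      exact Subgroup.mem_subgroupOf.1 (this.symm ▸ hmm)
    rw [show 4 = 2 + 2 from rfl, pow_add, pow_two]
    exact hD2 _ hsq
  -- `t` has order at least eight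
  refine Or.inl (good8 t ?_ hM4)
  set c1 := ⁅t, x⁆ with hc1
  have hc1D : c1 ∈ D := hcomm t x
  have hc1Z : c1 ∉ Z := fun h => hxt (by rw [← commutatorElement_inv]; exact Z.inv_mem h)
  have hconj : t * x * t⁻¹ = c1 * x := by rw [hc1, commutatorElement_def, inv_mul_cancel_right]
  have htc1 : t * c1 * t⁻¹ ≠ c1 := fun h => by
    refine ht (hMc ▸ mem_cen.2 ?_)
    have h1 := Subgroup.mem_center_iff.1 (hdiff c1 hc1D hc1Z c hc hcZ) t
    calc t * c = t * (c * c1⁻¹) * c1 := by group
      _ = c * c1⁻¹ * (t * c1 * t⁻¹) * t := by rw [h1]; group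
      _ = c * t := by rw [h]; group
  have hnx : t * t * x ≠ x * (t * t) := fun h => htc1 (by
    have h1 : t * t * x * (t * t)⁻¹ = x := mul_inv_eq_iff_eq_mul.2 h
    rw [show t * t * x * (t * t)⁻¹ = t * (t * x * t⁻¹) * t⁻¹ by group, hconj,
      show t * (c1 * x) * t⁻¹ = t * c1 * t⁻¹ * (t * x * t⁻¹) by group, hconj, ← mul_assoc,
      mul_eq_right] at h1
    rw [eq_inv_of_mul_eq_one_left h1, inv_eq_of_mul_eq_one_right (hD2 _ hc1D)])
  have hnxy : t * t * (x * y) ≠ x * y * (t * t) := fun h => hnx (by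
    have hyfix : t * t * y * (t * t)⁻¹ = y := by
      have hz : t * y * t⁻¹ = ⁅y, t⁆⁻¹ * y := by rw [commutatorElement_def]; group
      have hzc : t * ⁅y, t⁆⁻¹ * t⁻¹ = ⁅y, t⁆⁻¹ := by
        rw [Subgroup.mem_center_iff.1 (Z.inv_mem hyt) t, mul_inv_cancel_right]
      rw [show t * t * y * (t * t)⁻¹ = t * (t * y * t⁻¹) * t⁻¹ by group, hz,
        show t * (⁅y, t⁆⁻¹ * y) * t⁻¹ = t * ⁅y, t⁆⁻¹ * t⁻¹ * (t * y * t⁻¹) by group, hzc, hz,
        ← mul_assoc, ← mul_inv_rev, hD2 _ (hcomm y t), inv_one, one_mul]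
    calc t * t * x = t * t * (x * y) * y⁻¹ := by group
      _ = x * (y * (t * t)) * y⁻¹ := by rw [h]; group
      _ = x * (t * t) := by rw [← mul_inv_eq_iff_eq_mul.1 hyfix]; group)
  -- so `t * t` lies in `y * D`
  have hC2M : C.relIndex M = 2 := by
    have h1 := (C.subgroupOf M).card_mul_index
    rw [Nat.card_congr (Subgroup.subgroupOfEquivOfLe hCM).toEquiv, hC8, hM16] at h1
    rw [Subgroup.relIndex]
    omega
  have h5 : t * t * y⁻¹ ∈ C := (relIndexTwo_mul_mem hC2M htt (inv_mem hyM)).2 (by
    rw [C.inv_mem_iff]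
    simp only [C, mem_cen]
    exact iff_of_false hnx fun h => hxy h.symm)
  have h6 : t * t * y⁻¹ ∈ D := by
    by_contra hne
    refine hnxy ?_
    obtain ⟨d, hd, htd⟩ : ∃ d ∈ D, t * t = d * (x * y) :=
      ⟨_, hCdec _ h5 hne, by simp only [← mul_assoc, inv_mul_cancel_right]⟩
    rw [htd, ← mul_assoc (x * y) d, ← hDcen d hd (x * y) (mul_mem hxM hyM)]
  intro h4'
  set d := t * t * y⁻¹ with hd
  have htd : t * t = d * y := by rw [hd, inv_mul_cancel_right]
  apply hw
  have h7 : t ^ 4 = ⁅x, y⁆ := by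
    rw [← hy2, show t ^ 4 = t * t * (t * t) by simp only [pow_succ, pow_zero, one_mul, mul_assoc], htd,
      show d * y * (d * y) = d * (y * d) * y by group, ← hDcen d h6 y hyM,
      show d * (d * y) * y = d * d * (y * y) by group, hD2 d h6, one_mul]
  rw [h4'] at h7
  exact absurd (commutatorElement_eq_one_iff_mul_comm.1 h7.symm) hxy

/-- The nonabelian 2-groups of order at most 32. -/
theorem small_cases (h32 : Nat.card P ≤ 32) (hnc : ¬ IsMulCommutative P) :
    GoodOrder P ∨ DerivedTwo P ∨ RigidCentralizer P ∨ SquarePair P ∨ InvertedFour P := by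
  haveI : Fact (Nat.Prime 2) := ⟨Nat.prime_two⟩
  have h4 := Spectrum.four_le_index_commutator hP hnc
  have hne : Nat.card (commutator P) ≠ 1 := fun h => hnc <| isMulCommutative_iff.2 fun a b => by
    rw [← commutatorElement_eq_one_iff_mul_comm, ← Subgroup.mem_bot,
      ← Subgroup.eq_bot_of_card_eq _ h]
    exact Subgroup.commutator_mem_commutator (Subgroup.mem_top _) (Subgroup.mem_top _)
  obtain ⟨j, hj⟩ := card_subgroup_pow hP (commutator P)
  obtain ⟨m, hm⟩ := hP.index (commutator P)
  have hcard := Subgroup.card_mul_index (commutator P)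
  rw [hj, hm, ← pow_add] at hcard
  have hj0 : j ≠ 0 := fun h => hne (by rw [hj, h, pow_zero])
  have hm2 : 2 ≤ m := by
    by_contra h
    have : 2 ^ m ≤ 2 ^ 1 := Nat.pow_le_pow_right two_pos (by omega)
    omega
  have hsum : j + m ≤ 5 := by
    by_contra h
    have : 2 ^ 6 ≤ 2 ^ (j + m) := Nat.pow_le_pow_right two_pos (by omega)
    omega
  by_cases hj1 : j = 1
  · rcases of_card_commutator_two hP h32 (by rw [hj, hj1, pow_one]) with h | h
    · exact Or.inl h
    · exact Or.inr (Or.inl h)
  by_cases hm' : m = 2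
  · subst hm'
    refine Or.inr (Or.inr (Or.inr (Or.inl (of_index_four hP ?_ h32 (by rw [hm]; rfl)))))
    rw [← hcard]
    exact le_trans (le_refl (2 ^ 4)) (Nat.pow_le_pow_right two_pos (by omega))
  obtain ⟨rfl, rfl⟩ : j = 2 ∧ m = 3 := by omega
  by_cases hcen : commutator P ≤ Subgroup.center P
  · rcases of_class_two hP hcard.symm hj hcen with h | h
    · exact Or.inr (Or.inr (Or.inl h))
    · exact Or.inr (Or.inr (Or.inr (Or.inr h)))
  · rcases of_class_three hP hcard.symm hj hcen with h | h | h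
    · exact Or.inl h
    · exact Or.inr (Or.inr (Or.inl h))
    · exact Or.inr (Or.inr (Or.inr (Or.inl h)))

end CfsgLib.OlssonSmall
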