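import Cfsg.Agent.Lib.OlssonSmall.Virtual
import Cfsg.Agent.Lib.OlssonSmall.Rank
import Cfsg.Agent.Lib.BlockStar.Action
import Cfsg.Agent.Lib.BrauerPairs.AbelianPIndex

/-!
# Height zero characters from an abelian subgroup of index two

If the elements of an abelian maximal subgroup `A` outside a subgroup `A0` have squares which are not
central, their subsections give congruences; their number of characters of height zero is bounded by
the invariant linear characters of `A`.
-/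

set_option autoImplicit false
set_option linter.style.haveILetI false
set_option linter.unusedSectionVars false

noncomputable section

namespace CfsgLib.OlssonSmall

open Cfsg CfsgLib.Blocks MonoidAlgebra CfsgLib.BrauerPairs CfsgLib.BlockStar
open CfsgLib.BrauerCharacters (blockFinset mem_blockFinset)
open CfsgLib.BlockSections (belowBlock)
open scoped ComplexConjugate

variable {G : Type*} [Group G] [Fintype G]

/-- An abelian subgroup of index two with a subgroup containing the elements with central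
squares. -/
structure IdxTwo (D A A0 : Subgroup G) (t : G) : Prop where
  le : A ≤ D
  idx : A.relIndex D = 2
  comm : ∀ x ∈ A, ∀ y ∈ A, x * y = y * x
  t_mem : t ∈ D
  t_notMem : t ∉ A
  A0_le : A0 ≤ A
  A0_idx : ∀ a ∈ A, ∀ b ∈ A, a * b ∈ A0 ↔ (a ∈ A0 ↔ b ∈ A0)
  nonfull : ∃ a ∈ A, a ∉ A0
  commA0 : ∀ a ∈ A, a⁻¹ * (t * a * t⁻¹) ∈ A0
  sq : ∀ v ∈ A, v ∉ A0 → t * (v * v) * t⁻¹ ≠ v * v
  ord : ∀ v ∈ A, v ∉ A0 → ∀ w ∈ A0, orderOf w = orderOf v → t * (w * w) * t⁻¹ = w * w
  gen : ∀ v ∈ A, v ∉ A0 → Nat.card A ≤ 2 * orderOf v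
  aut : ∀ φ : MulAut A, Odd (orderOf φ) → φ = 1

variable {D A A0 : Subgroup G} {t : G}

namespace IdxTwo

variable (h : IdxTwo D A A0 t)
include h

theorem normalizes : D ≤ Subgroup.normalizer (A : Set G) := le_normalizer_of_index_two h.idx h.le

theorem conj_mem {a : G} (ha : a ∈ A) : t * a * t⁻¹ ∈ A :=
  (Subgroup.mem_normalizer_iff.1 (h.normalizes h.t_mem) a).1 ha

theorem conj_conj {a : G} (ha : a ∈ A) : t * (t * a * t⁻¹) * t⁻¹ = a := by
  have ht2 : t * t ∈ A := (mul_mem_of_index_two h.idx h.t_mem h.t_mem).2 Iff.rfl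
  calc t * (t * a * t⁻¹) * t⁻¹ = (t * t) * a * (t * t)⁻¹ := by group
    _ = a := by rw [h.comm _ ht2 a ha, mul_inv_cancel_right]

theorem conj_notMem {a : G} (ha : a ∈ A) (ha0 : a ∉ A0) : t * a * t⁻¹ ∉ A0 := fun h1 => ha0 (by
  have h2 := mul_mem h1 (A0.inv_mem (h.commA0 a ha))
  have h3 : t * a * t⁻¹ * (a⁻¹ * (t * a * t⁻¹))⁻¹ = a := by group
  rwa [h3] at h2)

theorem conj_ne {v : G} (hv : v ∈ A) (hv0 : v ∉ A0) : t * v * t⁻¹ ≠ v := fun e => h.sq v hv hv0 (by
  calc t * (v * v) * t⁻¹ = (t * v * t⁻¹) * (t * v * t⁻¹) := by group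
    _ = v * v := by rw [e])

theorem eq_or_eq {d a : G} (hd : d ∈ D) (ha : a ∈ A) :
    d * a * d⁻¹ = a ∨ d * a * d⁻¹ = t * a * t⁻¹ := by
  by_cases hdA : d ∈ A
  · left; rw [h.comm d hdA a ha, mul_inv_cancel_right]
  · exact Or.inr (conj_eq_of_notMem h.idx h.comm h.le h.t_mem h.t_notMem hd hdA ha)

theorem inf_centralizer {v : G} (hv : v ∈ A) (hne : t * v * t⁻¹ ≠ v) :
    D ⊓ Subgroup.centralizer ({v} : Set G) = A := by
  refine le_antisymm (fun d hd => ?_) (le_inf h.le fun a ha =>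
    Subgroup.mem_centralizer_singleton_iff.2 (h.comm a ha v hv))
  obtain ⟨hdD, hdC⟩ := Subgroup.mem_inf.1 hd
  by_contra hdA
  refine hne ?_
  rw [← conj_eq_of_notMem h.idx h.comm h.le h.t_mem h.t_notMem hdD hdA hv,
    Subgroup.mem_centralizer_singleton_iff.1 hdC, mul_inv_cancel_right]

variable {M : Ideal AlgInt} [M.IsPrime] [Fact (Nat.Prime 2)] [CharP (Res M) 2]
  [IsAlgClosed (Res M)] {B : Set (IrrCharacter G)} {e0 : MonoidAlgebra (Res M) G}
  (hM : IsPModular 2 M) (hB : IsPBlock M B)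
  (hmax : IsMaxPair 2 (⊤ : Subgroup G) (redElem M (blockCoeff B)) D e0)
include hM hB hmax

theorem exists_pair :
    ∃ fA, PairLE 2 (⊤ : Subgroup G) A fA D e0 ∧
      ∀ x ∈ pairStab (⊤ : Subgroup G) A fA, ∃ d ∈ D, ∃ z ∈ Subgroup.centralizer (A : Set G),
        x = d * z := by
  obtain ⟨fA, hfA⟩ := exists_pairLE hmax.1.1 h.le
  refine ⟨fA, hfA, fun x hx => exists_mul_of_mem_stab hM hB hmax hfA h.normalizes
    (fun y hy hodd => ?_) hx⟩
  have hyN : y ∈ Subgroup.normalizer (A : Set G) := (mem_pairStab.1 hy).2.1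
  have h1 : Subgroup.normalizerMonoidHom A ⟨y, hyN⟩ = 1 := by
    refine h.aut _ (Odd.of_dvd_nat (Nat.not_even_iff_odd.1 fun he => hodd (even_iff_two_dvd.1 ?_))
      (orderOf_map_dvd _ _))
    rwa [Subgroup.orderOf_mk] at he
  refine Subgroup.mem_centralizer_iff.2 fun a ha => ?_
  have h2 : y * a * y⁻¹ = a := congrArg (fun φ : MulAut A => ((φ ⟨a, ha⟩ : A) : G)) h1
  rw [mul_inv_eq_iff_eq_mul] at h2
  exact h2.symm

theorem stab_image {fA : MonoidAlgebra (Res M) G}
    (hsplit : ∀ x ∈ pairStab (⊤ : Subgroup G) A fA, ∃ d ∈ D,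
      ∃ z ∈ Subgroup.centralizer (A : Set G), x = d * z)
    {x v : G} (hx : x ∈ pairStab (⊤ : Subgroup G) A fA) (hv : v ∈ A) :
    x * v * x⁻¹ = v ∨ x * v * x⁻¹ = t * v * t⁻¹ := by
  obtain ⟨d, hd, z, hz, rfl⟩ := hsplit x hx
  have hzv : z * v = v * z := (Subgroup.mem_centralizer_iff.1 hz v hv).symm
  rw [show d * z * v * (d * z)⁻¹ = d * (z * v * z⁻¹) * d⁻¹ by group, hzv, mul_inv_cancel_right]
  exact h.eq_or_eq hd hv

theorem pow_defect {v : G} (hv : v ∈ A) (hne : t * v * t⁻¹ ≠ v) :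
    2 ^ blockDefect 2 (belowBlock (M := M) 2 D e0 v) = Nat.card A := by
  obtain ⟨fA, hfA, hsplit⟩ := h.exists_pair hM hB hmax
  refine le_antisymm (pow_defect_le_of_normal hM hB hmax hfA h.normalizes hv
    (fun a ha => Subgroup.mem_centralizer_singleton_iff.2 (h.comm a ha v hv)) fun x hx => ?_) ?_
  · rcases h.stab_image hM hB hmax hsplit hx hv with e | e <;> rw [e]
    · rw [h.inf_centralizer hv hne]
    · rw [h.inf_centralizer (h.conj_mem hv) (by rw [h.conj_conj hv]; exact hne.symm)]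
  · have := card_le_pow_defect hM hB hmax (h.le hv)
    rwa [h.inf_centralizer hv hne] at this

/-- Fusion of the elements outside `A0`. -/
theorem fused {v w : G} (hv : v ∈ A) (hv0 : v ∉ A0) (hc : PairConj (M := M) 2 D e0 v w) :
    w = v ∨ w = t * v * t⁻¹ := by
  obtain ⟨fA, hfA, hsplit⟩ := h.exists_pair hM hB hmax
  have hwD := hc.2.1
  have hsmall : ¬ (D ≤ Subgroup.centralizer ({w * w} : Set G)) := by
    intro hle
    have h1 := (hc.pow hM hB hmax 2).pow_defect_eq hM hB hmax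
    rw [pow_two, pow_two, h.pow_defect hM hB hmax (mul_mem hv hv) (h.sq v hv hv0)] at h1
    have h2 := card_le_pow_defect hM hB hmax (mul_mem hwD hwD)
    rw [inf_eq_left.2 hle, h1] at h2
    have h3 := (A.subgroupOf D).card_mul_index
    rw [Nat.card_congr (Subgroup.subgroupOfEquivOfLe h.le).toEquiv,
      show (A.subgroupOf D).index = 2 from h.idx] at h3
    have := Nat.card_pos (α := A)
    omega
  have hwA : w ∈ A := by
    by_contra hwA
    refine hsmall fun d hd => Subgroup.mem_centralizer_singleton_iff.2 ?_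
    have hww : w * w ∈ A := (mul_mem_of_index_two h.idx hwD hwD).2 Iff.rfl
    rcases em (d ∈ A) with hdA | hdA
    · exact h.comm d hdA _ hww
    · have e1 := conj_eq_of_notMem h.idx h.comm h.le h.t_mem h.t_notMem hd hdA hww
      have e2 := conj_eq_of_notMem h.idx h.comm h.le h.t_mem h.t_notMem hwD hwA hww
      rw [← e2, show w * (w * w) * w⁻¹ = w * w by group] at e1
      exact mul_inv_eq_iff_eq_mul.1 e1
  have hw0 : w ∉ A0 := fun hw0 => hsmall fun d hd => Subgroup.mem_centralizer_singleton_iff.2 (by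
    rcases h.eq_or_eq hd (mul_mem hwA hwA) with e | e
    · exact mul_inv_eq_iff_eq_mul.1 e
    · exact mul_inv_eq_iff_eq_mul.1 (e.trans (h.ord v hv hv0 w hw0 hc.orderOf_eq)))
  obtain ⟨x, hx, rfl⟩ := exists_stab_of_pairConj hM hB hmax hfA h.normalizes hv hwA
    (fun a ha => Subgroup.mem_centralizer_singleton_iff.2 (h.comm a ha v hv))
    (fun a ha => Subgroup.mem_centralizer_singleton_iff.2 (h.comm a ha w hwA))
    (h.pow_defect hM hB hmax hwA (h.conj_ne hwA hw0)).le hc
  exact h.stab_image hM hB hmax hsplit hx hv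

theorem pairConj_conj {v : G} (hv : v ∈ A) :
    PairConj (M := M) 2 D e0 v (t * v * t⁻¹) :=
  pairConj_of_mem hM hB hmax (h.le hv) h.t_mem

/-- The rank at an element outside `A0`. -/
theorem rank_le_one {v : G} (hv : v ∈ A) (hv0 : v ∉ A0) :
    blockRank 2 (belowBlock (M := M) 2 D e0 v) ≤ 1 := by
  obtain ⟨a, ha⟩ := BlockSections.isPElem_of_mem hM hB hmax (h.le hv)
  have hz : Subgroup.zpowers (BrauerCharacters.cenElem v) ≤ Subgroup.center _ :=
    Subgroup.zpowers_le.2 (Subgroup.mem_center_iff.2 fun g =>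
      (BrauerCharacters.commute_cenElem v g).eq.symm)
  refine (blockRank_le_of_central hM (BlockSections.belowBlock_spec hM hB hmax (h.le hv)).1 _ hz
    (a := a) ?_).2 ?_
  · rw [Nat.card_zpowers, ← Subgroup.orderOf_coe, ← ha]
    rfl
  · refine (Nat.pow_le_pow_iff_right (le_refl 2)).1 ?_
    rw [h.pow_defect hM hB hmax hv (h.conj_ne hv hv0), pow_succ, ← ha, mul_comm]
    exact h.gen v hv hv0

end IdxTwo

open scoped Classical in
/-- The sign of the complement of `A0`. -/
def signHom (h : IdxTwo D A A0 t) : A →* ℂˣ where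
  toFun a := if (a : G) ∈ A0 then 1 else -1
  map_one' := by simp [A0.one_mem]
  map_mul' a b := by
    simp only [Subgroup.coe_mul, h.A0_idx a a.2 b b.2]
    by_cases ha : (a : G) ∈ A0 <;> by_cases hb : (b : G) ∈ A0 <;> simp [ha, hb]

/-- The invariant linear characters of `A`. -/
def fixChars (A : Subgroup G) (t : G) : Set (A →* ℂˣ) :=
  {μ | ∀ a b : A, (b : G) = t * (a : G) * t⁻¹ → μ b = μ a}

namespace IdxTwo

variable (h : IdxTwo D A A0 t)
include h

theorem signHom_apply (a : A) [Decidable ((a : G) ∈ A0)] :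
    signHom h a = if (a : G) ∈ A0 then 1 else -1 := by
  simp only [signHom, MonoidHom.coe_mk, OneHom.coe_mk]
  congr 1

/-- Twice the invariant linear characters are at most the linear characters of `D`. -/
theorem two_mul_card_fixChars_le : 2 * Nat.card (fixChars A t) ≤ (commutator D).index := by
  classical
  let σ : A → A := fun a => ⟨t * (a : G) * t⁻¹, h.conj_mem a.2⟩
  letI : CommGroup A :=
    { (inferInstance : Group A) with mul_comm := fun a b => Subtype.ext (h.comm a a.2 b b.2) }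
  let ψ : A →* A :=
    { toFun := fun a => a⁻¹ * σ a
      map_one' := Subtype.ext (by simp [σ])
      map_mul' := fun a b => by
        have : σ (a * b) = σ a * σ b := Subtype.ext (by simp [σ])
        rw [this, mul_inv, mul_mul_mul_comm] }
  have hcard : Nat.card (fixChars A t) = ψ.range.index := by
    rw [← card_trivChars (P := A) (N := ψ.range) (by
      rw [commutator_def, Subgroup.commutator_le]
      intro a _ b _
      convert ψ.range.one_mem
      exact commutatorElement_eq_one_iff_mul_comm.2 (mul_comm a b))]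
    refine Nat.card_congr (Equiv.setCongr (Set.ext fun μ => ⟨fun hμ => ?_, fun hμ a b hb => ?_⟩))
    · rintro _ ⟨a, rfl⟩
      show μ (a⁻¹ * σ a) = 1
      rw [map_mul, map_inv, hμ a (σ a) rfl, inv_mul_cancel]
    · have h1 : μ (a⁻¹ * σ a) = 1 := hμ _ ⟨a, rfl⟩
      rw [map_mul, map_inv, inv_mul_eq_one] at h1
      rw [show b = σ a from Subtype.ext hb, ← h1]
  set R : Subgroup G := ψ.range.map A.subtype with hR
  have hRA : R ≤ A := Subgroup.map_subtype_le _
  have hgen : ∀ a ∈ A, a⁻¹ * (t * a * t⁻¹) ∈ R := fun a ha =>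
    ⟨ψ ⟨a, ha⟩, ⟨_, rfl⟩, rfl⟩
  have hgen' : ∀ a ∈ A, a * (t * a * t⁻¹)⁻¹ ∈ R := fun a ha => by
    have h1 := R.inv_mem (hgen a ha)
    rw [mul_inv_rev, inv_inv, h.comm _ (inv_mem (h.conj_mem ha)) a ha] at h1
    exact h1
  have hle : commutator D ≤ R.subgroupOf D := by
    rw [commutator_def, Subgroup.commutator_le]
    rintro ⟨x, hx⟩ - ⟨y, hy⟩ -
    rw [Subgroup.mem_subgroupOf]
    show x * y * x⁻¹ * y⁻¹ ∈ R
    have key : ∀ {a d : G}, a ∈ A → d ∈ D → a * d * a⁻¹ * d⁻¹ ∈ R := by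
      intro a d ha hd
      rcases h.eq_or_eq hd (inv_mem ha) with e | e
      · rw [mul_assoc, mul_assoc, ← mul_assoc d, e, mul_inv_cancel]
        exact one_mem _
      · rw [mul_assoc, mul_assoc, ← mul_assoc d, e,
          show t * a⁻¹ * t⁻¹ = (t * a * t⁻¹)⁻¹ by group]
        exact hgen' a ha
    by_cases hxA : x ∈ A
    · exact key hxA hy
    by_cases hyA : y ∈ A
    · have h1 := R.inv_mem (key hyA hx)
      have h2 : (y * x * y⁻¹ * x⁻¹)⁻¹ = x * y * x⁻¹ * y⁻¹ := by group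
      rwa [h2] at h1
    · -- both outside: write `y = a x`
      have ha : y * x⁻¹ ∈ A := (mul_mem_of_index_two h.idx hy (inv_mem hx)).2 (by
        rw [A.inv_mem_iff]; tauto)
      have h1 := hgen _ ha
      have e := conj_eq_of_notMem h.idx h.comm h.le h.t_mem h.t_notMem hx hxA ha
      have h2 : x * y * x⁻¹ * y⁻¹ = (x * (y * x⁻¹) * x⁻¹) * (y * x⁻¹)⁻¹ := by group
      rw [h2, e, h.comm _ (h.conj_mem ha) _ (inv_mem ha)]
      exact h1
  have h1 : (R.subgroupOf D).index ≤ (commutator D).index :=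
    Nat.le_of_dvd (Nat.pos_of_ne_zero Subgroup.index_ne_zero_of_finite)
      (Subgroup.index_dvd_of_le hle)
  have h2 : R.relIndex A = ψ.range.index := by
    rw [Subgroup.relIndex, hR, Subgroup.subgroupOf,
      Subgroup.comap_map_eq_self_of_injective A.subtype_injective]
  refine le_trans ?_ h1
  change _ ≤ R.relIndex D
  rw [← Subgroup.relIndex_mul_relIndex R A D hRA h.le, h2, h.idx, hcard, mul_comm]

variable {M : Ideal AlgInt} [M.IsPrime] [Fact (Nat.Prime 2)] [CharP (Res M) 2]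
  [IsAlgClosed (Res M)] {B : Set (IrrCharacter G)} {e0 : MonoidAlgebra (Res M) G}
  (hM : IsPModular 2 M) (hB : IsPBlock M B)
  (hmax : IsMaxPair 2 (⊤ : Subgroup G) (redElem M (blockCoeff B)) D e0)
include hM hB hmax

/-- The bound for the number of characters of height zero. -/
theorem bound :
    (Nat.card {χ : IrrCharacter G // χ ∈ B ∧ blockHeight 2 B (χ : G → ℂ) = 0} ≤
        2 * Nat.card (fixChars A t) ∨
      2 * Nat.card {χ : IrrCharacter G // χ ∈ B ∧ blockHeight 2 B (χ : G → ℂ) = 0} ≤ Nat.card A) ∧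
    (Nat.card (fixChars A t) = 2 → Nat.card A ≤ 16 →
      Nat.card {χ : IrrCharacter G // χ ∈ B ∧ blockHeight 2 B (χ : G → ℂ) = 0} ≤ 4) := by
  classical
  letI : Fintype (IrrCharacter G) := Fintype.ofFinite _
  haveI : Fintype A := Fintype.ofFinite _
  haveI : Finite (A →* ℂˣ) := by
    letI : CommGroup A :=
      { (inferInstance : Group A) with mul_comm := fun a b => Subtype.ext (h.comm a a.2 b b.2) }
    exact Nat.finite_of_card_ne_zero (by
      rw [CommGroup.card_monoidHom_of_hasEnoughRootsOfUnity A ℂ]; exact Nat.card_pos.ne')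
  haveI : Fintype (A →* ℂˣ) := Fintype.ofFinite _
  set ν := signHom h with hν
  let σ : A → A := fun a => ⟨t * (a : G) * t⁻¹, h.conj_mem a.2⟩
  have hσσ : ∀ a, σ (σ a) = a := fun a => Subtype.ext (h.conj_conj a.2)
  let X : Finset A := Finset.univ.filter fun a : A => (a : G) ∉ A0
  have hX : ∀ a : A, a ∈ X ↔ (a : G) ∉ A0 := fun a => by simp [X]
  have hXσ : ∀ a ∈ X, σ a ∈ X := fun a ha => (hX _).2 (h.conj_notMem a.2 ((hX a).1 ha))
  have hνX : ∀ a ∈ X, (ν a : ℂ) = -1 := fun a ha => by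
    rw [hν, h.signHom_apply, if_neg ((hX a).1 ha)]; simp
  have hν0 : ∀ a, a ∉ X → (ν a : ℂ) = 1 := fun a ha => by
    rw [hν, h.signHom_apply, if_pos (by simpa [hX] using ha)]; simp
  let eA := Fintype.equivFin A
  let S : Finset A := X.filter fun a => eA a < eA (σ a)
  have hσne : ∀ a ∈ X, σ a ≠ a := fun a ha e =>
    h.conj_ne a.2 ((hX a).1 ha) (congrArg Subtype.val e)
  have hhalf : ∀ g : A → ℂ, (∀ a ∈ X, g (σ a) = g a) → ∑ a ∈ X, g a = 2 * ∑ a ∈ S, g a := by
    intro g hg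
    rw [← Finset.sum_filter_add_sum_filter_not X (fun a => eA a < eA (σ a)), two_mul]
    congr 1
    refine Finset.sum_bij' (fun a _ => σ a) (fun a _ => σ a) ?_ ?_ (fun a _ => hσσ a)
      (fun a _ => hσσ a) (fun a ha => (hg a (Finset.mem_filter.1 ha).1).symm)
    · intro a ha
      obtain ⟨ha, hlt⟩ := Finset.mem_filter.1 ha
      refine Finset.mem_filter.2 ⟨hXσ a ha, ?_⟩
      rw [hσσ]
      exact lt_of_le_of_ne (not_lt.1 hlt) fun e => hσne a ha (eA.injective e)
    · intro a ha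
      obtain ⟨ha, hlt⟩ := Finset.mem_filter.1 ha
      refine Finset.mem_filter.2 ⟨hXσ a ha, ?_⟩
      rw [hσσ]
      exact not_lt.2 hlt.le
  -- the functions
  let F : (A →* ℂˣ) → G → ℂ := fun μ => onSub A fun a =>
    if a ∈ X then 2 * ((μ a : ℂ) + (μ (σ a) : ℂ)) else 0
  have hFv : ∀ μ, ∀ a : A, F μ a = if a ∈ X then 2 * ((μ a : ℂ) + (μ (σ a) : ℂ)) else 0 :=
    fun μ a => onSub_of_mem _ a.2
  have hFgen : ∀ μ, IsGeneralizedCharacter D (fun v : D => F μ (v : G)) := by
    intro μ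
    refine isGen_indexTwo h.idx h.comm h.le h.t_mem h.t_notMem
      (f := fun a => (μ a : ℂ) - ((μ * ν) a : ℂ)) ?_ (fun a => ?_)
      (fun x _ hx => onSub_of_notMem _ hx)
    · convert isGen_sum_linear (Finset.univ : Finset Bool) (fun i => if i then 1 else -1)
        (fun i => if i then μ else μ * ν) using 1
      funext a
      simp [sub_eq_add_neg]
    · rw [hFv, onSub_of_mem _ (h.conj_mem a.2)]
      change _ = ((μ a : ℂ) - ((μ * ν) a : ℂ)) + ((μ (σ a) : ℂ) - ((μ * ν) (σ a) : ℂ))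
      simp only [MonoidHom.mul_apply, Units.val_mul]
      by_cases ha : a ∈ X
      · rw [if_pos ha, hνX a ha, hνX _ (hXσ a ha)]; ring
      · have hsa : σ a ∉ X := fun h2 => ha (by simpa [hσσ] using hXσ _ h2)
        rw [if_neg ha, hν0 a ha, hν0 _ hsa]; ring
  have hfusedX : ∀ x y : G, PairConj (M := M) 2 D e0 x y → ∀ a : A, (a : G) = x → a ∈ X →
      ∃ b : A, (b : G) = y ∧ (b = a ∨ b = σ a) := by
    rintro _ y hc a rfl ha
    rcases h.fused hM hB hmax a.2 ((hX a).1 ha) hc with rfl | rfl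
    · exact ⟨a, rfl, Or.inl rfl⟩
    · exact ⟨σ a, rfl, Or.inr rfl⟩
  have hFne : ∀ μ, ∀ x : G, F μ x ≠ 0 → ∃ a : A, (a : G) = x ∧ a ∈ X := by
    intro μ x hx
    by_cases hxA : x ∈ A
    · refine ⟨⟨x, hxA⟩, rfl, ?_⟩
      by_contra hn
      exact hx ((hFv μ ⟨x, hxA⟩).trans (if_neg hn))
    · exact absurd (onSub_of_notMem _ hxA) hx
  have hFstab : ∀ μ, ∀ x y, PairConj (M := M) 2 D e0 x y → F μ y = F μ x := by
    intro μ x y hc
    by_cases hx : F μ x = 0
    · by_contra hy
      rw [hx] at hy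
      obtain ⟨b, rfl, hb⟩ := hFne μ y hy
      obtain ⟨a, rfl, ha⟩ := hfusedX _ _ hc.symm b rfl hb
      rw [hFv] at hx
      refine hy ?_
      rw [hFv, if_pos hb]
      rcases ha with rfl | rfl
      · rwa [if_pos hb] at hx
      · rw [if_pos (hXσ b hb), hσσ] at hx
        rw [add_comm]; exact hx
    · obtain ⟨a, rfl, ha⟩ := hFne μ x hx
      obtain ⟨b, rfl, rfl | rfl⟩ := hfusedX _ _ hc a rfl ha
      · rfl
      · rw [hFv, hFv, if_pos ha, if_pos (hXσ a ha), hσσ, add_comm (μ (σ a) : ℂ)]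
  have hSD : ∀ a ∈ S, (a : G) ∈ D := fun a _ => h.le a.2
  have hcover : ∀ μ, ∀ x ∈ D, F μ x ≠ 0 →
      ∃ a ∈ S, PairConj (M := M) 2 D e0 (a : G) x := by
    intro μ x _ hx
    obtain ⟨a, rfl, ha⟩ := hFne μ x hx
    rcases lt_or_gt_of_ne (fun e => hσne a ha (eA.injective e)) with hlt | hlt
    · refine ⟨σ a, Finset.mem_filter.2 ⟨hXσ a ha, by rwa [hσσ]⟩, ?_⟩
      exact (h.pairConj_conj hM hB hmax a.2).symm
    · exact ⟨a, Finset.mem_filter.2 ⟨ha, hlt⟩, PairConj.refl (h.le a.2)⟩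
  have hsep : ∀ a ∈ S, ∀ b ∈ S, PairConj (M := M) 2 D e0 (a : G) (b : G) → a = b := by
    intro a ha b hb hc
    obtain ⟨ha, hla⟩ := Finset.mem_filter.1 ha
    obtain ⟨hb, hlb⟩ := Finset.mem_filter.1 hb
    obtain ⟨b', hb', rfl | rfl⟩ := hfusedX _ _ hc a rfl ha
    · exact Subtype.ext hb'
    · obtain rfl : b = σ a := Subtype.ext hb'.symm
      rw [hσσ] at hlb
      exact absurd hla (not_lt.2 hlb.le)
  -- the contributions
  let c : IrrCharacter G → IrrCharacter G → A → ℂ := fun χ φ a =>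
    cntr (M := M) 2 D e0 (a : G) χ φ
  have hcσ : ∀ χ φ a, c χ φ (σ a) = c χ φ a := fun χ φ a =>
    (h.pairConj_conj hM hB hmax a.2).cntr_eq hM hB hmax χ φ
  choose n hn using fun μ χ φ => exists_int_starF hM hB hmax (hFstab μ) (hFgen μ) χ φ
  have hnX : ∀ μ χ φ, (n μ χ φ : ℂ) = 2 * ∑ a ∈ X, (μ a : ℂ) * c χ φ a := by
    intro μ χ φ
    rw [← hn μ χ φ, classInner_starF hM hB hmax S (fun a : A => (a : G)) hSD (hFstab μ) (hcover μ)
      hsep]
    have h1 : ∑ a ∈ X, (μ (σ a) : ℂ) * c χ φ a = ∑ a ∈ X, (μ a : ℂ) * c χ φ a :=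
      Finset.sum_bij' (fun a _ => σ a) (fun a _ => σ a) hXσ hXσ (fun a _ => hσσ a)
        (fun a _ => hσσ a) (fun a _ => by rw [hcσ])
    have h2 := hhalf (fun a => ((μ a : ℂ) + (μ (σ a) : ℂ)) * c χ φ a) fun a _ => by
      simp only [hcσ, hσσ]; ring
    simp only [add_mul, Finset.sum_add_distrib, h1] at h2
    rw [two_mul, h2, mul_add, Finset.mul_sum, Finset.mul_sum, ← Finset.sum_add_distrib]
    refine Finset.sum_congr rfl fun a ha => ?_
    rw [hFv, if_pos (Finset.mem_filter.1 ha).1]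
    simp only [c]
    ring
  -- a system of representatives modulo `ν`
  let eH := Fintype.equivFin (A →* ℂˣ)
  have hνν : ∀ μ : A →* ℂˣ, μ * ν * ν = μ := fun μ => by
    ext a
    simp only [MonoidHom.mul_apply, Units.val_mul]
    by_cases ha : a ∈ X
    · rw [hνX a ha]; ring
    · rw [hν0 a ha]; ring
  obtain ⟨a1, ha1, ha10⟩ := h.nonfull
  have ha1X : (⟨a1, ha1⟩ : A) ∈ X := (hX _).2 ha10
  have hνne : ∀ μ : A →* ℂˣ, μ * ν ≠ μ := fun μ e => by
    have := congrArg (fun l : A →* ℂˣ => ((l ⟨a1, ha1⟩ : ℂˣ) : ℂ)) e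
    simp only [MonoidHom.mul_apply, Units.val_mul, hνX _ ha1X] at this
    exact (μ ⟨a1, ha1⟩).ne_zero (by linear_combination (-(1:ℂ)/2) * this)
  let R : Finset (A →* ℂˣ) := Finset.univ.filter fun μ => eH μ < eH (μ * ν)
  have hR : ∀ μ, μ ∈ R ∨ μ * ν ∈ R := fun μ => by
    rcases lt_or_gt_of_ne (fun e => hνne μ (eH.injective e)) with hlt | hlt
    · exact Or.inr (Finset.mem_filter.2 ⟨Finset.mem_univ _, by rwa [hνν]⟩)
    · exact Or.inl (Finset.mem_filter.2 ⟨Finset.mem_univ _, hlt⟩)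
  have hR' : ∀ μ ∈ R, μ * ν ∉ R := fun μ hμ hμ' => by
    have h1 := (Finset.mem_filter.1 hμ).2
    have h2 := (Finset.mem_filter.1 hμ').2
    rw [hνν] at h2
    exact lt_asymm h1 h2
  have hnν : ∀ μ χ φ, n (μ * ν) χ φ = - n μ χ φ := fun μ χ φ => by
    have h1 : (n (μ * ν) χ φ : ℂ) = - (n μ χ φ : ℂ) := by
      rw [hnX, hnX, ← mul_neg, ← Finset.sum_neg_distrib]
      congr 1
      refine Finset.sum_congr rfl fun a ha => ?_
      simp only [MonoidHom.mul_apply, Units.val_mul, hνX a ha]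
      ring
    exact_mod_cast h1
  let τ : (A →* ℂˣ) → (A →* ℂˣ) := fun μ =>
    { toFun := fun a => μ (σ a)
      map_one' := by
        rw [show σ 1 = 1 from Subtype.ext (by simp [σ]), map_one]
      map_mul' := fun a b => by
        rw [show σ (a * b) = σ a * σ b from Subtype.ext (by simp [σ]), map_mul] }
  have hττ : ∀ μ, τ (τ μ) = μ := fun μ => MonoidHom.ext fun a => congrArg μ (hσσ a)
  have hτν : ∀ μ, τ (μ * ν) = τ μ * ν := fun μ => MonoidHom.ext fun a => Units.ext (by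
    show ((μ (σ a) * ν (σ a) : ℂˣ) : ℂ) = ((μ (σ a) * ν a : ℂˣ) : ℂ)
    simp only [Units.val_mul]
    congr 1
    by_cases ha : a ∈ X
    · rw [hνX a ha, hνX _ (hXσ a ha)]
    · rw [hν0 a ha, hν0 _ fun h2 => ha (by simpa [hσσ] using hXσ _ h2)])
  have hnτ : ∀ μ χ φ, n (τ μ) χ φ = n μ χ φ := fun μ χ φ => by
    have h1 : (n (τ μ) χ φ : ℂ) = (n μ χ φ : ℂ) := by
      rw [hnX, hnX]
      congr 1
      exact Finset.sum_bij' (fun a _ => σ a) (fun a _ => σ a) hXσ hXσ (fun a _ => hσσ a)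
        (fun a _ => hσσ a) (fun a _ => by rw [hcσ]; rfl)
    exact_mod_cast h1
  have hfix : ∀ μ : A →* ℂˣ, μ ∈ fixChars A t ↔ τ μ = μ := fun μ =>
    ⟨fun hμ => MonoidHom.ext fun a => hμ a (σ a) rfl, fun hμ a b hb => by
      rw [show b = σ a from Subtype.ext hb]; exact DFunLike.congr_fun hμ a⟩
  let K : Finset (A →* ℂˣ) := R.filter fun μ => τ μ = μ
  have hK : 2 * K.card = Nat.card (fixChars A t) := by
    rw [Nat.card_eq_fintype_card, ← Set.toFinset_card, two_mul]
    have himg : (K.image (· * ν)).card = K.card :=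
      Finset.card_image_of_injective _ fun a b e => mul_right_cancel e
    have hdisj : Disjoint K (K.image (· * ν)) := by
      refine Finset.disjoint_left.2 fun μ hμ hμ' => ?_
      obtain ⟨l, hl, rfl⟩ := Finset.mem_image.1 hμ'
      exact hR' l (Finset.mem_filter.1 hl).1 (Finset.mem_filter.1 hμ).1
    conv_lhs => arg 2; rw [← himg]
    rw [← Finset.card_union_of_disjoint hdisj]
    congr 1
    ext μ
    simp only [Finset.mem_union, Finset.mem_image, Set.mem_toFinset, K, Finset.mem_filter, hfix]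
    constructor
    · rintro (⟨-, hμ⟩ | ⟨l, ⟨-, hl⟩, rfl⟩)
      · exact hμ
      · rw [hτν, hl]
    · intro hμ
      rcases hR μ with hμR | hμR
      · exact Or.inl ⟨hμR, hμ⟩
      · exact Or.inr ⟨μ * ν, ⟨hμR, by rw [hτν, hμ]⟩, hνν μ⟩
  -- between characters of height zero some invariant entry is odd
  set H0 : Finset (IrrCharacter G) :=
    (blockFinset B).filter fun χ : IrrCharacter G => blockHeight 2 B (χ : G → ℂ) = 0 with hH0
  have hk0 : Nat.card {χ : IrrCharacter G // χ ∈ B ∧ blockHeight 2 B (χ : G → ℂ) = 0} = H0.card :=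
    Nat.subtype_card H0 fun φ => by simp [hH0]
  have hodd : ∀ χ ∈ H0, ∀ φ ∈ H0, ∃ μ ∈ K, ¬ (2 : ℤ) ∣ n μ χ φ := by
    intro χ hχ φ hφ
    obtain ⟨hχ, hχ0⟩ := Finset.mem_filter.1 hχ
    obtain ⟨hφ, hφ0⟩ := Finset.mem_filter.1 hφ
    rw [mem_blockFinset] at hχ hφ
    set w : A := ⟨a1, ha1⟩ with hw
    have hsum : ∑ μ : A →* ℂˣ, (n μ χ φ : ℂ) * conj (μ w : ℂ) =
        2 * ((Nat.card A : ℂ) * c χ φ w) := by
      simp only [hnX, Finset.sum_mul, Finset.mul_sum]
      rw [Finset.sum_comm, Finset.sum_eq_single_of_mem w ha1X]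
      · have h1 := sum_monoidHom_apply (fun a b : A => Subtype.ext (h.comm a a.2 b b.2)) (1 : A)
        rw [if_pos rfl] at h1
        rw [← h1, Finset.sum_mul, Finset.mul_sum]
        refine Finset.sum_congr rfl fun μ _ => ?_
        have hn1 : ((μ w : ℂˣ) : ℂ) * conj ((μ w : ℂˣ) : ℂ) = 1 := by
          rw [Complex.mul_conj', CharTheory.norm_eq_one_of_pow_eq_one' (m := orderOf w)
            (isOfFinOrder_of_finite w).orderOf_pos.ne'
            (by rw [← Units.val_pow_eq_pow_val, ← map_pow, pow_orderOf_eq_one, map_one, Units.val_one])]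
          simp
        simp only [map_one, Units.val_one]
        linear_combination 2 * c χ φ w * hn1
      · intro b _ hb
        have h1 := sum_monoidHom_apply (fun a b : A => Subtype.ext (h.comm a a.2 b b.2)) (b * w⁻¹)
        rw [if_neg fun e => hb (mul_inv_eq_one.1 e)] at h1
        rw [Finset.sum_congr rfl (g := fun μ : A →* ℂˣ => 2 * c χ φ b * ((μ (b * w⁻¹) : ℂˣ) : ℂ))
          fun μ _ => ?_, ← Finset.mul_sum, h1, mul_zero]
        have hn1 : conj ((μ w : ℂˣ) : ℂ) = ((μ w : ℂˣ) : ℂ)⁻¹ := by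
          rw [Complex.inv_eq_conj]
          exact CharTheory.norm_eq_one_of_pow_eq_one' (m := orderOf w)
            (isOfFinOrder_of_finite w).orderOf_pos.ne'
            (by rw [← Units.val_pow_eq_pow_val, ← map_pow, pow_orderOf_eq_one, map_one, Units.val_one])
        rw [map_mul, map_inv, Units.val_mul, Units.val_inv_eq_inv_val, hn1]
        ring
    have hRsum : ∑ μ ∈ R, (n μ χ φ : ℂ) * conj (μ w : ℂ) = (Nat.card A : ℂ) * c χ φ w := by
      have hinv : ∑ μ ∈ Finset.univ.filter (fun μ => ¬ eH μ < eH (μ * ν)),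
          (n μ χ φ : ℂ) * conj (μ w : ℂ) = ∑ μ ∈ R, (n μ χ φ : ℂ) * conj (μ w : ℂ) := by
        refine Finset.sum_bij' (fun μ _ => μ * ν) (fun μ _ => μ * ν) ?_ ?_ (fun μ _ => hνν μ)
          (fun μ _ => hνν μ) fun μ _ => ?_
        · intro μ hμ
          exact (hR μ).resolve_left fun h2 =>
            (Finset.mem_filter.1 hμ).2 (Finset.mem_filter.1 h2).2
        · intro μ hμ
          refine Finset.mem_filter.2 ⟨Finset.mem_univ _, fun h2 => hR' μ hμ ?_⟩
          exact Finset.mem_filter.2 ⟨Finset.mem_univ _, h2⟩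
        · rw [hnν, MonoidHom.mul_apply, Units.val_mul, hνX w ha1X]
          push_cast
          rw [map_mul, map_neg, map_one]
          ring
      rw [← Finset.sum_filter_add_sum_filter_not Finset.univ (fun μ => eH μ < eH (μ * ν)),
        hinv, ← two_mul] at hsum
      exact mul_left_cancel₀ two_ne_zero hsum
    have hS : ¬ MemLocalIdeal M ((Nat.card A : ℂ) * c χ φ w) := by
      rw [← h.pow_defect hM hB hmax ha1 (h.conj_ne ha1 ha10)]
      exact_mod_cast not_memLocalIdeal_cntr hM hB hmax (h.le ha1) hχ hχ0 hφ hφ0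
    by_contra hcon
    push Not at hcon
    refine hS ?_
    rw [← hRsum]
    have htwo : ((∑ μ ∈ R, n μ χ φ : ℤ) : ZMod 2) = 0 := by
      rw [Int.cast_sum, ← Finset.sum_filter_add_sum_filter_not R (fun μ => τ μ = μ)]
      rw [Finset.sum_eq_zero fun μ hμ => (ZMod.intCast_zmod_eq_zero_iff_dvd _ 2).2 (hcon μ hμ),
        zero_add]
      let rep : (A →* ℂˣ) → (A →* ℂˣ) := fun μ => if μ ∈ R then μ else μ * ν
      have hrep : ∀ μ, rep μ ∈ R := fun μ => by
        simp only [rep]; split_ifs with h2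
        · exact h2
        · exact (hR μ).resolve_left h2
      have hnrep : ∀ μ, (n (rep μ) χ φ : ZMod 2) = (n μ χ φ : ZMod 2) := fun μ => by
        simp only [rep]; split_ifs
        · rfl
        · rw [hnν, Int.cast_neg, ZMod.neg_eq_self_mod_two]
      have hrepτ : ∀ μ ∈ R, rep (τ (rep (τ μ))) = μ := fun μ hμ => by
        by_cases h2 : τ μ ∈ R
        · simp only [rep, if_pos h2, hττ, if_pos hμ]
        · simp only [rep, if_neg h2, hτν, hττ, if_neg (hR' μ hμ), hνν]
      refine Finset.sum_involution (fun μ _ => rep (τ μ)) (fun μ _ => ?_) (fun μ hμ hne he => ?_)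
        (fun μ hμ => ?_) (fun μ hμ => hrepτ μ (Finset.mem_filter.1 hμ).1)
      · rw [hnrep, hnτ, CharTwo.add_self_eq_zero]
      · obtain ⟨hμR, hμτ⟩ := Finset.mem_filter.1 hμ
        simp only [rep] at he
        split_ifs at he with h2
        · exact hμτ he
        · apply hne
          have h3 := hnτ μ χ φ
          rw [show τ μ = μ * ν by rw [← hνν (τ μ), he], hnν] at h3
          rw [show n μ χ φ = 0 by omega, Int.cast_zero]
      · obtain ⟨hμR, hμτ⟩ := Finset.mem_filter.1 hμ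
        refine Finset.mem_filter.2 ⟨hrep _, fun e => hμτ ?_⟩
        have h3 := hrepτ μ hμR
        rw [e] at h3
        have h4 : rep (rep (τ μ)) = rep (τ μ) := if_pos (hrep _)
        rw [h4] at h3
        rw [← h3, e]
    have hdiff : MemLocalIdeal M (∑ μ ∈ R, (n μ χ φ : ℂ) * conj (μ w : ℂ) -
        ((∑ μ ∈ R, n μ χ φ : ℤ) : ℂ)) := by
      push_cast
      rw [← Finset.sum_sub_distrib]
      refine memLocalIdeal_sum fun μ _ => ?_
      rw [← mul_sub_one]
      obtain ⟨k, hk⟩ := BlockSections.isPElem_of_mem hM hB hmax (h.le ha1)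
      refine memLocalIdeal_mul_left (memLocalRing_intCast _)
        (memLocalIdeal_sub_one_of_pow_prime_pow hM (k := k) ?_)
      rw [← map_pow, ← Units.val_pow_eq_pow_val, ← map_pow, ← hk,
        ← Subgroup.orderOf_mk a1 ha1, pow_orderOf_eq_one, map_one, Units.val_one, map_one]
    have h5 := memLocalIdeal_add hdiff
      ((memLocalIdeal_intCast_iff hM _).2 ((ZMod.intCast_zmod_eq_zero_iff_dvd _ 2).1 htwo))
    simpa using h5
  -- norms of the rows
  have hSX : ∀ a ∈ S, a ∈ X := fun a ha => (Finset.mem_filter.1 ha).1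
  let z : IrrCharacter G → ℤ := fun χ => n 1 χ χ
  have hz : ∀ χ, (z χ : ℂ) = 4 * ∑ a ∈ S, c χ χ a := fun χ => by
    simp only [z]
    rw [← hn 1 χ χ, classInner_starF hM hB hmax S (fun a : A => (a : G)) hSD (hFstab 1) (hcover 1)
      hsep, Finset.mul_sum]
    refine Finset.sum_congr rfl fun a ha => ?_
    rw [hFv, if_pos (hSX a ha)]
    simp only [MonoidHom.one_apply, Units.val_one, c]
    ring
  have hrow : ∀ μ ∈ K, ∀ χ, ∑ φ : IrrCharacter G, n μ χ φ * n μ χ φ = 4 * z χ := by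
    intro μ hμ χ
    have h1 := sum_starF_sq_eq hM hB hmax S (fun a : A => (a : G)) hSD (hFstab μ) (hFgen μ)
      (hcover μ) hsep (hn μ χ)
    have h2 : ((∑ φ : IrrCharacter G, n μ χ φ * n μ χ φ : ℤ) : ℂ) = ((4 * z χ : ℤ) : ℂ) := by
      rw [h1, Int.cast_mul, hz, Int.cast_ofNat, Finset.mul_sum, Finset.mul_sum]
      refine Finset.sum_congr rfl fun a ha => ?_
      rw [hFv, if_pos (hSX a ha)]
      have hτμ : μ (σ a) = μ a := DFunLike.congr_fun (Finset.mem_filter.1 hμ).2 a
      have hn1 : ((μ a : ℂˣ) : ℂ) * conj ((μ a : ℂˣ) : ℂ) = 1 := by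
        rw [Complex.mul_conj', CharTheory.norm_eq_one_of_pow_eq_one' (m := orderOf a)
          (isOfFinOrder_of_finite a).orderOf_pos.ne'
          (by rw [← Units.val_pow_eq_pow_val, ← map_pow, pow_orderOf_eq_one, map_one, Units.val_one])]
        simp
      rw [hτμ]
      simp only [c, map_mul, map_add, map_ofNat]
      linear_combination (16 : ℂ) * cntr (M := M) 2 D e0 (a : G) χ χ * hn1
    exact_mod_cast h2
  have hkz : ∀ χ ∈ H0, (H0.card : ℤ) ≤ K.card * (4 * z χ) := by
    intro χ hχ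
    calc (H0.card : ℤ) = ∑ _φ ∈ H0, (1 : ℤ) := by simp
      _ ≤ ∑ φ ∈ H0, ∑ μ ∈ K, n μ χ φ * n μ χ φ := Finset.sum_le_sum fun φ hφ => by
          obtain ⟨μ, hμ, hodd'⟩ := hodd χ hχ φ hφ
          refine le_trans ?_ (Finset.single_le_sum (fun μ _ => mul_self_nonneg (n μ χ φ)) hμ)
          have hne : n μ χ φ ≠ 0 := fun e => hodd' (by simp [e])
          nlinarith [Int.one_le_abs hne, sq_abs (n μ χ φ)]
      _ = ∑ μ ∈ K, ∑ φ ∈ H0, n μ χ φ * n μ χ φ := Finset.sum_comm
      _ ≤ ∑ _μ ∈ K, 4 * z χ := Finset.sum_le_sum fun μ hμ => by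
          rw [← hrow μ hμ χ]
          exact Finset.sum_le_sum_of_subset_of_nonneg (Finset.subset_univ _)
            fun φ _ _ => mul_self_nonneg _
      _ = K.card * (4 * z χ) := by simp
  have hzpos : ∀ χ ∈ H0, 1 ≤ z χ := fun χ hχ => by
    have h1 := hkz χ hχ
    have h2 : (0 : ℤ) < H0.card := by exact_mod_cast Finset.card_pos.2 ⟨χ, hχ⟩
    nlinarith
  have hScard : 4 * S.card = Nat.card A := by
    have h1 : (X.card : ℂ) = 2 * S.card := by simpa using hhalf (fun _ => 1) (fun _ _ => rfl)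
    have h2 : X.card = 2 * S.card := by exact_mod_cast h1
    have h3 : (Finset.univ.filter fun a : A => (a : G) ∈ A0).card = X.card := by
      refine Finset.card_bij' (fun a _ => a * ⟨a1, ha1⟩) (fun a _ => a * ⟨a1, ha1⟩⁻¹)
        (fun a ha => ?_) (fun a ha => ?_) (fun a _ => mul_inv_cancel_right _ _)
        (fun a _ => inv_mul_cancel_right _ _)
      · refine (hX _).2 ?_
        have := (Finset.mem_filter.1 ha).2
        rw [Subgroup.coe_mul, h.A0_idx a a.2 a1 ha1]
        tauto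
      · refine Finset.mem_filter.2 ⟨Finset.mem_univ _, ?_⟩
        have := (hX a).1 ha
        rw [Subgroup.coe_mul, Subgroup.coe_inv, h.A0_idx a a.2 _ (inv_mem ha1), A0.inv_mem_iff]
        tauto
    have h4 := Finset.card_filter_add_card_filter_not (s := (Finset.univ : Finset A))
      (fun a : A => (a : G) ∈ A0)
    rw [h3, Finset.card_univ, ← Nat.card_eq_fintype_card] at h4
    have h5 : (Finset.univ.filter fun a : A => ¬ (a : G) ∈ A0).card = X.card := rfl
    omega
  have htrace : ∑ χ ∈ H0, z χ ≤ (Nat.card A : ℤ) := by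
    have hznn : ∀ χ, 0 ≤ z χ := fun χ => by
      have hr : ∀ a : A, ∃ r : ℝ, 0 ≤ r ∧ c χ χ a = r := fun a =>
        cntr_self_nonneg hM hB hmax (h.le a.2) χ
      choose r hr0 hr1 using hr
      have h1 : ((z χ : ℝ) : ℂ) = ((4 * ∑ a ∈ S, r a : ℝ) : ℂ) := by
        push_cast
        rw [hz]
        simp only [hr1]
      have h2 := Complex.ofReal_injective h1
      have : (0 : ℝ) ≤ (z χ : ℝ) := by
        rw [h2]; exact mul_nonneg (by norm_num) (Finset.sum_nonneg fun a _ => hr0 a)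
      exact_mod_cast this
    refine (Finset.sum_le_sum_of_subset_of_nonneg (Finset.filter_subset _ _)
      fun χ _ _ => hznn χ).trans ?_
    have h1 : ((∑ χ ∈ blockFinset B, z χ : ℤ) : ℂ) = ((4 * ∑ a ∈ S,
        (blockRank 2 (belowBlock (M := M) 2 D e0 (a : G)) : ℤ) : ℤ) : ℂ) := by
      push_cast
      simp only [hz, ← Finset.mul_sum]
      rw [Finset.sum_comm]
      congr 1
      exact Finset.sum_congr rfl fun a _ => sum_cntr_self hM hB hmax (h.le a.2)
    rw [Int.cast_inj.1 h1, ← hScard]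
    push_cast
    refine Int.mul_le_mul_of_nonneg_left ?_ (by norm_num)
    calc (∑ a ∈ S, (blockRank 2 (belowBlock (M := M) 2 D e0 (a : G)) : ℤ))
        ≤ ∑ _a ∈ S, (1 : ℤ) := Finset.sum_le_sum fun a ha => by
          exact_mod_cast h.rank_le_one hM hB hmax a.2 ((hX a).1 (hSX a ha))
      _ = (S.card : ℤ) := by simp
  rw [hk0]
  constructor
  · by_cases hone : ∃ χ ∈ H0, z χ = 1
    · left
      obtain ⟨χ, hχ, h1⟩ := hone
      have h2 := hkz χ hχ
      rw [h1] at h2
      have : H0.card ≤ K.card * 4 := by exact_mod_cast h2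
      omega
    · right
      push Not at hone
      have h2 : ∑ _χ ∈ H0, (2 : ℤ) ≤ (Nat.card A : ℤ) :=
        (Finset.sum_le_sum fun χ hχ => by have := hzpos χ hχ; have := hone χ hχ; omega).trans htrace
      rw [Finset.sum_const, nsmul_eq_mul] at h2
      have : H0.card * 2 ≤ Nat.card A := by exact_mod_cast h2
      omega
  · intro hK2 hA16
    have hK1 : K.card = 1 := by omega
    obtain ⟨μ0, hμ0⟩ := Finset.card_eq_one.1 hK1
    have hzodd : ∀ χ ∈ H0, ¬ (2 : ℤ) ∣ z χ := by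
      intro χ hχ
      obtain ⟨μ, hμ, hodd'⟩ := hodd χ hχ χ hχ
      have hμ1 : μ = μ0 := Finset.mem_singleton.1 (hμ0 ▸ hμ)
      subst hμ1
      have hτ1 : τ 1 = 1 := MonoidHom.ext fun a => rfl
      rcases hR 1 with h1 | h1
      · have : (1 : A →* ℂˣ) = μ :=
          Finset.mem_singleton.1 (hμ0 ▸ (Finset.mem_filter.2 ⟨h1, hτ1⟩ : (1 : A →* ℂˣ) ∈ K))
        rw [← this] at hodd'
        exact hodd'
      · have : (1 : A →* ℂˣ) * ν = μ :=
          Finset.mem_singleton.1 (hμ0 ▸ (Finset.mem_filter.2 ⟨h1, by rw [hτν, hτ1]⟩ : _ ∈ K))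
        rw [← this, hnν, dvd_neg] at hodd'
        exact hodd'
    by_cases hsmallz : ∃ χ ∈ H0, z χ ≤ 3
    · obtain ⟨χ, hχ, hz3⟩ := hsmallz
      have h1 := hrow μ0 (hμ0 ▸ Finset.mem_singleton_self μ0) χ
      have h2 : n μ0 χ χ * n μ0 χ χ + ((H0.card : ℤ) - 1) ≤ 4 * z χ := by
        rw [← h1, ← Finset.add_sum_erase _ _ (Finset.mem_univ χ)]
        refine add_le_add le_rfl ?_
        refine le_trans ?_ (Finset.sum_le_sum_of_subset_of_nonneg
          (Finset.erase_subset_erase χ (Finset.subset_univ H0)) fun φ _ _ => mul_self_nonneg _)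
        calc ((H0.card : ℤ) - 1) = ∑ _φ ∈ H0.erase χ, (1 : ℤ) := by
              rw [Finset.sum_const, nsmul_eq_mul, mul_one, Finset.card_erase_of_mem hχ,
                Nat.cast_sub (Finset.card_pos.2 ⟨χ, hχ⟩)]
              rfl
          _ ≤ _ := Finset.sum_le_sum fun φ hφ => by
              obtain ⟨μ, hμ, hodd'⟩ := hodd χ hχ φ (Finset.mem_of_mem_erase hφ)
              have hμ1 : μ = μ0 := Finset.mem_singleton.1 (hμ0 ▸ hμ)
              subst hμ1
              have hne : n μ χ φ ≠ 0 := fun e => hodd' (by simp [e])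
              nlinarith [Int.one_le_abs hne, sq_abs (n μ χ φ)]
      have hsq : n μ0 χ χ * n μ0 χ χ = z χ * z χ := by
        rcases hR 1 with h3 | h3
        · have : (1 : A →* ℂˣ) = μ0 := Finset.mem_singleton.1
            (hμ0 ▸ (Finset.mem_filter.2 ⟨h3, MonoidHom.ext fun a => rfl⟩ : (1 : A →* ℂˣ) ∈ K))
          rw [← this]
        · have : (1 : A →* ℂˣ) * ν = μ0 := Finset.mem_singleton.1
            (hμ0 ▸ (Finset.mem_filter.2 ⟨h3, by rw [hτν, show τ 1 = 1 from MonoidHom.ext fun a => rfl]⟩ :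
              _ ∈ K))
          rw [← this, hnν, neg_mul_neg]
      rw [hsq] at h2
      have hzp := hzpos χ hχ
      have hzo := hzodd χ hχ
      interval_cases (z χ) <;> omega
    · push Not at hsmallz
      have h2 : ∑ _χ ∈ H0, (4 : ℤ) ≤ (Nat.card A : ℤ) :=
        (Finset.sum_le_sum fun χ hχ => by have := hsmallz χ hχ; omega).trans htrace
      rw [Finset.sum_const, nsmul_eq_mul] at h2
      have : H0.card * 4 ≤ Nat.card A := by exact_mod_cast h2
      omega

end IdxTwo

end CfsgLib.OlssonSmall
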