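import Cfsg.Agent.Lib.OlssonSmall.Rank
import Cfsg.Agent.Lib.OlssonSmall.Fusion

/-!
# The block at an element of a normal abelian subgroup of small defect
-/

set_option autoImplicit false
set_option linter.style.haveILetI false
set_option linter.unusedSectionVars false

noncomputable section

namespace CfsgLib.OlssonSmall

open Cfsg CfsgLib.Blocks MonoidAlgebra CfsgLib.BrauerPairs CfsgLib.BlockStar
open CfsgLib.BrauerCharacters (centralizer_zpowers_eq)
open CfsgLib.BlockSections (belowBlock)

universe w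

variable {G : Type w} [Group G] [Finite G] {M : Ideal AlgInt} [M.IsPrime] [Fact (Nat.Prime 2)]
  [CharP (Res M) 2] [IsAlgClosed (Res M)] {B : Set (IrrCharacter G)} {D W : Subgroup G}
  {e0 fW : MonoidAlgebra (Res M) G}
  (hM : IsPModular 2 M) (hB : IsPBlock M B)
  (hmax : IsMaxPair 2 (⊤ : Subgroup G) (redElem M (blockCoeff B)) D e0)
  (hfW : PairLE 2 (⊤ : Subgroup G) W fW D e0)
include hM hB hmax hfW

/-- The block at an element whose centraliser in the stabiliser fixes a normal abelian subgroup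
of the order of its defect group has rank one. -/
theorem blockRank_le_one_of_normal {v : G} (hvW : v ∈ W)
    (hab : ∀ x ∈ W, ∀ y ∈ W, x * y = y * x)
    (hdef : 2 ^ blockDefect 2 (belowBlock (M := M) 2 D e0 v) ≤ Nat.card W)
    (hfix : ∀ t ∈ pairStab (⊤ : Subgroup G) W fW, t * v * t⁻¹ = v → ∀ w ∈ W, t * w * t⁻¹ = w) :
    blockRank 2 (belowBlock (M := M) 2 D e0 v) ≤ 1 := by
  have hvD : v ∈ D := hfW.le hvW
  have hlev := beta_pairLE hM hB hmax hvD
  have hfv := hlev.isPair_left hmax.1.1
  set C := Subgroup.centralizer ({v} : Set G) with hCdef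
  have hWC : W ≤ C := fun a ha => Subgroup.mem_centralizer_singleton_iff.2 (hab a ha v hvW)
  have hzW : Subgroup.zpowers v ≤ W := Subgroup.zpowers_le.2 hvW
  obtain ⟨f, hn, hge⟩ := hlev.normalLE_of_le_normalizer hmax.1.1 hzW hfW.le (hWC.trans (by
    rw [hCdef, ← centralizer_zpowers_eq]; exact Subgroup.centralizer_le_normalizer _))
  rw [(existsUnique_pairLE hmax.1.1 hfW.le).unique hge hfW] at hn
  have hC : cenIn (⊤ : Subgroup G) (Subgroup.zpowers v) = C := by
    rw [cenIn_top, centralizer_zpowers_eq]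
  have hpo := (pairOf_local_iff hfv le_rfl (cenIn_le_pairStab hfv) hzW).2 ⟨hC ▸ hWC, hn⟩
  have hloc : IsMaxPair 2 (cenIn (⊤ : Subgroup G) (Subgroup.zpowers v))
      (beta (M := M) 2 D e0 v) W fW := by
    refine PairOf.isMaxPair_of_card hpo fun R h hR => ?_
    obtain ⟨R₂, h₂, hR₂, hle₂⟩ := exists_isMaxPair_above hR
    have hd := hR₂.isDefectIn hfv.2.2
    rw [hC] at hd
    refine (Subgroup.card_le_of_le hle₂.le).trans ?_
    rw [← pow_defect_eq hM hB hmax hvD hd]
    exact hdef
  rw [hC] at hloc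
  have hbl := (BlockSections.belowBlock_spec hM hB hmax hvD).1
  have hφ := C.subtype_injective
  have hP' : (W.subgroupOf C).map C.subtype = W := Subgroup.map_subgroupOf_eq_of_le hWC
  have hcen : (cenIn (⊤ : Subgroup C) (W.subgroupOf C)).map C.subtype = cenIn C W := by
    rw [map_cenIn hφ, map_top_subtype, hP']
  obtain ⟨e', -, he'⟩ := exists_of_isBlockIdem_map hφ (hcen.symm ▸ hloc.1.1.2.2)
  have hbid : mapG C.subtype (redElem M (blockCoeff (belowBlock (M := M) 2 D e0 v))) =
      subIdem M C (belowBlock (M := M) 2 D e0 v) := (redElem_subgroupBlockCoeff C _).symm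
  have hmax' : IsMaxPair 2 (⊤ : Subgroup C) (redElem M (blockCoeff (belowBlock (M := M) 2 D e0 v)))
      (W.subgroupOf C) e' := by
    refine PairOf.isMaxPair_of_card ?_ fun R g hR => ?_
    · rw [← pairOf_mapG_iff hφ, map_top_subtype, hP', he', hbid]
      exact hloc.1
    · have hR' := (pairOf_mapG_iff hφ).2 hR
      rw [map_top_subtype, hbid] at hR'
      have h := hloc.card_le (isBlockIdem_subIdem hbl) hR'
      rwa [Subgroup.card_map_of_injective hφ, ← hP', Subgroup.card_map_of_injective hφ] at h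
  refine (blockRank_le_of_fixed hM C _ _ e' hbl hmax' (abelian_local hab C) (W.subgroupOf C) le_rfl
    fun t ht x hx => ?_).2 (Nat.le_mul_of_pos_left _ two_pos)
  refine Subtype.ext (hfix (t : G) ?_ ?_ x hx)
  · have h1 := (mem_pairStab_map_iff (k := Res M) hφ (x := t)).2 ht
    rw [map_top_subtype, hP', he', mem_pairStab] at h1
    exact mem_pairStab.2 ⟨Subgroup.mem_top _, h1.2⟩
  · exact mul_inv_eq_iff_eq_mul.2 (Subgroup.mem_centralizer_singleton_iff.1 t.2)

end CfsgLib.OlssonSmall
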