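import Cfsg.Agent.Lib.OlssonSmall.Nonabelian
import Cfsg.Agent.Lib.OlssonSmall.Local

/-!
# Height zero characters of blocks with a generalised dihedral defect group on `C₄ × C₄`

The pairs at the elements of order four with square in one orbit give an odd integral row of small
norm.
-/

set_option autoImplicit false
set_option linter.style.haveILetI false
set_option linter.unusedSectionVars false

noncomputable section

namespace CfsgLib.OlssonSmall

open Cfsg CfsgLib.Blocks MonoidAlgebra CfsgLib.BrauerPairs CfsgLib.BlockStar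
open CfsgLib.BrauerCharacters (blockFinset mem_blockFinset)
open CfsgLib.BlockSections (belowBlock)
open scoped ComplexConjugate

variable {G : Type*} [Group G]

/-- Coordinates on a product of two cyclic groups of order four. -/
theorem exists_coords {A : Subgroup G} (hc : Nat.card A = 16)
    (hab : ∀ x ∈ A, ∀ y ∈ A, x * y = y * x) {a c : G} (ha : a ∈ A) (hcA : c ∈ A)
    (ha4 : a ^ 4 = 1) (hc4 : c ^ 4 = 1) (ha2 : a * a ≠ 1) (hc2 : c * c ≠ 1)
    (hac : c * c ≠ a * a) :
    ∃ ε : Fin 4 × Fin 4 ≃ A, ∀ p, (ε p : G) = a ^ (p.1 : ℕ) * c ^ (p.2 : ℕ) := by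
  haveI : Finite A := Nat.finite_of_card_ne_zero (by omega)
  let f : Fin 4 × Fin 4 → A := fun p =>
    ⟨a ^ (p.1 : ℕ) * c ^ (p.2 : ℕ), mul_mem (pow_mem ha _) (pow_mem hcA _)⟩
  have hcomm : Commute a c := hab a ha c hcA
  have key : ∀ i j : ℕ, a ^ i * c ^ j = 1 → 4 ∣ i ∧ 4 ∣ j := by
    intro i j h
    have h1 : (a * a) ^ i * (c * c) ^ j = 1 := by
      rw [← pow_two a, ← pow_two c, ← pow_mul, ← pow_mul, mul_comm 2 i, mul_comm 2 j, pow_mul,
        pow_mul, ← (hcomm.pow_pow i j).mul_pow, h, one_pow]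
    have ha22 : (a * a) ^ 2 = 1 := by rw [← pow_two a, ← pow_mul]; exact ha4
    have hc22 : (c * c) ^ 2 = 1 := by rw [← pow_two c, ← pow_mul]; exact hc4
    rw [pow_eq_pow_mod i ha22, pow_eq_pow_mod j hc22] at h1
    have hij : i % 2 = 0 ∧ j % 2 = 0 := by
      rcases Nat.mod_two_eq_zero_or_one i with e | e <;>
        rcases Nat.mod_two_eq_zero_or_one j with e' | e' <;> rw [e, e'] at h1
      · exact ⟨e, e'⟩
      · simp only [pow_zero, one_mul, pow_one] at h1; exact absurd h1 hc2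
      · simp only [pow_zero, mul_one, pow_one] at h1; exact absurd h1 ha2
      · rw [pow_one, pow_one] at h1
        refine absurd ?_ hac
        rw [pow_two] at ha22
        rw [← inv_eq_of_mul_eq_one_right h1, inv_eq_of_mul_eq_one_right ha22]
    obtain ⟨i', rfl⟩ : 2 ∣ i := Nat.dvd_of_mod_eq_zero hij.1
    obtain ⟨j', rfl⟩ : 2 ∣ j := Nat.dvd_of_mod_eq_zero hij.2
    rw [pow_mul, pow_mul, pow_two, pow_two, pow_eq_pow_mod i' ha22, pow_eq_pow_mod j' hc22] at h
    rcases Nat.mod_two_eq_zero_or_one i' with e | e <;>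
      rcases Nat.mod_two_eq_zero_or_one j' with e' | e' <;> rw [e, e'] at h
    · exact ⟨by omega, by omega⟩
    · simp only [pow_zero, one_mul, pow_one] at h; exact absurd h hc2
    · simp only [pow_zero, mul_one, pow_one] at h; exact absurd h ha2
    · rw [pow_one, pow_one] at h
      refine absurd ?_ hac
      rw [pow_two] at ha22
      rw [← inv_eq_of_mul_eq_one_right h, inv_eq_of_mul_eq_one_right ha22]
  have hinj : Function.Injective f := by
    rintro ⟨i, j⟩ ⟨i', j'⟩ h
    have h1 : a ^ (i : ℕ) * c ^ (j : ℕ) = a ^ (i' : ℕ) * c ^ (j' : ℕ) := congrArg Subtype.val h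
    have h2 : a ^ ((i : ℕ) + (4 - (i' : ℕ))) * c ^ ((j : ℕ) + (4 - (j' : ℕ))) = 1 := by
      have e : a ^ ((i : ℕ) + (4 - (i' : ℕ))) * c ^ ((j : ℕ) + (4 - (j' : ℕ))) =
          (a ^ (i : ℕ) * c ^ (j : ℕ)) * (a ^ (4 - (i' : ℕ)) * c ^ (4 - (j' : ℕ))) := by
        rw [pow_add, pow_add]
        simp only [mul_assoc]
        congr 1
        rw [← mul_assoc, (hcomm.pow_pow (4 - (i' : ℕ)) (j : ℕ)).eq, mul_assoc]
      rw [e, h1, mul_assoc, ← mul_assoc (c ^ (j' : ℕ)),
        ← (hcomm.pow_pow (4 - (i' : ℕ)) (j' : ℕ)).eq, mul_assoc, ← pow_add, ← mul_assoc,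
        ← pow_add, Nat.add_sub_cancel' i'.isLt.le, Nat.add_sub_cancel' j'.isLt.le, ha4, hc4, one_mul]
    obtain ⟨h3, h4⟩ := key _ _ h2
    refine Prod.ext (Fin.ext ?_) (Fin.ext ?_) <;>
      (have := i.isLt; have := i'.isLt; have := j.isLt; have := j'.isLt; simp only; omega)
  refine ⟨Equiv.ofBijective f (Function.Injective.bijective_of_nat_card_le hinj ?_), fun p => rfl⟩
  rw [hc, Nat.card_prod, Nat.card_fin]

variable [Fintype G] {D : Subgroup G} {M : Ideal AlgInt} [M.IsPrime] [Fact (Nat.Prime 2)]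
  [CharP (Res M) 2] [IsAlgClosed (Res M)] {B : Set (IrrCharacter G)}
  {e0 : MonoidAlgebra (Res M) G}
  (hM : IsPModular 2 M) (hB : IsPBlock M B)
  (hmax : IsMaxPair 2 (⊤ : Subgroup G) (redElem M (blockCoeff B)) D e0)
include hM hB hmax

open scoped Classical in
/-- The case of a generalised dihedral group on a product of two cyclic groups of order four. -/
theorem k0_le_of_inverted (h : InvertedFour D) :
    Nat.card {χ : IrrCharacter G // χ ∈ B ∧ blockHeight 2 B (χ : G → ℂ) = 0} ≤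
      (commutator D).index := by
  obtain ⟨A', hA'i, hA'c, hidx8, hab', h4', hfour', hout'⟩ := h
  rw [hidx8]
  set A : Subgroup G := A'.map D.subtype with hAdef
  have hAD : A ≤ D := Subgroup.map_subtype_le _
  have hm : ∀ {x : D}, (x : G) ∈ A ↔ x ∈ A' := fun {x} =>
    Subgroup.mem_map_iff_mem D.subtype_injective
  have hcA : Nat.card A = 16 := by
    rw [hAdef, Subgroup.card_map_of_injective D.subtype_injective, hA'c]
  have hidx : A.relIndex D = 2 := by
    rw [Subgroup.relIndex, Subgroup.subgroupOf,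
      Subgroup.comap_map_eq_self_of_injective D.subtype_injective, hA'i]
  have hab : ∀ x ∈ A, ∀ y ∈ A, x * y = y * x := by
    rintro _ ⟨x, hx, rfl⟩ _ ⟨y, hy, rfl⟩
    exact congrArg Subtype.val (hab' x hx y hy)
  have h4 : ∀ x ∈ A, x ^ 4 = 1 := by
    rintro _ ⟨x, hx, rfl⟩
    rw [← map_pow, h4' x hx, map_one]
  have hout : ∀ r ∈ D, r ∉ A → r * r = 1 := fun r hr hrA =>
    congrArg Subtype.val (hout' ⟨r, hr⟩ fun h1 => hrA (hm.2 h1))
  haveI : Fintype A := Fintype.ofFinite _
  have hfour : (Finset.univ.filter fun x : A => (x : G) * x = 1).card = 4 := by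
    rw [← hfour', ← Fintype.card_subtype, ← Nat.card_eq_fintype_card]
    exact (Nat.card_eq_of_bijective
      (fun v : {x : D // x ∈ A' ∧ x * x = 1} =>
        (⟨⟨(v.1 : G), hm.2 v.2.1⟩, congrArg Subtype.val v.2.2⟩ : {x : A // (x : G) * x = 1}))
      ⟨fun v w h => Subtype.ext (Subtype.ext (congrArg (fun z => ((z.1 : A) : G)) h)), fun x => by
        obtain ⟨y, hy, he⟩ := x.1.2
        exact ⟨⟨y, hy, Subtype.ext (show (y : G) * y = 1 by
            rw [show (y : G) = x.1 from he]; exact x.2)⟩, Subtype.ext (Subtype.ext he)⟩⟩).symm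
  obtain ⟨δ, hδ, hδA⟩ : ∃ δ ∈ D, δ ∉ A := by
    obtain ⟨r, hr⟩ : ∃ r : D, r ∉ A' := by
      by_contra! hall
      rw [(Subgroup.eq_top_iff' A').2 hall, Subgroup.index_top] at hA'i
      omega
    exact ⟨r, r.2, fun h1 => hr (hm.1 h1)⟩
  have hinv : ∀ r ∈ D, r ∉ A → ∀ x ∈ A, r * x * r⁻¹ = x⁻¹ := by
    intro r hr hrA x hx
    have hrx : r * x ∉ A := fun h1 => hrA (by simpa using mul_mem h1 (inv_mem hx))
    have h1 := hout _ (mul_mem hr (hAD hx)) hrx
    refine eq_inv_of_mul_eq_one_left ?_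
    rw [inv_eq_of_mul_eq_one_right (hout r hr hrA)]
    simpa only [mul_assoc] using h1
  -- the pair on `A`
  obtain ⟨fA, hfA⟩ := exists_pairLE hmax.1.1 hAD
  have hWn := le_normalizer_of_index_two hidx hAD
  set T := pairStab (⊤ : Subgroup G) A fA with hT
  have hTN : ∀ x ∈ T, ∀ y ∈ A, x * y * x⁻¹ ∈ A := fun x hx y hy =>
    (Subgroup.mem_normalizer_iff.1 (mem_pairStab.1 hx).2.1 y).1 hy
  -- fixing an involution means acting as `±1`
  have hpm : ∀ x ∈ T, ∀ z ∈ A, z * z = 1 → z ≠ 1 → x * z * x⁻¹ = z →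
      (∀ y ∈ A, x * y * x⁻¹ = y) ∨ ∀ y ∈ A, x * y * x⁻¹ = y⁻¹ := by
    have hgc : ∀ g ∈ T, ∀ y ∈ A, g * (δ * y * δ⁻¹) * g⁻¹ = δ * (g * y * g⁻¹) * δ⁻¹ :=
      fun g hg y hy => by
        rw [hinv δ hδ hδA y hy, hinv δ hδ hδA _ (hTN g hg y hy)]; group
    have hker : ∀ g ∈ T, (∀ y ∈ A, y * y = 1 → g * y * g⁻¹ = y) →
        (∀ y ∈ A, g * y * g⁻¹ = y) ∨ ∀ y ∈ A, g * y * g⁻¹ = y⁻¹ := by
      intro g hg hg2
      rcases acts_trivially_or_like hM hB hmax hfA hidx hab hδ hδA hg (fun y hy => by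
        set w := y⁻¹ * (g * y * g⁻¹) with hw
        have hy' := hTN g hg y hy
        have hy2 : (y * y) * (y * y) = 1 := by
          rw [← h4 y hy, show (4 : ℕ) = 2 + 2 from rfl, pow_add, pow_two]
        have hw2 : w * w = 1 := by
          rw [hw, show y⁻¹ * (g * y * g⁻¹) * (y⁻¹ * (g * y * g⁻¹)) =
            y⁻¹ * ((g * y * g⁻¹) * y⁻¹) * (g * y * g⁻¹) by group, hab _ hy' _ (inv_mem hy)]
          calc y⁻¹ * (y⁻¹ * (g * y * g⁻¹)) * (g * y * g⁻¹) =
              (y * y)⁻¹ * (g * (y * y) * g⁻¹) := by group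
            _ = 1 := by rw [hg2 _ (mul_mem hy hy) hy2, inv_mul_cancel]
        have hwA : w ∈ A := mul_mem (inv_mem hy) hy'
        calc g * (g * y * g⁻¹) * g⁻¹ = g * (y * w) * g⁻¹ := by rw [hw, mul_inv_cancel_left]
          _ = g * y * g⁻¹ * (g * w * g⁻¹) := by group
          _ = y * w * w := by rw [hg2 w hwA hw2, hw, mul_inv_cancel_left]
          _ = y := by rw [mul_assoc, hw2, mul_one]) (hgc g hg) with e | e
      · exact Or.inl e
      · exact Or.inr fun y hy => (e y hy).trans (hinv δ hδ hδA y hy)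
    intro x hx z hzA hzz hz1 hxz
    have hperm : ∀ y ∈ A, y * y = 1 → x * (x * y * x⁻¹) * x⁻¹ = y := by
      intro y hy hyy
      by_cases hy1 : y = 1
      · subst hy1; group
      by_cases hyz : y = z
      · subst hyz; rw [hxz, hxz]
      by_contra hne
      set v := x * y * x⁻¹
      set v' := x * v * x⁻¹
      have hvA : v ∈ A := hTN x hx y hy
      have hv'A : v' ∈ A := hTN x hx v hvA
      have hvv : v * v = 1 := by
        rw [show v * v = x * (y * y) * x⁻¹ by simp only [v]; group, hyy]; group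
      have hv'v' : v' * v' = 1 := by
        rw [show v' * v' = x * (v * v) * x⁻¹ by simp only [v']; group, hvv]; group
      have hinjx : ∀ a b : G, x * a * x⁻¹ = x * b * x⁻¹ → a = b := fun a b e =>
        mul_left_cancel (mul_right_cancel e)
      have h1 : v ≠ 1 := fun e => hy1 (hinjx y 1 (by rw [show x * y * x⁻¹ = v from rfl, e]; group))
      have h2 : v ≠ z := fun e => hyz (hinjx y z (by rw [show x * y * x⁻¹ = v from rfl, e, hxz]))
      have h3 : v ≠ y := fun e => hne (show x * v * x⁻¹ = y by rw [e]; exact e)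
      have h1' : v' ≠ 1 := fun e => h1 (hinjx v 1 (by rw [show x * v * x⁻¹ = v' from rfl, e]; group))
      have h2' : v' ≠ z := fun e => h2 (hinjx v z (by rw [show x * v * x⁻¹ = v' from rfl, e, hxz]))
      have h3' : v' ≠ v := fun e => h3 (hinjx v y e)
      have hsub : ({⟨1, one_mem A⟩, ⟨z, hzA⟩, ⟨y, hy⟩, ⟨v, hvA⟩, ⟨v', hv'A⟩} : Finset A) ⊆
          Finset.univ.filter fun x : A => (x : G) * x = 1 := by
        intro w hw
        simp only [Finset.mem_insert, Finset.mem_singleton] at hw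
        refine Finset.mem_filter.2 ⟨Finset.mem_univ _, ?_⟩
        rcases hw with rfl | rfl | rfl | rfl | rfl
        · exact one_mul 1
        · exact hzz
        · exact hyy
        · exact hvv
        · exact hv'v'
      have hcard := Finset.card_le_card hsub
      rw [hfour] at hcard
      have h5 : ({⟨1, one_mem A⟩, ⟨z, hzA⟩, ⟨y, hy⟩, ⟨v, hvA⟩, ⟨v', hv'A⟩} : Finset A).card = 5 := by
        rw [Finset.card_insert_of_notMem, Finset.card_insert_of_notMem,
          Finset.card_insert_of_notMem, Finset.card_pair]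
        · exact fun e => h3' (congrArg Subtype.val e).symm
        · simp only [Finset.mem_insert, Finset.mem_singleton, Subtype.mk.injEq, not_or]
          exact ⟨h3.symm, fun e => hne e.symm⟩
        · simp only [Finset.mem_insert, Finset.mem_singleton, Subtype.mk.injEq, not_or]
          exact ⟨Ne.symm hyz, h2.symm, h2'.symm⟩
        · simp only [Finset.mem_insert, Finset.mem_singleton, Subtype.mk.injEq, not_or]
          exact ⟨hz1.symm, Ne.symm hy1, h1.symm, h1'.symm⟩
      omega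
    have hxxT : x * x ∈ T := mul_mem hx hx
    have hx2 := hker (x * x) hxxT fun y hy hyy => by
      rw [show x * x * y * (x * x)⁻¹ = x * (x * y * x⁻¹) * x⁻¹ by group]; exact hperm y hy hyy
    have hx2L : x ^ 2 ∈ D ⊔ Subgroup.centralizer (A : Set G) := by
      rw [pow_two]
      rcases hx2 with e | e
      · exact Subgroup.mem_sup_right (Subgroup.mem_centralizer_iff.2 fun y hy =>
          (mul_inv_eq_iff_eq_mul.1 (e y hy)).symm)
      · have h1 : δ⁻¹ * (x * x) ∈ Subgroup.centralizer (A : Set G) := by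
          refine Subgroup.mem_centralizer_iff.2 fun y hy => (mul_inv_eq_iff_eq_mul.1 ?_).symm
          rw [show δ⁻¹ * (x * x) * y * (δ⁻¹ * (x * x))⁻¹ = δ⁻¹ * (x * x * y * (x * x)⁻¹) * δ by
            group, e y hy]
          nth_rw 1 [← inv_inv y]
          rw [← hinv δ hδ hδA y hy]
          group
        have h2 := mul_mem (Subgroup.mem_sup_left (T := Subgroup.centralizer (A : Set G)) hδ)
          (Subgroup.mem_sup_right (S := D) h1)
        rwa [mul_inv_cancel_left] at h2
    rcases acts_of_sq_mem hM hB hmax hfA hidx hab hδ hδA hx hx2L (hgc x hx) with e | e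
    · exact Or.inl e
    · exact Or.inr fun y hy => (e y hy).trans (hinv δ hδ hδA y hy)
  -- the two elements
  obtain ⟨a, c, haA, hcAm, ha2, hc2, hac⟩ : ∃ a c : G, a ∈ A ∧ c ∈ A ∧ a * a ≠ 1 ∧ c * c ≠ 1 ∧
      c * c ≠ a * a := by
    obtain ⟨a, ha, ha2⟩ : ∃ a ∈ A, a * a ≠ 1 := by
      by_contra! hall
      have : (Finset.univ.filter fun x : A => (x : G) * x = 1) = Finset.univ :=
        Finset.filter_true_of_mem fun x _ => hall x x.2
      rw [this, Finset.card_univ, ← Nat.card_eq_fintype_card, hcA] at hfour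
      omega
    refine (?_ : ∃ c ∈ A, c * c ≠ 1 ∧ c * c ≠ a * a).elim
      fun c hc => ⟨a, c, ha, hc.1, ha2, hc.2.1, hc.2.2⟩
    by_contra! hall
    have hsub : (Finset.univ.filter fun x : A => ¬ (x : G) * x = 1) ⊆
        (Finset.univ.filter fun x : A => (x : G) * x = 1).image (fun x => ⟨a, ha⟩ * x) := by
      intro y hy
      have hy1 := (Finset.mem_filter.1 hy).2
      refine Finset.mem_image.2 ⟨⟨a, ha⟩⁻¹ * y, Finset.mem_filter.2 ⟨Finset.mem_univ _, ?_⟩,
        mul_inv_cancel_left _ _⟩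
      show a⁻¹ * (y : G) * (a⁻¹ * y) = 1
      rw [show a⁻¹ * (y : G) * (a⁻¹ * y) = a⁻¹ * ((y : G) * a⁻¹) * y by group,
        hab _ y.2 _ (inv_mem ha), show a⁻¹ * (a⁻¹ * (y : G)) * y = (a * a)⁻¹ * ((y : G) * y) by group,
        hall y y.2 hy1, inv_mul_cancel]
    have h1 := Finset.card_filter_add_card_filter_not (s := (Finset.univ : Finset A))
      (fun x : A => (x : G) * x = 1)
    have h2 := (Finset.card_le_card hsub).trans Finset.card_image_le
    rw [Finset.card_univ, ← Nat.card_eq_fintype_card, hcA, hfour] at h1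
    omega
  set b := a * (c * c) with hbdef
  have hbA : b ∈ A := mul_mem haA (mul_mem hcAm hcAm)
  have hsq4 : ∀ y ∈ A, y * y * (y * y) = 1 := fun y hy => by
    rw [← h4 y hy, show (4 : ℕ) = 2 + 2 from rfl, pow_add, pow_two]
  have hmul2 : ∀ x ∈ A, ∀ y ∈ A, x * y * (x * y) = x * x * (y * y) := fun x hx y hy => by
    rw [show x * y * (x * y) = x * (y * x) * y by group, ← hab x hx y hy]; group
  have hb2 : b * b = a * a := by
    rw [hbdef, hmul2 a haA _ (mul_mem hcAm hcAm), hsq4 c hcAm, mul_one]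
  have ord4 : ∀ y ∈ A, (y * y ≠ 1 ↔ orderOf y = 4) := by
    intro y hy
    constructor
    · intro h1
      refine orderOf_eq_prime_pow (p := 2) (n := 1) (by rwa [pow_one, pow_two]) ?_
      exact h4 y hy
    · intro h1 h2
      have := Nat.le_of_dvd two_pos (orderOf_dvd_of_pow_eq_one (x := y) (by rwa [pow_two]))
      omega
  have hinA : ∀ y ∈ D, orderOf y = 4 → y ∈ A := fun y hy ho => by
    by_contra hyA
    have := Nat.le_of_dvd two_pos (orderOf_dvd_of_pow_eq_one (x := y)
      (by rw [pow_two]; exact hout y hy hyA))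
    omega
  have hdef : ∀ y ∈ A, y * y ≠ 1 → 2 ^ blockDefect 2 (belowBlock (M := M) 2 D e0 y) = 16 := by
    intro y hy hy2
    refine le_antisymm (pow_defect_le hM hB hmax (hAD hy) fun w hw => ?_) ?_
    · have ho : orderOf w = 4 := hw.orderOf_eq.trans ((ord4 y hy).1 hy2)
      have hwA := hinA w hw.2.1 ho
      rw [← hcA]
      refine Subgroup.card_le_of_le fun d hd => ?_
      obtain ⟨hdD, hdC⟩ := Subgroup.mem_inf.1 hd
      by_contra hdA
      refine (ord4 w hwA).2 ho ?_
      have h1 := hinv d hdD hdA w hwA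
      rw [Subgroup.mem_centralizer_singleton_iff.1 hdC, mul_inv_cancel_right] at h1
      nth_rw 1 [h1]
      exact inv_mul_cancel w
    · refine le_trans ?_ (card_le_pow_defect hM hB hmax (hAD hy))
      rw [← hcA]
      exact Subgroup.card_le_of_le fun d hd => Subgroup.mem_inf.2 ⟨hAD hd,
        Subgroup.mem_centralizer_singleton_iff.2 (hab d hd y hy)⟩
  have hfuse : ∀ y ∈ A, y * y ≠ 1 → ∀ w, PairConj (M := M) 2 D e0 y w →
      w ∈ A ∧ ∃ x ∈ T, x * y * x⁻¹ = w := by
    intro y hy hy2 w hw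
    have ho : orderOf w = 4 := hw.orderOf_eq.trans ((ord4 y hy).1 hy2)
    have hwA := hinA w hw.2.1 ho
    exact ⟨hwA, exists_stab_of_pairConj hM hB hmax hfA hWn hy hwA
      (fun d hd => Subgroup.mem_centralizer_singleton_iff.2 (hab d hd y hy))
      (fun d hd => Subgroup.mem_centralizer_singleton_iff.2 (hab d hd w hwA))
      (by rw [hdef w hwA ((ord4 w hwA).2 ho), hcA]) hw⟩
  -- stabiliser elements fix the fused pairs
  have hconjT : ∀ y ∈ A, y * y ≠ 1 → ∀ x ∈ T, PairConj (M := M) 2 D e0 y (x * y * x⁻¹) := by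
    intro y hy hy2 x hx
    refine ⟨hAD hy, hAD (hTN x hx y hy), x, rfl, eq_beta hM hB hmax ?_⟩
    have hlev := beta_pairLE hM hB hmax (hAD hy)
    obtain ⟨f, hn, hge⟩ := hlev.normalLE_of_le_normalizer hmax.1.1 (Subgroup.zpowers_le.2 hy) hfA.le
      ((show A ≤ Subgroup.centralizer ({y} : Set G) from fun d hd =>
        Subgroup.mem_centralizer_singleton_iff.2 (hab d hd y hy)).trans (by
          rw [← BrauerCharacters.centralizer_zpowers_eq]
          exact Subgroup.centralizer_le_normalizer _))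
    rw [(existsUnique_pairLE hmax.1.1 hfA.le).unique hge hfA] at hn
    have hn2 := hn.conj (c := x) (Subgroup.mem_top x)
    obtain ⟨-, hxN, hxf⟩ := mem_pairStab.1 hx
    rw [BlockSections.cj_zpowers, hxf, show cj x A = A from
      Subgroup.mem_normalizer_iff_map_conj_eq.1 hxN] at hn2
    exact hn2.pairLE.trans hfA
  have hab' : ¬ PairConj (M := M) 2 D e0 a b := by
    intro hc'
    obtain ⟨-, x, hx, hxb⟩ := hfuse a haA ha2 b hc'
    have hfix : x * (a * a) * x⁻¹ = a * a := by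
      rw [show x * (a * a) * x⁻¹ = (x * a * x⁻¹) * (x * a * x⁻¹) by group, hxb, hb2]
    rcases hpm x hx _ (mul_mem haA haA) (hsq4 a haA) ha2 hfix with e | e
    · rw [e a haA] at hxb
      exact hc2 (mul_eq_left.1 hxb.symm)
    · rw [e a haA] at hxb
      refine hac ?_
      have h1 : a * a * (c * c) = 1 := by
        rw [mul_assoc, ← hbdef, ← hxb, mul_inv_cancel]
      rw [← inv_eq_of_mul_eq_one_right h1, inv_eq_of_mul_eq_one_right (hsq4 a haA)]
  -- coordinates and characters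
  obtain ⟨ε, hε⟩ := exists_coords hcA hab haA hcAm (h4 a haA) (h4 c hcAm) ha2 hc2 hac
  have hεmul : ∀ p q : Fin 4 × Fin 4, ε p * ε q = ε (p + q) := by
    intro p q
    refine Subtype.ext ?_
    simp only [Subgroup.coe_mul, hε, Prod.fst_add, Prod.snd_add, Fin.val_add]
    rw [← pow_eq_pow_mod _ (h4 a haA), ← pow_eq_pow_mod _ (h4 c hcAm), pow_add, pow_add]
    simp only [mul_assoc]
    congr 1
    rw [← mul_assoc, ← hab _ (pow_mem haA _) _ (pow_mem hcAm _), mul_assoc]
  have hε0 : ε 0 = 1 := Subtype.ext (by rw [hε]; simp)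
  have hsymm : ∀ u v : A, ε.symm (u * v) = ε.symm u + ε.symm v := fun u v => by
    rw [Equiv.symm_apply_eq, ← hεmul, Equiv.apply_symm_apply, Equiv.apply_symm_apply]
  have hsymm1 : ε.symm 1 = 0 := by rw [Equiv.symm_apply_eq, hε0]
  have hI : ∀ i j : Fin 4, Complex.I ^ ((i + j : Fin 4) : ℕ) =
      Complex.I ^ (i : ℕ) * Complex.I ^ (j : ℕ) := fun i j => by
    rw [← pow_add, Fin.val_add, ← pow_eq_pow_mod _ Complex.I_pow_four]
  let φ0 : A →* ℂˣ := MonoidHom.toHomUnits
    { toFun := fun u => Complex.I ^ ((ε.symm u).2 : ℕ)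
      map_one' := by simp [hsymm1]
      map_mul' := fun u v => by simp only [hsymm, Prod.snd_add, hI] }
  let ν : A →* ℂˣ := MonoidHom.toHomUnits
    { toFun := fun u => (-1 : ℂ) ^ ((ε.symm u).1 : ℕ)
      map_one' := by simp [hsymm1]
      map_mul' := fun u v => by
        simp only [hsymm, Prod.fst_add]
        rw [← pow_add, Fin.val_add, ← pow_eq_pow_mod _ (by norm_num)] }
  have hφ0 : ∀ u : A, (φ0 u : ℂ) = Complex.I ^ ((ε.symm u).2 : ℕ) := fun u => rfl
  have hν : ∀ u : A, (ν u : ℂ) = (-1 : ℂ) ^ ((ε.symm u).1 : ℕ) := fun u => rfl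
  have hεinv : ∀ i j : Fin 4, (ε (i, j))⁻¹ = ε (-i, -j) := fun i j =>
    inv_eq_of_mul_eq_one_right (by rw [hεmul, Prod.mk_add_mk, add_neg_cancel, add_neg_cancel]; exact hε0)
  -- the two functions on `A` before symmetrisation
  let fd : A → ℂ := fun u => (φ0 u : ℂ) * (1 - (ν u : ℂ))
  let fs : A → ℂ := fun u => (1 - (ν u : ℂ)) * (1 + (φ0 u : ℂ) * (φ0 u : ℂ))
  have hvals : ∀ u : A,
      ((u : G) * u ≠ a * a → fd u + fd u⁻¹ = 0 ∧ fs u + fs u⁻¹ = 0) ∧
      ((u : G) * u = a * a → fs u + fs u⁻¹ = 8 ∧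
        (((u : G) = a ∨ (u : G) = a⁻¹) ∧ fd u + fd u⁻¹ = 4 ∨
          ((u : G) = b ∨ (u : G) = b⁻¹) ∧ fd u + fd u⁻¹ = -4)) := by
    intro u
    obtain ⟨⟨i, j⟩, rfl⟩ := ε.surjective u
    have hu : ((ε (i, j) : A) : G) = a ^ (i : ℕ) * c ^ (j : ℕ) := hε _
    have hsq : ((ε (i, j) : A) : G) * (ε (i, j) : A) =
        a ^ (2 * (i : ℕ)) * c ^ (2 * (j : ℕ)) := by
      rw [hu, hmul2 _ (pow_mem haA _) _ (pow_mem hcAm _), ← pow_add, ← pow_add, two_mul, two_mul]
    have hsq' : ((ε (i, j) : A) : G) * (ε (i, j) : A) = a * a →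
        (i : ℕ) % 2 = 1 ∧ (j : ℕ) % 2 = 0 := by
      intro h1
      have h2 : ε (i + i, j + j) = ε (2, 0) := by
        rw [show (i + i, j + j) = ((i, j) : Fin 4 × Fin 4) + (i, j) from rfl, ← hεmul]
        refine Subtype.ext (h1.trans ?_)
        rw [hε]
        simp [pow_two]
      have h3 := ε.injective h2
      simp only [Prod.mk.injEq] at h3
      revert h3
      fin_cases i <;> fin_cases j <;> simp +decide
    have hfd : fd (ε (i, j)) + fd (ε (i, j))⁻¹ =
        Complex.I ^ (j : ℕ) * (1 - (-1) ^ (i : ℕ)) +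
          Complex.I ^ ((-j : Fin 4) : ℕ) * (1 - (-1) ^ ((-i : Fin 4) : ℕ)) := by
      simp only [fd, hεinv, hφ0, hν, Equiv.symm_apply_apply]
    have hfs : fs (ε (i, j)) + fs (ε (i, j))⁻¹ =
        (1 - (-1) ^ (i : ℕ)) * (1 + Complex.I ^ (j : ℕ) * Complex.I ^ (j : ℕ)) +
          (1 - (-1) ^ ((-i : Fin 4) : ℕ)) *
            (1 + Complex.I ^ ((-j : Fin 4) : ℕ) * Complex.I ^ ((-j : Fin 4) : ℕ)) := by
      simp only [fs, hεinv, hφ0, hν, Equiv.symm_apply_apply]
    have e4 : a * a * (a * a) = 1 := hsq4 a haA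
    have e4c : c * c * (c * c) = 1 := hsq4 c hcAm
    have hainv : a⁻¹ = a ^ 3 := inv_eq_of_mul_eq_one_right (by rw [← pow_succ', h4 a haA])
    have hbinv : b⁻¹ = a ^ 3 * c ^ 2 := inv_eq_of_mul_eq_one_right (by
      rw [hbdef, pow_two c, mul_assoc a, ← mul_assoc (c * c),
        ← hab _ (pow_mem haA 3) _ (mul_mem hcAm hcAm), mul_assoc (a ^ 3), ← mul_assoc a, ← pow_succ',
        h4 a haA, one_mul, e4c])
    constructor
    · intro h1
      have h2 : (i : ℕ) % 2 = 0 ∨ (j : ℕ) % 2 = 1 := by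
        by_contra hcon
        refine h1 ?_
        rw [hsq]
        obtain ⟨k, hk⟩ : ∃ k, (i : ℕ) = 2 * k + 1 := ⟨(i : ℕ) / 2, by omega⟩
        obtain ⟨l, hl⟩ : ∃ l, (j : ℕ) = 2 * l := ⟨(j : ℕ) / 2, by omega⟩
        rw [hk, hl, show 2 * (2 * k + 1) = 4 * k + 2 by ring, show 2 * (2 * l) = 4 * l by ring,
          pow_add, pow_mul, pow_mul, h4 a haA, h4 c hcAm, one_pow, one_pow, one_mul, mul_one,
          pow_two]
      rw [hfd, hfs, Fin.coe_neg, Fin.coe_neg]
      revert h2
      fin_cases i <;> fin_cases j <;> simp +decide [pow_succ] <;> try ring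
    · intro h1
      obtain ⟨hi, hj⟩ := hsq' h1
      rw [hfd, hfs, hu, hainv, hbinv, hbdef, Fin.coe_neg, Fin.coe_neg]
      revert hi hj
      fin_cases i <;> fin_cases j <;> simp +decide [pow_succ] <;> norm_num [mul_assoc]
  -- representatives of the orbit of `a * a`
  set O : Finset A := Finset.univ.filter fun z : A => ∃ x ∈ T, x * (a * a) * x⁻¹ = z with hO
  have hOmem : ∀ z : A, z ∈ O ↔ ∃ x ∈ T, x * (a * a) * x⁻¹ = z := fun z => by simp [hO]
  choose r hrT hr using fun z : O => (hOmem z.1).1 z.2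
  let ρ : O → A →* A := fun z =>
    { toFun := fun u => ⟨(r z)⁻¹ * u * r z, by
        have := hTN _ (inv_mem (hrT z)) u u.2
        rwa [inv_inv] at this⟩
      map_one' := Subtype.ext (by simp)
      map_mul' := fun u v => Subtype.ext (by simp only [Subgroup.coe_mul]; group) }
  have hρ : ∀ z u, ((ρ z u : A) : G) = (r z)⁻¹ * u * r z := fun z u => rfl
  have hρsq : ∀ z : O, ∀ u : A, (ρ z u : G) * ρ z u = a * a ↔ (u : G) * u = ((z : A) : G) := by
    intro z u
    rw [hρ, ← hr z, show (r z)⁻¹ * (u : G) * r z * ((r z)⁻¹ * u * r z) =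
      (r z)⁻¹ * ((u : G) * u) * r z by group]
    constructor
    · intro e; rw [← e]; group
    · intro e; rw [e]; group
  -- the indicator functions
  let ind : G → G → ℂ := fun v w => if PairConj (M := M) 2 D e0 v w then 1 else 0
  let Fs : G → ℂ := fun w => 8 * (ind a w + ind b w)
  let Fd : G → ℂ := fun w => 4 * (ind a w - ind b w)
  have hind : ∀ v, ∀ x y, PairConj (M := M) 2 D e0 x y → ind v y = ind v x := by
    intro v x y hxy
    refine if_congr ⟨fun h1 => h1.trans (hxy.symm), fun h1 => h1.trans hxy⟩ rfl rfl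
  have hFs : ∀ x y, PairConj (M := M) 2 D e0 x y → Fs y = Fs x := fun x y hxy => by
    simp only [Fs, hind a x y hxy, hind b x y hxy]
  have hFd : ∀ x y, PairConj (M := M) 2 D e0 x y → Fd y = Fd x := fun x y hxy => by
    simp only [Fd, hind a x y hxy, hind b x y hxy]
  have hind0 : ∀ v ∈ A, v * v ≠ 1 → ∀ w, w ∉ A → ind v w = 0 := fun v hv hv2 w hw =>
    if_neg fun h1 => hw (hfuse v hv hv2 w h1).1
  have hb2' : b * b ≠ 1 := hb2 ▸ ha2
  -- values of the symmetrised functions
  have hsum : ∀ u : A, Fs (u : G) = ∑ z : O, (fs (ρ z u) + fs (ρ z u⁻¹)) ∧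
      Fd (u : G) = ∑ z : O, (fd (ρ z u) + fd (ρ z u⁻¹)) := by
    intro u
    simp only [map_inv]
    by_cases hu : ∃ z : O, (u : G) * u = ((z : A) : G)
    · obtain ⟨z, hz⟩ := hu
      have hone : ∀ z' : O, z' ≠ z → (ρ z' u : G) * ρ z' u ≠ a * a := fun z' hne h1 =>
        hne (Subtype.ext (Subtype.ext (((hρsq z' u).1 h1).symm.trans hz)))
      rw [Finset.sum_eq_single_of_mem z (Finset.mem_univ z)
          (fun z' _ hne => ((hvals (ρ z' u)).1 (hone z' hne)).2),
        Finset.sum_eq_single_of_mem z (Finset.mem_univ z)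
          (fun z' _ hne => ((hvals (ρ z' u)).1 (hone z' hne)).1)]
      obtain ⟨hs, hd⟩ := (hvals (ρ z u)).2 ((hρsq z u).2 hz)
      have hback : r z * (ρ z u : G) * (r z)⁻¹ = u := by rw [hρ]; group
      have hconj : ∀ v ∈ A, v * v ≠ 1 → ((ρ z u : G) = v ∨ (ρ z u : G) = v⁻¹) →
          PairConj (M := M) 2 D e0 v u := by
        intro v hv hv2 h1
        have h2 := hconjT v hv hv2 (r z) (hrT z)
        rcases h1 with e | e
        · rw [e] at hback; rwa [hback] at h2
        · have h3 := pairConj_of_mem hM hB hmax (hAD hv) hδ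
          rw [hinv δ hδ hδA v hv, ← e] at h3
          have h4 := hconjT _ (ρ z u).2 (by
            rw [(hρsq z u).2 hz]; exact ha2) (r z) (hrT z)
          rw [hback] at h4
          exact h3.trans h4
      rcases hd with ⟨h1, e⟩ | ⟨h1, e⟩
      · have hA1 := hconj a haA ha2 h1
        have hB0 : ¬ PairConj (M := M) 2 D e0 b (u : G) := fun h2 => hab' (hA1.trans h2.symm)
        constructor
        · rw [hs]; simp only [Fs, ind, if_pos hA1, if_neg hB0]; norm_num
        · rw [e]; simp only [Fd, ind, if_pos hA1, if_neg hB0]; norm_num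
      · have hB1 := hconj b hbA hb2' h1
        have hA0 : ¬ PairConj (M := M) 2 D e0 a (u : G) := fun h2 => hab' (h2.trans hB1.symm)
        constructor
        · rw [hs]; simp only [Fs, ind, if_neg hA0, if_pos hB1]; norm_num
        · rw [e]; simp only [Fd, ind, if_neg hA0, if_pos hB1]; norm_num
    · have hno : ∀ v ∈ A, v * v = a * a → ¬ PairConj (M := M) 2 D e0 v (u : G) := by
        intro v hv hv2 h1
        obtain ⟨-, x, hx, e⟩ := hfuse v hv (hv2 ▸ ha2) _ h1
        have hmem : (⟨(u : G) * u, mul_mem u.2 u.2⟩ : A) ∈ O := (hOmem _).2 ⟨x, hx, by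
          show x * (a * a) * x⁻¹ = (u : G) * u
          rw [← hv2, ← e]; group⟩
        exact hu ⟨⟨_, hmem⟩, rfl⟩
      have hzero : ∀ z : O, (ρ z u : G) * ρ z u ≠ a * a := fun z h1 => hu ⟨z, (hρsq z u).1 h1⟩
      rw [Finset.sum_eq_zero fun z _ => ((hvals (ρ z u)).1 (hzero z)).2,
        Finset.sum_eq_zero fun z _ => ((hvals (ρ z u)).1 (hzero z)).1]
      simp [Fs, Fd, ind, hno a haA rfl, hno b hbA hb2]
  have hgenOf : ∀ (F : G → ℂ) (f : A → ℂ), IsGeneralizedCharacter A f →
      (∀ u : A, F (u : G) = f u + f u⁻¹) → (∀ w, w ∉ A → F w = 0) →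
      IsGeneralizedCharacter D (fun v : D => F (v : G)) := by
    intro F f hf hFA hF0
    refine isGen_indexTwo hidx hab hAD hδ hδA hf (fun u => ?_) fun w _ hw => hF0 w hw
    have h1 : δ * (u : G) * δ⁻¹ = ((u⁻¹ : A) : G) := hinv δ hδ hδA u u.2
    rw [h1, onSub_of_mem f (u⁻¹).2, hFA u]
  have hgend : IsGeneralizedCharacter D (fun v : D => Fd (v : G)) := by
    refine hgenOf Fd (fun u => ∑ z : O, fd (ρ z u)) ?_ (fun u => ?_) fun w hw => ?_
    · convert isGen_sum_linear (Finset.univ : Finset (O × Bool))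
        (fun q => if q.2 then 1 else -1)
        (fun q => (if q.2 then φ0 else φ0 * ν).comp (ρ q.1)) using 1
      funext u
      rw [Fintype.sum_prod_type]
      refine Finset.sum_congr rfl fun z _ => ?_
      simp [fd]
      ring
    · rw [(hsum u).2, Finset.sum_add_distrib]
    · simp only [Fd, hind0 a haA ha2 w hw, hind0 b hbA hb2' w hw]; ring
  have hgens : IsGeneralizedCharacter D (fun v : D => Fs (v : G)) := by
    refine hgenOf Fs (fun u => ∑ z : O, fs (ρ z u)) ?_ (fun u => ?_) fun w hw => ?_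
    · convert isGen_sum_linear (Finset.univ : Finset (O × Bool × Bool))
        (fun q => if q.2.1 then 1 else -1)
        (fun q => ((if q.2.1 then 1 else ν) * (if q.2.2 then 1 else φ0 * φ0)).comp (ρ q.1)) using 1
      funext u
      rw [Fintype.sum_prod_type]
      refine Finset.sum_congr rfl fun z _ => ?_
      simp [fs, Fintype.sum_prod_type]
      ring
    · rw [(hsum u).1, Finset.sum_add_distrib]
    · simp only [Fs, hind0 a haA ha2 w hw, hind0 b hbA hb2' w hw]; ring
  -- the integral rows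
  have hab_ne : a ≠ b := fun e => hc2 (mul_eq_left.1 (hbdef ▸ e.symm))
  let S : Finset G := {a, b}
  have hSD : ∀ v ∈ S, v ∈ D := fun v hv => by
    rcases Finset.mem_insert.1 hv with rfl | hv
    · exact hAD haA
    · rw [Finset.mem_singleton.1 hv]; exact hAD hbA
  have hsep : ∀ v ∈ S, ∀ w ∈ S, PairConj (M := M) 2 D e0 v w → v = w := by
    intro v hv w hw h1
    simp only [S, Finset.mem_insert, Finset.mem_singleton] at hv hw
    rcases hv with rfl | rfl <;> rcases hw with rfl | rfl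
    · rfl
    · exact absurd h1 hab'
    · exact absurd h1.symm hab'
    · rfl
  have hcov : ∀ F : G → ℂ, (∀ w, ind a w = 0 → ind b w = 0 → F w = 0) →
      ∀ w ∈ D, F w ≠ 0 → ∃ i ∈ S, PairConj (M := M) 2 D e0 (id i) w := by
    intro F hF w _ hw
    by_contra hcon
    push Not at hcon
    exact hw (hF w (if_neg (hcon a (by simp [S]))) (if_neg (hcon b (by simp [S]))))
  have hcovd := hcov Fd fun w h1 h2 => by simp [Fd, h1, h2]
  have hcovs := hcov Fs fun w h1 h2 => by simp [Fs, h1, h2]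
  have haa : ind a a = 1 := if_pos (PairConj.refl (hAD haA))
  have hbb : ind b b = 1 := if_pos (PairConj.refl (hAD hbA))
  have hab0 : ind a b = 0 := if_neg hab'
  have hba0 : ind b a = 0 := if_neg fun h1 => hab' h1.symm
  let ct : G → IrrCharacter G → IrrCharacter G → ℂ := fun v χ φ => cntr (M := M) 2 D e0 v χ φ
  choose nd hnd using fun χ φ => exists_int_starF hM hB hmax hFd hgend χ φ
  choose ns hns using fun χ φ => exists_int_starF hM hB hmax hFs hgens χ φ
  have hnde : ∀ χ φ, (nd χ φ : ℂ) = 4 * ct a χ φ - 4 * ct b χ φ := fun χ φ => by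
    rw [← hnd χ φ, classInner_starF hM hB hmax S id hSD hFd hcovd hsep, Finset.sum_pair hab_ne]
    simp only [id, Fd, haa, hbb, hab0, hba0, ct]
    ring
  have hnse : ∀ χ φ, (ns χ φ : ℂ) = 8 * ct a χ φ + 8 * ct b χ φ := fun χ φ => by
    rw [← hns χ φ, classInner_starF hM hB hmax S id hSD hFs hcovs hsep, Finset.sum_pair hab_ne]
    simp only [id, Fs, haa, hbb, hab0, hba0, ct]
    ring
  haveI : Fintype (IrrCharacter G) := Fintype.ofFinite _
  set H0 : Finset (IrrCharacter G) :=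
    (blockFinset B).filter fun χ : IrrCharacter G => blockHeight 2 B (χ : G → ℂ) = 0 with hH0
  have hk0 : Nat.card {χ : IrrCharacter G // χ ∈ B ∧ blockHeight 2 B (χ : G → ℂ) = 0} = H0.card :=
    Nat.subtype_card H0 fun φ => by simp [hH0]
  have hodd : ∀ χ ∈ H0, ∀ φ ∈ H0, ¬ (2 : ℤ) ∣ ns χ φ := by
    intro χ hχ φ hφ hdvd
    obtain ⟨hχ, hχ0⟩ := Finset.mem_filter.1 hχ
    obtain ⟨hφ, hφ0⟩ := Finset.mem_filter.1 hφ
    rw [mem_blockFinset] at hχ hφ
    have h1 := not_memLocalIdeal_cntr hM hB hmax (hAD haA) hχ hχ0 hφ hφ0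
    refine h1 ?_
    have h2 : ((2 : ℕ) : ℂ) ^ blockDefect 2 (belowBlock (M := M) 2 D e0 a) *
        cntr (M := M) 2 D e0 a χ φ = ((ns χ φ + 2 * nd χ φ : ℤ) : ℂ) := by
      rw [← Nat.cast_pow, hdef a haA ha2]
      push_cast
      rw [hnse, hnde]
      simp only [ct]
      ring
    rw [h2]
    exact (memLocalIdeal_intCast_iff hM _).2 (by
      push_cast
      exact dvd_add hdvd (dvd_mul_right 2 _))
  have hrow : ∀ χ, ∑ φ : IrrCharacter G, ns χ φ * ns χ φ = 8 * ns χ χ := by
    intro χ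
    have h1 := sum_starF_sq_eq hM hB hmax S id hSD hFs hgens hcovs hsep (hns χ)
    have h2 : ((∑ φ : IrrCharacter G, ns χ φ * ns χ φ : ℤ) : ℂ) = ((8 * ns χ χ : ℤ) : ℂ) := by
      rw [h1, Finset.sum_pair hab_ne, Int.cast_mul, hnse]
      simp only [id, Fs, haa, hbb, hab0, hba0, ct, map_mul, map_add, map_ofNat, map_one, map_zero]
      push_cast
      ring
    exact_mod_cast h2
  have hrank : ∀ v ∈ A, v * v = a * a → blockRank 2 (belowBlock (M := M) 2 D e0 v) ≤ 1 := by
    intro v hv hv2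
    refine blockRank_le_one_of_normal hM hB hmax hfA hv hab (by rw [hdef v hv (hv2 ▸ ha2), hcA])
      fun x hx hxv w hw => ?_
    have hfix : x * (v * v) * x⁻¹ = v * v := by
      rw [show x * (v * v) * x⁻¹ = (x * v * x⁻¹) * (x * v * x⁻¹) by group, hxv]
    rcases hpm x hx _ (mul_mem hv hv) (hsq4 v hv) (hv2 ▸ ha2) hfix with e | e
    · exact e w hw
    · exfalso
      have h1 := e v hv
      rw [hxv] at h1
      exact (hv2 ▸ ha2) (by nth_rw 1 [h1]; exact inv_mul_cancel v)
  have hnn : ∀ χ, 0 ≤ ns χ χ := by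
    intro χ
    obtain ⟨ra, hra0, hra⟩ := cntr_self_nonneg hM hB hmax (hAD haA) χ
    obtain ⟨rb, hrb0, hrb⟩ := cntr_self_nonneg hM hB hmax (hAD hbA) χ
    have h1 : ((ns χ χ : ℝ) : ℂ) = ((8 * ra + 8 * rb : ℝ) : ℂ) := by
      push_cast
      rw [hnse]
      simp only [ct, hra, hrb]
    have h2 := Complex.ofReal_injective h1
    have : (0 : ℝ) ≤ (ns χ χ : ℝ) := by rw [h2]; positivity
    exact_mod_cast this
  rw [hk0]
  by_cases hone : ∃ χ ∈ H0, ns χ χ = 1
  · obtain ⟨χ, hχ, h1⟩ := hone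
    have h2 : (H0.card : ℤ) ≤ 8 := by
      calc (H0.card : ℤ) = ∑ _φ ∈ H0, (1 : ℤ) := by simp
        _ ≤ ∑ φ ∈ H0, ns χ φ * ns χ φ := Finset.sum_le_sum fun φ hφ => by
            have hne : ns χ φ ≠ 0 := fun e => hodd χ hχ φ hφ (by simp [e])
            nlinarith [Int.one_le_abs hne, sq_abs (ns χ φ)]
        _ ≤ ∑ φ : IrrCharacter G, ns χ φ * ns χ φ :=
            Finset.sum_le_sum_of_subset_of_nonneg (Finset.subset_univ _)
              fun φ _ _ => mul_self_nonneg _
        _ = 8 := by rw [hrow, h1, mul_one]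
    exact_mod_cast h2
  · push Not at hone
    have h2 : ∑ _χ ∈ H0, (3 : ℤ) ≤ ∑ χ ∈ blockFinset B, ns χ χ := by
      refine (Finset.sum_le_sum fun χ hχ => ?_).trans
        (Finset.sum_le_sum_of_subset_of_nonneg (Finset.filter_subset _ _) fun χ _ _ => hnn χ)
      have := hnn χ
      have := hone χ hχ
      have := hodd χ hχ χ hχ
      omega
    have h3 : ((∑ χ ∈ blockFinset B, ns χ χ : ℤ) : ℂ) =
        (((8 * blockRank 2 (belowBlock (M := M) 2 D e0 a) +
          8 * blockRank 2 (belowBlock (M := M) 2 D e0 b) : ℕ) : ℤ) : ℂ) := by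
      push_cast
      simp only [hnse, ct, Finset.sum_add_distrib, ← Finset.mul_sum]
      rw [sum_cntr_self hM hB hmax (hAD haA), sum_cntr_self hM hB hmax (hAD hbA)]
    rw [Int.cast_inj.1 h3, Finset.sum_const, nsmul_eq_mul] at h2
    have := hrank a haA rfl
    have := hrank b hbA hb2
    omega

end CfsgLib.OlssonSmall
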