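import Cfsg.Agent.Lib.OlssonSmall.StarSum
import Cfsg.Agent.Lib.DihedralBlock.Columns
import Cfsg.Agent.Lib.BlockSections.Major

/-!
# Integral matrices of rank one, and the contributions at the identity and of rank one

Tools for the block with three orbits of size five.
-/

set_option autoImplicit false
set_option linter.style.haveILetI false
set_option linter.unusedSectionVars false

noncomputable section

namespace CfsgLib.OlssonSmall

open Cfsg CfsgLib.Blocks MonoidAlgebra CfsgLib.BrauerPairs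
open CfsgLib.BrauerCharacters (cenElem blockFinset mem_blockFinset)
open CfsgLib.BlockSections (belowBlock)
open scoped ComplexConjugate

/-- An integral rank one matrix of trace 32 with an odd diagonal entry is a square. -/
theorem exists_vec_of_rank_one {α : Type*} (I : Finset α) (S : α → α → ℤ)
    (hsymm : ∀ x ∈ I, ∀ y ∈ I, S x y = S y x)
    (hone : ∀ x ∈ I, ∀ y ∈ I, ∀ z ∈ I, S x y * S z z = S x z * S z y)
    (htr : ∑ x ∈ I, S x x = 32) {x0 : α} (hx0 : x0 ∈ I) (hodd : ¬ 2 ∣ S x0 x0) (hpos : 0 ≤ S x0 x0) :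
    ∃ a : α → ℤ, ∀ x ∈ I, ∀ y ∈ I, S x y = a x * a y := by
  classical
  set g := I.gcd (S x0) with hg
  have hg0 : g ≠ 0 := fun h => hodd (by rw [Finset.gcd_eq_zero_iff.1 h x0 hx0]; exact dvd_zero 2)
  have hgn : normalize g = g := Finset.normalize_gcd
  choose! w hw using fun x (hx : x ∈ I) => (Finset.gcd_dvd hx : g ∣ S x0 x)
  have hw1 : I.gcd w = 1 := by
    have h1 : I.gcd (S x0) = normalize g * I.gcd w := by
      rw [← Finset.gcd_mul_left]
      exact Finset.gcd_congr rfl fun x hx => hw x hx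
    rw [← hg, hgn] at h1
    exact mul_left_cancel₀ hg0 (by rw [← h1, mul_one])
  have hw00 : w x0 ≠ 0 := fun h => hodd (by rw [hw x0 hx0, h, mul_zero]; exact dvd_zero 2)
  have key : ∀ x ∈ I, ∀ y ∈ I, S x y * w x0 = g * w x * w y := by
    intro x hx y hy
    have h1 := hone x hx y hy x0 hx0
    rw [hsymm x hx x0 hx0, hw x0 hx0, hw x hx, hw y hy] at h1
    refine mul_left_cancel₀ hg0 ?_
    linear_combination h1
  have hdvd : w x0 ∣ g := by
    have step : ∀ c : ℤ, (∀ y ∈ I, w x0 ∣ c * w y) → w x0 ∣ c := fun c hc => by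
      have h1 : w x0 ∣ I.gcd fun y => c * w y := Finset.dvd_gcd hc
      rwa [Finset.gcd_mul_left, hw1, mul_one, dvd_normalize_iff] at h1
    refine step g fun x hx => step (g * w x) fun y hy => ⟨S x y, ?_⟩
    rw [mul_comm (w x0), key x hx y hy]
  obtain ⟨k, hk⟩ := hdvd
  have hS : ∀ x ∈ I, ∀ y ∈ I, S x y = k * (w x * w y) := fun x hx y hy => by
    refine mul_right_cancel₀ hw00 ?_
    rw [key x hx y hy, hk]
    ring
  have hkodd : ¬ 2 ∣ k := fun h => hodd (by
    rw [hS x0 hx0 x0 hx0]; exact h.mul_right _)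
  have hkpos : 0 < k := by
    have h1 := hS x0 hx0 x0 hx0
    have h2 : 0 < w x0 * w x0 := mul_self_pos.2 hw00
    rcases lt_trichotomy k 0 with h | h | h
    · nlinarith
    · exact absurd (h ▸ dvd_zero (2 : ℤ)) hkodd
    · exact h
  have hk32 : k ∣ 32 := by
    refine ⟨∑ x ∈ I, w x * w x, ?_⟩
    rw [← htr, Finset.mul_sum]
    exact Finset.sum_congr rfl fun x hx => hS x hx x hx
  have hk1 : k = 1 := by
    have h1 : k.natAbs ∣ 2 ^ 5 := by
      have := Int.natAbs_dvd_natAbs.2 hk32
      simpa using this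
    obtain ⟨i, -, hi⟩ := (Nat.dvd_prime_pow Nat.prime_two).1 h1
    rcases i with _ | i
    · omega
    · exfalso
      refine hkodd (Int.natAbs_dvd_natAbs.1 ?_)
      rw [hi, pow_succ]
      exact dvd_mul_left 2 _
  exact ⟨w, fun x hx y hy => by rw [hS x hx y hy, hk1, one_mul]⟩

/-- Three orthogonal congruent vectors of norm 32 without zero entries have at most 16 entries. -/
theorem card_le_of_three_vectors {α : Type*} (I : Finset α) (a b c : α → ℤ)
    (ha : ∑ x ∈ I, a x * a x = 32) (hb : ∑ x ∈ I, b x * b x = 32) (hc : ∑ x ∈ I, c x * c x = 32)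
    (hab : ∑ x ∈ I, a x * b x = 0) (hac : ∑ x ∈ I, a x * c x = 0) (hbc : ∑ x ∈ I, b x * c x = 0)
    (hne : ∀ x ∈ I, a x ≠ 0) (hcb : ∀ x ∈ I, 4 ∣ a x - b x) (hcc : ∀ x ∈ I, 4 ∣ a x - c x) :
    I.card ≤ 16 := by
  classical
  set J := I.filter fun x => a x = b x ∧ a x = c x with hJ
  set K := I.filter fun x => ¬ (a x = b x ∧ a x = c x) with hK
  have hcard : J.card + K.card = I.card := Finset.card_filter_add_card_filter_not _
  have hg : ∑ x ∈ I, (a x + b x + c x) * (a x + b x + c x) = 96 := by
    rw [Finset.sum_congr rfl (g := fun x => a x * a x + b x * b x + c x * c x +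
      2 * (a x * b x + a x * c x + b x * c x)) fun x _ => by ring]
    simp only [Finset.sum_add_distrib, ← Finset.mul_sum, ha, hb, hc, hab, hac, hbc]
    norm_num
  have hd : ∑ x ∈ I, ((a x - b x) * (a x - b x) + (a x - c x) * (a x - c x) +
      (b x - c x) * (b x - c x)) = 192 := by
    rw [Finset.sum_congr rfl (g := fun x => 2 * (a x * a x + b x * b x + c x * c x) -
      2 * (a x * b x + a x * c x + b x * c x)) fun x _ => by ring]
    simp only [Finset.sum_sub_distrib, ← Finset.mul_sum, Finset.sum_add_distrib, ha, hb, hc, hab,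
      hac, hbc]
    norm_num
  have hJle : (9 : ℤ) * J.card ≤ 96 := by
    rw [← hg, mul_comm, ← nsmul_eq_mul, ← Finset.sum_const]
    refine le_trans (Finset.sum_le_sum fun x hx => ?_) (Finset.sum_le_sum_of_subset_of_nonneg
      (Finset.filter_subset _ _) fun x _ _ => mul_self_nonneg _)
    obtain ⟨hxI, h1, h2⟩ := Finset.mem_filter.1 hx
    rw [← h1, ← h2]
    have := Int.one_le_abs (hne x hxI)
    nlinarith [sq_abs (a x)]
  have hKle : (32 : ℤ) * K.card ≤ 192 := by
    rw [← hd, mul_comm, ← nsmul_eq_mul, ← Finset.sum_const]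
    refine le_trans (Finset.sum_le_sum fun x hx => ?_) (Finset.sum_le_sum_of_subset_of_nonneg
      (Finset.filter_subset _ _) fun x _ _ => add_nonneg (add_nonneg (mul_self_nonneg _) (mul_self_nonneg _)) (mul_self_nonneg _))
    obtain ⟨hxI, hnot⟩ := Finset.mem_filter.1 hx
    obtain ⟨u, hu⟩ := hcb x hxI
    obtain ⟨v, hv⟩ := hcc x hxI
    have hw : b x - c x = 4 * (v - u) := by linear_combination hv - hu
    rw [hu, hv, hw]
    have hu0 : u ≠ 0 ∨ v ≠ 0 := by
      by_contra hcon
      push Not at hcon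
      refine hnot ⟨?_, ?_⟩
      · rw [hcon.1] at hu; omega
      · rw [hcon.2] at hv; omega
    have h3 : 2 ≤ u * u + v * v + (v - u) * (v - u) := by
      rcases hu0 with h | h
      · have := Int.one_le_abs h
        nlinarith [sq_abs u, sq_nonneg (2 * v - u)]
      · have := Int.one_le_abs h
        nlinarith [sq_abs v, sq_nonneg (2 * u - v)]
    linarith
  omega

variable {G : Type*} [Group G] [Fintype G] {p : ℕ} [Fact p.Prime] {M : Ideal AlgInt} [M.IsPrime]
  {B : Set (IrrCharacter G)} {D : Subgroup G} {e0 : MonoidAlgebra (Res M) G}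
  [CharP (Res M) p] [IsAlgClosed (Res M)]
  (hM : IsPModular p M) (hB : IsPBlock M B)
  (hmax : IsMaxPair p (⊤ : Subgroup G) (redElem M (blockCoeff B)) D e0)
include hM hB hmax

/-- The contributions at the identity are the products on the regular elements. -/
theorem cntr_one {χ φ : IrrCharacter G} (hχ : χ ∈ B) (hφ : φ ∈ B) :
    cntr (M := M) p D e0 1 χ φ = BrauerCharacters.regInner p (χ : G → ℂ) (φ : G → ℂ) := by
  classical
  set C := Subgroup.centralizer ({(1 : G)} : Set G) with hC
  haveI : Fintype C := Fintype.ofFinite _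
  obtain ⟨hbl, -, hind⟩ := BlockSections.belowBlock_spec hM hB hmax D.one_mem
  have h1 : ∃ k : ℕ, orderOf (1 : G) = p ^ k := ⟨0, by simp⟩
  obtain ⟨b1, -, -, -, huniq⟩ := BlockSections.exists_block_one (p := p) hM hB
  have hb := huniq _ hind
  have hsec : ∀ ψ ∈ B, ∀ s : C, ¬ p ∣ orderOf s →
      BrauerCharacters.secPart (1 : G) (belowBlock (M := M) p D e0 1) ψ s = (ψ : G → ℂ) s := by
    intro ψ hψ s hs
    have h := BlockSections.apply_eq_sum_secPart (M := M) (1 : G) ψ s
    rw [show ((cenElem (1 : G) * s : C) : G) = (s : G) from one_mul _,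
      Finset.sum_eq_single_of_mem _ (BlockSections.mem_blockSets.2 hbl) (fun b' hb' hne =>
        BlockSections.secPart_eq_zero_of_not (1 : G) hM h1 (BlockSections.mem_blockSets.1 hb')
          (fun hn => hne ((huniq _ hn).trans hb.symm)) hB hψ hs)] at h
    exact h.symm
  have htop : ∀ g : G, g ∈ C := fun g => Subgroup.mem_centralizer_singleton_iff.2 (by simp)
  rw [cntr_eq_contrib hM hB hmax D.one_mem, BrauerCharacters.contrib, BrauerCharacters.regInner,
    classInner]
  have hcard : Nat.card C = Nat.card G := by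
    rw [(Subgroup.eq_top_iff' C).2 htop, Subgroup.card_top]
  rw [hcard]
  congr 1
  refine Fintype.sum_equiv (Equiv.subtypeUnivEquiv htop) _ _ fun s => ?_
  show (if p ∣ orderOf s then 0 else _) = pRegularPart p (χ : G → ℂ) (s : G) * conj ((φ : G → ℂ) s)
  rw [BrauerCharacters.pRegularPart_apply, Subgroup.orderOf_coe]
  by_cases hs : p ∣ orderOf s
  · simp [hs]
  · rw [if_neg hs, if_neg hs, hsec χ hχ s hs, hsec φ hφ s hs]

/-- The contributions at a subsection of rank one are of rank one. -/
theorem cntr_rank_one {v : G} (hv : v ∈ D)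
    (h1 : blockRank p (belowBlock (M := M) p D e0 v) = 1) (χ φ ψ : IrrCharacter G) :
    cntr (M := M) p D e0 v χ φ * cntr (M := M) p D e0 v ψ ψ =
      cntr (M := M) p D e0 v χ ψ * cntr (M := M) p D e0 v ψ φ := by
  classical
  haveI := Fintype.ofFinite (Subgroup.centralizer ({v} : Set G))
  obtain ⟨hbl, -, -⟩ := BlockSections.belowBlock_spec hM hB hmax hv
  obtain ⟨ρ, hρ⟩ := isPBlock_nonempty hbl
  choose L hL using fun θ : IrrCharacter G =>
    DihedralBlock.exists_subFun_eq_mul (Subgroup.centralizer ({v} : Set G)) h1 hρ θ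
      (y := cenElem v) (BrauerCharacters.commute_cenElem v)
  set N : ℂ := (Nat.card (Subgroup.centralizer ({v} : Set G)) : ℂ)⁻¹ *
    ∑ s : Subgroup.centralizer ({v} : Set G), if p ∣ orderOf s then 0 else
      (ρ : Subgroup.centralizer ({v} : Set G) → ℂ) s *
        conj ((ρ : Subgroup.centralizer ({v} : Set G) → ℂ) s) with hN
  have h2 : ∀ θ θ' : IrrCharacter G,
      cntr (M := M) p D e0 v θ θ' = L θ * conj (L θ') * N := by
    intro θ θ'
    rw [cntr_eq_contrib hM hB hmax hv, BrauerCharacters.contrib, hN, mul_left_comm, Finset.mul_sum,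
      Finset.mul_sum, Finset.mul_sum]
    refine Finset.sum_congr rfl fun s _ => ?_
    split_ifs with hs
    · ring
    · rw [DihedralBlock.secPart_eq_subFun, DihedralBlock.secPart_eq_subFun, hL θ s hs, hL θ' s hs,
        map_mul]
      ring
  simp only [h2]
  ring

end CfsgLib.OlssonSmall
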