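import Cfsg.Agent.Lib.OlssonSmall.Fusion
import Cfsg.Agent.Lib.BlockStar.Nilpotent
import Cfsg.Agent.Lib.BlockSections.Count
import Cfsg.Agent.Lib.BlockSections.Bounds
import Cfsg.Agent.Lib.CharTheory.Orthogonality

/-!
# Products with stable functions supported on a few fusion classes

Their inner products are the weighted sums of the contributions of those classes.
-/

set_option autoImplicit false
set_option linter.style.haveILetI false
set_option linter.unusedSectionVars false

noncomputable section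

namespace CfsgLib.OlssonSmall

open Cfsg CfsgLib.Blocks MonoidAlgebra CfsgLib.BrauerPairs CfsgLib.BlockStar
open CfsgLib.BrauerCharacters (cenElem blockFinset mem_blockFinset centralizer_zpowers_eq)
open CfsgLib.BlockSections (belowBlock)
open scoped ComplexConjugate

variable {G : Type*} [Group G] [Fintype G] {p : ℕ} [Fact p.Prime] {M : Ideal AlgInt} [M.IsPrime]

/-- The contribution of the pair at `v`. -/
def cntr (p : ℕ) (D : Subgroup G) (e0 : MonoidAlgebra (Res M) G) (v : G) (χ φ : IrrCharacter G) :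
    ℂ :=
  secPairing p v (beta (M := M) p D e0 v) χ φ / (Nat.card (Subgroup.centralizer ({v} : Set G)) : ℂ)

variable {B : Set (IrrCharacter G)} {D : Subgroup G} {e0 : MonoidAlgebra (Res M) G}
  [CharP (Res M) p] [IsAlgClosed (Res M)]
  (hM : IsPModular p M) (hB : IsPBlock M B)
  (hmax : IsMaxPair p (⊤ : Subgroup G) (redElem M (blockCoeff B)) D e0)
include hM hB hmax

theorem cntr_eq_contrib {v : G} (hv : v ∈ D) [Fintype (Subgroup.centralizer ({v} : Set G))]
    (χ φ : IrrCharacter G) :
    cntr (M := M) p D e0 v χ φ =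
      BrauerCharacters.contrib v (belowBlock (M := M) p D e0 v) p χ φ := by
  rw [cntr, beta, secPairing_eq_subPair hM hB hmax hv,
    mul_div_cancel_left₀ _ (Nat.cast_ne_zero.2 Nat.card_pos.ne')]
  simp only [subPair, BrauerCharacters.contrib, BrauerCharacters.secPart, subFun,
    BrauerCharacters.resMult, subMult]

/-- A pairing sum over a few fusion classes. -/
theorem pairSum_eq {ι : Type*} (S : Finset ι) (v : ι → G) (hv : ∀ i ∈ S, v i ∈ D) {F : G → ℂ}
    (hF : ∀ x y, PairConj (M := M) p D e0 x y → F y = F x)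
    (hcover : ∀ x ∈ D, F x ≠ 0 → ∃ i ∈ S, PairConj (M := M) p D e0 (v i) x)
    (hsep : ∀ i ∈ S, ∀ j ∈ S, PairConj (M := M) p D e0 (v i) (v j) → i = j)
    (χ φ : IrrCharacter G) :
    pairSum p D e0 F χ φ =
      (Nat.card G : ℂ) * ∑ i ∈ S, F (v i) * cntr (M := M) p D e0 (v i) χ φ := by
  classical
  have hb := isBlockIdem_redElem_blockCoeff (M := M) hB
  have hstab := stableFun_of_pairConj hM hB hmax hF
  set eB := redElem M (blockCoeff B)
  set β : G → MonoidAlgebra (Res M) G := beta (M := M) p D e0 with hβ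
  set W : G × MonoidAlgebra (Res M) G → ℂ :=
    fun π => LamF p D e0 F π.1 π.2 * secPairing p π.1 π.2 χ φ with hW
  set O : ι → Finset (G × MonoidAlgebra (Res M) G) := fun i =>
    Finset.univ.image fun g : G => (g * v i * g⁻¹, conjA g (β (v i))) with hO
  set Pairs : Finset (G × MonoidAlgebra (Res M) G) :=
    (Finset.univ.filter (fun y : G => ∃ k : ℕ, orderOf y = p ^ k)).biUnion
      fun y => (blocksAt M y).image (Prod.mk y) with hPairs
  have hlhs : pairSum p D e0 F χ φ = ∑ π ∈ Pairs, W π := by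
    rw [hPairs, pairSum, Finset.sum_biUnion]
    · refine Finset.sum_congr rfl fun y _ => ?_
      rw [Finset.sum_image (fun a _ b _ h => (Prod.mk.injEq _ _ _ _ ▸ h).2)]
    · intro y _ y' _ hne
      refine Finset.disjoint_left.2 fun π h h' => hne ?_
      obtain ⟨c, -, rfl⟩ := Finset.mem_image.1 h
      obtain ⟨c', -, h''⟩ := Finset.mem_image.1 h'
      exact (congrArg Prod.fst h'').symm
  have hconj : ∀ i ∈ S, ∀ g : G, W (g * v i * g⁻¹, conjA g (β (v i))) =
      F (v i) * secPairing p (v i) (β (v i)) χ φ := by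
    intro i hi g
    have hle := beta_pairLE hM hB hmax (hv i hi)
    have e1 : (1 : G) * v i * 1⁻¹ = v i := by group
    show LamF p D e0 F (g * v i * g⁻¹) (conjA g (β (v i))) *
      secPairing p (g * v i * g⁻¹) (conjA g (β (v i))) χ φ = _
    rw [LamF_conj hstab, LamF_eq hstab (x := 1) (by rw [conjA_one, e1]; exact hle), e1,
      secPairing_conj hM hB hmax (hle.isPair_left hmax.1.1).2.2]
  have hsub : S.biUnion O ⊆ Pairs := by
    intro π hπ
    obtain ⟨i, hi, hπ⟩ := Finset.mem_biUnion.1 hπ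
    obtain ⟨g, -, rfl⟩ := Finset.mem_image.1 hπ
    obtain ⟨k, hk⟩ := BlockSections.isPElem_of_mem hM hB hmax (hv i hi)
    refine Finset.mem_biUnion.2 ⟨g * v i * g⁻¹, Finset.mem_filter.2 ⟨Finset.mem_univ _, k, by
      rw [← hk]; exact (MulAut.conj g).orderOf_eq (v i)⟩, Finset.mem_image.2 ⟨_, ?_, rfl⟩⟩
    have h := (((beta_pairLE hM hB hmax (hv i hi)).pairOf_iff hb).2 hmax.1).conj hb
      (Subgroup.mem_top g)
    rw [BlockSections.cj_zpowers] at h
    exact mem_blockIdems.2 h.1.2.2
  have hzero : ∀ π ∈ Pairs, π ∉ S.biUnion O → W π = 0 := by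
    rintro ⟨y, c⟩ hπ hn
    by_contra hne
    rw [hW] at hne
    have hne' := left_ne_zero_of_mul hne
    by_cases hex : ∃ g : G,
        PairLE p (⊤ : Subgroup G) (Subgroup.zpowers (g * y * g⁻¹)) (conjA g c) D e0
    · obtain ⟨g, hg⟩ := hex
      rw [LamF_eq hstab hg] at hne'
      obtain ⟨i, hi, -, -, h, hh, hhβ⟩ := hcover _ (hg.le (Subgroup.mem_zpowers _)) hne'
      refine hn (Finset.mem_biUnion.2 ⟨i, hi, Finset.mem_image.2 ⟨g⁻¹ * h, Finset.mem_univ _, ?_⟩⟩)
      refine Prod.ext ?_ ?_
      · show g⁻¹ * h * v i * (g⁻¹ * h)⁻¹ = y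
        calc g⁻¹ * h * v i * (g⁻¹ * h)⁻¹ = g⁻¹ * (h * v i * h⁻¹) * g := by group
          _ = y := by rw [hh]; group
      · show conjA (g⁻¹ * h) (β (v i)) = c
        rw [conjA_mul, hβ, hhβ, ← eq_beta hM hB hmax hg, conjA_inv_conjA]
    · exact hne' (LamF_eq_zero fun g hg => hex ⟨g, hg⟩)
  have hdisj : (S : Set ι).PairwiseDisjoint O := by
    intro i hi j hj hne
    refine Finset.disjoint_left.2 fun π h h' => hne (hsep i hi j hj ?_)
    obtain ⟨g, -, rfl⟩ := Finset.mem_image.1 h
    obtain ⟨g', -, he⟩ := Finset.mem_image.1 h'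
    have e1 : g' * v j * g'⁻¹ = g * v i * g⁻¹ := congrArg Prod.fst he
    have e2 : conjA g' (β (v j)) = conjA g (β (v i)) := congrArg Prod.snd he
    refine ⟨hv i hi, hv j hj, g'⁻¹ * g, ?_, ?_⟩
    · calc g'⁻¹ * g * v i * (g'⁻¹ * g)⁻¹ = g'⁻¹ * (g * v i * g⁻¹) * g' := by group
        _ = v j := by rw [← e1]; group
    · rw [conjA_mul]
      show conjA g'⁻¹ (conjA g (β (v i))) = β (v j)
      rw [← e2, conjA_inv_conjA]
  rw [hlhs, ← Finset.sum_subset hsub hzero, Finset.sum_biUnion hdisj, Finset.mul_sum]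
  refine Finset.sum_congr rfl fun i hi => ?_
  have hcard : (O i).card * Nat.card (Subgroup.centralizer ({v i} : Set G)) = Nat.card G := by
    rw [Nat.card_eq_fintype_card (α := G), ← Finset.card_univ (α := G),
      Finset.card_eq_sum_card_fiberwise (f := fun g : G => (g * v i * g⁻¹, conjA g (β (v i))))
        (t := O i) (fun g _ => Finset.mem_image_of_mem _ (Finset.mem_univ g)), ← smul_eq_mul,
      ← Finset.sum_const]
    refine Finset.sum_congr rfl fun π hπ => ?_
    obtain ⟨g, -, rfl⟩ := Finset.mem_image.1 hπ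
    haveI := Fintype.ofFinite (Subgroup.centralizer ({v i} : Set G))
    rw [Nat.card_eq_fintype_card, ← Finset.card_univ]
    refine Finset.card_bij (fun c _ => g * (c : G)) (fun c _ => ?_)
      (fun c _ c' _ h => Subtype.ext (mul_left_cancel h)) (fun x hx => ?_)
    · refine Finset.mem_filter.2 ⟨Finset.mem_univ _, Prod.ext ?_ ?_⟩
      · show g * (c : G) * v i * (g * (c : G))⁻¹ = g * v i * g⁻¹
        rw [mul_assoc g (c : G) (v i), Subgroup.mem_centralizer_singleton_iff.1 c.2]
        group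
      · show conjA (g * (c : G)) (β (v i)) = conjA g (β (v i))
        rw [conjA_mul, hβ, (mem_ctr.1 (isBlockIdem_beta hM hB hmax (hv i hi)).mem).2 _ c.2]
    · have hx' : x * v i * x⁻¹ = g * v i * g⁻¹ := congrArg Prod.fst (Finset.mem_filter.1 hx).2
      refine ⟨⟨g⁻¹ * x, Subgroup.mem_centralizer_singleton_iff.2 ?_⟩, Finset.mem_univ _, by simp⟩
      calc g⁻¹ * x * v i = g⁻¹ * (x * v i * x⁻¹) * x := by group
        _ = v i * (g⁻¹ * x) := by rw [hx']; group
  have hsum : ∀ π ∈ O i, W π = F (v i) * secPairing p (v i) (β (v i)) χ φ := by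
    intro π hπ
    obtain ⟨g, -, rfl⟩ := Finset.mem_image.1 hπ
    exact hconj i hi g
  rw [Finset.sum_congr rfl hsum, Finset.sum_const, nsmul_eq_mul, ← hcard, Nat.cast_mul, cntr]
  have hC : (Nat.card (Subgroup.centralizer ({v i} : Set G)) : ℂ) ≠ 0 :=
    Nat.cast_ne_zero.2 Nat.card_pos.ne'
  rw [hβ]
  field_simp

/-- The inner product with an irreducible character. -/
theorem classInner_starF {ι : Type*} (S : Finset ι) (v : ι → G) (hv : ∀ i ∈ S, v i ∈ D) {F : G → ℂ}
    (hF : ∀ x y, PairConj (M := M) p D e0 x y → F y = F x)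
    (hcover : ∀ x ∈ D, F x ≠ 0 → ∃ i ∈ S, PairConj (M := M) p D e0 (v i) x)
    (hsep : ∀ i ∈ S, ∀ j ∈ S, PairConj (M := M) p D e0 (v i) (v j) → i = j)
    (χ φ : IrrCharacter G) :
    classInner (starF p χ D e0 F) (φ : G → ℂ) =
      ∑ i ∈ S, F (v i) * cntr (M := M) p D e0 (v i) χ φ :=
  mul_left_cancel₀ (Nat.cast_ne_zero.2 (Nat.card_pos (α := G)).ne')
    ((card_mul_classInner_starF hM χ φ F).trans (pairSum_eq hM hB hmax S v hv hF hcover hsep χ φ))

/-- The inner product of two products. -/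
theorem classInner_starF_starF {ι : Type*} (S : Finset ι) (v : ι → G) (hv : ∀ i ∈ S, v i ∈ D)
    {F F' : G → ℂ} (hF : ∀ x y, PairConj (M := M) p D e0 x y → F y = F x)
    (hF' : ∀ x y, PairConj (M := M) p D e0 x y → F' y = F' x)
    (hcover : ∀ x ∈ D, F x * conj (F' x) ≠ 0 → ∃ i ∈ S, PairConj (M := M) p D e0 (v i) x)
    (hsep : ∀ i ∈ S, ∀ j ∈ S, PairConj (M := M) p D e0 (v i) (v j) → i = j)
    (χ φ : IrrCharacter G) :
    classInner (starF p χ D e0 F) (starF p φ D e0 F') =
      ∑ i ∈ S, F (v i) * conj (F' (v i)) * cntr (M := M) p D e0 (v i) χ φ :=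
  mul_left_cancel₀ (Nat.cast_ne_zero.2 (Nat.card_pos (α := G)).ne')
    ((card_mul_classInner_starF_starF hM χ φ F F').trans (pairSum_eq hM hB hmax S v hv
      (fun x y h => by simp only [hF x y h, hF' x y h]) hcover hsep χ φ))

/-- The products are generalized characters. -/
theorem isGen_starF {F : G → ℂ} (hF : ∀ x y, PairConj (M := M) p D e0 x y → F y = F x)
    (hgen : IsGeneralizedCharacter D (fun v : D => F (v : G))) (χ : IrrCharacter G) :
    IsGeneralizedCharacter G (starF p χ D e0 F) :=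
  isGeneralizedCharacter_starF hM hB hmax χ (stableFun_of_pairConj hM hB hmax hF) hgen

/-- The inner products are integers. -/
theorem exists_int_starF {F : G → ℂ} (hF : ∀ x y, PairConj (M := M) p D e0 x y → F y = F x)
    (hgen : IsGeneralizedCharacter D (fun v : D => F (v : G))) (χ φ : IrrCharacter G) :
    ∃ n : ℤ, classInner (starF p χ D e0 F) (φ : G → ℂ) = (n : ℂ) :=
  CharTheory.exists_classInner_eq_int (isGen_starF hM hB hmax hF hgen χ)
    (CharTheory.IsIrrCharacter.isGeneralizedCharacter φ.2)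

/-- The integral inner products are a row of bounded norm. -/
theorem sum_starF_sq_eq [Fintype (IrrCharacter G)] {ι : Type*} (S : Finset ι) (v : ι → G)
    (hv : ∀ i ∈ S, v i ∈ D) {F : G → ℂ}
    (hF : ∀ x y, PairConj (M := M) p D e0 x y → F y = F x)
    (hgen : IsGeneralizedCharacter D (fun v : D => F (v : G)))
    (hcover : ∀ x ∈ D, F x ≠ 0 → ∃ i ∈ S, PairConj (M := M) p D e0 (v i) x)
    (hsep : ∀ i ∈ S, ∀ j ∈ S, PairConj (M := M) p D e0 (v i) (v j) → i = j)
    {χ : IrrCharacter G} {n : IrrCharacter G → ℤ}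
    (hn : ∀ φ : IrrCharacter G, classInner (starF p χ D e0 F) (φ : G → ℂ) = (n φ : ℂ)) :
    ((∑ φ : IrrCharacter G, n φ * n φ : ℤ) : ℂ) =
      ∑ i ∈ S, F (v i) * conj (F (v i)) * cntr (M := M) p D e0 (v i) χ χ := by
  classical
  rw [← classInner_starF_starF hM hB hmax S v hv hF hF
    (fun x hx h => hcover x hx (left_ne_zero_of_mul h)) hsep χ χ]
  set f := starF p χ D e0 F with hf
  have hcls : IsClassFunction G f := fun g h => by
    obtain ⟨a, b, ha, hb, he⟩ := isGen_starF hM hB hmax hF hgen χ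
    rw [← hf] at he
    rw [he, Pi.sub_apply, Pi.sub_apply, CharTheory.IsCharacter.isClassFunction ha g h,
      CharTheory.IsCharacter.isClassFunction hb g h]
  have key : classInner f f =
      ∑ φ : IrrCharacter G, classInner f (φ : G → ℂ) * conj (classInner f (φ : G → ℂ)) := by
    conv_lhs => arg 2; rw [CharTheory.eq_sum_classInner hcls]
    simp only [classInner, Finset.sum_apply, Pi.smul_apply, smul_eq_mul, map_sum, map_mul,
      Finset.mul_sum, Finset.sum_mul]
    rw [Finset.sum_comm]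
    refine Finset.sum_congr rfl fun φ _ => ?_
    rw [Finset.sum_comm]
    refine Finset.sum_congr rfl fun g _ => ?_
    refine Finset.sum_congr rfl fun x _ => ?_
    simp only [Complex.conj_conj]
    ring
  rw [key, Int.cast_sum]
  exact Finset.sum_congr rfl fun φ _ => by rw [hn φ]; push_cast; rw [map_intCast]

/-- Fused elements contribute equally. -/
theorem PairConj.cntr_eq {v w : G} (h : PairConj (M := M) p D e0 v w) (χ φ : IrrCharacter G) :
    cntr (M := M) p D e0 w χ φ = cntr (M := M) p D e0 v χ φ := by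
  obtain ⟨hv, -, g, hg, hβ⟩ := h
  have hc : Nat.card (Subgroup.centralizer ({g * v * g⁻¹} : Set G)) =
      Nat.card (Subgroup.centralizer ({v} : Set G)) := by
    rw [BlockSections.centralizer_cj_singleton]
    exact Subgroup.card_map_of_injective (MulAut.conj g).injective
  rw [cntr, cntr, ← hβ, ← hg, secPairing_conj hM hB hmax
    ((beta_pairLE hM hB hmax hv).isPair_left hmax.1.1).2.2, hc]

/-- The trace of the contributions at a pair. -/
theorem sum_cntr_self {v : G} (hv : v ∈ D) :
    ∑ χ ∈ blockFinset B, cntr (M := M) p D e0 v χ χ =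
      (blockRank p (belowBlock (M := M) p D e0 v) : ℂ) := by
  classical
  haveI := Fintype.ofFinite (Subgroup.centralizer ({v} : Set G))
  haveI := Fintype.ofFinite (IrrCharacter G)
  obtain ⟨hbl, -, hind⟩ := BlockSections.belowBlock_spec hM hB hmax hv
  have hy := BlockSections.isPElem_of_mem hM hB hmax hv
  rw [Finset.sum_congr rfl (fun χ _ => cntr_eq_contrib hM hB hmax hv χ χ),
    ← BlockSections.sum_contrib_self v hM hy hbl]
  exact Finset.sum_subset (Finset.subset_univ _) fun χ _ hχ =>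
    BlockSections.contrib_eq_zero_of_notMem v hM hy hind (by simpa using hχ) χ

/-- The diagonal contributions are non-negative. -/
theorem cntr_self_nonneg {v : G} (hv : v ∈ D) (χ : IrrCharacter G) :
    ∃ r : ℝ, 0 ≤ r ∧ cntr (M := M) p D e0 v χ χ = r := by
  classical
  haveI := Fintype.ofFinite (Subgroup.centralizer ({v} : Set G))
  rw [cntr_eq_contrib hM hB hmax hv, BrauerCharacters.contrib]
  refine ⟨(Nat.card (Subgroup.centralizer ({v} : Set G)) : ℝ)⁻¹ *
    ∑ s : Subgroup.centralizer ({v} : Set G), if p ∣ orderOf s then 0 else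
      ‖BrauerCharacters.secPart v (belowBlock (M := M) p D e0 v) χ s‖ ^ 2,
    mul_nonneg (by positivity) (Finset.sum_nonneg fun s _ => by split_ifs <;> positivity), ?_⟩
  push_cast
  congr 1
  refine Finset.sum_congr rfl fun s _ => ?_
  split_ifs
  · rfl
  · rw [Complex.mul_conj']
    norm_cast

/-- The scaled contribution at characters of height zero is no member of the modular ideal. -/
theorem not_memLocalIdeal_cntr {v : G} (hv : v ∈ D) {χ φ : IrrCharacter G} (hχ : χ ∈ B)
    (hχ0 : blockHeight p B (χ : G → ℂ) = 0) (hφ : φ ∈ B)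
    (hφ0 : blockHeight p B (φ : G → ℂ) = 0) :
    ¬ MemLocalIdeal M (((p : ℂ) ^ blockDefect p (belowBlock (M := M) p D e0 v)) *
      cntr (M := M) p D e0 v χ φ) := by
  classical
  haveI := Fintype.ofFinite (Subgroup.centralizer ({v} : Set G))
  obtain ⟨-, -, hind⟩ := BlockSections.belowBlock_spec hM hB hmax hv
  rw [cntr_eq_contrib hM hB hmax hv, ← BlockSections.coe_secX]
  exact BlockSections.not_memLocalIdeal_secX v _ hM (BlockSections.isPElem_of_mem hM hB hmax hv)
    hind hχ hχ0 hφ hφ0

end CfsgLib.OlssonSmall
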